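import Cfsg.Agent.Lib.helper23.FSCount
import Cfsg.Agent.Lib.helper24.CharReg
import Cfsg.Agent.Lib.helper24.CharInd
import Cfsg.Agent.Lib.helper24.CharKer
import Cfsg.Agent.Lib.helper24.CharAvg
import Cfsg.Agent.Lib.helper24.CharVanish

set_option autoImplicit false

namespace Cfsg.Agent.Lib.helper23

open scoped ComplexConjugate
open Cfsg Cfsg.Agent.Lib.helper24

universe u

variable {G : Type u} [Group G]

theorem exists_nat_sum_subgroup [Fintype G] (H : Subgroup G) [Fintype H] (χ : IrrCharacter G) :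
    ∃ m : ℕ, (Nat.card H : ℂ)⁻¹ * ∑ h : H, χ.1 h = (m : ℂ) := by
  obtain ⟨n, ρ, hirr, hρ⟩ := χ.2
  let σ : Representation ℂ H (Fin n → ℂ) := ρ.comp H.subtype
  refine ⟨Module.finrank ℂ σ.invariants, ?_⟩
  rw [← trace_avgOp σ, trace_avgOp_eq_sum]
  congr 1
  apply Finset.sum_congr rfl
  intro h _
  rw [← hρ]
  rfl

theorem classInner_indFun_one [Fintype G] (H : Subgroup G) [Fintype H] (χ : IrrCharacter G) :
    classInner (indFun H (fun _ : H => (1 : ℂ))) χ.1
      = conj ((Nat.card H : ℂ)⁻¹ * ∑ h : H, χ.1 h) := by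
  rw [frobenius_reciprocity H _ (isClassFunction_irr χ)]
  unfold classInner
  rw [map_mul, map_inv₀, Complex.conj_natCast, map_sum]
  congr 1
  apply Finset.sum_congr rfl
  intro h _
  rw [one_mul]

theorem exists_nat_inner_indFun_one [Fintype G] (H : Subgroup G) (χ : IrrCharacter G) :
    ∃ m : ℕ, classInner (indFun H (fun _ : H => (1 : ℂ))) χ.1 = (m : ℂ) := by
  classical
  haveI := Fintype.ofFinite H
  obtain ⟨m, hm⟩ := exists_nat_sum_subgroup H χ
  exact ⟨m, by rw [classInner_indFun_one, hm, Complex.conj_natCast]⟩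

theorem ker_of_inner_indFun_one_ne_zero [Fintype G] (H N : Subgroup G) [N.Normal] (hNH : N ≤ H)
    (χ : IrrCharacter G) (h : classInner (indFun H (fun _ : H => (1 : ℂ))) χ.1 ≠ 0) :
    ∀ n ∈ N, χ.1 n = χ.1 1 := by
  classical
  haveI := Fintype.ofFinite H
  haveI := Fintype.ofFinite N
  by_contra hcon
  push Not at hcon
  apply h
  rw [classInner_indFun_one]
  have hz := sum_irr_mul_normal_eq_zero χ N hcon
  have key : (Nat.card N : ℂ) * ∑ h : H, χ.1 h = 0 := by
    have e1 : ∀ n : N, ∑ h : H, χ.1 ((h : G) * (n : G)) = ∑ h : H, χ.1 h := by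
      intro n
      exact Fintype.sum_equiv (Equiv.mulRight (⟨n.1, hNH n.2⟩ : H)) _ _ (fun h => rfl)
    calc (Nat.card N : ℂ) * ∑ h : H, χ.1 h = ∑ n : N, ∑ h : H, χ.1 ((h : G) * (n : G)) := by
          rw [Finset.sum_congr rfl (fun n _ => e1 n), Finset.sum_const, Finset.card_univ,
            nsmul_eq_mul, Nat.card_eq_fintype_card]
      _ = ∑ h : H, ∑ n : N, χ.1 ((h : G) * (n : G)) := Finset.sum_comm
      _ = 0 := Finset.sum_eq_zero (fun h _ => hz h)
  have hN0 : (Nat.card N : ℂ) ≠ 0 := by exact_mod_cast (Nat.card_pos (α := N)).ne'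
  rw [(mul_eq_zero.mp key).resolve_left hN0, mul_zero, map_zero]

theorem eq_trivIrr_of_real_of_odd_core [Fintype G] (H : Subgroup G)
    (hodd : Odd H.normalCore.index) (χ : IrrCharacter G)
    (hm : classInner (indFun H (fun _ : H => (1 : ℂ))) χ.1 ≠ 0)
    (hreal : ∀ g : G, conj (χ.1 g) = χ.1 g) : χ = trivIrr G := by
  classical
  haveI : H.normalCore.Normal := Subgroup.normalCore_normal H
  have hker := ker_of_inner_indFun_one_ne_zero H H.normalCore (Subgroup.normalCore_le H) χ hm
  obtain ⟨ψ, hψ⟩ := exists_irrInfl_eq H.normalCore χ hker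
  haveI := Fintype.ofFinite (G ⧸ H.normalCore)
  have hψt : ψ = trivIrr (G ⧸ H.normalCore) := by
    apply irr_real_of_odd hodd
    intro q
    obtain ⟨g, rfl⟩ := QuotientGroup.mk_surjective q
    rw [← irrInfl_apply, hψ]
    exact Complex.conj_eq_iff_im.mp (hreal g)
  rw [← hψ, hψt]
  apply Subtype.ext
  funext g
  rfl

theorem trivIrr_inner_indFun_one [Fintype G] (H : Subgroup G) :
    classInner (indFun H (fun _ : H => (1 : ℂ))) (trivIrr G).1 = 1 := by
  classical
  haveI := Fintype.ofFinite H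
  rw [classInner_indFun_one]
  simp only [trivIrr_apply]
  rw [Finset.sum_const, Finset.card_univ, nsmul_eq_mul, mul_one, Nat.card_eq_fintype_card,
    inv_mul_cancel₀ (by exact_mod_cast Fintype.card_ne_zero), map_one]

theorem trivIrr_fs [Fintype G] :
    (Nat.card G : ℂ)⁻¹ * ∑ g : G, (trivIrr G).1 (g * g) = 1 := by
  simp only [trivIrr_apply]
  rw [Finset.sum_const, Finset.card_univ, nsmul_eq_mul, mul_one, Nat.card_eq_fintype_card,
    inv_mul_cancel₀ (by exact_mod_cast Fintype.card_ne_zero)]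

theorem sum_inner_indFun_one_mul_fs [Fintype G] [DecidableEq G] [Fintype (IrrCharacter G)]
    (H : Subgroup G) [DecidablePred (· ∈ H)] :
    ∑ χ : IrrCharacter G, classInner (indFun H (fun _ : H => (1 : ℂ))) χ.1 *
        ((Nat.card G : ℂ)⁻¹ * ∑ s : G, χ.1 (s * s))
      = (Nat.card H : ℂ)⁻¹ * ((Finset.univ.filter (fun g : G => g * g ∈ H)).card : ℂ) := by
  have hexp : ∀ s : G, indFun H (fun _ : H => (1 : ℂ)) (s * s)
      = ∑ χ : IrrCharacter G, classInner (indFun H (fun _ : H => (1 : ℂ))) χ.1 * χ.1 (s * s) :=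
    fun s => classFunction_expansion_apply (indFun_isClassFunction H _) (s * s)
  have e1 : ∑ χ : IrrCharacter G, classInner (indFun H (fun _ : H => (1 : ℂ))) χ.1 *
        ((Nat.card G : ℂ)⁻¹ * ∑ s : G, χ.1 (s * s))
      = (Nat.card G : ℂ)⁻¹ * ∑ s : G, indFun H (fun _ : H => (1 : ℂ)) (s * s) := by
    rw [Finset.sum_congr rfl (fun s _ => hexp s), Finset.sum_comm, Finset.mul_sum]
    apply Finset.sum_congr rfl
    intro χ _
    rw [Finset.mul_sum, Finset.mul_sum, Finset.mul_sum]
    apply Finset.sum_congr rfl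
    intro s _
    ring
  rw [e1]
  have e2 : ∑ s : G, indFun H (fun _ : H => (1 : ℂ)) (s * s)
      = (Nat.card H : ℂ)⁻¹ * ((Nat.card G : ℂ) *
          ((Finset.univ.filter (fun g : G => g * g ∈ H)).card : ℂ)) := by
    unfold indFun
    rw [← Finset.mul_sum, Finset.sum_comm]
    congr 1
    have hx : ∀ x : G, ∑ s : G, extendByZero H (fun _ : H => (1 : ℂ)) (x⁻¹ * (s * s) * x)
        = ((Finset.univ.filter (fun g : G => g * g ∈ H)).card : ℂ) := by
      intro x
      rw [← Equiv.sum_comp (MulAut.conj x).toEquiv]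
      have hs : ∀ s : G, x⁻¹ * ((MulAut.conj x).toEquiv s * (MulAut.conj x).toEquiv s) * x
          = s * s := by
        intro s
        simp only [MulEquiv.toEquiv_eq_coe, EquivLike.coe_coe, MulAut.conj_apply]
        group
      rw [Finset.sum_congr rfl (fun s _ => by rw [hs s, extendByZero_one_apply] :
        ∀ s ∈ (Finset.univ : Finset G),
          extendByZero H (fun _ : H => (1 : ℂ))
            (x⁻¹ * ((MulAut.conj x).toEquiv s * (MulAut.conj x).toEquiv s) * x)
            = if s * s ∈ H then 1 else 0)]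
      rw [Finset.sum_boole]
    rw [Finset.sum_congr rfl (fun x _ => hx x), Finset.sum_const, Finset.card_univ, nsmul_eq_mul,
      Nat.card_eq_fintype_card]
  rw [e2]
  have hG0 : (Nat.card G : ℂ) ≠ 0 := by exact_mod_cast (Nat.card_pos (α := G)).ne'
  field_simp

theorem odd_core_index_of_unique [Fintype G] (H : Subgroup G)
    (huniq : ∀ χ : IrrCharacter G, classInner (indFun H (fun _ : H => (1 : ℂ))) χ.1 ≠ 0 →
      (∀ g : G, conj (χ.1 g) = χ.1 g) → (Nat.card G : ℂ)⁻¹ * ∑ g : G, χ.1 (g * g) = 1 →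
      χ = trivIrr G) :
    Odd H.normalCore.index := by
  classical
  haveI := Fintype.ofFinite (IrrCharacter G)
  by_contra hodd
  rw [Nat.not_odd_iff_even] at hodd
  haveI : H.normalCore.Normal := Subgroup.normalCore_normal H
  have : Fact (Nat.Prime 2) := ⟨Nat.prime_two⟩
  obtain ⟨c, hc⟩ := exists_prime_orderOf_dvd_card' 2 (G := G ⧸ H.normalCore) hodd.two_dvd
  obtain ⟨g, rfl⟩ := QuotientGroup.mk_surjective c
  have hgN : g ∉ H.normalCore := by
    intro hg
    rw [(QuotientGroup.eq_one_iff g).mpr hg, orderOf_one] at hc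
    norm_num at hc
  have hggN : g * g ∈ H.normalCore := by
    rw [← QuotientGroup.eq_one_iff, QuotientGroup.mk_mul, ← pow_two, ← hc, pow_orderOf_eq_one]
  have hex : ∃ b : G, b * g * b⁻¹ ∉ H := by
    by_contra hcon
    push Not at hcon
    exact hgN hcon
  obtain ⟨b, hb⟩ := hex
  have hg'2 : (b * g * b⁻¹) * (b * g * b⁻¹) ∈ H := by
    apply Subgroup.normalCore_le H
    have e : (b * g * b⁻¹) * (b * g * b⁻¹) = b * (g * g) * b⁻¹ := by group
    rw [e]
    exact Subgroup.Normal.conj_mem inferInstance _ hggN b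
  have hT : Nat.card H + 1 ≤ (Finset.univ.filter (fun g : G => g * g ∈ H)).card := by
    have hsub : insert (b * g * b⁻¹) (Finset.univ.filter (fun g : G => g ∈ H))
        ⊆ Finset.univ.filter (fun g : G => g * g ∈ H) := by
      intro t ht
      rw [Finset.mem_insert] at ht
      rw [Finset.mem_filter]
      refine ⟨Finset.mem_univ _, ?_⟩
      rcases ht with rfl | ht
      · exact hg'2
      · exact H.mul_mem (Finset.mem_filter.mp ht).2 (Finset.mem_filter.mp ht).2
    have hcard := Finset.card_le_card hsub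
    rw [Finset.card_insert_of_notMem (by simp [hb])] at hcard
    have e : (Finset.univ.filter (fun g : G => g ∈ H)).card = Nat.card H := by
      rw [Nat.card_eq_fintype_card, Fintype.card_subtype]
    omega
  have hformula := sum_inner_indFun_one_mul_fs H
  have hterm : ∀ χ ∈ (Finset.univ : Finset (IrrCharacter G)).erase (trivIrr G),
      (classInner (indFun H (fun _ : H => (1 : ℂ))) χ.1 *
        ((Nat.card G : ℂ)⁻¹ * ∑ s : G, χ.1 (s * s))).re ≤ 0 := by
    intro χ hχ
    have hne : χ ≠ trivIrr G := (Finset.mem_erase.mp hχ).1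
    obtain ⟨m, hm⟩ := exists_nat_inner_indFun_one H χ
    rcases frobenius_schur χ with ⟨h0, _⟩ | ⟨h1 | h1, hreal⟩
    · rw [h0, mul_zero]
      simp
    · have hm0 : classInner (indFun H (fun _ : H => (1 : ℂ))) χ.1 = 0 := by
        by_contra hmne
        apply hne
        apply huniq χ hmne _ h1
        intro t
        have := congrFun (congrArg Subtype.val hreal) t
        rw [irrConj_apply] at this
        exact this
      rw [hm0, zero_mul]
      simp
    · rw [h1, hm]
      simp
  rw [← Finset.add_sum_erase _ _ (Finset.mem_univ (trivIrr G)), trivIrr_inner_indFun_one,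
    trivIrr_fs, mul_one] at hformula
  have hre := congrArg Complex.re hformula
  rw [Complex.add_re, Complex.one_re, Complex.re_sum] at hre
  have hle : (∑ χ ∈ (Finset.univ : Finset (IrrCharacter G)).erase (trivIrr G),
      (classInner (indFun H (fun _ : H => (1 : ℂ))) χ.1 *
        ((Nat.card G : ℂ)⁻¹ * ∑ s : G, χ.1 (s * s))).re) ≤ 0 := Finset.sum_nonpos hterm
  have hR : ((Nat.card H : ℂ)⁻¹ * ((Finset.univ.filter (fun g : G => g * g ∈ H)).card : ℂ)).re
      = (Nat.card H : ℝ)⁻¹ * ((Finset.univ.filter (fun g : G => g * g ∈ H)).card : ℝ) := by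
    rw [show ((Nat.card H : ℂ)⁻¹ * ((Finset.univ.filter (fun g : G => g * g ∈ H)).card : ℂ))
      = (((Nat.card H : ℝ)⁻¹ * ((Finset.univ.filter (fun g : G => g * g ∈ H)).card : ℝ) : ℝ) : ℂ)
      by push_cast; rfl]
    exact Complex.ofReal_re _
  rw [hR] at hre
  have hHpos : (0 : ℝ) < (Nat.card H : ℝ) := by exact_mod_cast Nat.card_pos (α := H)
  have hT' : (Nat.card H : ℝ) + 1 ≤ ((Finset.univ.filter (fun g : G => g * g ∈ H)).card : ℝ) := by
    exact_mod_cast hT
  have h1 : (Nat.card H : ℝ)⁻¹ * ((Finset.univ.filter (fun g : G => g * g ∈ H)).card : ℝ) ≤ 1 := by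
    linarith
  rw [inv_mul_le_iff₀ hHpos] at h1
  linarith

end Cfsg.Agent.Lib.helper23
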