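import Cfsg.Agent.Lib.helper23.AutOrbD1

/-!
# Existence of a non-central element of order `p` (p odd, class two, `|G'| = p`)
-/

set_option autoImplicit false

namespace Cfsg.Agent.Lib.helper23.AutOrbD

open scoped commutatorElement

variable {G : Type*} [Group G]

theorem mul_pow_class_two (hDZ : commutator G ≤ Subgroup.center G) (x y : G) (n : ℕ) :
    (x * y) ^ n = x ^ n * y ^ n * ⁅y, x⁆ ^ (∑ i ∈ Finset.range n, i) := by
  induction n with
  | zero => simp
  | succ n ih =>
    have hsum : ∑ i ∈ Finset.range (n + 1), i = (∑ i ∈ Finset.range n, i) + n :=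
      Finset.sum_range_succ _ _
    have h1 : y ^ n * x = ⁅y ^ n, x⁆ * x * y ^ n := by
      simp only [commutatorElement_def]; group
    rw [comm_pow_left hDZ] at h1
    have cz : ∀ (k : ℕ) (w : G), w * ⁅y, x⁆ ^ k = ⁅y, x⁆ ^ k * w := by
      intro k w
      exact (Commute.pow_right (show Commute w ⁅y, x⁆ from ccent hDZ y x w) k).eq
    have key : ∀ (E C : G), (∀ w : G, w * E = E * w) → (∀ w : G, w * C = C * w) →
        y ^ n * x = C * x * y ^ n →
        x ^ n * y ^ n * E * (x * y) = x ^ (n + 1) * y ^ (n + 1) * (E * C) := by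
      intro E C cE cC h1
      calc x ^ n * y ^ n * E * (x * y) = x ^ n * (y ^ n * (E * x)) * y := by group
        _ = x ^ n * (y ^ n * (x * E)) * y := by rw [cE x]
        _ = x ^ n * (y ^ n * x) * E * y := by group
        _ = x ^ n * (C * x * y ^ n) * E * y := by rw [h1]
        _ = x ^ n * (C * x) * y ^ n * (E * y) := by group
        _ = x ^ n * (x * C) * y ^ n * (y * E) := by rw [cC x, cE y]
        _ = x ^ n * x * (C * (y ^ n * y)) * E := by group
        _ = x ^ n * x * ((y ^ n * y) * C) * E := by rw [cC (y ^ n * y)]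
        _ = x ^ (n + 1) * y ^ (n + 1) * (E * C) := by
            rw [pow_succ, pow_succ, ← cE C]; group
    calc (x * y) ^ (n + 1) = (x * y) ^ n * (x * y) := pow_succ _ _
      _ = x ^ n * y ^ n * ⁅y, x⁆ ^ (∑ i ∈ Finset.range n, i) * (x * y) := by rw [ih]
      _ = x ^ (n + 1) * y ^ (n + 1) * (⁅y, x⁆ ^ (∑ i ∈ Finset.range n, i) * ⁅y, x⁆ ^ n) :=
          key _ _ (cz _) (cz _) h1
      _ = x ^ (n + 1) * y ^ (n + 1) * ⁅y, x⁆ ^ (∑ i ∈ Finset.range (n + 1), i) := by
          rw [hsum, pow_add ⁅y, x⁆]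

theorem caseB_odd_exists [Finite G] {p : ℕ} (hp : p.Prime) (hp2 : p ≠ 2)
    (hD : Nat.card (commutator G) = p) (hDZ : commutator G ≤ Subgroup.center G)
    (hidx : p ^ 2 ≤ (Subgroup.center G).index)
    (hE : ∀ e ∈ Subgroup.center G, e ^ p = 1 → e ∈ commutator G) :
    ∃ u : G, u ∉ Subgroup.center G ∧ u ^ p = 1 := by
  by_contra hcon
  have hall : ∀ u : G, u ^ p = 1 → u ∈ Subgroup.center G := by
    intro u hu
    by_contra h
    exact hcon ⟨u, h, hu⟩
  have hsum : p ∣ ∑ i ∈ Finset.range p, i := by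
    have h1 := Finset.sum_range_id_mul_two p
    have h2 : p ∣ (∑ i ∈ Finset.range p, i) * 2 := by rw [h1]; exact dvd_mul_right _ _
    rcases (Nat.Prime.dvd_mul hp).1 h2 with h | h
    · exact h
    · exact absurd ((Nat.prime_dvd_prime_iff_eq hp Nat.prime_two).1 h) hp2
  let π : G →* G :=
    { toFun := fun x => x ^ p
      map_one' := one_pow p
      map_mul' := fun x y => by
        show (x * y) ^ p = x ^ p * y ^ p
        rw [mul_pow_class_two hDZ]
        obtain ⟨k, hk⟩ := hsum
        rw [hk, pow_mul, dpow hD _ (cmem y x), one_pow, mul_one] }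
  have hker : π.ker ≤ commutator G := by
    intro x hx
    have hx' : x ^ p = 1 := hx
    exact hE x (hall x hx') hx'
  have hrange : π.range ≤ Subgroup.center G := by
    rintro _ ⟨x, rfl⟩
    show x ^ p ∈ Subgroup.center G
    rw [Subgroup.mem_center_iff]
    intro w
    have h1 : ⁅x ^ p, w⁆ = 1 := by
      rw [comm_pow_left hDZ, dpow hD _ (cmem x w)]
    exact ((commutatorElement_eq_one_iff_commute).1 h1).eq.symm
  have hcard : Nat.card G = Nat.card π.ker * Nat.card π.range := by
    rw [← Subgroup.index_ker, Subgroup.card_mul_index]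
  have h1 : Nat.card π.ker ≤ p := by
    rw [← hD]; exact Subgroup.card_le_of_le hker
  have h2 : Nat.card π.range ≤ Nat.card (Subgroup.center G) := Subgroup.card_le_of_le hrange
  have h3 : Nat.card (Subgroup.center G) * p ^ 2 ≤ Nat.card G := by
    calc Nat.card (Subgroup.center G) * p ^ 2
        ≤ Nat.card (Subgroup.center G) * (Subgroup.center G).index := Nat.mul_le_mul_left _ hidx
      _ = Nat.card G := Subgroup.card_mul_index _
  have h4 : 0 < Nat.card (Subgroup.center G) := Nat.card_pos
  have h5 : Nat.card G ≤ p * Nat.card (Subgroup.center G) := by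
    rw [hcard]; exact Nat.mul_le_mul h1 h2
  have hp2' := hp.two_le
  nlinarith

end Cfsg.Agent.Lib.helper23.AutOrbD
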