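import Mathlib

/-!
# Counting orbits of the automorphism group: orbits as a sum of reciprocal orbit sizes
-/

namespace Cfsg.Agent.Lib.helper23

open MulAction

theorem ao_sum_inv {X : Type*} [Fintype X] [DecidableEq X] (r : Setoid X) [DecidableRel r.r]
    [Fintype (Quotient r)] [DecidableEq (Quotient r)] :
    ∑ x : X, (1 : ℚ) / ((Finset.univ.filter (fun y => r.r x y)).card : ℚ)
      = Fintype.card (Quotient r) := by
  rw [← Finset.sum_fiberwise (s := Finset.univ) (g := fun x : X => (Quotient.mk r x))
    (f := fun x => (1 : ℚ) / ((Finset.univ.filter (fun y => r.r x y)).card : ℚ))]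
  have hone : ∀ q : Quotient r, ∑ x ∈ Finset.univ.filter (fun x : X => Quotient.mk r x = q),
      (1 : ℚ) / ((Finset.univ.filter (fun y => r.r x y)).card : ℚ) = 1 := by
    intro q
    obtain ⟨x₀, rfl⟩ := Quotient.exists_rep q
    have hfil : Finset.univ.filter (fun x : X => Quotient.mk r x = Quotient.mk r x₀)
        = Finset.univ.filter (fun y => r.r x₀ y) := by
      ext x
      simp only [Finset.mem_filter, Finset.mem_univ, true_and]
      constructor
      · intro h; exact r.symm (Quotient.exact h)
      · intro h; exact Quotient.sound (r.symm h)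
    rw [hfil]
    have hcongr : ∀ x ∈ Finset.univ.filter (fun y => r.r x₀ y),
        (1 : ℚ) / ((Finset.univ.filter (fun y => r.r x y)).card : ℚ)
          = (1 : ℚ) / ((Finset.univ.filter (fun y => r.r x₀ y)).card : ℚ) := by
      intro x hx
      have hx' : r.r x₀ x := (Finset.mem_filter.1 hx).2
      have : Finset.univ.filter (fun y => r.r x y) = Finset.univ.filter (fun y => r.r x₀ y) := by
        ext y
        simp only [Finset.mem_filter, Finset.mem_univ, true_and]
        exact ⟨fun h => r.trans hx' h, fun h => r.trans (r.symm hx') h⟩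
      rw [this]
    rw [Finset.sum_congr rfl hcongr, Finset.sum_const, nsmul_eq_mul]
    have hpos : (0 : ℚ) < ((Finset.univ.filter (fun y => r.r x₀ y)).card : ℚ) := by
      have : 0 < (Finset.univ.filter (fun y => r.r x₀ y)).card :=
        Finset.card_pos.2 ⟨x₀, Finset.mem_filter.2 ⟨Finset.mem_univ _, r.refl x₀⟩⟩
      exact_mod_cast this
    field_simp
  rw [Finset.sum_congr rfl (fun q _ => hone q), Finset.sum_const, Finset.card_univ, nsmul_eq_mul,
    mul_one]

end Cfsg.Agent.Lib.helper23
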