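import Cfsg.Agent.Lib.helper23.AutOrbCount

/-!
# The orbit-counting inequality for the automorphism group
-/

namespace Cfsg.Agent.Lib.helper23

open MulAction

theorem ao_count {G : Type*} [Group G] [Finite G] {p : ℕ} (hp : 2 ≤ p) (S : Subgroup G)
    (hZS : Subgroup.center G ≤ S) (hS : Nat.card S * p ≤ Nat.card G)
    (hZ : Nat.card (Subgroup.center G) * p ^ 2 ≤ Nat.card G)
    (h1 : ∀ g : G, g ∉ Subgroup.center G → p ≤ Nat.card (orbit (MulAut G) g))
    (h2 : ∀ g : G, g ∉ S → p ^ 2 ≤ Nat.card (orbit (MulAut G) g)) :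
    Nat.card (orbitRel.Quotient (MulAut G) G) * p ≤ Nat.card G := by
  classical
  haveI : Fintype G := Fintype.ofFinite G
  let r : Setoid G := orbitRel (MulAut G) G
  haveI : Fintype (Quotient r) := Fintype.ofFinite _
  have key := ao_sum_inv r
  have hcard : ∀ g : G, (Finset.univ.filter (fun y => r.r g y)).card
      = Nat.card (orbit (MulAut G) g) := by
    intro g
    symm
    apply Nat.subtype_card
    intro y
    simp only [Finset.mem_filter, Finset.mem_univ, true_and]
    show g ∈ orbit (MulAut G) y ↔ y ∈ orbit (MulAut G) g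
    exact mem_orbit_symm
  have hpos : ∀ g : G, 1 ≤ Nat.card (orbit (MulAut G) g) := by
    intro g
    haveI : Nonempty (orbit (MulAut G) g) := ⟨⟨g, mem_orbit_self g⟩⟩
    exact Nat.one_le_iff_ne_zero.2 Nat.card_pos.ne'
  have hP : (2 : ℚ) ≤ (p : ℚ) := by exact_mod_cast hp
  have hP0 : (0 : ℚ) < (p : ℚ) := by linarith
  let w : G → ℚ := fun g => 1 / (p : ℚ) ^ 2
    + (if g ∈ S then 1 / (p : ℚ) - 1 / (p : ℚ) ^ 2 else 0)
    + (if g ∈ Subgroup.center G then 1 - 1 / (p : ℚ) else 0)
  have hle : ∀ g : G, (1 : ℚ) / ((Finset.univ.filter (fun y => r.r g y)).card : ℚ) ≤ w g := by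
    intro g
    rw [hcard g]
    show (1 : ℚ) / (Nat.card (orbit (MulAut G) g) : ℚ) ≤ 1 / (p : ℚ) ^ 2
      + (if g ∈ S then 1 / (p : ℚ) - 1 / (p : ℚ) ^ 2 else 0)
      + (if g ∈ Subgroup.center G then 1 - 1 / (p : ℚ) else 0)
    by_cases hgZ : g ∈ Subgroup.center G
    · have hgS : g ∈ S := hZS hgZ
      rw [if_pos hgS, if_pos hgZ]
      have h3 : (1 : ℚ) ≤ (Nat.card (orbit (MulAut G) g) : ℚ) := by exact_mod_cast hpos g
      have h4 : (1 : ℚ) / (Nat.card (orbit (MulAut G) g) : ℚ) ≤ 1 := by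
        rw [div_le_one (by linarith)]; exact h3
      linarith
    · rw [if_neg hgZ]
      by_cases hgS : g ∈ S
      · rw [if_pos hgS]
        have h3 : (p : ℚ) ≤ (Nat.card (orbit (MulAut G) g) : ℚ) := by exact_mod_cast h1 g hgZ
        have h4 : (1 : ℚ) / (Nat.card (orbit (MulAut G) g) : ℚ) ≤ 1 / (p : ℚ) :=
          one_div_le_one_div_of_le hP0 h3
        linarith
      · rw [if_neg hgS]
        have h3 : (p : ℚ) ^ 2 ≤ (Nat.card (orbit (MulAut G) g) : ℚ) := by exact_mod_cast h2 g hgS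
        have h4 : (1 : ℚ) / (Nat.card (orbit (MulAut G) g) : ℚ) ≤ 1 / (p : ℚ) ^ 2 :=
          one_div_le_one_div_of_le (by positivity) h3
        linarith
  have hsum : ∑ g : G, w g = (Nat.card G : ℚ) * (1 / (p : ℚ) ^ 2)
      + (Nat.card S : ℚ) * (1 / (p : ℚ) - 1 / (p : ℚ) ^ 2)
      + (Nat.card (Subgroup.center G) : ℚ) * (1 - 1 / (p : ℚ)) := by
    show ∑ g : G, (1 / (p : ℚ) ^ 2
      + (if g ∈ S then 1 / (p : ℚ) - 1 / (p : ℚ) ^ 2 else 0)
      + (if g ∈ Subgroup.center G then 1 - 1 / (p : ℚ) else 0)) = _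
    rw [Finset.sum_add_distrib, Finset.sum_add_distrib, Finset.sum_const, Finset.card_univ,
      nsmul_eq_mul, Finset.sum_ite, Finset.sum_ite]
    simp only [Finset.sum_const, smul_zero, add_zero, nsmul_eq_mul]
    have e1 : (Finset.univ.filter (fun g : G => g ∈ S)).card = Nat.card S := by
      symm; apply Nat.subtype_card; intro y; simp
    have e2 : (Finset.univ.filter (fun g : G => g ∈ Subgroup.center G)).card
        = Nat.card (Subgroup.center G) := by
      symm; apply Nat.subtype_card; intro y; simp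
    rw [e1, e2, Nat.card_eq_fintype_card (α := G)]
  have hq : (Nat.card (orbitRel.Quotient (MulAut G) G) : ℚ) ≤ ∑ g : G, w g := by
    have : (Nat.card (orbitRel.Quotient (MulAut G) G) : ℚ) = Fintype.card (Quotient r) := by
      rw [Nat.card_eq_fintype_card]
    rw [this, ← key]
    exact Finset.sum_le_sum (fun g _ => hle g)
  rw [hsum] at hq
  have hSq : (Nat.card S : ℚ) * (p : ℚ) ≤ (Nat.card G : ℚ) := by exact_mod_cast hS
  have hZq : (Nat.card (Subgroup.center G) : ℚ) * (p : ℚ) ^ 2 ≤ (Nat.card G : ℚ) := by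
    exact_mod_cast hZ
  have hgoal : (Nat.card (orbitRel.Quotient (MulAut G) G) : ℚ) * (p : ℚ) ≤ (Nat.card G : ℚ) := by
    set n : ℚ := (Nat.card (orbitRel.Quotient (MulAut G) G) : ℚ)
    set a : ℚ := (Nat.card G : ℚ)
    set s : ℚ := (Nat.card S : ℚ)
    set z : ℚ := (Nat.card (Subgroup.center G) : ℚ)
    set P : ℚ := (p : ℚ)
    have ha0 : 0 ≤ a := by positivity
    -- multiply hq by P^3
    have hP3 : (0 : ℚ) < P ^ 3 := by positivity
    have h5 : n * P ^ 3 ≤ a * P + s * (P ^ 2 - P) + z * (P ^ 3 - P ^ 2) := by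
      have h6 := mul_le_mul_of_nonneg_right hq hP3.le
      have h7 : (a * (1 / P ^ 2) + s * (1 / P - 1 / P ^ 2) + z * (1 - 1 / P)) * P ^ 3
          = a * P + s * (P ^ 2 - P) + z * (P ^ 3 - P ^ 2) := by
        field_simp
      rw [h7] at h6
      exact h6
    have h8 : s * (P ^ 2 - P) ≤ a * (P - 1) := by
      have : s * (P ^ 2 - P) = (s * P) * (P - 1) := by ring
      rw [this]
      exact mul_le_mul_of_nonneg_right hSq (by linarith)
    have h9 : z * (P ^ 3 - P ^ 2) ≤ a * (P - 1) := by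
      have : z * (P ^ 3 - P ^ 2) = (z * P ^ 2) * (P - 1) := by ring
      rw [this]
      exact mul_le_mul_of_nonneg_right hZq (by linarith)
    have h10 : n * P ^ 3 ≤ a * P ^ 2 := by
      have h11 : a * P + a * (P - 1) + a * (P - 1) ≤ a * P ^ 2 := by
        have : a * P ^ 2 - (a * P + a * (P - 1) + a * (P - 1)) = a * ((P - 1) * (P - 2)) := by ring
        have h12 : 0 ≤ a * ((P - 1) * (P - 2)) :=
          mul_nonneg ha0 (mul_nonneg (by linarith) (by linarith))
        linarith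
      linarith
    have h13 : n * P * P ^ 2 ≤ a * P ^ 2 := by
      have : n * P * P ^ 2 = n * P ^ 3 := by ring
      rw [this]; exact h10
    exact le_of_mul_le_mul_right h13 (by positivity)
  exact_mod_cast hgoal

end Cfsg.Agent.Lib.helper23
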