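import Mathlib

/-!
# Class-two commutator calculus and the log-free transvection automorphism
-/

set_option autoImplicit false

namespace Cfsg.Agent.Lib.helper23.AutOrbD

open scoped commutatorElement

variable {G : Type*} [Group G]

theorem cmem (x y : G) : ⁅x, y⁆ ∈ commutator G := by
  rw [commutator_def]
  exact Subgroup.commutator_mem_commutator (Subgroup.mem_top _) (Subgroup.mem_top _)

theorem ccent (hDZ : commutator G ≤ Subgroup.center G) (x y w : G) :
    w * ⁅x, y⁆ = ⁅x, y⁆ * w :=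
  (Subgroup.mem_center_iff.mp (hDZ (cmem x y))) w

theorem comm_mul_left (hDZ : commutator G ≤ Subgroup.center G) (x x' y : G) :
    ⁅x * x', y⁆ = ⁅x, y⁆ * ⁅x', y⁆ := by
  have h2 : x * ⁅x', y⁆ = ⁅x', y⁆ * x := ccent hDZ x' y x
  have h3 : ⁅x, y⁆ * ⁅x', y⁆ = ⁅x', y⁆ * ⁅x, y⁆ := ccent hDZ x' y ⁅x, y⁆
  calc ⁅x * x', y⁆ = x * ⁅x', y⁆ * x⁻¹ * ⁅x, y⁆ := by
        simp only [commutatorElement_def]; group
    _ = ⁅x', y⁆ * x * x⁻¹ * ⁅x, y⁆ := by rw [h2]
    _ = ⁅x', y⁆ * ⁅x, y⁆ := by rw [mul_inv_cancel_right]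
    _ = ⁅x, y⁆ * ⁅x', y⁆ := h3.symm

theorem comm_mul_right (hDZ : commutator G ≤ Subgroup.center G) (x y y' : G) :
    ⁅x, y * y'⁆ = ⁅x, y⁆ * ⁅x, y'⁆ := by
  have h1 : ⁅x, y * y'⁆ = ⁅y * y', x⁆⁻¹ := (commutatorElement_inv (y * y') x).symm
  rw [h1, comm_mul_left hDZ, mul_inv_rev, commutatorElement_inv, commutatorElement_inv]
  exact (ccent hDZ x y' ⁅x, y⁆).symm

theorem comm_pow_right (hDZ : commutator G ≤ Subgroup.center G) (x y : G) (n : ℕ) :
    ⁅x, y ^ n⁆ = ⁅x, y⁆ ^ n := by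
  induction n with
  | zero =>
    rw [pow_zero, pow_zero, commutatorElement_eq_one_iff_commute]
    exact Commute.one_right x
  | succ n ih => rw [pow_succ, comm_mul_right hDZ, ih, pow_succ]

theorem comm_pow_left (hDZ : commutator G ≤ Subgroup.center G) (x y : G) (n : ℕ) :
    ⁅x ^ n, y⁆ = ⁅x, y⁆ ^ n := by
  induction n with
  | zero =>
    rw [pow_zero, pow_zero, commutatorElement_eq_one_iff_commute]
    exact Commute.one_left y
  | succ n ih => rw [pow_succ, comm_mul_left hDZ, ih, pow_succ]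

/-- `a * y = ⁅y, a⁆⁻¹ * y * a`. -/
theorem swap_mul (a y : G) : a * y = ⁅y, a⁆⁻¹ * y * a := by
  rw [commutatorElement_inv]
  simp only [commutatorElement_def]; group

theorem dpow [Finite G] {p : ℕ} (hD : Nat.card (commutator G) = p) (d : G)
    (hd : d ∈ commutator G) : d ^ p = 1 := by
  have h1 : (⟨d, hd⟩ : commutator G) ^ Nat.card (commutator G) = 1 := pow_card_eq_one'
  rw [hD] at h1
  have := congrArg Subtype.val h1
  simpa using this

end Cfsg.Agent.Lib.helper23.AutOrbD
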