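import Cfsg.Agent.Lib.helper23.AutOrbD1

/-!
# The transvection automorphism (p odd)
-/

set_option autoImplicit false

namespace Cfsg.Agent.Lib.helper23.AutOrbD

open scoped commutatorElement

variable {G : Type*} [Group G]

theorem tv_alg (x y a b zA zB zβi : G) (hA : ∀ w : G, w * zA = zA * w)
    (hβ : ∀ w : G, w * zβi = zβi * w) (hsw : a * y = zβi * y * a) :
    x * a * zA * (y * b * zB) = x * y * (a * b) * (zA * zB * zβi) := by
  have e1 : x * a * zA * (y * b * zB) = x * (a * y) * b * (zA * zB) := by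
    have h1 : zA * (y * b) = (y * b) * zA := (hA (y * b)).symm
    calc x * a * zA * (y * b * zB) = x * a * (zA * (y * b)) * zB := by group
      _ = x * a * ((y * b) * zA) * zB := by rw [h1]
      _ = x * (a * y) * b * (zA * zB) := by group
  rw [e1, hsw]
  have h2 : x * (zβi * y * a) * b * (zA * zB) = zβi * (x * y * (a * b) * (zA * zB)) := by
    have h3 : x * zβi = zβi * x := hβ x
    calc x * (zβi * y * a) * b * (zA * zB) = (x * zβi) * y * a * b * (zA * zB) := by group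
      _ = (zβi * x) * y * a * b * (zA * zB) := by rw [h3]
      _ = zβi * (x * y * (a * b) * (zA * zB)) := by group
  rw [h2, ← hβ (x * y * (a * b) * (zA * zB))]
  group

theorem tv_exists [Finite G] {p : ℕ} (hp : p.Prime) (hp2 : p ≠ 2)
    (hD : Nat.card (commutator G) = p) (hDZ : commutator G ≤ Subgroup.center G)
    (u : G) (hup : u ^ p = 1) (g : G) (hg : ¬ Commute g u) (t : ℕ) :
    ∃ φ : MulAut G, φ g = g * u ^ t * ⁅g, u ^ t⁆ ^ ((p - 1) / 2) := by
  haveI : Fact p.Prime := ⟨hp⟩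
  obtain ⟨q, hq⟩ : ∃ q : ℕ, q = (p - 1) / 2 := ⟨_, rfl⟩
  rw [← hq]
  have hodd : q + q + 1 = p := by
    rcases hp.eq_two_or_odd' with h | h
    · exact absurd h hp2
    · obtain ⟨k, hk⟩ := h; omega
  let lam : G →* commutator G :=
    { toFun := fun x => ⟨⁅x, u⁆, cmem x u⟩
      map_one' := by
        apply Subtype.ext
        show ⁅(1 : G), u⁆ = 1
        rw [commutatorElement_eq_one_iff_commute]; exact Commute.one_left u
      map_mul' := fun x x' => by
        apply Subtype.ext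
        show ⁅x * x', u⁆ = ⁅x, u⁆ * ⁅x', u⁆
        exact comm_mul_left hDZ x x' u }
  have hlam : ∀ x : G, ((lam x : commutator G) : G) = ⁅x, u⁆ := fun x => rfl
  obtain ⟨c, hc⟩ : ∃ c : commutator G, c = lam g := ⟨_, rfl⟩
  have hc1 : c ≠ 1 := by
    intro h
    apply hg
    have := congrArg Subtype.val h
    rw [hc, hlam] at this
    exact (commutatorElement_eq_one_iff_commute).1 this
  have hgen : ∀ d : commutator G, d ∈ Subgroup.zpowers c := by
    intro d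
    rw [zpowers_eq_top_of_prime_card hD hc1]
    exact Subgroup.mem_top d
  have hordc : orderOf c = p := by
    rw [orderOf_eq_card_of_forall_mem_zpowers hgen, hD]
  have hord : orderOf (u ^ t) ∣ orderOf c := by
    rw [hordc]; apply orderOf_dvd_of_pow_eq_one
    rw [← pow_mul, mul_comm, pow_mul, hup, one_pow]
  obtain ⟨θ, hθ⟩ : ∃ θ : commutator G →* G, θ c = u ^ t :=
    ⟨monoidHomOfForallMemZpowers hgen hord, monoidHomOfForallMemZpowers_apply_gen hgen hord⟩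
  have hpow : ∀ d : commutator G, ∃ k : ℕ, c ^ k = d := by
    intro d
    have h := hgen d
    rw [← (isOfFinOrder_of_finite c).mem_powers_iff_mem_zpowers] at h
    exact (Submonoid.mem_powers_iff _ _).1 h
  have hW : ∀ x : G, ∃ k : ℕ, lam x = c ^ k ∧ θ (lam x) = u ^ (t * k) := by
    intro x
    obtain ⟨k, hk⟩ := hpow (lam x)
    refine ⟨k, hk.symm, ?_⟩
    rw [← hk, map_pow, hθ, ← pow_mul]
  have hsymm : ∀ x y : G, ⁅x, θ (lam y)⁆ = ⁅y, θ (lam x)⁆ := by
    intro x y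
    obtain ⟨i, hi, hWi⟩ := hW x
    obtain ⟨j, hj, hWj⟩ := hW y
    have hxi : ⁅x, u⁆ = (c : G) ^ i := by rw [← hlam, hi, Subgroup.coe_pow]
    have hyj : ⁅y, u⁆ = (c : G) ^ j := by rw [← hlam, hj, Subgroup.coe_pow]
    rw [hWi, hWj, comm_pow_right hDZ, comm_pow_right hDZ, hxi, hyj, ← pow_mul, ← pow_mul]
    congr 1; ring
  have hczp : ∀ (x y : G) (n : ℕ) (w : G), w * ⁅x, y⁆ ^ n = ⁅x, y⁆ ^ n * w := by
    intro x y n w
    exact (Commute.pow_right (show Commute w ⁅x, y⁆ from ccent hDZ x y w) n).eq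
  let T : G →* G :=
    { toFun := fun x => x * θ (lam x) * ⁅x, θ (lam x)⁆ ^ q
      map_one' := by
        show (1 : G) * θ (lam 1) * ⁅(1 : G), θ (lam 1)⁆ ^ q = 1
        rw [map_one, map_one, one_mul, one_mul]
        have : ⁅(1 : G), (1 : G)⁆ = 1 := by
          rw [commutatorElement_eq_one_iff_commute]
        rw [this, one_pow]
      map_mul' := fun x y => by
        show x * y * θ (lam (x * y)) * ⁅x * y, θ (lam (x * y))⁆ ^ q
          = x * θ (lam x) * ⁅x, θ (lam x)⁆ ^ q * (y * θ (lam y) * ⁅y, θ (lam y)⁆ ^ q)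
        rw [map_mul, map_mul]
        have h2 : ⁅x, θ (lam y)⁆ = ⁅y, θ (lam x)⁆ := hsymm x y
        obtain ⟨a, ha⟩ : ∃ a : G, a = θ (lam x) := ⟨_, rfl⟩
        obtain ⟨b, hb⟩ : ∃ b : G, b = θ (lam y) := ⟨_, rfl⟩
        rw [← ha, ← hb] at h2 ⊢
        have h1 : ⁅x * y, a * b⁆ = ⁅x, a⁆ * ⁅y, a⁆ * (⁅y, a⁆ * ⁅y, b⁆) := by
          rw [comm_mul_left hDZ, comm_mul_right hDZ, comm_mul_right hDZ, h2]
        rw [h1]
        have cA : ∀ w : G, Commute w ⁅x, a⁆ := fun w => ccent hDZ x a w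
        have cβ : ∀ w : G, Commute w ⁅y, a⁆ := fun w => ccent hDZ y a w
        have cB : ∀ w : G, Commute w ⁅y, b⁆ := fun w => ccent hDZ y b w
        have hβ2 : ⁅y, a⁆ ^ q * ⁅y, a⁆ ^ q = ⁅y, a⁆⁻¹ := by
          apply eq_inv_of_mul_eq_one_left
          rw [← pow_add, ← pow_succ, hodd]; exact dpow hD _ (cmem y a)
        have hQ : (⁅x, a⁆ * ⁅y, a⁆ * (⁅y, a⁆ * ⁅y, b⁆)) ^ q
            = ⁅x, a⁆ ^ q * ⁅y, b⁆ ^ q * ⁅y, a⁆⁻¹ := by
          rw [((cβ (⁅x, a⁆ * ⁅y, a⁆)).mul_right (cB (⁅x, a⁆ * ⁅y, a⁆))).mul_pow,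
            (cβ ⁅x, a⁆).mul_pow, (cB ⁅y, a⁆).mul_pow]
          have e4 : ⁅y, a⁆⁻¹ * ⁅y, b⁆ ^ q = ⁅y, b⁆ ^ q * ⁅y, a⁆⁻¹ := ((cB ⁅y, a⁆⁻¹).pow_right q).eq
          calc ⁅x, a⁆ ^ q * ⁅y, a⁆ ^ q * (⁅y, a⁆ ^ q * ⁅y, b⁆ ^ q)
              = ⁅x, a⁆ ^ q * (⁅y, a⁆ ^ q * ⁅y, a⁆ ^ q) * ⁅y, b⁆ ^ q := by group
            _ = ⁅x, a⁆ ^ q * (⁅y, a⁆⁻¹ * ⁅y, b⁆ ^ q) := by rw [hβ2, mul_assoc]
            _ = ⁅x, a⁆ ^ q * ⁅y, b⁆ ^ q * ⁅y, a⁆⁻¹ := by rw [e4, mul_assoc]
        rw [hQ]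
        refine (tv_alg x y a b (⁅x, a⁆ ^ q) (⁅y, b⁆ ^ q) (⁅y, a⁆⁻¹) (hczp x a q) ?_
          (swap_mul a y)).symm
        intro w
        exact Subgroup.mem_center_iff.mp (Subgroup.inv_mem _ (hDZ (cmem y a))) w }
  have hT : ∀ x : G, T x = x * θ (lam x) * ⁅x, θ (lam x)⁆ ^ q := fun x => rfl
  have hinj : Function.Injective T := by
    rw [injective_iff_map_eq_one]
    intro x hx
    rw [hT] at hx
    obtain ⟨k, hk, hWk⟩ := hW x
    have hcomm : Commute x u := by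
      have hx' : x = (θ (lam x) * ⁅x, θ (lam x)⁆ ^ q)⁻¹ := by
        apply eq_inv_of_mul_eq_one_left
        rw [← mul_assoc]; exact hx
      rw [hx']
      apply Commute.inv_left
      apply Commute.mul_left
      · rw [hWk]; exact (Commute.refl u).pow_left _
      · exact (hczp x (θ (lam x)) q u).symm
    have hl : lam x = 1 := by
      apply Subtype.ext
      rw [hlam]
      exact (commutatorElement_eq_one_iff_commute).2 hcomm
    rw [hl, map_one, mul_one] at hx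
    have h1 : ⁅x, (1 : G)⁆ = 1 := by
      rw [commutatorElement_eq_one_iff_commute]; exact Commute.one_right x
    rw [h1, one_pow, mul_one] at hx
    exact hx
  have hbij : Function.Bijective T := Finite.injective_iff_bijective.mp hinj
  refine ⟨MulEquiv.ofBijective T hbij, ?_⟩
  show T g = g * u ^ t * ⁅g, u ^ t⁆ ^ q
  rw [hT, ← hc, hθ]

end Cfsg.Agent.Lib.helper23.AutOrbD
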