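import Cfsg.Agent.Lib.helper23.AutOrbD2

/-!
# Orbits of size at least `p ^ 2` from transvections (p odd)
-/

set_option autoImplicit false

namespace Cfsg.Agent.Lib.helper23.AutOrbD

open scoped commutatorElement

variable {G : Type*} [Group G]

theorem conj_form (g u₁ u₂ C Z : G) (hC : ∀ w : G, w * C = C * w) (hZ : ∀ w : G, w * Z = Z * w)
    (hcomm : u₁ * u₂ = u₂ * u₁) (h1 : u₁ * g = C * g * u₁) :
    u₁ * (g * u₂ * Z) * u₁⁻¹ = g * u₂ * (C * Z) := by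
  calc u₁ * (g * u₂ * Z) * u₁⁻¹ = (u₁ * g) * u₂ * Z * u₁⁻¹ := by group
    _ = C * g * u₁ * u₂ * Z * u₁⁻¹ := by rw [h1]
    _ = C * g * (u₁ * u₂) * (Z * u₁⁻¹) := by group
    _ = C * g * (u₂ * u₁) * (u₁⁻¹ * Z) := by rw [hcomm, ← hZ u₁⁻¹]
    _ = C * (g * u₂ * Z) := by group
    _ = (g * u₂ * Z) * C := (hC _).symm
    _ = g * u₂ * (C * Z) := by rw [mul_assoc, ← hZ C]

theorem central_of_pow {p : ℕ} (hp : p.Prime) (u : G) (hup : u ^ p = 1) (k : ℕ) (hk0 : 0 < k)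
    (hkp : k < p) (hk : u ^ k ∈ Subgroup.center G) : u ∈ Subgroup.center G := by
  have hcop : Nat.Coprime k p :=
    Nat.Coprime.symm ((Nat.Prime.coprime_iff_not_dvd hp).2 (Nat.not_dvd_of_pos_of_lt hk0 hkp))
  obtain ⟨m, -, hm⟩ := Nat.exists_mul_mod_eq_one_of_coprime hcop hp.one_lt
  have h1 : (u ^ k) ^ m = u := by
    rw [← pow_mul]
    conv_lhs => rw [← Nat.mod_add_div (k * m) p]
    rw [hm, pow_add, pow_mul, hup, one_pow, mul_one, pow_one]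
  rw [← h1]
  exact Subgroup.pow_mem _ hk m

theorem caseB_odd_orbit [Finite G] {p : ℕ} (hp : p.Prime) (hp2 : p ≠ 2)
    (hD : Nat.card (commutator G) = p) (hDZ : commutator G ≤ Subgroup.center G)
    (u : G) (hu : u ∉ Subgroup.center G) (hup : u ^ p = 1)
    (g : G) (hg : ¬ Commute g u) :
    p ^ 2 ≤ Nat.card (MulAction.orbit (MulAut G) g) := by
  haveI : Fact p.Prime := ⟨hp⟩
  obtain ⟨q, hq⟩ : ∃ q : ℕ, q = (p - 1) / 2 := ⟨_, rfl⟩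
  have hczp : ∀ (x y : G) (n : ℕ) (w : G), w * ⁅x, y⁆ ^ n = ⁅x, y⁆ ^ n * w := by
    intro x y n w
    exact (Commute.pow_right (show Commute w ⁅x, y⁆ from ccent hDZ x y w) n).eq
  have hmem : ∀ t m : ℕ, u ^ m * (g * u ^ t * ⁅g, u ^ t⁆ ^ q) * (u ^ m)⁻¹
      ∈ MulAction.orbit (MulAut G) g := by
    intro t m
    obtain ⟨φ, hφ⟩ := tv_exists hp hp2 hD hDZ u hup g hg t
    rw [← hq] at hφ
    refine MulAction.mem_orbit_iff.mpr ⟨MulAut.conj (u ^ m) * φ, ?_⟩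
    rw [MulAut.smul_def, MulAut.mul_apply, hφ, MulAut.conj_apply]
  have hform : ∀ t m : ℕ, u ^ m * (g * u ^ t * ⁅g, u ^ t⁆ ^ q) * (u ^ m)⁻¹
      = g * u ^ t * (⁅u, g⁆ ^ m * ⁅g, u ^ t⁆ ^ q) := by
    intro t m
    have h1 : u ^ m * g = ⁅u ^ m, g⁆ * g * u ^ m := by
      simp only [commutatorElement_def]; group
    rw [comm_pow_left hDZ] at h1
    exact conj_form g (u ^ m) (u ^ t) (⁅u, g⁆ ^ m) (⁅g, u ^ t⁆ ^ q) (hczp u g m)
      (hczp g (u ^ t) q) (pow_mul_comm u m t) h1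
  have hC1 : ⁅u, g⁆ ≠ 1 := by
    intro h
    exact hg ((commutatorElement_eq_one_iff_commute).1 h).symm
  have hCord : orderOf ⁅u, g⁆ = p := orderOf_eq_prime (dpow hD _ (cmem u g)) hC1
  let F : Fin p × Fin p → MulAction.orbit (MulAut G) g := fun tm =>
    ⟨u ^ (tm.2 : ℕ) * (g * u ^ (tm.1 : ℕ) * ⁅g, u ^ (tm.1 : ℕ)⁆ ^ q) * (u ^ (tm.2 : ℕ))⁻¹,
      hmem _ _⟩
  have hF : Function.Injective F := by
    rintro ⟨t, m⟩ ⟨t', m'⟩ h
    have h' : u ^ (m : ℕ) * (g * u ^ (t : ℕ) * ⁅g, u ^ (t : ℕ)⁆ ^ q) * (u ^ (m : ℕ))⁻¹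
        = u ^ (m' : ℕ) * (g * u ^ (t' : ℕ) * ⁅g, u ^ (t' : ℕ)⁆ ^ q) * (u ^ (m' : ℕ))⁻¹ :=
      congrArg Subtype.val h
    rw [hform, hform, mul_assoc, mul_assoc] at h'
    have h2 : u ^ (t : ℕ) * (⁅u, g⁆ ^ (m : ℕ) * ⁅g, u ^ (t : ℕ)⁆ ^ q)
        = u ^ (t' : ℕ) * (⁅u, g⁆ ^ (m' : ℕ) * ⁅g, u ^ (t' : ℕ)⁆ ^ q) := mul_left_cancel h'
    have hzc : ∀ (s n : ℕ), ⁅u, g⁆ ^ n * ⁅g, u ^ s⁆ ^ q ∈ Subgroup.center G := by
      intro s n
      exact Subgroup.mul_mem _ (Subgroup.pow_mem _ (hDZ (cmem u g)) n)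
        (Subgroup.pow_mem _ (hDZ (cmem g (u ^ s))) q)
    obtain ⟨ζ, hζ⟩ : ∃ ζ : G, ζ = ⁅u, g⁆ ^ (m : ℕ) * ⁅g, u ^ (t : ℕ)⁆ ^ q := ⟨_, rfl⟩
    obtain ⟨ζ', hζ'⟩ : ∃ ζ' : G, ζ' = ⁅u, g⁆ ^ (m' : ℕ) * ⁅g, u ^ (t' : ℕ)⁆ ^ q := ⟨_, rfl⟩
    have hζc : ζ ∈ Subgroup.center G := by rw [hζ]; exact hzc _ _
    have hζ'c : ζ' ∈ Subgroup.center G := by rw [hζ']; exact hzc _ _
    have h2' : u ^ (t : ℕ) * ζ = u ^ (t' : ℕ) * ζ' := by rw [hζ, hζ']; exact h2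
    have htt : (t : ℕ) = (t' : ℕ) := by
      by_contra hne
      rcases Nat.lt_or_gt_of_ne hne with hlt | hlt
      · apply hu
        apply central_of_pow hp u hup ((t' : ℕ) - (t : ℕ)) (by omega) (by have := t'.2; omega)
        have e1 : u ^ (t' : ℕ) = u ^ (t : ℕ) * u ^ ((t' : ℕ) - (t : ℕ)) := by
          rw [← pow_add]; congr 1; omega
        rw [e1, mul_assoc] at h2'
        have e2 : ζ = u ^ ((t' : ℕ) - (t : ℕ)) * ζ' := mul_left_cancel h2'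
        have e : u ^ ((t' : ℕ) - (t : ℕ)) = ζ * ζ'⁻¹ := by rw [e2, mul_inv_cancel_right]
        rw [e]
        exact Subgroup.mul_mem _ hζc (Subgroup.inv_mem _ hζ'c)
      · apply hu
        apply central_of_pow hp u hup ((t : ℕ) - (t' : ℕ)) (by omega) (by have := t.2; omega)
        have e1 : u ^ (t : ℕ) = u ^ (t' : ℕ) * u ^ ((t : ℕ) - (t' : ℕ)) := by
          rw [← pow_add]; congr 1; omega
        rw [e1, mul_assoc] at h2'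
        have e2 : u ^ ((t : ℕ) - (t' : ℕ)) * ζ = ζ' := mul_left_cancel h2'
        have e : u ^ ((t : ℕ) - (t' : ℕ)) = ζ' * ζ⁻¹ := by rw [← e2, mul_inv_cancel_right]
        rw [e]
        exact Subgroup.mul_mem _ hζ'c (Subgroup.inv_mem _ hζc)
    rw [htt] at h2
    have h3 : ⁅u, g⁆ ^ (m : ℕ) = ⁅u, g⁆ ^ (m' : ℕ) := mul_right_cancel (mul_left_cancel h2)
    have hmm : (m : ℕ) = (m' : ℕ) := by
      apply pow_injOn_Iio_orderOf (x := ⁅u, g⁆)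
      · rw [hCord]; exact m.2
      · rw [hCord]; exact m'.2
      · exact h3
    exact Prod.ext (Fin.ext htt) (Fin.ext hmm)
  have hcard : Nat.card (Fin p × Fin p) = p ^ 2 := by
    rw [Nat.card_prod, Nat.card_fin, sq]
  rw [← hcard]
  exact Nat.card_le_card_of_injective F hF

end Cfsg.Agent.Lib.helper23.AutOrbD
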