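import Cfsg.Agent.Lib.helper23.AutOrbStruct

/-!
# The automorphism-orbit bound, modulo the construction of automorphisms
-/

namespace Cfsg.Agent.Lib.helper23

open MulAction

theorem ao_main {G : Type*} [Group G] [Finite G] (hna : ¬ IsMulCommutative G)
    (hE : Nat.card G < Nat.card (ConjClasses G) * (Nat.card G).minFac →
      Nat.card (commutator G) = (Nat.card G).minFac)
    (hA : Nat.card (commutator G) = (Nat.card G).minFac → commutator G ≤ Subgroup.center G →
      ∀ (e : G), e ∈ Subgroup.center G → e ^ (Nat.card G).minFac = 1 → e ∉ commutator G →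
      ∀ g : G, g ∉ Subgroup.center G → (Nat.card G).minFac ^ 2 ≤ Nat.card (orbit (MulAut G) g))
    (hB : Nat.card (commutator G) = (Nat.card G).minFac → commutator G ≤ Subgroup.center G →
      (Nat.card G).minFac ^ 2 ≤ (Subgroup.center G).index →
      (∀ e ∈ Subgroup.center G, e ^ (Nat.card G).minFac = 1 → e ∈ commutator G) →
      ∃ u : G, u ∉ Subgroup.center G ∧
        ∀ g : G, ¬ Commute g u → (Nat.card G).minFac ^ 2 ≤ Nat.card (orbit (MulAut G) g)) :
    Nat.card (orbitRel.Quotient (MulAut G) G) ≤ Nat.card G / (Nat.card G).minFac := by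
  have hG1 : Nat.card G ≠ 1 := by
    intro h
    apply hna
    haveI : Subsingleton G := (Nat.card_eq_one_iff_unique.1 h).1
    exact ⟨⟨fun a b => Subsingleton.elim _ _⟩⟩
  have hp : (Nat.card G).minFac.Prime := Nat.minFac_prime hG1
  rw [Nat.le_div_iff_mul_le hp.pos]
  by_cases hk : Nat.card (ConjClasses G) * (Nat.card G).minFac ≤ Nat.card G
  · exact le_trans (Nat.mul_le_mul_right _ ao_orbits_le_classes) hk
  · have hD := hE (not_le.1 hk)
    have hDZ := ao_comm_le_center hD
    have hidx := ao_index_center hna
    have hZ : Nat.card (Subgroup.center G) * (Nat.card G).minFac ^ 2 ≤ Nat.card G := by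
      have h := Subgroup.card_mul_index (Subgroup.center G)
      calc Nat.card (Subgroup.center G) * (Nat.card G).minFac ^ 2
          ≤ Nat.card (Subgroup.center G) * (Subgroup.center G).index := Nat.mul_le_mul_left _ hidx
        _ = Nat.card G := h
    have h1 : ∀ g : G, g ∉ Subgroup.center G →
        (Nat.card G).minFac ≤ Nat.card (orbit (MulAut G) g) := fun g hg => ao_orbit_ge g hg
    by_cases hcase : ∃ e ∈ Subgroup.center G, e ^ (Nat.card G).minFac = 1 ∧ e ∉ commutator G
    · obtain ⟨e, heZ, hep, heD⟩ := hcase
      refine ao_count hp.two_le (Subgroup.center G) le_rfl ?_ hZ h1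
        (fun g hg => hA hD hDZ e heZ hep heD g hg)
      refine le_trans (Nat.mul_le_mul_left _ ?_) hZ
      calc (Nat.card G).minFac = (Nat.card G).minFac ^ 1 := (pow_one _).symm
        _ ≤ (Nat.card G).minFac ^ 2 := Nat.pow_le_pow_right hp.pos (by norm_num)
    · have hE' : ∀ e ∈ Subgroup.center G, e ^ (Nat.card G).minFac = 1 → e ∈ commutator G := by
        intro e he hep
        by_contra h
        exact hcase ⟨e, he, hep, h⟩
      obtain ⟨u, hu, horb⟩ := hB hD hDZ hidx hE'
      refine ao_count hp.two_le (Subgroup.centralizer ({u} : Set G))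
        (Subgroup.center_le_centralizer _) ?_ hZ h1 ?_
      · have hne : (Subgroup.centralizer ({u} : Set G)).index ≠ 1 := by
          intro h
          rw [Subgroup.index_eq_one] at h
          apply hu
          rw [Subgroup.mem_center_iff]
          intro x
          have hx : x ∈ Subgroup.centralizer ({u} : Set G) := by rw [h]; exact Subgroup.mem_top _
          exact (Subgroup.mem_centralizer_iff.1 hx u rfl).symm
        have hne0 : (Subgroup.centralizer ({u} : Set G)).index ≠ 0 :=
          Subgroup.index_ne_zero_of_finite
        have hle : (Nat.card G).minFac ≤ (Subgroup.centralizer ({u} : Set G)).index :=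
          Nat.minFac_le_of_dvd (by omega) (Subgroup.index_dvd_card _)
        calc Nat.card (Subgroup.centralizer ({u} : Set G)) * (Nat.card G).minFac
            ≤ Nat.card (Subgroup.centralizer ({u} : Set G))
              * (Subgroup.centralizer ({u} : Set G)).index := Nat.mul_le_mul_left _ hle
          _ = Nat.card G := Subgroup.card_mul_index _
      · intro g hg
        apply horb
        intro hc
        apply hg
        rw [Subgroup.mem_centralizer_iff]
        intro h hh
        rw [Set.mem_singleton_iff] at hh
        subst hh
        exact hc.eq.symm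

end Cfsg.Agent.Lib.helper23
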