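import Cfsg.Agent.Lib.helper23.AutOrbCount2

/-!
# Structure lemmas for the automorphism-orbit bound
-/

namespace Cfsg.Agent.Lib.helper23

open MulAction

/-- Orbits of the automorphism group are unions of conjugacy classes. -/
theorem ao_orbits_le_classes {G : Type*} [Group G] [Finite G] :
    Nat.card (orbitRel.Quotient (MulAut G) G) ≤ Nat.card (ConjClasses G) := by
  let f : ConjClasses G → orbitRel.Quotient (MulAut G) G :=
    Quotient.map' id (by
      intro a b hab
      have hab' : IsConj a b := hab
      rw [isConj_iff] at hab'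
      obtain ⟨c, hc⟩ := hab'
      show a ∈ orbit (MulAut G) b
      refine ⟨MulAut.conj c⁻¹, ?_⟩
      show (MulAut.conj c⁻¹) b = a
      rw [MulAut.conj_apply, ← hc]
      group)
  have hf : Function.Surjective f := by
    intro q
    induction q using Quotient.inductionOn' with
    | h x => exact ⟨Quotient.mk'' x, rfl⟩
  exact Nat.card_le_card_of_surjective f hf

/-- A conjugation orbit is trivial or has at least `minFac |G|` elements. -/
theorem ao_conj_orbit {G : Type*} [Group G] [Finite G] (g : G) (hg : g ∉ Subgroup.center G) :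
    (Nat.card G).minFac ≤ (orbit (ConjAct G) g).ncard := by
  haveI : Finite (ConjAct G) := Finite.of_equiv G ConjAct.toConjAct.toEquiv
  rw [← MulAction.index_stabilizer]
  have hdvd : (stabilizer (ConjAct G) g).index ∣ Nat.card G := by
    have h := Subgroup.index_dvd_card (stabilizer (ConjAct G) g)
    have hc : Nat.card (ConjAct G) = Nat.card G := Nat.card_congr ConjAct.ofConjAct.toEquiv
    rw [hc] at h
    exact h
  have hne1 : (stabilizer (ConjAct G) g).index ≠ 1 := by
    intro h1
    rw [Subgroup.index_eq_one] at h1
    apply hg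
    rw [Subgroup.mem_center_iff]
    intro x
    have hx : ConjAct.toConjAct x ∈ stabilizer (ConjAct G) g := by rw [h1]; exact Subgroup.mem_top _
    rw [mem_stabilizer_iff, ConjAct.toConjAct_smul] at hx
    calc x * g = x * g * x⁻¹ * x := by group
      _ = g * x := by rw [hx]
  have hne0 : (stabilizer (ConjAct G) g).index ≠ 0 := Subgroup.index_ne_zero_of_finite
  exact Nat.minFac_le_of_dvd (by omega) hdvd

theorem ao_orbit_ge {G : Type*} [Group G] [Finite G] (g : G) (hg : g ∉ Subgroup.center G) :
    (Nat.card G).minFac ≤ Nat.card (orbit (MulAut G) g) := by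
  refine le_trans (ao_conj_orbit g hg) ?_
  rw [Nat.card_coe_set_eq]
  apply Set.ncard_le_ncard _ (Set.toFinite _)
  rintro _ ⟨a, rfl⟩
  refine ⟨MulAut.conj (ConjAct.ofConjAct a), ?_⟩
  show (MulAut.conj (ConjAct.ofConjAct a)) g = a • g
  rw [MulAut.conj_apply, ConjAct.smul_def]

/-- A commutator subgroup of order the least prime divisor is central. -/
theorem ao_comm_le_center {G : Type*} [Group G] [Finite G]
    (hD : Nat.card (commutator G) = (Nat.card G).minFac) :
    commutator G ≤ Subgroup.center G := by
  intro d hd
  by_contra hdZ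
  have h1 := ao_conj_orbit d hdZ
  have hd1 : d ≠ 1 := fun h => hdZ (h ▸ Subgroup.one_mem _)
  have hsub : orbit (ConjAct G) d ⊆ (commutator G : Set G) \ {1} := by
    rintro _ ⟨a, rfl⟩
    refine ⟨?_, ?_⟩
    · show a • d ∈ commutator G
      rw [ConjAct.smul_def]
      exact (inferInstance : (commutator G).Normal).conj_mem d hd _
    · intro h
      have h' : a • d = 1 := h
      rw [ConjAct.smul_def] at h'
      apply hd1
      have : d = (ConjAct.ofConjAct a)⁻¹ * (ConjAct.ofConjAct a * d * (ConjAct.ofConjAct a)⁻¹)
          * ConjAct.ofConjAct a := by group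
      rw [this, h']; group
  have h2 := Set.ncard_le_ncard hsub (Set.toFinite _)
  have h3 : ((commutator G : Set G) \ {1}).ncard = (commutator G : Set G).ncard - 1 :=
    Set.ncard_diff_singleton_of_mem (Subgroup.one_mem _)
  have h4 : (commutator G : Set G).ncard = Nat.card (commutator G) :=
    (Nat.card_coe_set_eq _).symm
  have h5 : 0 < (Nat.card G).minFac := Nat.minFac_pos _
  rw [h3, h4, hD] at h2
  omega

/-- In a non-abelian group the centre has index at least the square of the least prime. -/
theorem ao_index_center {G : Type*} [Group G] [Finite G] (hna : ¬ IsMulCommutative G) :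
    (Nat.card G).minFac ^ 2 ≤ (Subgroup.center G).index := by
  have hi0 : (Subgroup.center G).index ≠ 0 := Subgroup.index_ne_zero_of_finite
  have hnp : ¬ (Subgroup.center G).index.Prime := by
    intro hpr
    apply hna
    haveI : Fact (Nat.card (G ⧸ Subgroup.center G)).Prime := ⟨by
      rw [← Subgroup.index_eq_card]; exact hpr⟩
    haveI : IsCyclic (G ⧸ Subgroup.center G) := isCyclic_of_prime_card rfl
    have hcomm := commutative_of_cyclic_center_quotient (QuotientGroup.mk' (Subgroup.center G))
      (by rw [QuotientGroup.ker_mk'])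
    exact ⟨⟨hcomm⟩⟩
  have h1 := Nat.minFac_sq_le_self (Nat.pos_of_ne_zero hi0) hnp
  have hi1 : (Subgroup.center G).index ≠ 1 := by
    intro h
    rw [Subgroup.index_eq_one] at h
    apply hna
    refine ⟨⟨fun a b => ?_⟩⟩
    have hb : b ∈ Subgroup.center G := by rw [h]; exact Subgroup.mem_top _
    exact (Subgroup.mem_center_iff.1 hb) a
  have h2 : (Nat.card G).minFac ≤ (Subgroup.center G).index.minFac := by
    apply Nat.minFac_le_of_dvd (Nat.minFac_prime hi1).two_le
    exact dvd_trans (Nat.minFac_dvd _) (Subgroup.index_dvd_card _)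
  calc (Nat.card G).minFac ^ 2 ≤ (Subgroup.center G).index.minFac ^ 2 := Nat.pow_le_pow_left h2 2
    _ ≤ (Subgroup.center G).index := h1

end Cfsg.Agent.Lib.helper23
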