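import Mathlib
import Cfsg.Agent.Lib.helper23.BPSat3

set_option autoImplicit false

/-!
# Blocks and normal subgroups of `p`-power index: general lemmas
-/

namespace Cfsg.Agent.Lib.helper23

open Cfsg Cfsg.Agent.Lib.helper24 Cfsg.Agent.Lib.helper5
open scoped ComplexConjugate

universe u

section gen

variable {K : Type u} [Group K] [Fintype K]

/-- every irreducible character of a subgroup lies under an irreducible character of the group -/
theorem exists_irr_over (H : Subgroup K) [Fintype H] (ξ : IrrCharacter H) :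
    ∃ χ : IrrCharacter K, classInner (fun n : H => χ.1 n) ξ.1 ≠ 0 := by
  classical
  have hchar : IsCharacter K (indFun H ξ.1) :=
    isCharacter_indFun H (isCharacter_of_isIrrCharacter ξ.2)
  have h1 : indFun H ξ.1 1 ≠ 0 := by
    rw [indFun_one]
    exact mul_ne_zero (Nat.cast_ne_zero.mpr Subgroup.index_ne_zero_of_finite) (irr_one_ne_zero ξ)
  obtain ⟨χ, hχ⟩ := exists_constituent hchar h1
  refine ⟨χ, ?_⟩
  rw [frobenius_reciprocity H ξ.1 (isClassFunction_irr χ)] at hχ
  rw [classInner_conj_symm]
  intro h0
  apply hχ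
  have := congrArg conj h0
  rwa [Complex.conj_conj, map_zero] at this

/-- the central character of a class function supported on a normal subgroup, computed on a
constituent of the restriction -/
theorem coord_of_support_normal (L : Subgroup K) [hL : L.Normal] [Fintype (IrrCharacter K)]
    [Fintype L] [Fintype (IrrCharacter L)]
    (F : K → ℂ) (hF : IsClassFunction K F)
    (hsupp : ∀ k : K, k ∉ L → F k = 0) (χ : IrrCharacter K) (θ : IrrCharacter L)
    (h : classInner (fun n : L => χ.1 n) θ.1 ≠ 0) :
    coord F χ = coord (fun l : L => F l) θ := by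
  classical
  have hFL : IsClassFunction L (fun l : L => F l) := by
    intro g x
    show F ((x * g * x⁻¹ : L) : K) = F g
    rw [Subgroup.coe_mul, Subgroup.coe_mul, Subgroup.coe_inv]
    exact hF _ _
  have hw : ∀ (g : K) (ψ : IrrCharacter L),
      coord (fun l : L => F l) (Cfsg.Agent.Lib.helper5.conjIrr L g ψ)
        = coord (fun l : L => F l) ψ := by
    intro g ψ
    unfold coord
    have h1 : (Cfsg.Agent.Lib.helper5.conjIrr L g ψ).1 1 = ψ.1 1 := by
      show ψ.1 (MulAut.conjNormal g (1 : L)) = ψ.1 1
      rw [map_one]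
    rw [h1]
    congr 1
    rw [← Equiv.sum_comp (MulAut.conjNormal g : L ≃* L).toEquiv (fun l : L => F l * ψ.1 l)]
    apply Finset.sum_congr rfl
    intro l _
    have h2 : F ((MulAut.conjNormal g l : L) : K) = F l := by
      rw [MulAut.conjNormal_apply]
      exact hF _ _
    show F l * ψ.1 (MulAut.conjNormal g l) = F ((MulAut.conjNormal g l : L) : K) * ψ.1 (MulAut.conjNormal g l)
    rw [h2]
  have h1 := coord_extend_coef L (coord (fun l : L => F l)) hw χ θ h
  have h2 : extendByZero L (coef (coord (fun l : L => F l))) = F := by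
    funext k
    by_cases hk : k ∈ L
    · rw [extendByZero_apply_mem L _ hk, coef_coord _ hFL]
    · rw [extendByZero_apply_not_mem L _ hk, hsupp k hk]
  rw [h2] at h1
  exact h1

end gen

section one

variable {G : Type u} [Group G] [Fintype G]
variable {M : Ideal AlgInt} {p : ℕ} [Fact p.Prime]

/-- a pair `(Q, e)` is a `B`-Brauer pair as soon as one character of `e` sees `B` -/
theorem brauerPairOf_of_one (hM : IsPModular p M) (Q : Subgroup G) (hQ : IsPGroup p Q)
    (B : Set (IrrCharacter G)) (hB : IsPBlock M B)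
    (ξ₀ : IrrCharacter (Subgroup.centralizer (Q : Set G)))
    (h : MemLocalIdeal M (brauerOmega Q (blockCoeff B) ξ₀.1 - 1)) :
    IsBrauerPairOf p M B Q (blockOf M ξ₀.1) := by
  classical
  have : Fintype (IrrCharacter G) := Fintype.ofFinite _
  have : Fintype (Subgroup.centralizer (Q : Set G)) := Fintype.ofFinite _
  have : Fintype (IrrCharacter (Subgroup.centralizer (Q : Set G))) := Fintype.ofFinite _
  have hMp := isPModular_isPrime hM
  obtain ⟨χ, rfl⟩ := hB
  refine ⟨⟨hQ, ξ₀, rfl⟩, ⟨χ, rfl⟩, ?_⟩
  intro ξ hξ
  have hsb : SameBlock M ξ₀.1 ξ.1 := hξ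
  rw [brauerOmega_eq_brFun] at h ⊢
  have h2 := brFun_centralizer_sameBlock hM Q (sameBlock_symm hsb)
    (indicator_mem_osimaRing (G := G) hMp χ)
  have h3 := memLocalIdeal_add hMp h2 h
  rw [sub_add_sub_cancel] at h3
  exact h3

end one

end Cfsg.Agent.Lib.helper23
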