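import Mathlib
import Cfsg.Agent.Lib.helper23.BPExt1

set_option autoImplicit false

/-!
# Blocks and normal subgroups of `p`-power index: centralizers in the subgroup and in the group
-/

namespace Cfsg.Agent.Lib.helper23

open Cfsg Cfsg.Agent.Lib.helper24 Cfsg.Agent.Lib.helper5
open scoped ComplexConjugate

universe u

section ext

variable {G : Type u} [Group G]

/-- `N ∩ C_G(R)`, as a subgroup of `C_G(R)`, is the centralizer of `R` in `N` -/
def extIso (N : Subgroup G) (R : Subgroup N) :
    ↥(N.subgroupOf (Subgroup.centralizer ((R.map N.subtype : Subgroup G) : Set G)))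
      ≃* ↥(Subgroup.centralizer (R : Set N)) where
  toFun k := ⟨⟨((k : Subgroup.centralizer ((R.map N.subtype : Subgroup G) : Set G)) : G),
      Subgroup.mem_subgroupOf.mp k.2⟩, by
    rw [Subgroup.mem_centralizer_iff]
    intro r hr
    apply Subtype.ext
    exact Subgroup.mem_centralizer_iff.mp
      (k : Subgroup.centralizer ((R.map N.subtype : Subgroup G) : Set G)).2 (r : G)
      (Subgroup.mem_map_of_mem N.subtype hr)⟩
  invFun m := ⟨⟨((m : N) : G), by
      rw [Subgroup.mem_centralizer_iff]
      rintro h ⟨r, hr, rfl⟩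
      exact congrArg Subtype.val (Subgroup.mem_centralizer_iff.mp m.2 r hr)⟩, by
    rw [Subgroup.mem_subgroupOf]
    exact (m : N).2⟩
  left_inv k := rfl
  right_inv m := rfl
  map_mul' a b := rfl

theorem extIso_coe (N : Subgroup G) (R : Subgroup N)
    (k : ↥(N.subgroupOf (Subgroup.centralizer ((R.map N.subtype : Subgroup G) : Set G)))) :
    (((extIso N R k : Subgroup.centralizer (R : Set N)) : N) : G)
      = ((k : Subgroup.centralizer ((R.map N.subtype : Subgroup G) : Set G)) : G) := rfl

/-- conjugation by an element normalizing `H` on `N ∩ H`, as a subgroup of `H` -/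
def subConjAut (N H : Subgroup G) [hN : N.Normal] (u : G)
    (hu : u ∈ Subgroup.normalizer (H : Set G)) : ↥(N.subgroupOf H) ≃* ↥(N.subgroupOf H) where
  toFun k := ⟨conjAut H u hu (k : H), by
    rw [Subgroup.mem_subgroupOf, conjAut_coe]
    have h := hN.conj_mem _ (Subgroup.mem_subgroupOf.mp k.2) u⁻¹
    rwa [inv_inv] at h⟩
  invFun k := ⟨(conjAut H u hu).symm (k : H), by
    rw [Subgroup.mem_subgroupOf]
    exact hN.conj_mem _ (Subgroup.mem_subgroupOf.mp k.2) u⟩
  left_inv k := by
    apply Subtype.ext
    exact (conjAut H u hu).symm_apply_apply _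
  right_inv k := by
    apply Subtype.ext
    exact (conjAut H u hu).apply_symm_apply _
  map_mul' a b := by
    apply Subtype.ext
    exact map_mul (conjAut H u hu) _ _

theorem subConjAut_coe (N H : Subgroup G) [hN : N.Normal] (u : G)
    (hu : u ∈ Subgroup.normalizer (H : Set G)) (k : ↥(N.subgroupOf H)) :
    (((subConjAut N H u hu k : ↥(N.subgroupOf H)) : H) : G) = u⁻¹ * ((k : H) : G) * u := rfl

theorem irrMap_subConjAut_mul (N H : Subgroup G) [hN : N.Normal] (u v : G)
    (hu : u ∈ Subgroup.normalizer (H : Set G)) (hv : v ∈ Subgroup.normalizer (H : Set G))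
    (huv : u * v ∈ Subgroup.normalizer (H : Set G)) (ξ : IrrCharacter ↥(N.subgroupOf H)) :
    irrMap (subConjAut N H (u * v) huv) ξ
      = irrMap (subConjAut N H u hu) (irrMap (subConjAut N H v hv) ξ) := by
  apply Subtype.ext
  funext k
  have e : subConjAut N H (u * v) huv k = subConjAut N H v hv (subConjAut N H u hu k) := by
    apply Subtype.ext
    apply Subtype.ext
    rw [subConjAut_coe, subConjAut_coe, subConjAut_coe]
    group
  rw [irrMap_apply, irrMap_apply, irrMap_apply, e]

theorem irrMap_subConjAut_congr (N H : Subgroup G) [hN : N.Normal] {u v : G} (h : u = v)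
    (hu : u ∈ Subgroup.normalizer (H : Set G)) (hv : v ∈ Subgroup.normalizer (H : Set G))
    (ξ : IrrCharacter ↥(N.subgroupOf H)) :
    irrMap (subConjAut N H u hu) ξ = irrMap (subConjAut N H v hv) ξ := by
  subst h
  rfl

theorem irrMap_subConjAut_one (N H : Subgroup G) [hN : N.Normal]
    (h1 : (1 : G) ∈ Subgroup.normalizer (H : Set G)) (ξ : IrrCharacter ↥(N.subgroupOf H)) :
    irrMap (subConjAut N H 1 h1) ξ = ξ := by
  apply Subtype.ext
  funext k
  have e : subConjAut N H 1 h1 k = k := by
    apply Subtype.ext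
    apply Subtype.ext
    rw [subConjAut_coe]
    group
  rw [irrMap_apply, e]

theorem sameBlock_subConjAut_pow {M : Ideal AlgInt} (hMp : M.IsPrime) (N H : Subgroup G)
    [hN : N.Normal] (s : G) (hs : s ∈ Subgroup.normalizer (H : Set G))
    (ξ : IrrCharacter ↥(N.subgroupOf H))
    (h : SameBlock M ξ.1 (irrMap (subConjAut N H s hs) ξ).1) (j : ℕ) :
    SameBlock M ξ.1 (irrMap (subConjAut N H (s ^ j) (pow_mem hs j)) ξ).1 := by
  induction j with
  | zero =>
    rw [irrMap_subConjAut_congr N H (pow_zero s) _ (Subgroup.one_mem _) ξ, irrMap_subConjAut_one]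
    exact sameBlock_refl hMp.ne_top _
  | succ j ih =>
    rw [irrMap_subConjAut_congr N H (pow_succ s j) _ (mul_mem (pow_mem hs j) hs) ξ,
      irrMap_subConjAut_mul N H (s ^ j) s (pow_mem hs j) hs _ ξ]
    exact sameBlock_trans hMp ih (irrMap_sameBlock (subConjAut N H (s ^ j) (pow_mem hs j)) h)

/-- conjugation of characters of `N ∩ H` by elements of `H`, in the two notations -/
theorem conjFun_eq_irrMap (N H : Subgroup G) [hN : N.Normal] (y : H)
    (ξ : IrrCharacter ↥(N.subgroupOf H)) :
    Cfsg.Agent.Lib.helper24.conjFun (N.subgroupOf H) ξ.1 y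
      = (irrMap (subConjAut N H ((y : G)⁻¹) (inv_mem (Subgroup.le_normalizer y.2))) ξ).1 := by
  funext k
  have e : ∀ hmem : y * (k : H) * y⁻¹ ∈ N.subgroupOf H,
      (⟨y * (k : H) * y⁻¹, hmem⟩ : ↥(N.subgroupOf H))
      = subConjAut N H ((y : G)⁻¹) (inv_mem (Subgroup.le_normalizer y.2)) k := by
    intro hmem
    apply Subtype.ext
    apply Subtype.ext
    rw [subConjAut_coe, inv_inv]
    rfl
  rw [conjFun_apply, irrMap_apply]
  exact congrArg ξ.1 (e _)

section fin

variable [Fintype G]

/-- restriction to `N ∩ H` commutes with conjugation -/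
theorem classInner_conj_sub (N H : Subgroup G) [hN : N.Normal] [Fintype ↥(N.subgroupOf H)]
    (u : G) (hu : u ∈ Subgroup.normalizer (H : Set G)) (χ : IrrCharacter H)
    (ξ : IrrCharacter ↥(N.subgroupOf H)) :
    classInner (fun n : ↥(N.subgroupOf H) => (conjIrr H u hu χ).1 n)
        (irrMap (subConjAut N H u hu) ξ).1
      = classInner (fun n : ↥(N.subgroupOf H) => χ.1 n) ξ.1 := by
  unfold classInner
  congr 1
  rw [← Equiv.sum_comp (subConjAut N H u hu).toEquiv
    (fun n : ↥(N.subgroupOf H) => χ.1 n * conj (ξ.1 n))]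
  rfl

/-- the Brauer-map values of the common idempotent of `B` and `c`, computed in `G` and in `N` -/
theorem brauerOmega_ext (N : Subgroup G) [hN : N.Normal] (R : Subgroup N)
    [Fintype ↥(N.subgroupOf (Subgroup.centralizer ((R.map N.subtype : Subgroup G) : Set G)))]
    (B : Set (IrrCharacter G)) (c : Set (IrrCharacter N))
    (hBc : ∀ g : G, blockCoeff B g = subgroupBlockCoeff N c g)
    (χ : IrrCharacter (Subgroup.centralizer ((R.map N.subtype : Subgroup G) : Set G)))
    (θ : IrrCharacter (Subgroup.centralizer (R : Set N)))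
    (h : classInner (fun n : ↥(N.subgroupOf
        (Subgroup.centralizer ((R.map N.subtype : Subgroup G) : Set G))) => χ.1 n)
        (irrMap (extIso N R) θ).1 ≠ 0) :
    brauerOmega (R.map N.subtype) (blockCoeff B) χ.1 = brauerOmega R (blockCoeff c) θ.1 := by
  classical
  haveI : Fintype (IrrCharacter (Subgroup.centralizer ((R.map N.subtype : Subgroup G) : Set G))) :=
    Fintype.ofFinite _
  haveI : Fintype (IrrCharacter ↥(N.subgroupOf
    (Subgroup.centralizer ((R.map N.subtype : Subgroup G) : Set G)))) := Fintype.ofFinite _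
  haveI : Fintype (Subgroup.centralizer (R : Set N)) := Fintype.ofFinite _
  haveI : Fintype (IrrCharacter G) := Fintype.ofFinite _
  haveI : Fintype (Subgroup.centralizer ((R.map N.subtype : Subgroup G) : Set G)) :=
    Fintype.ofFinite _
  have hF : IsClassFunction (Subgroup.centralizer ((R.map N.subtype : Subgroup G) : Set G))
      (fun x => blockCoeff B (x : G)) := by
    intro g x
    show blockCoeff B ((x * g * x⁻¹ : Subgroup.centralizer _) : G) = blockCoeff B (g : G)
    rw [Subgroup.coe_mul, Subgroup.coe_mul, Subgroup.coe_inv]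
    exact blockCoeff_isClassFunction B _ _
  have hsupp : ∀ k : Subgroup.centralizer ((R.map N.subtype : Subgroup G) : Set G),
      k ∉ N.subgroupOf (Subgroup.centralizer ((R.map N.subtype : Subgroup G) : Set G)) →
      blockCoeff B (k : G) = 0 := by
    intro k hk
    rw [hBc]
    unfold subgroupBlockCoeff
    exact dif_neg (fun hk' => hk (Subgroup.mem_subgroupOf.mpr hk'))
  have h1 := coord_of_support_normal
    (N.subgroupOf (Subgroup.centralizer ((R.map N.subtype : Subgroup G) : Set G)))
    (fun x => blockCoeff B (x : G)) hF hsupp χ (irrMap (extIso N R) θ) h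
  have h2 : brauerOmega (R.map N.subtype) (blockCoeff B) χ.1
      = coord (fun x : Subgroup.centralizer ((R.map N.subtype : Subgroup G) : Set G) =>
          blockCoeff B (x : G)) χ := by
    unfold brauerOmega coord
    rw [finsum_eq_sum_of_fintype, Finset.sum_div]
  rw [h2, h1]
  unfold brauerOmega coord
  rw [finsum_eq_sum_of_fintype, Finset.sum_div,
    ← Equiv.sum_comp (extIso N R).toEquiv]
  apply Finset.sum_congr rfl
  intro l _
  have h3 : blockCoeff B
      (((l : Subgroup.centralizer ((R.map N.subtype : Subgroup G) : Set G))) : G)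
      = blockCoeff c ((extIso N R l : Subgroup.centralizer (R : Set N)) : N) := by
    rw [hBc]
    unfold subgroupBlockCoeff
    rw [dif_pos (Subgroup.mem_subgroupOf.mp l.2)]
    rfl
  show blockCoeff B (((l : Subgroup.centralizer ((R.map N.subtype : Subgroup G) : Set G))) : G)
      * θ.1 (extIso N R l) / θ.1 (extIso N R 1)
    = blockCoeff c ((extIso N R l : Subgroup.centralizer (R : Set N)) : N)
      * θ.1 (extIso N R l) / θ.1 1
  rw [h3, map_one]

/-- the two conjugation actions on characters of `C_N(R)` agree -/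
theorem irrMap_extIso_conjIrr (N : Subgroup G) [hN : N.Normal] (R : Subgroup N) (x' : N)
    (hx' : x' ∈ Subgroup.normalizer (R : Set N))
    (hx : (x' : G) ∈ Subgroup.normalizer
      ((Subgroup.centralizer ((R.map N.subtype : Subgroup G) : Set G) : Subgroup G) : Set G))
    (θ : IrrCharacter (Subgroup.centralizer (R : Set N))) :
    irrMap (extIso N R) (conjIrr (Subgroup.centralizer (R : Set N)) x'
        (normalizer_le_normalizer_centralizer R hx') θ)
      = irrMap (subConjAut N (Subgroup.centralizer ((R.map N.subtype : Subgroup G) : Set G))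
          (x' : G) hx) (irrMap (extIso N R) θ) := by
  apply Subtype.ext
  funext k
  rw [irrMap_apply, irrMap_apply, irrMap_apply, conjIrr_apply]
  congr 1

end fin

end ext

end Cfsg.Agent.Lib.helper23
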