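import Mathlib
import Cfsg.Agent.Lib.helper23.BPExt2

set_option autoImplicit false

/-!
# Nilpotent blocks and normal subgroups of `p`-power index
-/

namespace Cfsg.Agent.Lib.helper23

open Cfsg Cfsg.Agent.Lib.helper24 Cfsg.Agent.Lib.helper5
open scoped ComplexConjugate

universe u

section grp

variable {G : Type u} [Group G]

/-- a power of `s` that is `p`-regular while `x` (of order prime to `p`) is left fixed -/
theorem exists_pow_eq_self_pRegular [Finite G] {p : ℕ} (hp : p.Prime) (x s : G)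
    (hx : ¬ p ∣ orderOf x) : ∃ j : ℕ, x ^ j = x ∧ ¬ p ∣ orderOf (s ^ j) := by
  have hs0 : orderOf s ≠ 0 := (orderOf_pos s).ne'
  obtain ⟨a, m', hm', hm⟩ := Nat.exists_eq_pow_mul_and_not_dvd hs0 p hp.ne_one
  have hcop : (orderOf x).Coprime (p ^ a) :=
    Nat.Coprime.pow_right a ((Nat.Prime.coprime_iff_not_dvd hp).mpr hx).symm
  obtain ⟨j, hj1, hj2⟩ := Nat.chineseRemainder hcop 1 0
  refine ⟨j, ?_, ?_⟩
  · have := (pow_eq_pow_iff_modEq (x := x) (n := j) (m := 1)).mpr hj1
    rwa [pow_one] at this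
  · have hdvd : p ^ a ∣ j := (Nat.modEq_zero_iff_dvd).mp hj2
    obtain ⟨t, ht⟩ := hdvd
    have h1 : (s ^ j) ^ m' = 1 := by
      rw [← pow_mul, ht, mul_right_comm, ← hm, pow_mul, pow_orderOf_eq_one, one_pow]
    have h2 : orderOf (s ^ j) ∣ m' := orderOf_dvd_of_pow_eq_one h1
    exact fun h => hm' (dvd_trans h h2)

/-- powers of `y * x` with `y` in a subgroup normalized by `x` -/
theorem pow_mul_of_normalizer (C : Subgroup G) (x y : G)
    (hx : x ∈ Subgroup.normalizer (C : Set G)) (hy : y ∈ C) (j : ℕ) :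
    ∃ y' ∈ C, (y * x) ^ j = y' * x ^ j := by
  induction j with
  | zero => exact ⟨1, C.one_mem, by simp⟩
  | succ j ih =>
    obtain ⟨y', hy', h⟩ := ih
    have hxj : x ^ j ∈ Subgroup.normalizer (C : Set G) := pow_mem hx j
    have h1 : x ^ j * y * (x ^ j)⁻¹ ∈ C := (Subgroup.mem_normalizer_iff.mp hxj y).mp hy
    refine ⟨y' * (x ^ j * y * (x ^ j)⁻¹), C.mul_mem hy' h1, ?_⟩
    rw [pow_succ, h, pow_succ]
    group

/-- an element of order prime to `p` acting trivially on `Q` and on `R / Q`, `R` a `p`-group,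
centralizes `R` -/
theorem centralizes_of_stable_series [Finite G] {p : ℕ} [Fact p.Prime] (R Q : Subgroup G)
    (hR : IsPGroup p R) (x : G) (hx : ¬ p ∣ orderOf x)
    (hxQ : x ∈ Subgroup.centralizer (Q : Set G))
    (h : ∀ r ∈ R, r⁻¹ * (x * r * x⁻¹) ∈ Q) (hRR : ∀ r ∈ R, r⁻¹ * (x * r * x⁻¹) ∈ R) :
    x ∈ Subgroup.centralizer (R : Set G) := by
  have hp : p.Prime := Fact.out
  rw [Subgroup.mem_centralizer_iff]
  intro r hr
  obtain ⟨z, hzdef⟩ : ∃ z : G, z = r⁻¹ * (x * r * x⁻¹) := ⟨_, rfl⟩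
  have hz : z ∈ Q := by rw [hzdef]; exact h r hr
  have hzR : z ∈ R := by rw [hzdef]; exact hRR r hr
  have e3 : x * r * x⁻¹ = r * z := by rw [hzdef]; group
  have hcomm : ∀ n : ℕ, x * z ^ n = z ^ n * x := by
    intro n
    have h1 := Subgroup.mem_centralizer_iff.mp hxQ _ (Q.pow_mem hz n)
    exact h1.symm
  have hpow : ∀ n : ℕ, x ^ n * r * (x ^ n)⁻¹ = r * z ^ n := by
    intro n
    induction n with
    | zero => simp
    | succ n ih =>
      calc x ^ (n + 1) * r * (x ^ (n + 1))⁻¹ = x * (x ^ n * r * (x ^ n)⁻¹) * x⁻¹ := by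
            rw [pow_succ']
            group
        _ = x * (r * z ^ n) * x⁻¹ := by rw [ih]
        _ = (x * r * x⁻¹) * (x * z ^ n) * x⁻¹ := by group
        _ = (r * z) * (z ^ n * x) * x⁻¹ := by rw [e3, hcomm n]
        _ = r * z ^ (n + 1) := by
            rw [pow_succ']
            group
  have h1 := hpow (orderOf x)
  rw [pow_orderOf_eq_one] at h1
  have h2 : z ^ orderOf x = 1 := by
    have : r * z ^ orderOf x = r * 1 := by
      rw [← h1]
      group
    exact mul_left_cancel this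
  have h3 : orderOf z ∣ orderOf x := orderOf_dvd_of_pow_eq_one h2
  obtain ⟨k, hk⟩ := hR ⟨z, hzR⟩
  have hk' : z ^ p ^ k = 1 := congrArg Subtype.val hk
  have h4 : orderOf z ∣ p ^ k := orderOf_dvd_of_pow_eq_one hk'
  have hcop : Nat.Coprime (p ^ k) (orderOf x) :=
    Nat.Coprime.pow_left k ((Nat.Prime.coprime_iff_not_dvd hp).mpr hx)
  have h5 := Nat.eq_one_of_dvd_coprimes hcop h4 h3
  have h6 : z = 1 := orderOf_eq_one_iff.mp h5
  have h7 : x * r * x⁻¹ = r := by rw [e3, h6, mul_one]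
  calc r * x = (x * r * x⁻¹) * x := by rw [h7]
    _ = x * r := by group

end grp

end Cfsg.Agent.Lib.helper23
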