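import Mathlib
import Cfsg.Agent.Lib.helper23.BPExt3

set_option autoImplicit false

/-!
# Nilpotent blocks and normal subgroups of `p`-power index: the main theorem
-/

namespace Cfsg.Agent.Lib.helper23

open Cfsg Cfsg.Agent.Lib.helper24 Cfsg.Agent.Lib.helper5
open scoped ComplexConjugate

universe u

section fin

variable {G : Type u} [Group G] [Fintype G]
variable {M : Ideal AlgInt} {p : ℕ} [Fact p.Prime]

theorem index_subgroupOf_pow (N : Subgroup G) [hN : N.Normal] (H : Subgroup G) {k : ℕ}
    (hk : N.index = p ^ k) : ∃ m : ℕ, (N.subgroupOf H).index = p ^ m := by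
  have hp : p.Prime := Fact.out
  have h1 : (N.subgroupOf H).index ∣ p ^ k := by
    rw [← hk]
    exact Subgroup.relIndex_dvd_index_of_normal N H
  obtain ⟨m, -, hm⟩ := (Nat.dvd_prime_pow hp).mp h1
  exact ⟨m, hm⟩

/-- going down: if `B` is nilpotent then so is `c` -/
theorem nilpotent_of_nilpotent_ext (hM : IsPModular p M) (N : Subgroup G) [hN : N.Normal]
    (hidx : ∃ k : ℕ, N.index = p ^ k) (c : Set (IrrCharacter N)) (hc : IsPBlock M c)
    (B : Set (IrrCharacter G)) (hB : IsPBlock M B)
    (hBc : ∀ g : G, blockCoeff B g = subgroupBlockCoeff N c g)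
    (hnil : IsNilpotentBlock p M B) : IsNilpotentBlock p M c := by
  classical
  refine ⟨hc, ?_⟩
  intro R g hRg x' hx'N hst hreg
  have hMp := isPModular_isPrime hM
  obtain ⟨k, hk⟩ := hidx
  obtain ⟨⟨hRp, hgblock⟩, -, hω⟩ := hRg
  obtain ⟨θ₀, rfl⟩ := hgblock
  have hθ₀ := mem_blockOf_self hMp.ne_top θ₀
  haveI : Fintype (IrrCharacter (Subgroup.centralizer ((R.map N.subtype : Subgroup G) : Set G))) :=
    Fintype.ofFinite _
  haveI : Fintype (IrrCharacter ↥(N.subgroupOf
    (Subgroup.centralizer ((R.map N.subtype : Subgroup G) : Set G)))) := Fintype.ofFinite _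
  obtain ⟨χ, hχ⟩ := exists_irr_over
    (N.subgroupOf (Subgroup.centralizer ((R.map N.subtype : Subgroup G) : Set G)))
    (irrMap (extIso N R) θ₀)
  have hA := brauerOmega_ext N R B c hBc χ θ₀ hχ
  have hpair : IsBrauerPairOf p M B (R.map N.subtype) (blockOf M χ.1) := by
    apply brauerPairOf_of_one hM _ (hRp.map _) B hB χ
    rw [hA]
    exact hω θ₀ hθ₀
  have hxN : (x' : G) ∈ Subgroup.normalizer ((R.map N.subtype : Subgroup G) : Set G) :=
    mem_normalizer_map_subtype N R x' hx'N
  have hxC := normalizer_le_normalizer_centralizer _ hxN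
  have hst' : StabilizesBlock (Subgroup.centralizer ((R.map N.subtype : Subgroup G) : Set G))
      (blockOf M χ.1) (x' : G) := by
    rw [stabilizesBlock_iff _ _ hxC]
    intro χ' hχ'
    have h1 : SameBlock M χ.1 (conjIrr _ (x' : G) hxC χ).1 := by
      obtain ⟨m, hm⟩ := index_subgroupOf_pow N
        (Subgroup.centralizer ((R.map N.subtype : Subgroup G) : Set G)) hk
      have h2 : SameBlock M (irrMap (extIso N R) θ₀).1
          (irrMap (subConjAut N (Subgroup.centralizer ((R.map N.subtype : Subgroup G) : Set G))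
            (x' : G) hxC) (irrMap (extIso N R) θ₀)).1 := by
        rw [← irrMap_extIso_conjIrr N R x' hx'N hxC θ₀]
        apply irrMap_sameBlock
        exact (stabilizesBlock_iff _ x' (normalizer_le_normalizer_centralizer R hx'N) _).mp hst
          θ₀ hθ₀
      have h3 : classInner (fun n : ↥(N.subgroupOf
          (Subgroup.centralizer ((R.map N.subtype : Subgroup G) : Set G))) =>
            (conjIrr _ (x' : G) hxC χ).1 n)
          (irrMap (subConjAut N (Subgroup.centralizer ((R.map N.subtype : Subgroup G) : Set G))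
            (x' : G) hxC) (irrMap (extIso N R) θ₀)).1 ≠ 0 := by
        rw [classInner_conj_sub]
        exact hχ
      exact sameBlock_of_cover_index_pow
        (N.subgroupOf (Subgroup.centralizer ((R.map N.subtype : Subgroup G) : Set G))) hM hm
        h2 hχ h3
    exact sameBlock_trans hMp h1 (conjIrr_sameBlock M _ _ hxC hχ')
  have hreg' : IsPRegular p (x' : G) := by
    unfold IsPRegular at hreg ⊢
    rwa [Subgroup.orderOf_coe]
  have hcen := hnil.2 _ _ hpair (x' : G) hxN hst' hreg'
  rw [Subgroup.mem_centralizer_iff]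
  intro r hr
  apply Subtype.ext
  exact Subgroup.mem_centralizer_iff.mp hcen (r : G) (Subgroup.mem_map_of_mem N.subtype hr)

end fin

end Cfsg.Agent.Lib.helper23
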