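import Mathlib
import Cfsg.Agent.Lib.helper23.BPExt4

set_option autoImplicit false

/-!
# Nilpotent blocks and normal subgroups of `p`-power index: going up
-/

namespace Cfsg.Agent.Lib.helper23

open Cfsg Cfsg.Agent.Lib.helper24 Cfsg.Agent.Lib.helper5
open scoped ComplexConjugate

universe u

section fin

variable {G : Type u} [Group G] [Fintype G]
variable {M : Ideal AlgInt} {p : ℕ} [Fact p.Prime]

theorem isPGroup_of_map_subtype (N : Subgroup G) (R : Subgroup N)
    (h : IsPGroup p (R.map N.subtype)) : IsPGroup p R := by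
  intro r
  obtain ⟨k, hk⟩ := h ⟨(r : N), Subgroup.mem_map_of_mem N.subtype r.2⟩
  refine ⟨k, ?_⟩
  have h1 : ((r : N) : G) ^ p ^ k = 1 := by
    have := congrArg Subtype.val hk
    rwa [Subgroup.coe_pow, Subgroup.coe_one] at this
  apply Subtype.ext
  apply Subtype.ext
  rw [Subgroup.coe_pow, Subgroup.coe_pow, Subgroup.coe_one, Subgroup.coe_one]
  exact h1

theorem mem_normalizer_of_map_subtype (N : Subgroup G) (R : Subgroup N) (t : N)
    (ht : (t : G) ∈ Subgroup.normalizer ((R.map N.subtype : Subgroup G) : Set G)) :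
    t ∈ Subgroup.normalizer (R : Set N) := by
  rw [Subgroup.mem_normalizer_iff]
  intro a
  have h := Subgroup.mem_normalizer_iff.mp ht (a : G)
  constructor
  · intro ha
    obtain ⟨b, hb, hbe⟩ := Subgroup.mem_map.mp (h.mp (Subgroup.mem_map_of_mem N.subtype ha))
    have : b = t * a * t⁻¹ := Subtype.ext hbe
    rw [← this]
    exact hb
  · intro ha
    obtain ⟨b, hb, hbe⟩ := Subgroup.mem_map.mp (h.mpr (Subgroup.mem_map_of_mem N.subtype ha))
    have : b = a := Subtype.ext hbe
    rw [← this]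
    exact hb

/-- the core of going up: pairs on subgroups of `N` -/
theorem centralizes_of_nilpotent_sub (hM : IsPModular p M) (N : Subgroup G) [hN : N.Normal]
    (hidx : ∃ k : ℕ, N.index = p ^ k) (c : Set (IrrCharacter N)) (hc : IsPBlock M c)
    (B : Set (IrrCharacter G))
    (hBc : ∀ g : G, blockCoeff B g = subgroupBlockCoeff N c g)
    (hnil : IsNilpotentBlock p M c) (R : Subgroup N)
    (g₁ : Set (IrrCharacter (Subgroup.centralizer ((R.map N.subtype : Subgroup G) : Set G))))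
    (hpair : IsBrauerPairOf p M B (R.map N.subtype) g₁) (x : G)
    (hxN : x ∈ Subgroup.normalizer ((R.map N.subtype : Subgroup G) : Set G))
    (hst : StabilizesBlock (Subgroup.centralizer ((R.map N.subtype : Subgroup G) : Set G)) g₁ x)
    (hreg : IsPRegular p x) :
    x ∈ Subgroup.centralizer ((R.map N.subtype : Subgroup G) : Set G) := by
  classical
  have hMp := isPModular_isPrime hM
  have hp : p.Prime := Fact.out
  obtain ⟨k, hk⟩ := hidx
  obtain ⟨⟨hRp', hg₁⟩, -, hω⟩ := hpair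
  obtain ⟨χ, rfl⟩ := hg₁
  have hχ := mem_blockOf_self hMp.ne_top χ
  have hxC := normalizer_le_normalizer_centralizer _ hxN
  haveI : Fintype (IrrCharacter (Subgroup.centralizer ((R.map N.subtype : Subgroup G) : Set G))) :=
    Fintype.ofFinite _
  haveI : Fintype (IrrCharacter ↥(N.subgroupOf
    (Subgroup.centralizer ((R.map N.subtype : Subgroup G) : Set G)))) := Fintype.ofFinite _
  obtain ⟨ξ, hξ⟩ := exists_constituent_restrict
    (N.subgroupOf (Subgroup.centralizer ((R.map N.subtype : Subgroup G) : Set G))) χ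
  obtain ⟨θ₀, hθ₀def⟩ : ∃ θ₀ : IrrCharacter (Subgroup.centralizer (R : Set N)),
      θ₀ = irrMap (extIso N R).symm ξ := ⟨_, rfl⟩
  have hξθ : irrMap (extIso N R) θ₀ = ξ := by
    rw [hθ₀def]
    exact irrMap_irrMap_symm (extIso N R) ξ
  have hA := brauerOmega_ext N R B c hBc χ θ₀ (by rw [hξθ]; exact hξ)
  have hRp : IsPGroup p R := isPGroup_of_map_subtype N R hRp'
  have hcpair : IsBrauerPairOf p M c R (blockOf M θ₀.1) := by
    apply brauerPairOf_of_one hM R hRp c hc θ₀
    rw [← hA]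
    exact hω χ hχ
  -- the conjugate character
  have h1 : SameBlock M χ.1 (conjIrr _ x hxC χ).1 :=
    (stabilizesBlock_iff _ x hxC _).mp hst χ hχ
  have h2 : classInner (fun n : ↥(N.subgroupOf
      (Subgroup.centralizer ((R.map N.subtype : Subgroup G) : Set G))) =>
        (conjIrr _ x hxC χ).1 n)
      (irrMap (subConjAut N (Subgroup.centralizer ((R.map N.subtype : Subgroup G) : Set G))
        x hxC) ξ).1 ≠ 0 := by
    rw [classInner_conj_sub]
    exact hξ
  obtain ⟨y, hy⟩ := cover_conj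
    (N.subgroupOf (Subgroup.centralizer ((R.map N.subtype : Subgroup G) : Set G))) hMp h1 hξ h2
  have hyN : (y : G)⁻¹ ∈ Subgroup.normalizer
      ((Subgroup.centralizer ((R.map N.subtype : Subgroup G) : Set G) : Subgroup G) : Set G) :=
    inv_mem (Subgroup.le_normalizer y.2)
  have hsN : (y : G)⁻¹ * x ∈ Subgroup.normalizer
      ((Subgroup.centralizer ((R.map N.subtype : Subgroup G) : Set G) : Subgroup G) : Set G) :=
    mul_mem hyN hxC
  have hs : SameBlock M ξ.1 (irrMap (subConjAut N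
      (Subgroup.centralizer ((R.map N.subtype : Subgroup G) : Set G)) ((y : G)⁻¹ * x) hsN) ξ).1 := by
    rw [irrMap_subConjAut_mul N _ ((y : G)⁻¹) x hyN hxC hsN ξ, ← conjFun_eq_irrMap]
    exact hy
  -- the power
  obtain ⟨j, hj1, hj2⟩ := exists_pow_eq_self_pRegular hp x ((y : G)⁻¹ * x) hreg
  have hsj := sameBlock_subConjAut_pow hMp N _ ((y : G)⁻¹ * x) hsN ξ hs j
  have hsjN : ((y : G)⁻¹ * x) ^ j ∈ N := mem_of_pRegular_of_index_pow N hp hk hj2
  have hsR : (y : G)⁻¹ * x ∈ Subgroup.normalizer ((R.map N.subtype : Subgroup G) : Set G) :=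
    mul_mem (inv_mem (Subgroup.centralizer_le_normalizer _ y.2)) hxN
  have htN : (⟨((y : G)⁻¹ * x) ^ j, hsjN⟩ : N) ∈ Subgroup.normalizer (R : Set N) :=
    mem_normalizer_of_map_subtype N R _ (pow_mem hsR j)
  have htst : StabilizesBlock (Subgroup.centralizer (R : Set N)) (blockOf M θ₀.1)
      (⟨((y : G)⁻¹ * x) ^ j, hsjN⟩ : N) := by
    rw [stabilizesBlock_iff _ _ (normalizer_le_normalizer_centralizer R htN)]
    intro θ hθ
    have h3 : SameBlock M θ₀.1 (conjIrr (Subgroup.centralizer (R : Set N))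
        (⟨((y : G)⁻¹ * x) ^ j, hsjN⟩ : N) (normalizer_le_normalizer_centralizer R htN) θ₀).1 := by
      have h4 := irrMap_extIso_conjIrr N R (⟨((y : G)⁻¹ * x) ^ j, hsjN⟩ : N) htN (pow_mem hsN j) θ₀
      rw [hξθ] at h4
      have h5 : SameBlock M (irrMap (extIso N R) θ₀).1
          (irrMap (extIso N R) (conjIrr (Subgroup.centralizer (R : Set N))
            (⟨((y : G)⁻¹ * x) ^ j, hsjN⟩ : N) (normalizer_le_normalizer_centralizer R htN) θ₀)).1 := by
        rw [h4, hξθ]
        exact hsj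
      have h6 := irrMap_sameBlock (extIso N R).symm h5
      rwa [irrMap_symm_irrMap, irrMap_symm_irrMap] at h6
    exact sameBlock_trans hMp h3 (conjIrr_sameBlock M _ _ _ hθ)
  have htreg : IsPRegular p (⟨((y : G)⁻¹ * x) ^ j, hsjN⟩ : N) := by
    unfold IsPRegular
    rw [← Subgroup.orderOf_coe]
    exact hj2
  have htc := hnil.2 R _ hcpair _ htN htst htreg
  have hsjC : ((y : G)⁻¹ * x) ^ j
      ∈ Subgroup.centralizer ((R.map N.subtype : Subgroup G) : Set G) := by
    rw [Subgroup.mem_centralizer_iff]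
    rintro h ⟨r, hr, rfl⟩
    exact congrArg Subtype.val (Subgroup.mem_centralizer_iff.mp htc r hr)
  obtain ⟨y', hy'C, hy'⟩ := pow_mul_of_normalizer
    (Subgroup.centralizer ((R.map N.subtype : Subgroup G) : Set G)) x ((y : G)⁻¹) hxC
    (inv_mem y.2) j
  rw [hj1] at hy'
  have hx : x = y'⁻¹ * ((y : G)⁻¹ * x) ^ j := by
    rw [hy']
    group
  rw [hx]
  exact mul_mem (inv_mem hy'C) hsjC

/-- going up: if `c` is nilpotent then so is `B` -/
theorem nilpotent_ext_of_nilpotent (hM : IsPModular p M) (N : Subgroup G) [hN : N.Normal]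
    (hidx : ∃ k : ℕ, N.index = p ^ k) (c : Set (IrrCharacter N)) (hc : IsPBlock M c)
    (B : Set (IrrCharacter G)) (hB : IsPBlock M B)
    (hBc : ∀ g : G, blockCoeff B g = subgroupBlockCoeff N c g)
    (hnil : IsNilpotentBlock p M c) : IsNilpotentBlock p M B := by
  classical
  refine ⟨hB, ?_⟩
  intro R₁ g' hpair x hxN hst hreg
  have hMp := isPModular_isPrime hM
  have hp : p.Prime := Fact.out
  obtain ⟨k, hk⟩ := hidx
  have hxmem : x ∈ N := mem_of_pRegular_of_index_pow N hp hk hreg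
  have hR₀ : (R₁.subgroupOf N).map N.subtype = R₁ ⊓ N := Subgroup.subgroupOf_map_subtype R₁ N
  have hle : (R₁.subgroupOf N).map N.subtype ≤ R₁ := by
    rw [hR₀]
    exact inf_le_left
  have hxN₀ : x ∈ Subgroup.normalizer (((R₁.subgroupOf N).map N.subtype : Subgroup G) : Set G) := by
    rw [hR₀, Subgroup.mem_normalizer_iff]
    intro a
    rw [Subgroup.mem_inf, Subgroup.mem_inf]
    constructor
    · rintro ⟨h1, h2⟩
      exact ⟨(Subgroup.mem_normalizer_iff.mp hxN a).mp h1, hN.conj_mem a h2 x⟩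
    · rintro ⟨h1, h2⟩
      refine ⟨(Subgroup.mem_normalizer_iff.mp hxN a).mpr h1, ?_⟩
      have h3 := hN.conj_mem _ h2 x⁻¹
      have e : x⁻¹ * (x * a * x⁻¹) * x⁻¹⁻¹ = a := by group
      rwa [e] at h3
  obtain ⟨g₁, hg₁, hsub⟩ := exists_subpairLE hM _ R₁ ((R₁.subgroupOf N).map N.subtype) g'
    hpair.1 hle rfl
  have hpair₀ : IsBrauerPairOf p M B ((R₁.subgroupOf N).map N.subtype) g₁ :=
    (brauerPairOf_iff_of_subpairLE hM R₁ _ g' g₁ hsub B).mp hpair
  have hst₀ : StabilizesBlock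
      (Subgroup.centralizer (((R₁.subgroupOf N).map N.subtype : Subgroup G) : Set G)) g₁ x := by
    have e1 : conjIdx x ⟨R₁, g'⟩ = ⟨R₁, g'⟩ :=
      conjIdx_eq_of_stab hMp R₁ g' hpair.1.2 x hxN hst
    have e2 := conjIdx_chain p M x hsub
    rw [e1] at e2
    have e3 : conjIdx x ⟨(R₁.subgroupOf N).map N.subtype, g₁⟩
        = ⟨(R₁.subgroupOf N).map N.subtype, g₁⟩ :=
      idx_eq_of_le_of_fst_eq hM R₁ g' hpair.1 _ _ e2 hsub
        (map_conj_eq_of_mem_normalizer _ x hxN₀)
    exact ((mem_stabSub_iff hM _ g₁ hpair₀.1 x).mp e3).2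
  have hcen₀ := centralizes_of_nilpotent_sub hM N ⟨k, hk⟩ c hc B hBc hnil (R₁.subgroupOf N) g₁
    hpair₀ x hxN₀ hst₀ hreg
  apply centralizes_of_stable_series R₁ ((R₁.subgroupOf N).map N.subtype) hpair.1.1 x hreg hcen₀
  · intro r hr
    rw [hR₀, Subgroup.mem_inf]
    refine ⟨R₁.mul_mem (R₁.inv_mem hr) ((Subgroup.mem_normalizer_iff.mp hxN r).mp hr), ?_⟩
    have h1 : r⁻¹ * x * r⁻¹⁻¹ ∈ N := hN.conj_mem x hxmem r⁻¹
    have h2 := N.mul_mem h1 (N.inv_mem hxmem)
    have e : r⁻¹ * x * r⁻¹⁻¹ * x⁻¹ = r⁻¹ * (x * r * x⁻¹) := by group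
    rwa [e] at h2
  · intro r hr
    exact R₁.mul_mem (R₁.inv_mem hr) ((Subgroup.mem_normalizer_iff.mp hxN r).mp hr)

/-- a stable block of a normal subgroup of `p`-power index is nilpotent iff the block of the
group with the same idempotent is -/
theorem nilpotent_iff_ext (hM : IsPModular p M) (N : Subgroup G) [hN : N.Normal]
    (hidx : ∃ k : ℕ, N.index = p ^ k) (c : Set (IrrCharacter N)) (hc : IsPBlock M c)
    (B : Set (IrrCharacter G)) (hB : IsPBlock M B)
    (hBc : ∀ g : G, blockCoeff B g = subgroupBlockCoeff N c g) :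
    IsNilpotentBlock p M c ↔ IsNilpotentBlock p M B :=
  ⟨nilpotent_ext_of_nilpotent hM N hidx c hc B hB hBc,
    nilpotent_of_nilpotent_ext hM N hidx c hc B hB hBc⟩

end fin

end Cfsg.Agent.Lib.helper23
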