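import Mathlib
import Cfsg.Agent.Lib.helper23.BPExt5

set_option autoImplicit false

/-!
# The idempotent of a block over a normal `p`-subgroup is a trace of a centralizer block
-/

namespace Cfsg.Agent.Lib.helper23

open Cfsg Cfsg.Agent.Lib.helper24 Cfsg.Agent.Lib.helper5
open scoped ComplexConjugate

universe u

section trace

variable {G : Type u} [Group G] [Fintype G]

omit [Fintype G] in
/-- the two conventions for conjugate characters -/
theorem conjIrr_eq_conjIrr5 (N : Subgroup G) [hN : N.Normal] (u : G)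
    (hu : u ∈ Subgroup.normalizer (N : Set G)) (θ : IrrCharacter N) :
    conjIrr N u hu θ = Cfsg.Agent.Lib.helper5.conjIrr N u⁻¹ θ := by
  apply Subtype.ext
  funext h
  show θ.1 (conjAut N u hu h) = θ.1 ⟨u⁻¹ * (h : G) * u⁻¹⁻¹, _⟩
  have e : conjAut N u hu h = ⟨u⁻¹ * (h : G) * u⁻¹⁻¹, hN.conj_mem h h.2 u⁻¹⟩ := by
    apply Subtype.ext
    rw [conjAut_coe]
    simp
  rw [e]

omit [Fintype G] in
/-- coefficients at a conjugate element, without invariance -/
theorem coef_conj_general (N : Subgroup G) [hN : N.Normal] [Fintype N] [Fintype (IrrCharacter N)]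
    (w : IrrCharacter N → ℂ) (g : G) (n : N) :
    coef w (⟨g * n * g⁻¹, hN.conj_mem n n.2 g⟩ : N)
      = coef (fun ψ => w (Cfsg.Agent.Lib.helper5.conjIrr N g⁻¹ ψ)) n := by
  unfold coef
  congr 1
  have h1 := Equiv.sum_comp (conjIrrEquiv N g)
    (fun ψ' : IrrCharacter N =>
      w (Cfsg.Agent.Lib.helper5.conjIrr N g⁻¹ ψ') * (ψ'.1 1 * conj (ψ'.1 n)))
  rw [← h1]
  apply Finset.sum_congr rfl
  intro ψ _
  show w ψ * (ψ.1 1 * conj (ψ.1 ⟨g * n * g⁻¹, hN.conj_mem n n.2 g⟩))
    = w (Cfsg.Agent.Lib.helper5.conjIrr N g⁻¹ (Cfsg.Agent.Lib.helper5.conjIrr N g ψ))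
      * ((Cfsg.Agent.Lib.helper5.conjIrr N g ψ).1 1
        * conj ((Cfsg.Agent.Lib.helper5.conjIrr N g ψ).1 n))
  rw [← Cfsg.Agent.Lib.helper5.conjIrr_mul, mul_inv_cancel, Cfsg.Agent.Lib.helper5.conjIrr_one]
  have e1 : (Cfsg.Agent.Lib.helper5.conjIrr N g ψ).1 1 = ψ.1 1 := by
    show ψ.1 ⟨g * ((1 : N) : G) * g⁻¹, _⟩ = ψ.1 1
    exact congrArg ψ.1 (Subtype.ext (by simp))
  rw [e1]
  rfl

/-- the union of the `G`-conjugates of a set of characters of a normal subgroup -/
def orbSet (N : Subgroup G) [N.Normal] (e : Set (IrrCharacter N)) : Set (IrrCharacter N) :=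
  {ψ | ∃ x : G, Cfsg.Agent.Lib.helper5.conjIrr N x ψ ∈ e}

omit [Fintype G] in
theorem orbSet_inv (N : Subgroup G) [N.Normal] (e : Set (IrrCharacter N)) (g : G)
    (ψ : IrrCharacter N) :
    Cfsg.Agent.Lib.helper5.conjIrr N g ψ ∈ orbSet N e ↔ ψ ∈ orbSet N e := by
  constructor
  · rintro ⟨x, hx⟩
    refine ⟨g * x, ?_⟩
    rw [Cfsg.Agent.Lib.helper5.conjIrr_mul]
    exact hx
  · rintro ⟨x, hx⟩
    refine ⟨g⁻¹ * x, ?_⟩
    rw [← Cfsg.Agent.Lib.helper5.conjIrr_mul, mul_inv_cancel_left]
    exact hx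

omit [Fintype G] in
theorem subset_orbSet (N : Subgroup G) [N.Normal] (e : Set (IrrCharacter N)) :
    e ⊆ orbSet N e := by
  intro ψ hψ
  refine ⟨1, ?_⟩
  rw [Cfsg.Agent.Lib.helper5.conjIrr_one]
  exact hψ

variable {M : Ideal AlgInt}

omit [Fintype G] in
theorem orbSet_closed (hMp : M.IsPrime) (N : Subgroup G) [N.Normal] (e : Set (IrrCharacter N))
    (he : IsPBlock M e) (ξ : IrrCharacter N) (hξ : ξ ∈ orbSet N e) (ξ' : IrrCharacter N)
    (h : SameBlock M ξ.1 ξ'.1) : ξ' ∈ orbSet N e := by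
  obtain ⟨x, hx⟩ := hξ
  obtain ⟨ξ₀, rfl⟩ := he
  refine ⟨x, ?_⟩
  have h1 : SameBlock M ξ₀.1 (Cfsg.Agent.Lib.helper5.conjIrr N x ξ).1 := hx
  have h2 : SameBlock M (Cfsg.Agent.Lib.helper5.conjIrr N x ξ).1
      (Cfsg.Agent.Lib.helper5.conjIrr N x ξ').1 := sameBlock_conjFun N x h
  exact sameBlock_trans hMp h1 h2

omit [Fintype G] in
/-- for a member `η` of a block `e`, the elements moving `η` into `e` are the stabilizer -/
theorem conj_mem_iff_stab (hMp : M.IsPrime) (N : Subgroup G) [hN : N.Normal]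
    (e : Set (IrrCharacter N)) (he : IsPBlock M e) (T : Subgroup G)
    (hT : ∀ x : G, x ∈ T ↔ StabilizesBlock N e x) (η : IrrCharacter N) (hη : η ∈ e) (x : G) :
    Cfsg.Agent.Lib.helper5.conjIrr N x η ∈ e ↔ x ∈ T := by
  have hnorm : ∀ y : G, y ∈ Subgroup.normalizer (N : Set G) := fun y => by
    rw [Subgroup.normalizer_eq_top]; exact Subgroup.mem_top y
  constructor
  · intro hx
    have : x⁻¹ ∈ T := by
      rw [hT, stabilizesBlock_iff N x⁻¹ (hnorm _)]
      intro θ hθ
      rw [conjIrr_eq_conjIrr5, inv_inv]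
      obtain ⟨ξ₀, rfl⟩ := he
      have h1 : SameBlock M ξ₀.1 η.1 := hη
      have h2 : SameBlock M ξ₀.1 θ.1 := hθ
      have h3 : SameBlock M η.1 θ.1 := sameBlock_trans hMp (sameBlock_symm h1) h2
      have h4 : SameBlock M (Cfsg.Agent.Lib.helper5.conjIrr N x η).1
          (Cfsg.Agent.Lib.helper5.conjIrr N x θ).1 := sameBlock_conjFun N x h3
      have h5 : SameBlock M ξ₀.1 (Cfsg.Agent.Lib.helper5.conjIrr N x η).1 := hx
      exact sameBlock_trans hMp h5 h4
    simpa using inv_mem this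
  · intro hx
    have h1 : x⁻¹ ∈ T := inv_mem hx
    rw [hT, stabilizesBlock_iff N x⁻¹ (hnorm _)] at h1
    have h2 := h1 η hη
    rw [conjIrr_eq_conjIrr5, inv_inv] at h2
    exact h2

/-- counting the conjugates of a block containing a given character -/
theorem count_conj (hMp : M.IsPrime) (N : Subgroup G) [hN : N.Normal]
    (e : Set (IrrCharacter N)) (he : IsPBlock M e) (T : Subgroup G)
    (hT : ∀ x : G, x ∈ T ↔ StabilizesBlock N e x) (ψ : IrrCharacter N) :
    ∑ x : G, e.indicator (fun _ => (1 : ℂ)) (Cfsg.Agent.Lib.helper5.conjIrr N x ψ)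
      = (Nat.card T : ℂ) * (orbSet N e).indicator (fun _ => (1 : ℂ)) ψ := by
  classical
  by_cases hψ : ψ ∈ orbSet N e
  · obtain ⟨x₀, hx₀⟩ := hψ
    rw [Set.indicator_of_mem (show ψ ∈ orbSet N e from ⟨x₀, hx₀⟩), mul_one]
    rw [← Equiv.sum_comp (Equiv.mulLeft x₀)]
    have h1 : ∀ x : G, e.indicator (fun _ => (1 : ℂ))
        (Cfsg.Agent.Lib.helper5.conjIrr N (Equiv.mulLeft x₀ x) ψ)
          = if x ∈ T then (1 : ℂ) else 0 := by
      intro x
      rw [Equiv.coe_mulLeft, Cfsg.Agent.Lib.helper5.conjIrr_mul]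
      by_cases hx : x ∈ T
      · rw [if_pos hx, Set.indicator_of_mem ((conj_mem_iff_stab hMp N e he T hT _ hx₀ x).mpr hx)]
      · rw [if_neg hx, Set.indicator_of_notMem
          (fun h => hx ((conj_mem_iff_stab hMp N e he T hT _ hx₀ x).mp h))]
    rw [Finset.sum_congr rfl (fun x _ => h1 x), Finset.sum_boole]
    congr 1
    rw [Nat.card_eq_fintype_card, Fintype.card_subtype]
  · rw [Set.indicator_of_notMem hψ, mul_zero]
    apply Finset.sum_eq_zero
    intro x _
    apply Set.indicator_of_notMem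
    intro h
    exact hψ ⟨x, h⟩

/-- the sum of the conjugates of the idempotent of a block of a normal subgroup -/
theorem sum_conj_subgroupBlockCoeff (hMp : M.IsPrime) (N : Subgroup G) [hN : N.Normal]
    (e : Set (IrrCharacter N)) (he : IsPBlock M e) (T : Subgroup G)
    (hT : ∀ x : G, x ∈ T ↔ StabilizesBlock N e x) (g : G) :
    ∑ x : G, subgroupBlockCoeff N e (x⁻¹ * g * x)
      = (Nat.card T : ℂ) * extendByZero N (blockCoeff (orbSet N e)) g := by
  classical
  haveI : Fintype N := Fintype.ofFinite _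
  haveI : Fintype (IrrCharacter N) := Fintype.ofFinite _
  by_cases hg : g ∈ N
  · rw [extendByZero_apply_mem N _ hg]
    have h1 : ∀ x : G, subgroupBlockCoeff N e (x⁻¹ * g * x)
        = coef (fun ψ : IrrCharacter N =>
            e.indicator (fun _ => (1 : ℂ)) (Cfsg.Agent.Lib.helper5.conjIrr N x ψ)) ⟨g, hg⟩ := by
      intro x
      have hmem : x⁻¹ * g * x ∈ N := by
        have := hN.conj_mem g hg x⁻¹
        rwa [inv_inv] at this
      have h2 : subgroupBlockCoeff N e (x⁻¹ * g * x) = blockCoeff e ⟨x⁻¹ * g * x, hmem⟩ := by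
        unfold subgroupBlockCoeff
        exact dif_pos hmem
      rw [h2, ← coef_indicator]
      have h3 := coef_conj_general N (e.indicator (fun _ => (1 : ℂ))) x⁻¹ ⟨g, hg⟩
      have e5 : (fun ψ : IrrCharacter N => e.indicator (fun _ => (1 : ℂ))
          (Cfsg.Agent.Lib.helper5.conjIrr N x⁻¹⁻¹ ψ))
            = (fun ψ => e.indicator (fun _ => (1 : ℂ))
              (Cfsg.Agent.Lib.helper5.conjIrr N x ψ)) := by
        funext ψ
        rw [inv_inv]
      rw [e5] at h3
      have e4 : (⟨x⁻¹ * g * x, hmem⟩ : N)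
          = ⟨x⁻¹ * ((⟨g, hg⟩ : N) : G) * x⁻¹⁻¹, hN.conj_mem _ (⟨g, hg⟩ : N).2 x⁻¹⟩ := by
        apply Subtype.ext
        simp
      rw [e4]
      exact h3
    rw [Finset.sum_congr rfl (fun x _ => h1 x), ← coef_sum]
    have h5 : (∑ x : G, fun ψ : IrrCharacter N =>
        e.indicator (fun _ => (1 : ℂ)) (Cfsg.Agent.Lib.helper5.conjIrr N x ψ))
          = fun ψ => (Nat.card T : ℂ) * (orbSet N e).indicator (fun _ => (1 : ℂ)) ψ := by
      funext ψ
      rw [Finset.sum_apply]
      exact count_conj hMp N e he T hT ψ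
    rw [h5, coef_const_mul, coef_indicator]
  · rw [extendByZero_apply_not_mem N _ hg, mul_zero]
    apply Finset.sum_eq_zero
    intro x _
    have hmem : x⁻¹ * g * x ∉ N := by
      intro h
      apply hg
      have h' := hN.conj_mem _ h x
      have e : x * (x⁻¹ * g * x) * x⁻¹ = g := by group
      rwa [e] at h'
    unfold subgroupBlockCoeff
    exact dif_neg hmem

/-- the idempotent of the characters lying over a `G`-invariant set of characters of a normal
subgroup -/
theorem blockCoeff_cov_ext (N : Subgroup G) [hN : N.Normal] [Fintype N]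
    (U : Set (IrrCharacter N))
    (hU : ∀ (g : G) (ψ : IrrCharacter N), Cfsg.Agent.Lib.helper5.conjIrr N g ψ ∈ U ↔ ψ ∈ U)
    (g : G) :
    blockCoeff (cov N U) g = extendByZero N (blockCoeff U) g := by
  classical
  haveI : Fintype (IrrCharacter N) := Fintype.ofFinite _
  haveI : Fintype (IrrCharacter G) := Fintype.ofFinite _
  rw [← coef_indicator, ← coord_extend_indicator N U hU]
  have hw : ∀ (g : G) (ψ : IrrCharacter N),
      U.indicator (fun _ => (1 : ℂ)) (Cfsg.Agent.Lib.helper5.conjIrr N g ψ)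
        = U.indicator (fun _ => (1 : ℂ)) ψ := by
    intro g ψ
    by_cases hψ : ψ ∈ U
    · rw [Set.indicator_of_mem hψ, Set.indicator_of_mem ((hU g ψ).mpr hψ)]
    · rw [Set.indicator_of_notMem hψ, Set.indicator_of_notMem (fun h => hψ ((hU g ψ).mp h))]
  rw [coef_coord _ (isClassFunction_extend_coef N _ hw)]
  congr 1
  funext n
  exact coef_indicator U n

end trace

section main

variable {G : Type u} [Group G] [Fintype G] {p : ℕ} [Fact p.Prime] {M : Ideal AlgInt}

/-- the value of the idempotent of `B` at `χ` is congruent to the Brauer-map value at any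
constituent of the restriction of `χ` to `C_G(P)`, for a normal `p`-subgroup `P` -/
theorem indicator_sub_brauerOmega (hM : IsPModular p M) (P : Subgroup G) [P.Normal]
    (hP : IsPGroup p P) [Fintype (Subgroup.centralizer (P : Set G))]
    (B : Set (IrrCharacter G)) (hB : IsPBlock M B) (χ : IrrCharacter G)
    (θ : IrrCharacter (Subgroup.centralizer (P : Set G)))
    (h : classInner (fun n : Subgroup.centralizer (P : Set G) => χ.1 n) θ.1 ≠ 0) :
    MemLocalIdeal M (B.indicator (fun _ => (1 : ℂ)) χ - brauerOmega P (blockCoeff B) θ.1) := by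
  classical
  have hMp := isPModular_isPrime hM
  haveI : Fintype (IrrCharacter G) := Fintype.ofFinite _
  haveI : Fintype (IrrCharacter (Subgroup.centralizer (P : Set G))) := Fintype.ofFinite _
  obtain ⟨χ₀, rfl⟩ := hB
  have hb := indicator_mem_osimaRing (G := G) hMp χ₀
  have hbb : (blockOf M χ₀.1).indicator (fun _ => (1 : ℂ))
      * (blockOf M χ₀.1).indicator (fun _ => (1 : ℂ))
        = (blockOf M χ₀.1).indicator (fun _ => (1 : ℂ)) := by
    funext ψ
    by_cases hψ : ψ ∈ blockOf M χ₀.1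
    · simp [Set.indicator_of_mem hψ]
    · simp [Set.indicator_of_notMem hψ]
  obtain ⟨F₁, hF₁⟩ : ∃ F₁ : G → ℂ, F₁ = fun g =>
      if g ∈ Subgroup.centralizer (P : Set G) then blockCoeff (blockOf M χ₀.1) g else 0 :=
    ⟨_, rfl⟩
  obtain ⟨F₂, hF₂⟩ : ∃ F₂ : G → ℂ, F₂ = fun g =>
      if g ∈ Subgroup.centralizer (P : Set G) then 0 else blockCoeff (blockOf M χ₀.1) g :=
    ⟨_, rfl⟩
  have hF₁a : ∀ g, g ∈ Subgroup.centralizer (P : Set G) →
      F₁ g = blockCoeff (blockOf M χ₀.1) g := by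
    intro g hg
    rw [hF₁]
    exact if_pos hg
  have hF₁b : ∀ g, g ∉ Subgroup.centralizer (P : Set G) → F₁ g = 0 := by
    intro g hg
    rw [hF₁]
    exact if_neg hg
  have hF₂a : ∀ g, g ∈ Subgroup.centralizer (P : Set G) → F₂ g = 0 := by
    intro g hg
    rw [hF₂]
    exact if_pos hg
  have hF₂b : ∀ g, g ∉ Subgroup.centralizer (P : Set G) →
      F₂ g = blockCoeff (blockOf M χ₀.1) g := by
    intro g hg
    rw [hF₂]
    exact if_neg hg
  have hsum : blockCoeff (blockOf M χ₀.1) = F₁ + F₂ := by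
    funext g
    show _ = F₁ g + F₂ g
    by_cases hg : g ∈ Subgroup.centralizer (P : Set G)
    · rw [hF₁a g hg, hF₂a g hg, add_zero]
    · rw [hF₁b g hg, hF₂b g hg, zero_add]
  have hCnorm : (Subgroup.centralizer (P : Set G)).Normal := inferInstance
  have hCn : ∀ x g : G, g ∉ Subgroup.centralizer (P : Set G) →
      x * g * x⁻¹ ∉ Subgroup.centralizer (P : Set G) := by
    intro x g hg h
    apply hg
    have h' := hCnorm.conj_mem _ h x⁻¹
    have e : x⁻¹ * (x * g * x⁻¹) * x⁻¹⁻¹ = g := by group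
    rwa [e] at h'
  have hβc := blockCoeff_isClassFunction (blockOf M χ₀.1)
  have hF₁c : IsClassFunction G F₁ := by
    intro g x
    by_cases hg : g ∈ Subgroup.centralizer (P : Set G)
    · rw [hF₁a g hg, hF₁a _ (hCnorm.conj_mem g hg x)]
      exact hβc g x
    · rw [hF₁b g hg, hF₁b _ (hCn x g hg)]
  have hF₂c : IsClassFunction G F₂ := by
    intro g x
    by_cases hg : g ∈ Subgroup.centralizer (P : Set G)
    · rw [hF₂a g hg, hF₂a _ (hCnorm.conj_mem g hg x)]
    · rw [hF₂b g hg, hF₂b _ (hCn x g hg)]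
      exact hβc g x
  have h1 : (blockOf M χ₀.1).indicator (fun _ => (1 : ℂ)) χ = coord F₁ χ + coord F₂ χ := by
    rw [← coord_add, ← hsum]
    have h0 : blockCoeff (blockOf M χ₀.1)
        = coef ((blockOf M χ₀.1).indicator (fun _ => (1 : ℂ))) := by
      funext g
      rw [coef_indicator]
    rw [h0, coord_coef]
  have h2 : coord F₁ χ = brauerOmega P (blockCoeff (blockOf M χ₀.1)) θ.1 := by
    rw [coord_of_support_normal (Subgroup.centralizer (P : Set G)) F₁ hF₁c hF₁b χ θ h]
    unfold coord brauerOmega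
    rw [finsum_eq_sum_of_fintype, Finset.sum_div]
    apply Finset.sum_congr rfl
    intro l _
    show F₁ (l : G) * θ.1 l / θ.1 1 = _
    rw [hF₁a _ l.2]
  have h3 : MemLocalIdeal M (coord F₂ χ) := by
    apply memLocalIdeal_coord_of_classFunction hMp hF₂c
    intro g
    by_cases hg : g ∈ Subgroup.centralizer (P : Set G)
    · rw [hF₂a g hg]
      exact memLocalIdeal_zero hMp.ne_top
    · rw [hF₂b g hg, ← coef_indicator]
      exact coef_memLocalIdeal_of_not_mem_centralizer hM P hP hb hbb g hg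
  rw [h1, h2, add_sub_cancel_left]
  exact h3

/-- over a normal `p`-subgroup `P`, a block `B` with Brauer pair `(P, e)` consists of the
characters lying over the conjugates of `e` -/
theorem cov_orbSet_eq (hM : IsPModular p M) (P : Subgroup G) [P.Normal] (hP : IsPGroup p P)
    [Fintype (Subgroup.centralizer (P : Set G))]
    (B : Set (IrrCharacter G)) (e : Set (IrrCharacter (Subgroup.centralizer (P : Set G))))
    (hBe : IsBrauerPairOf p M B P e) :
    cov (Subgroup.centralizer (P : Set G)) (orbSet (Subgroup.centralizer (P : Set G)) e) = B := by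
  classical
  have hMp := isPModular_isPrime hM
  haveI : Fintype (IrrCharacter G) := Fintype.ofFinite _
  haveI : Fintype (IrrCharacter (Subgroup.centralizer (P : Set G))) := Fintype.ofFinite _
  obtain ⟨⟨_, he⟩, hB, hω⟩ := hBe
  have hSB : ∀ χ, χ ∈ cov (Subgroup.centralizer (P : Set G))
      (orbSet (Subgroup.centralizer (P : Set G)) e) → χ ∈ B := by
    rintro χ ⟨θ, ⟨x, hx⟩, hθ⟩
    have hθ' : classInner (fun n : Subgroup.centralizer (P : Set G) => χ.1 n)
        (Cfsg.Agent.Lib.helper5.conjIrr (Subgroup.centralizer (P : Set G)) x θ).1 ≠ 0 := by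
      rw [constituent_conjIrr]
      exact hθ
    have h1 := indicator_sub_brauerOmega hM P hP B hB χ _ hθ'
    have h2 := hω _ hx
    have h3 := memLocalIdeal_add hMp h1 h2
    rw [sub_add_sub_cancel] at h3
    by_contra hχ
    rw [Set.indicator_of_notMem hχ, zero_sub] at h3
    exact not_memLocalIdeal_one hMp (by simpa using memLocalIdeal_neg h3)
  have hU := orbSet_inv (Subgroup.centralizer (P : Set G)) e
  have hv : (cov (Subgroup.centralizer (P : Set G))
      (orbSet (Subgroup.centralizer (P : Set G)) e)).indicator (fun _ => (1 : ℂ))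
        ∈ osimaRing G M hMp := by
    rw [mem_osimaRing]
    intro g
    rw [coef_indicator, blockCoeff_cov_ext _ _ hU]
    by_cases hg : g ∈ Subgroup.centralizer (P : Set G)
    · rw [extendByZero_apply_mem _ _ hg, ← coef_indicator]
      exact (mem_osimaRing hMp).mp (indicator_mem_osimaRing_of_closed hMp _
        (orbSet_closed hMp _ e he)) _
    · rw [extendByZero_apply_not_mem _ _ hg]
      exact memLocalRing_of_memLocalIdeal (memLocalIdeal_zero hMp.ne_top)
  obtain ⟨ξ₀, hξ₀⟩ : e.Nonempty := by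
    obtain ⟨ξ₀, rfl⟩ := he
    exact ⟨ξ₀, mem_blockOf_self hMp.ne_top ξ₀⟩
  obtain ⟨χ₁, hχ₁⟩ := exists_irr_over (Subgroup.centralizer (P : Set G)) ξ₀
  have hχ₁S : χ₁ ∈ cov (Subgroup.centralizer (P : Set G))
      (orbSet (Subgroup.centralizer (P : Set G)) e) := ⟨ξ₀, subset_orbSet _ e hξ₀, hχ₁⟩
  apply Set.eq_of_subset_of_subset hSB
  intro χ hχ
  obtain ⟨χ₀, rfl⟩ := hB
  have h1 : SameBlock M χ₀.1 χ₁.1 := hSB χ₁ hχ₁S
  have h2 : SameBlock M χ₀.1 χ.1 := hχ
  have h3 := memLocalIdeal_coord_sub hMp hv (sameBlock_trans hMp (sameBlock_symm h1) h2)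
  by_contra hχS
  rw [Set.indicator_of_mem hχ₁S, Set.indicator_of_notMem hχS, sub_zero] at h3
  exact not_memLocalIdeal_one hMp h3

/-- the idempotent of a block over a normal `p`-subgroup is the trace of the idempotent of a
block of the centralizer -/
theorem block_trace (hM : IsPModular p M) (P : Subgroup G) [P.Normal] (hP : IsPGroup p P)
    (B : Set (IrrCharacter G)) (e : Set (IrrCharacter (Subgroup.centralizer (P : Set G))))
    (hBe : IsBrauerPairOf p M B P e) (T : Subgroup G)
    (hT : ∀ x : G, x ∈ T ↔ StabilizesBlock (Subgroup.centralizer (P : Set G)) e x) :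
    (∃ E : Set (IrrCharacter T), IsPBlock M E ∧ ∀ t : T,
      blockCoeff E t = subgroupBlockCoeff (Subgroup.centralizer (P : Set G)) e (t : G)) ∧
    ∀ g : G, blockCoeff B g = (Nat.card T : ℂ)⁻¹ *
      ∑ x : G, subgroupBlockCoeff (Subgroup.centralizer (P : Set G)) e (x⁻¹ * g * x) := by
  classical
  have hMp := isPModular_isPrime hM
  haveI : Fintype (Subgroup.centralizer (P : Set G)) := Fintype.ofFinite _
  constructor
  · have hPT : P ≤ T := fun g hg =>
      (hT g).mpr (stabilizesBlock_of_mem_sup P e g (Subgroup.mem_sup_left hg))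
    have hCT : Subgroup.centralizer (P : Set G) ≤ T := fun g hg =>
      (hT g).mpr (stabilizesBlock_of_mem_sup P e g (Subgroup.mem_sup_right hg))
    have hTN : T ≤ Subgroup.normalizer (P : Set G) := by
      rw [Subgroup.normalizer_eq_top]
      exact le_top
    exact exists_block_of_stable hM P T hP hPT hCT hTN e hBe.1.2 (fun t ht => (hT t).mp ht)
  · intro g
    have hTne : (Nat.card T : ℂ) ≠ 0 := Nat.cast_ne_zero.mpr Nat.card_pos.ne'
    rw [sum_conj_subgroupBlockCoeff hMp _ e hBe.1.2 T hT g, ← mul_assoc,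
      inv_mul_cancel₀ hTne, one_mul, ← blockCoeff_cov_ext _ _ (orbSet_inv _ e),
      cov_orbSet_eq hM P hP B e hBe]

end main

end Cfsg.Agent.Lib.helper23
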