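import Mathlib
import Cfsg.Agent.Lib.helper23.BPTrace
import Cfsg.Agent.Lib.helper23.BPMaxChar2

set_option autoImplicit false

/-!
# Blocks with cyclic defect groups: the inertial quotient
-/

namespace Cfsg.Agent.Lib.helper23

open Cfsg Cfsg.Agent.Lib.helper24 Cfsg.Agent.Lib.helper5
open scoped ComplexConjugate

universe u

section bridge

variable {G : Type u} [Group G] [Fintype G] {p : ℕ} [Fact p.Prime] {M : Ideal AlgInt}

/-- a block of `C_G(P)` inducing `B` gives a Brauer pair of `B` -/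
theorem brauerPairOf_of_induced (hM : IsPModular p M) (P : Subgroup G) (hP : IsPGroup p P)
    (B : Set (IrrCharacter G)) (c : Set (IrrCharacter (Subgroup.centralizer (P : Set G))))
    (hc : IsInducedBlock M (Subgroup.centralizer (P : Set G)) c B) :
    IsBrauerPairOf p M B P c := by
  classical
  haveI : Fintype (IrrCharacter G) := Fintype.ofFinite _
  haveI : Fintype (Subgroup.centralizer (P : Set G)) := Fintype.ofFinite _
  haveI : Fintype (IrrCharacter (Subgroup.centralizer (P : Set G))) := Fintype.ofFinite _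
  have hMp := isPModular_isPrime hM
  refine ⟨⟨hP, hc.1⟩, hc.2.1, ?_⟩
  intro ξ hξ
  obtain ⟨χ₀, hχ₀⟩ := hc.2.1
  have hχ₀B : χ₀ ∈ B := by
    rw [hχ₀]
    exact mem_blockOf_self hMp.ne_top χ₀
  have ha : B.indicator (fun _ => (1 : ℂ)) ∈ osimaRing G M hMp := by
    rw [hχ₀]
    exact indicator_mem_osimaRing (G := G) hMp χ₀
  rw [brauerOmega_eq_brFun]
  have h1 := brFun_top_of_induced (Subgroup.centralizer (P : Set G)) hMp hc hξ hχ₀B ha
  rw [Set.indicator_of_mem hχ₀B] at h1
  have h2 : brFun (Subgroup.centralizer (P : Set G)) (Subgroup.centralizer (P : Set G)) ξ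
      (B.indicator (fun _ => (1 : ℂ)))
        = brFun (Subgroup.centralizer (P : Set G)) ⊤ ξ (B.indicator (fun _ => (1 : ℂ))) := by
    rw [brFun_apply, brFun_apply]
    congr 1
    funext h
    rw [brTrunc_of_mem _ h.2, brTrunc_of_mem _ (Subgroup.mem_top _)]
  rw [h2]
  exact h1

end bridge

section grp

variable {G : Type u} [Group G] [Finite G] {p : ℕ} [Fact p.Prime]

/-- if the `p`-elements of `T` lie in `C`, then an element of `T` with a `p`-power power in `C`
lies in `C` -/
theorem mem_of_pow_mem_of_pel (C T : Subgroup G)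
    (hpel : ∀ g ∈ T, (∃ k : ℕ, orderOf g = p ^ k) → g ∈ C) (g : G) (hg : g ∈ T) (j : ℕ)
    (hgj : g ^ (p ^ j) ∈ C) : g ∈ C := by
  have hp : p.Prime := Fact.out
  have ho : orderOf g ≠ 0 := (orderOf_pos g).ne'
  obtain ⟨a, m, hm, hom⟩ := Nat.exists_eq_pow_mul_and_not_dvd ho p hp.ne_one
  have hm0 : m ≠ 0 := by
    rintro rfl
    exact hm (dvd_zero p)
  have h1 : orderOf (g ^ m) = p ^ a := by
    rw [orderOf_pow' g hm0, hom, Nat.gcd_eq_right (Dvd.intro_left _ rfl),
      Nat.mul_div_cancel _ (Nat.pos_of_ne_zero hm0)]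
  have h2 : g ^ m ∈ C := hpel _ (pow_mem hg m) ⟨a, h1⟩
  have hcop : Nat.Coprime m (p ^ j) :=
    Nat.Coprime.pow_right j ((Nat.Prime.coprime_iff_not_dvd hp).mpr hm).symm
  have hb := Nat.gcd_eq_gcd_ab m (p ^ j)
  rw [hcop.gcd_eq_one] at hb
  have h3 : g = (g ^ m) ^ (Nat.gcdA m (p ^ j)) * (g ^ (p ^ j)) ^ (Nat.gcdB m (p ^ j)) := by
    rw [← zpow_natCast g m, ← zpow_natCast g (p ^ j), ← zpow_mul, ← zpow_mul, ← zpow_add, ← hb]
    simp
  rw [h3]
  exact mul_mem (zpow_mem h2 _) (zpow_mem hgj _)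

/-- the inertial quotient of a cyclic `p`-group: cyclic of order dividing `p - 1`, acting
freely -/
theorem cyclic_inertial (P T : Subgroup G) (hPp : IsPGroup p P) (hP1 : P ≠ ⊥) (hcyc : IsCyclic P)
    (hCT : Subgroup.centralizer (P : Set G) ≤ T) (hTN : T ≤ Subgroup.normalizer (P : Set G))
    (hpel : ∀ g ∈ T, (∃ k : ℕ, orderOf g = p ^ k) → g ∈ Subgroup.centralizer (P : Set G))
    [hn : ((Subgroup.centralizer (P : Set G)).subgroupOf T).Normal] :
    IsCyclic (T ⧸ (Subgroup.centralizer (P : Set G)).subgroupOf T) ∧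
    (Subgroup.centralizer (P : Set G)).relIndex T ∣ p - 1 ∧
    ∀ g ∈ T, ∀ x ∈ P, x ≠ 1 → g * x * g⁻¹ = x → g ∈ Subgroup.centralizer (P : Set G) := by
  classical
  have hp : p.Prime := Fact.out
  obtain ⟨n, hn'⟩ := IsPGroup.iff_card.mp hPp
  have hn0 : n ≠ 0 := by
    rintro rfl
    rw [pow_zero] at hn'
    exact hP1 ((Subgroup.card_eq_one).mp hn')
  -- the action on `P`
  obtain ⟨φ, hφ⟩ : ∃ φ : T →* MulAut P, φ = P.normalizerMonoidHom.comp (Subgroup.inclusion hTN) :=
    ⟨_, rfl⟩
  have hker : φ.ker = (Subgroup.centralizer (P : Set G)).subgroupOf T := by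
    ext t
    rw [MonoidHom.mem_ker, hφ, MonoidHom.comp_apply, ← MonoidHom.mem_ker,
      Subgroup.normalizerMonoidHom_ker, Subgroup.mem_subgroupOf, Subgroup.mem_subgroupOf]
    rfl
  have key : ∀ N : Subgroup T, ∀ [hN : N.Normal], N = φ.ker →
      (p ≠ 2 → IsCyclic (T ⧸ N)) ∧ Nat.card (T ⧸ N) ∣ p ^ (n - 1) * (p - 1) := by
    intro N hN hNk
    subst hNk
    have hinj := QuotientGroup.kerLift_injective φ
    constructor
    · intro hp2
      haveI : IsCyclic (ZMod (Nat.card P))ˣ := by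
        rw [hn']
        exact ZMod.isCyclic_units_of_prime_pow p hp hp2 n
      haveI : IsCyclic (MulAut P) :=
        isCyclic_of_injective (IsCyclic.mulAutMulEquiv P).toMonoidHom
          (IsCyclic.mulAutMulEquiv P).injective
      exact isCyclic_of_injective (QuotientGroup.kerLift φ) hinj
    · have h1 := Subgroup.card_dvd_of_injective (QuotientGroup.kerLift φ) hinj
      rw [IsCyclic.card_mulAut, hn', Nat.totient_prime_pow hp (Nat.pos_of_ne_zero hn0)] at h1
      exact h1
  obtain ⟨hcyc', hdvd⟩ := key ((Subgroup.centralizer (P : Set G)).subgroupOf T) hker.symm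
  -- the quotient is a `p'`-group
  have hcop : ¬ p ∣ Nat.card (T ⧸ (Subgroup.centralizer (P : Set G)).subgroupOf T) := by
    intro hdiv
    obtain ⟨q, hq⟩ := exists_prime_orderOf_dvd_card' p hdiv
    obtain ⟨t, rfl⟩ := QuotientGroup.mk_surjective q
    have h1 : ((t ^ p : T) : T ⧸ (Subgroup.centralizer (P : Set G)).subgroupOf T) = 1 := by
      rw [QuotientGroup.mk_pow, ← hq, pow_orderOf_eq_one]
    rw [QuotientGroup.eq_one_iff, Subgroup.mem_subgroupOf] at h1
    have h2 : (t : G) ∈ Subgroup.centralizer (P : Set G) := by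
      apply mem_of_pow_mem_of_pel _ T hpel (t : G) t.2 1
      rw [pow_one]
      exact h1
    have h3 : (t : T ⧸ (Subgroup.centralizer (P : Set G)).subgroupOf T) = 1 := by
      rw [QuotientGroup.eq_one_iff, Subgroup.mem_subgroupOf]
      exact h2
    rw [h3, orderOf_one] at hq
    exact hp.one_lt.ne hq
  have hdvd' : Nat.card (T ⧸ (Subgroup.centralizer (P : Set G)).subgroupOf T) ∣ p - 1 := by
    have hc : Nat.Coprime (Nat.card (T ⧸ (Subgroup.centralizer (P : Set G)).subgroupOf T))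
        (p ^ (n - 1)) :=
      Nat.Coprime.pow_right _ ((Nat.Prime.coprime_iff_not_dvd hp).mpr hcop).symm
    exact hc.dvd_of_dvd_mul_left hdvd
  refine ⟨?_, hdvd', ?_⟩
  · by_cases hp2 : p = 2
    · rw [hp2] at hdvd'
      have h1 : Nat.card (T ⧸ (Subgroup.centralizer (P : Set G)).subgroupOf T) = 1 :=
        Nat.dvd_one.mp hdvd'
      haveI : Subsingleton (T ⧸ (Subgroup.centralizer (P : Set G)).subgroupOf T) :=
        (Nat.card_eq_one_iff_unique.mp h1).1
      exact isCyclic_of_subsingleton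
    · exact hcyc' hp2
  · intro g hg x hx hx1 hgx
    obtain ⟨⟨y, hyP⟩, hgen⟩ := hcyc.exists_generator
    have hpow : ∀ z ∈ P, ∃ i : ℤ, y ^ i = z := by
      intro z hz
      obtain ⟨i, hi⟩ := Subgroup.mem_zpowers_iff.mp (hgen ⟨z, hz⟩)
      exact ⟨i, by simpa using congrArg Subtype.val hi⟩
    have hoy : orderOf y = p ^ n := by
      rw [← hn', ← orderOf_eq_card_of_forall_mem_zpowers hgen, Subgroup.orderOf_mk]
    have hgy : g * y * g⁻¹ ∈ P := (Subgroup.mem_normalizer_iff.mp (hTN hg) y).mp hyP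
    obtain ⟨k, hk⟩ := hpow _ hgy
    obtain ⟨j, hj⟩ := hpow x hx
    have hiter : ∀ m : ℕ, g ^ m * y * (g ^ m)⁻¹ = y ^ (k ^ m) := by
      intro m
      induction m with
      | zero => simp
      | succ m ih =>
        have e1 : g ^ (m + 1) * y * (g ^ (m + 1))⁻¹ = g * (g ^ m * y * (g ^ m)⁻¹) * g⁻¹ := by
          rw [pow_succ']
          group
        rw [e1, ih, ← conj_zpow, ← hk, ← zpow_mul, pow_succ']
    have h1 : y ^ ((k - 1) * j) = 1 := by
      have e2 : g * x * g⁻¹ = y ^ (k * j) := by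
        rw [← hj, ← conj_zpow, ← hk, ← zpow_mul]
      rw [hgx, ← hj] at e2
      have e3 : (k - 1) * j = k * j - j := by ring
      rw [e3, zpow_sub, ← e2, mul_inv_cancel]
    have h2 : ((p ^ n : ℕ) : ℤ) ∣ (k - 1) * j := by
      rw [← hoy]
      exact orderOf_dvd_iff_zpow_eq_one.mpr h1
    have h3 : ¬ ((p ^ n : ℕ) : ℤ) ∣ j := by
      intro h
      rw [← hoy, orderOf_dvd_iff_zpow_eq_one, hj] at h
      exact hx1 h
    have h4 : (p : ℤ) ∣ k - 1 := by
      by_contra hnd
      have hirr : Irreducible (p : ℤ) := (Nat.prime_iff_prime_int.mp hp).irreducible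
      have hco : IsCoprime ((p : ℤ) ^ n) (k - 1) := (hirr.coprime_iff_not_dvd.mpr hnd).pow_left
      apply h3
      push_cast
      push_cast at h2
      exact hco.dvd_of_dvd_mul_left h2
    have h5 := dvd_sub_pow_of_dvd_sub (R := ℤ) (p := p) (a := k) (b := 1) h4 (n - 1)
    rw [Nat.sub_add_cancel (Nat.one_le_iff_ne_zero.mpr hn0), one_pow] at h5
    have h6 : y ^ (k ^ p ^ (n - 1)) = y := by
      have e4 : y ^ (k ^ p ^ (n - 1) - 1) = 1 := by
        apply orderOf_dvd_iff_zpow_eq_one.mp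
        rw [hoy]
        push_cast
        exact h5
      have e5 : k ^ p ^ (n - 1) = (k ^ p ^ (n - 1) - 1) + 1 := by ring
      rw [e5, zpow_add, e4, one_mul, zpow_one]
    have h7 : g ^ (p ^ (n - 1)) ∈ Subgroup.centralizer (P : Set G) := by
      have hcomm : g ^ (p ^ (n - 1)) * y = y * g ^ (p ^ (n - 1)) := by
        have := hiter (p ^ (n - 1))
        rw [h6] at this
        exact mul_inv_eq_iff_eq_mul.mp this
      rw [Subgroup.mem_centralizer_iff]
      intro z hz
      obtain ⟨i, rfl⟩ := hpow z hz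
      exact ((Commute.zpow_right (show Commute (g ^ (p ^ (n - 1))) y from hcomm) i).eq).symm
    exact mem_of_pow_mem_of_pel _ T hpel g hg (n - 1) h7

end grp

end Cfsg.Agent.Lib.helper23

namespace Cfsg.Agent.Lib.helper23

open Cfsg Cfsg.Agent.Lib.helper24 Cfsg.Agent.Lib.helper5

universe u

section final

variable {G : Type u} [Group G] [Finite G] {p : ℕ} [Fact p.Prime] {M : Ideal AlgInt}

omit [Finite G] [Fact p.Prime] in
theorem isPGroup_of_isDefectGroup' {B : Set (IrrCharacter G)} {P : Subgroup G}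
    (hP : IsDefectGroup p M B P) : IsPGroup p P := by
  obtain ⟨g0, hg0, PD, hPD⟩ := hP
  rw [hPD]
  exact PD.isPGroup'.map _

/-- the pair of a block of `C_G(P)` inducing `B`, for a defect group `P`, is maximal, so the
`p`-elements of its stabilizer lie in `P C_G(P)` -/
theorem pel_of_induced_defect (hM : IsPModular p M) (B : Set (IrrCharacter G))
    (P : Subgroup G) (hPD : IsDefectGroup p M B P)
    (c : Set (IrrCharacter (Subgroup.centralizer (P : Set G))))
    (hc : IsInducedBlock M (Subgroup.centralizer (P : Set G)) c B) :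
    IsMaximalBrauerPair p M B P c ∧
    ∀ g : G, g ∈ Subgroup.normalizer (P : Set G) →
      StabilizesBlock (Subgroup.centralizer (P : Set G)) c g →
      (∃ k : ℕ, orderOf g = p ^ k) → g ∈ P ⊔ Subgroup.centralizer (P : Set G) := by
  classical
  haveI : Fintype G := Fintype.ofFinite G
  have hPp : IsPGroup p P := isPGroup_of_isDefectGroup' hPD
  have hpair := brauerPairOf_of_induced hM P hPp B c hc
  have hmax := maximal_of_defectGroup hM B P c hpair hPD
  obtain ⟨θ, -, -, -, hpel0⟩ := (maximal_pair_iff hM P c hpair.1).mp ⟨B, hmax⟩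
  exact ⟨hmax, hpel0⟩

theorem cyclic_defect_inertial (hM : IsPModular p M) (B : Set (IrrCharacter G))
    (P : Subgroup G) (hPD : IsDefectGroup p M B P) (hP1 : P ≠ ⊥) (hcyc : IsCyclic P)
    (c : Set (IrrCharacter (Subgroup.centralizer (P : Set G))))
    (hc : IsInducedBlock M (Subgroup.centralizer (P : Set G)) c B) (T : Subgroup G)
    (hT : ∀ g : G, g ∈ T ↔ (g ∈ Subgroup.normalizer (P : Set G) ∧
      StabilizesBlock (Subgroup.centralizer (P : Set G)) c g))
    [hn : ((Subgroup.centralizer (P : Set G)).subgroupOf T).Normal] :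
    IsCyclic (T ⧸ (Subgroup.centralizer (P : Set G)).subgroupOf T) ∧
    (Subgroup.centralizer (P : Set G)).relIndex T ∣ p - 1 ∧
    ∀ g ∈ T, ∀ x ∈ P, x ≠ 1 → g * x * g⁻¹ = x → g ∈ Subgroup.centralizer (P : Set G) := by
  classical
  have hPp : IsPGroup p P := isPGroup_of_isDefectGroup' hPD
  obtain ⟨-, hpel0⟩ := pel_of_induced_defect hM B P hPD c hc
  have hPC : P ≤ Subgroup.centralizer (P : Set G) := by
    intro u hu
    rw [Subgroup.mem_centralizer_iff]
    intro q hq
    letI := IsCyclic.commGroup (α := P)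
    exact congrArg Subtype.val (mul_comm (⟨q, hq⟩ : P) ⟨u, hu⟩)
  have hCT : Subgroup.centralizer (P : Set G) ≤ T := fun g hg =>
    (hT g).mpr ⟨Subgroup.centralizer_le_normalizer _ hg,
      stabilizesBlock_of_mem_sup P c g (Subgroup.mem_sup_right hg)⟩
  have hTN : T ≤ Subgroup.normalizer (P : Set G) := fun g hg => ((hT g).mp hg).1
  have hpel : ∀ g ∈ T, (∃ k : ℕ, orderOf g = p ^ k) → g ∈ Subgroup.centralizer (P : Set G) := by
    intro g hg hk
    have := hpel0 g ((hT g).mp hg).1 ((hT g).mp hg).2 hk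
    rwa [sup_eq_right.mpr hPC] at this
  exact cyclic_inertial P T hPp hP1 hcyc hCT hTN hpel

end final

end Cfsg.Agent.Lib.helper23
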