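import Mathlib
import Cfsg.Agent.Lib.helper23.BPCyc
import Cfsg.Agent.Lib.helper23.BPAbel3
import Cfsg.Agent.Lib.helper23.BPDict3
import Cfsg.Agent.S0919

set_option autoImplicit false

/-!
# Abelian defect groups: free inertial action and nilpotent local blocks
-/

namespace Cfsg.Agent.Lib.helper23

open Cfsg Cfsg.Agent.Lib.helper24 Cfsg.Agent.Lib.helper5
open scoped ComplexConjugate

universe u

section transportIn

variable {G : Type u} [Group G]
variable {H : Subgroup G} {S : Subgroup H} {S' : Subgroup G}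
  (ψ : Subgroup.centralizer (S' : Set G) ≃* Subgroup.centralizer (S : Set H))
  (hψ : ∀ c : Subgroup.centralizer (S' : Set G),
    (((ψ c : Subgroup.centralizer (S : Set H)) : H) : G) = c)

include hψ

/-- the induced central character inside `H`, in the two languages -/
theorem inducedCentralChar_down (ξ : Subgroup.centralizer (S' : Set G) → ℂ) (h : H) :
    inducedCentralChar (Subgroup.centralizer (S : Set H)) (ξ ∘ ψ.symm) h
      = inducedCentralCharIn H (Subgroup.centralizer (S' : Set G)) ξ (h : G) := by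
  classical
  unfold inducedCentralChar inducedCentralCharIn
  rw [finsum_mem_def, finsum_mem_def, ← finsum_comp_equiv ψ.toEquiv]
  apply finsum_congr
  intro k
  have hiff : (ψ k ∈ {k' : Subgroup.centralizer (S : Set H) | IsConj h (k' : H)})
      ↔ k ∈ {k : Subgroup.centralizer (S' : Set G) |
        ∃ x : H, (x : G) * (k : G) * (x : G)⁻¹ = (h : G)} := by
    show IsConj h ((ψ k : Subgroup.centralizer (S : Set H)) : H)
      ↔ ∃ x : H, (x : G) * (k : G) * (x : G)⁻¹ = (h : G)
    rw [isConj_iff]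
    constructor
    · rintro ⟨c, hc⟩
      refine ⟨c⁻¹, ?_⟩
      have h1 : (c : G) * (h : G) * (c : G)⁻¹ = (k : G) := by
        rw [← hψ k, ← hc]
        rfl
      rw [← h1]
      simp [mul_assoc]
    · rintro ⟨x, hx⟩
      refine ⟨x⁻¹, ?_⟩
      apply Subtype.ext
      rw [hψ k]
      show ((x⁻¹ : H) : G) * (h : G) * (((x⁻¹ : H)⁻¹ : H) : G) = (k : G)
      rw [← hx]
      simp [mul_assoc]
  by_cases hk : k ∈ {k : Subgroup.centralizer (S' : Set G) |
      ∃ x : H, (x : G) * (k : G) * (x : G)⁻¹ = (h : G)}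
  · have hk' := hiff.mpr hk
    show Set.indicator _ _ (ψ k) = _
    rw [Set.indicator_of_mem hk, Set.indicator_of_mem hk']
    show ξ (ψ.symm (ψ k)) / ξ (ψ.symm 1) = ξ k / ξ 1
    rw [MulEquiv.symm_apply_apply, map_one]
  · have hk' : ψ k ∉ {k' : Subgroup.centralizer (S : Set H) | IsConj h (k' : H)} :=
      fun h' => hk (hiff.mp h')
    show Set.indicator _ _ (ψ k) = _
    rw [Set.indicator_of_notMem hk, Set.indicator_of_notMem hk']

variable {M : Ideal AlgInt}

theorem isInducedBlock_of_in (c : Set (IrrCharacter (Subgroup.centralizer (S' : Set G))))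
    (f : Set (IrrCharacter H))
    (h : IsInducedBlockIn M H (Subgroup.centralizer (S' : Set G)) c f) :
    IsInducedBlock M (Subgroup.centralizer (S : Set H)) (irrMap ψ.symm '' c) f := by
  obtain ⟨hc, hf, hcong⟩ := h
  refine ⟨?_, hf, ?_⟩
  · obtain ⟨θ, hθ⟩ := hc
    have hθ' : c = blockOf M θ.1 := hθ
    rw [hθ', irrMap_image_blockOf]
    exact ⟨_, rfl⟩
  · rintro _ ⟨ξ, hξ, rfl⟩ χ hχ h
    have := hcong ξ hξ χ hχ h
    rw [← inducedCentralChar_down ψ hψ ξ.1 h] at this
    exact this

theorem isInducedBlockIn_of (c : Set (IrrCharacter (Subgroup.centralizer (S' : Set G))))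
    (hc : IsPBlock M c) (f : Set (IrrCharacter H))
    (h : IsInducedBlock M (Subgroup.centralizer (S : Set H)) (irrMap ψ.symm '' c) f) :
    IsInducedBlockIn M H (Subgroup.centralizer (S' : Set G)) c f := by
  obtain ⟨-, hf, hcong⟩ := h
  refine ⟨hc, hf, ?_⟩
  intro ξ hξ χ hχ h
  have := hcong (irrMap ψ.symm ξ) ⟨ξ, hξ, rfl⟩ χ hχ h
  rw [← inducedCentralChar_down ψ hψ ξ.1 h]
  exact this

theorem stabilizesBlock_down (x : H)
    (hxN : x ∈ Subgroup.normalizer ((Subgroup.centralizer (S : Set H) : Subgroup H) : Set H))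
    (c : Set (IrrCharacter (Subgroup.centralizer (S' : Set G))))
    (h : StabilizesBlock (Subgroup.centralizer (S' : Set G)) c (x : G)) :
    StabilizesBlock (Subgroup.centralizer (S : Set H)) (irrMap ψ.symm '' c) x := by
  refine ⟨hxN, ?_⟩
  rintro _ ⟨ξ, hξ, rfl⟩
  obtain ⟨ξ', hξ', hconj⟩ := h.2 ξ hξ
  refine ⟨irrMap ψ.symm ξ', ⟨ξ', hξ', rfl⟩, ?_⟩
  intro k k' hk
  rw [irrMap_apply, irrMap_apply]
  apply hconj (ψ.symm k) (ψ.symm k')
  have e1 : ∀ d : Subgroup.centralizer (S : Set H),
      ((ψ.symm d : Subgroup.centralizer (S' : Set G)) : G) = ((d : H) : G) := by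
    intro d
    have := hψ (ψ.symm d)
    rw [MulEquiv.apply_symm_apply] at this
    exact this.symm
  rw [e1, e1, hk]
  rfl

end transportIn

section layer1

variable {G : Type u} [Group G] [Fintype G] {p : ℕ} [Fact p.Prime] {M : Ideal AlgInt}
variable {H : Subgroup G} {S : Subgroup H} {S' : Subgroup G}
  (ψ : Subgroup.centralizer (S' : Set G) ≃* Subgroup.centralizer (S : Set H))
  (hψ : ∀ c : Subgroup.centralizer (S' : Set G),
    (((ψ c : Subgroup.centralizer (S : Set H)) : H) : G) = c)

include hψ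

theorem local_nilpotent_iff_aux (hM : IsPModular p M) (hSS' : S' = S.map H.subtype)
    (hab : ∀ x ∈ S, ∀ y ∈ S, x * y = y * x)
    (c : Set (IrrCharacter (Subgroup.centralizer (S' : Set G)))) (hc : IsPBlock M c)
    (f₀ : Set (IrrCharacter H)) (hmax : IsMaximalBrauerPair p M f₀ S (irrMap ψ.symm '' c)) :
    (∃ f : Set (IrrCharacter H),
      IsInducedBlockIn M H (Subgroup.centralizer (S' : Set G)) c f) ∧
    ∀ f : Set (IrrCharacter H), IsInducedBlockIn M H (Subgroup.centralizer (S' : Set G)) c f →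
      (IsNilpotentBlock p M f ↔ ∀ g : G, g ∈ H → g ∈ Subgroup.normalizer (S' : Set G) →
        StabilizesBlock (Subgroup.centralizer (S' : Set G)) c g →
          g ∈ Subgroup.centralizer (S' : Set G)) := by
  classical
  haveI : Fintype H := Fintype.ofFinite _
  have hMp := isPModular_isPrime hM
  have hSp : IsPGroup p S := hmax.1.1.1
  have hcH : IsPBlock M (irrMap ψ.symm '' c) := hmax.1.1.2
  have huniq : ∀ f : Set (IrrCharacter H),
      IsInducedBlock M (Subgroup.centralizer (S : Set H)) (irrMap ψ.symm '' c) f → f = f₀ := by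
    intro f hf
    have h1 := brauerPairOf_of_induced hM S hSp f _ hf
    obtain ⟨B', -, hB'⟩ := brauerPair_unique_block' p M hM S _ hmax.1.1
    rw [hB' f h1, hB' f₀ hmax.1]
  have hSC : S ≤ Subgroup.centralizer (S : Set H) := fun u hu => by
    rw [Subgroup.mem_centralizer_iff]
    intro q hq
    exact hab q hq u hu
  obtain ⟨f', hf'⟩ := Cfsg.Agent.S0919.result p M hM S (Subgroup.centralizer (S : Set H)) hSp hSC
    le_rfl (Subgroup.centralizer_le_normalizer _) (irrMap ψ.symm '' c) hcH
  have hf'0 := huniq f' hf'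
  rw [hf'0] at hf'
  have hnil := abelian_nilpotent_iff hM f₀ S (irrMap ψ.symm '' c) hmax hab
  have hmem : ∀ y : H, (y : G) ∈ S' ↔ y ∈ S := by
    intro y
    rw [hSS']
    constructor
    · rintro ⟨s, hs, hsy⟩
      have : s = y := Subtype.ext hsy
      rwa [← this]
    · intro hy
      exact ⟨y, hy, rfl⟩
  refine ⟨⟨f₀, isInducedBlockIn_of ψ hψ c hc f₀ hf'⟩, ?_⟩
  intro f hf
  have hff := huniq f (isInducedBlock_of_in ψ hψ c f hf)
  rw [hff, hnil]
  constructor
  · intro h g hgH hgN hgst
    have hxN : (⟨g, hgH⟩ : H) ∈ Subgroup.normalizer (S : Set H) := by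
      rw [Subgroup.mem_normalizer_iff]
      intro y
      rw [← hmem y, ← hmem ((⟨g, hgH⟩ : H) * y * (⟨g, hgH⟩ : H)⁻¹)]
      exact Subgroup.mem_normalizer_iff.mp hgN (y : G)
    have hst := stabilizesBlock_down ψ hψ ⟨g, hgH⟩
      (normalizer_le_normalizer_centralizer S hxN) c hgst
    have := h ⟨g, hgH⟩ hxN hst
    exact (mem_centralizer_up ψ hψ hSS' ⟨g, hgH⟩).mp this
  · intro h x hxN hxst
    have hxN' : (x : G) ∈ Subgroup.normalizer (S' : Set G) := by
      rw [hSS']
      exact mem_normalizer_map_subtype H S x hxN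
    have hst := stabilizesBlock_up ψ hψ x (normalizer_le_normalizer_centralizer S' hxN') _ hxst
    have e : irrMap ψ '' (irrMap ψ.symm '' c) = c := by
      rw [Set.image_image]
      simp [irrMap_irrMap_symm]
    rw [e] at hst
    exact (mem_centralizer_up ψ hψ hSS' x).mpr (h (x : G) x.2 hxN' hst)

end layer1

end Cfsg.Agent.Lib.helper23

namespace Cfsg.Agent.Lib.helper23

open Cfsg Cfsg.Agent.Lib.helper24 Cfsg.Agent.Lib.helper5

universe u

section layer2

variable {G : Type u} [Group G] [Fintype G] {p : ℕ} [Fact p.Prime] {M : Ideal AlgInt}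

/-- for a maximal pair `(P, c)` with `P` abelian and `Q ≤ P`: the block of `C_G(Q)` induced by
`c` exists, and it is nilpotent iff the stabilizer of `(P, c)` meets `C_G(Q)` in `C_G(P)` -/
theorem abelian_local_nilpotent_iff (hM : IsPModular p M) (B : Set (IrrCharacter G))
    (P : Subgroup G) (c : Set (IrrCharacter (Subgroup.centralizer (P : Set G))))
    (hmax : IsMaximalBrauerPair p M B P c) (hab : ∀ x ∈ P, ∀ y ∈ P, x * y = y * x)
    (Q : Subgroup G) (hQP : Q ≤ P) :
    (∃ f : Set (IrrCharacter (Subgroup.centralizer (Q : Set G))),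
      IsInducedBlockIn M (Subgroup.centralizer (Q : Set G))
        (Subgroup.centralizer (P : Set G)) c f) ∧
    ∀ f : Set (IrrCharacter (Subgroup.centralizer (Q : Set G))),
      IsInducedBlockIn M (Subgroup.centralizer (Q : Set G))
        (Subgroup.centralizer (P : Set G)) c f →
      (IsNilpotentBlock p M f ↔ ∀ g : G, g ∈ Subgroup.centralizer (Q : Set G) →
        g ∈ Subgroup.normalizer (P : Set G) →
        StabilizesBlock (Subgroup.centralizer (P : Set G)) c g →
          g ∈ Subgroup.centralizer (P : Set G)) := by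
  classical
  haveI : Fintype (Subgroup.centralizer (Q : Set G)) := Fintype.ofFinite _
  have hMp := isPModular_isPrime hM
  have hPc : IsBrauerPair p M P c := hmax.1.1
  have hPC : P ≤ Subgroup.centralizer (Q : Set G) := fun u hu => by
    rw [Subgroup.mem_centralizer_iff]
    intro q hq
    exact hab q (hQP hq) u hu
  have hPN : P ≤ Subgroup.normalizer (Q : Set G) :=
    hPC.trans (Subgroup.centralizer_le_normalizer _)
  obtain ⟨f₀, hn, -⟩ := unique_normal_subpair p M hM P Q c hPc hQP hPN
  have hf₀ : IsPBlock M f₀ := hn.1.2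
  have hD := defectGroup_of_le_centralizer hM B P Q c f₀ hmax hf₀
    (Relation.ReflTransGen.single hn) hPC
  have hSS' : P = (P.subgroupOf (Subgroup.centralizer (Q : Set G))).map
      (Subgroup.centralizer (Q : Set G)).subtype := by
    rw [Subgroup.subgroupOf_map_subtype, inf_of_le_left hPC]
  have habH : ∀ x ∈ P.subgroupOf (Subgroup.centralizer (Q : Set G)),
      ∀ y ∈ P.subgroupOf (Subgroup.centralizer (Q : Set G)), x * y = y * x := by
    intro x hx y hy
    apply Subtype.ext
    exact hab x (Subgroup.mem_subgroupOf.mp hx) y (Subgroup.mem_subgroupOf.mp hy)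
  have hFf : ∀ t : Subgroup.centralizer (Q : Set G),
      blockCoeff f₀ t = subgroupBlockCoeff (Subgroup.centralizer (Q : Set G)) f₀ (t : G) := by
    intro t
    unfold subgroupBlockCoeff
    rw [dif_pos t.2]
  have hpair : IsBrauerPairOf p M f₀ (P.subgroupOf (Subgroup.centralizer (Q : Set G)))
      (irrMap (centIsoH Q (Subgroup.centralizer (Q : Set G)) le_rfl
        (P.subgroupOf (Subgroup.centralizer (Q : Set G))) P hSS' hQP).symm '' c) := by
    refine ⟨⟨hPc.1.comap_subtype, ?_⟩, hf₀, ?_⟩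
    · obtain ⟨θ, hθ⟩ := hPc.2
      have hθ' : c = blockOf M θ.1 := hθ
      rw [hθ', irrMap_image_blockOf]
      exact ⟨_, rfl⟩
    · rintro _ ⟨ζ, hζ, rfl⟩
      have h1 := brauerOmega_up (centIsoH Q (Subgroup.centralizer (Q : Set G)) le_rfl
          (P.subgroupOf (Subgroup.centralizer (Q : Set G))) P hSS' hQP) (fun c => rfl)
        (blockCoeff f₀) _ hFf
        (irrMap (centIsoH Q (Subgroup.centralizer (Q : Set G)) le_rfl
          (P.subgroupOf (Subgroup.centralizer (Q : Set G))) P hSS' hQP).symm ζ)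
      rw [irrMap_irrMap_symm] at h1
      rw [← h1]
      exact hn.2.2.2.2.2 ζ hζ
  have hmaxH := maximal_of_defectGroup hM f₀ _ _ hpair hD
  exact local_nilpotent_iff_aux (centIsoH Q (Subgroup.centralizer (Q : Set G)) le_rfl
    (P.subgroupOf (Subgroup.centralizer (Q : Set G))) P hSS' hQP) (fun c => rfl) hM hSS' habH c
    hPc.2 f₀ hmaxH

end layer2

section final

variable {G : Type u} [Group G] [Finite G] {p : ℕ} [Fact p.Prime] {M : Ideal AlgInt}

theorem abelian_free_iff_local_nilpotent (hM : IsPModular p M) (B : Set (IrrCharacter G))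
    (P : Subgroup G) (hPD : IsDefectGroup p M B P) (hPab : ∀ x ∈ P, ∀ y ∈ P, x * y = y * x)
    (c : Set (IrrCharacter (Subgroup.centralizer (P : Set G))))
    (hc : IsInducedBlock M (Subgroup.centralizer (P : Set G)) c B) (T : Subgroup G)
    (hT : ∀ g : G, g ∈ T ↔ (g ∈ Subgroup.normalizer (P : Set G) ∧
      StabilizesBlock (Subgroup.centralizer (P : Set G)) c g)) :
    (∀ g ∈ T, ∀ x ∈ P, x ≠ 1 → g * x * g⁻¹ = x → g ∈ Subgroup.centralizer (P : Set G)) ↔
      ∀ Q : Subgroup G, Q ≤ P → Q ≠ ⊥ →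
        ∀ f : Set (IrrCharacter (Subgroup.centralizer (Q : Set G))),
          IsInducedBlockIn M (Subgroup.centralizer (Q : Set G))
            (Subgroup.centralizer (P : Set G)) c f → IsNilpotentBlock p M f := by
  classical
  haveI : Fintype G := Fintype.ofFinite G
  obtain ⟨hmax, -⟩ := pel_of_induced_defect hM B P hPD c hc
  constructor
  · intro hfree Q hQP hQ1 f hf
    obtain ⟨-, h2⟩ := abelian_local_nilpotent_iff hM B P c hmax hPab Q hQP
    rw [h2 f hf]
    intro g hgQ hgN hgst
    obtain ⟨x, hx1⟩ := (Subgroup.ne_bot_iff_exists_ne_one.mp hQ1)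
    have hgx : g * (x : G) * g⁻¹ = x := by
      have := Subgroup.mem_centralizer_iff.mp hgQ x x.2
      rw [← this]
      group
    exact hfree g ((hT g).mpr ⟨hgN, hgst⟩) x (hQP x.2) (fun h => hx1 (Subtype.ext h)) hgx
  · intro hloc g hgT x hxP hx1 hgx
    have hQP : Subgroup.zpowers x ≤ P := by
      rw [Subgroup.zpowers_le]
      exact hxP
    have hQ1 : Subgroup.zpowers x ≠ ⊥ := by
      rw [Ne, Subgroup.zpowers_eq_bot]
      exact hx1
    obtain ⟨⟨f, hf⟩, h2⟩ := abelian_local_nilpotent_iff hM B P c hmax hPab (Subgroup.zpowers x) hQP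
    have hnil := hloc _ hQP hQ1 f hf
    rw [h2 f hf] at hnil
    apply hnil g ?_ ((hT g).mp hgT).1 ((hT g).mp hgT).2
    rw [Subgroup.mem_centralizer_iff]
    intro y hy
    obtain ⟨i, rfl⟩ := Subgroup.mem_zpowers_iff.mp hy
    have hcomm : Commute g x := mul_inv_eq_iff_eq_mul.mp hgx
    exact ((hcomm.zpow_right i).eq).symm

end final

end Cfsg.Agent.Lib.helper23
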