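import Cfsg.Agent.Lib.helper23.Clifford
import Cfsg.Agent.Lib.helper23.GalConj

set_option autoImplicit false

namespace Cfsg.Agent.Lib.helper23

open Cfsg Cfsg.Agent.Lib.helper24
open scoped ComplexConjugate

universe u

variable {G : Type u} [Group G]

def conjOrbit (N : Subgroup G) [N.Normal] (θ : N → ℂ) : Set (N → ℂ) :=
  {ψ | ∃ g : G, ψ = conjFun N θ g}

theorem ncard_conjOrbit (N : Subgroup G) [N.Normal] (θ : N → ℂ) :
    (conjOrbit N θ).ncard = (conjStab N θ).index := by
  letI act : MulAction G (N → ℂ) :=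
    { smul := fun g ψ => conjFun N ψ g⁻¹
      one_smul := fun ψ => by
        change conjFun N ψ 1⁻¹ = ψ
        rw [inv_one, conjFun_one]
      mul_smul := fun g h ψ => by
        change conjFun N ψ (g * h)⁻¹ = conjFun N (conjFun N ψ h⁻¹) g⁻¹
        rw [mul_inv_rev, conjFun_mul] }
  have h1 : conjOrbit N θ = MulAction.orbit G θ := by
    ext ψ
    constructor
    · rintro ⟨g, rfl⟩
      refine ⟨g⁻¹, ?_⟩
      change conjFun N θ g⁻¹⁻¹ = _
      rw [inv_inv]
    · rintro ⟨g, rfl⟩
      exact ⟨g⁻¹, rfl⟩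
  have h2 : conjStab N θ = MulAction.stabilizer G θ := by
    ext g
    rw [MulAction.mem_stabilizer_iff, mem_conjStab]
    change conjFun N θ g = θ ↔ conjFun N θ g⁻¹ = θ
    constructor
    · intro h
      exact (mem_conjStab N θ g⁻¹).mp ((conjStab N θ).inv_mem ((mem_conjStab N θ g).mpr h))
    · intro h
      have := (conjStab N θ).inv_mem ((mem_conjStab N θ g⁻¹).mpr h)
      rw [inv_inv] at this
      exact (mem_conjStab N θ g).mp this
  rw [h1, h2, MulAction.index_stabilizer]

theorem le_conjStab (N : Subgroup G) [N.Normal] {θ : N → ℂ} (hθ : IsClassFunction N θ) :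
    N ≤ conjStab N θ :=
  fun _ hg => (mem_conjStab N θ _).mpr (conjFun_of_mem N hθ hg)

theorem ncard_conjOrbit_dvd_index (N : Subgroup G) [N.Normal] {θ : N → ℂ}
    (hθ : IsClassFunction N θ) : (conjOrbit N θ).ncard ∣ N.index := by
  rw [ncard_conjOrbit]
  exact Subgroup.index_dvd_of_le (le_conjStab N hθ)

theorem finite_conjOrbit [Finite G] (N : Subgroup G) [N.Normal] (θ : N → ℂ) :
    (conjOrbit N θ).Finite := by
  apply (Set.finite_range (fun g : G => conjFun N θ g)).subset
  rintro ψ ⟨g, rfl⟩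
  exact ⟨g, rfl⟩

theorem constituent_mem_conjOrbit [Fintype G] (N : Subgroup G) [N.Normal] [Fintype N]
    {χ : G → ℂ} (hχ : IsIrrCharacter G χ) {θ ψ : N → ℂ} (hθ : IsIrrCharacter N θ)
    (hψ : IsIrrCharacter N ψ) (h1 : classInner (fun n : N => χ n) θ ≠ 0)
    (h2 : classInner (fun n : N => χ n) ψ ≠ 0) : ψ ∈ conjOrbit N θ := by
  classical
  by_contra hn
  have hχc := isCharacter_conj_class (isCharacter_of_isIrrCharacter hχ)
  have e1 : classInner (indFun N ψ) χ ≠ 0 := by
    rw [frobenius_reciprocity N ψ hχc, classInner_conj_symm]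
    simpa using h2
  have e2 : classInner (indFun N θ) χ ≠ 0 := by
    rw [frobenius_reciprocity N θ hχc, classInner_conj_symm]
    simpa using h1
  have e3 := inner_ne_zero_of_common (isCharacter_indFun N (isCharacter_of_isIrrCharacter hψ))
    (isCharacter_indFun N (isCharacter_of_isIrrCharacter hθ)) ⟨χ, hχ⟩ e1 e2
  apply e3
  rw [classInner_indFun_normal]
  have : ∀ g : G, classInner ψ (conjFun N θ g) = 0 := by
    intro g
    have hne' : (⟨ψ, hψ⟩ : IrrCharacter N) ≠ ⟨conjFun N θ g, conjFun_isIrr N hθ g⟩ := by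
      intro h
      exact hn ⟨g, congrArg Subtype.val h⟩
    exact irr_inner_ne hne'
  simp [this]

theorem galois_fixed_constituent [Fintype G] (p : ℕ) [Fact p.Prime] (N : Subgroup G) [N.Normal]
    [Fintype N] (hidx : ¬ p ∣ N.index) (k e : ℕ) (hk : Nat.Coprime k (Nat.card G))
    (hke : k ^ (p ^ e) ≡ 1 [MOD Nat.card G]) (χ : IrrCharacter G)
    (hχ : ∀ g : G, χ.1 (g ^ k) = χ.1 g) (θ : IrrCharacter N)
    (hθ : classInner (fun n : N => χ.1 n) θ.1 ≠ 0) : ∀ n : N, θ.1 (n ^ k) = θ.1 n := by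
  classical
  have hkN : Nat.Coprime k (Nat.card N) :=
    Nat.Coprime.coprime_dvd_right (Subgroup.card_subgroup_dvd_card N) hk
  have hχc := isCharacter_conj_class (isCharacter_of_isIrrCharacter χ.2)
  set S := conjOrbit N θ.1 with hS
  have hSfin : S.Finite := finite_conjOrbit N θ.1
  haveI : Fintype S := hSfin.fintype
  have hcard : ¬ p ∣ Fintype.card S := by
    rw [← Nat.card_eq_fintype_card, Nat.card_coe_set_eq]
    intro h
    exact hidx (dvd_trans h (ncard_conjOrbit_dvd_index N (isClassFunction_irr θ)))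
  have hSirr : ∀ ψ ∈ S, IsIrrCharacter N ψ := by
    rintro ψ ⟨g, rfl⟩
    exact conjFun_isIrr N θ.2 g
  have hSin : ∀ ψ ∈ S, classInner (fun n : N => χ.1 n) ψ ≠ 0 := by
    rintro ψ ⟨g, rfl⟩
    rw [classInner_restrict_conjFun N hχc]
    exact hθ
  have htw : ∀ ψ ∈ S, (fun n : N => ψ (n ^ k)) ∈ S := by
    intro ψ hψ
    apply constituent_mem_conjOrbit N χ.2 θ.2 (isIrrCharacter_pow_coprime (hSirr ψ hψ) k hkN) hθ
    have : classInner (fun n : N => χ.1 n) (fun n : N => ψ (n ^ k))
        = classInner (fun n : N => χ.1 n) ψ := by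
      unfold classInner
      congr 1
      rw [← Equiv.sum_comp (powCoprime hkN.symm) (fun n : N => χ.1 n * conj (ψ n))]
      apply Finset.sum_congr rfl
      intro n _
      simp only [powCoprime_apply]
      rw [Subgroup.coe_pow, hχ]
    rw [this]
    exact hSin ψ hψ
  let f : Function.End S := fun ψ => ⟨fun n : N => ψ.1 (n ^ k), htw ψ.1 ψ.2⟩
  have hfpow : ∀ (j : ℕ) (ψ : S), ((f ^ j) ψ).1 = fun n : N => ψ.1 (n ^ (k ^ j)) := by
    intro j
    induction j with
    | zero =>
      intro ψ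
      funext n
      simp [Function.End.one_def]
    | succ j ih =>
      intro ψ
      rw [pow_succ]
      change ((f ^ j) (f ψ)).1 = _
      rw [ih]
      funext n
      simp only [f]
      rw [← pow_mul, pow_succ]
  have hf : f ^ p ^ e = 1 := by
    funext ψ
    apply Subtype.ext
    rw [hfpow]
    funext n
    rw [Function.End.one_def, id]
    congr 1
    have h1 : n ^ (k ^ p ^ e) = n ^ 1 := by
      apply pow_eq_pow_iff_modEq.mpr
      apply hke.of_dvd
      exact dvd_trans (orderOf_dvd_natCard n) (Subgroup.card_subgroup_dvd_card N)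
    rw [h1, pow_one]
  have hmod := Equiv.Perm.card_fixedPoints_modEq (p := p) (n := e) hf
  have hex : ∃ ψ : S, f ψ = ψ := by
    by_contra hcon
    have hempty : IsEmpty (Function.fixedPoints f) := ⟨fun x => hcon ⟨x.1, x.2⟩⟩
    have h0 : Fintype.card (Function.fixedPoints f) = 0 := Fintype.card_eq_zero
    rw [h0] at hmod
    exact hcard (Nat.modEq_zero_iff_dvd.mp hmod)
  obtain ⟨ψ₁, hψ₁⟩ := hex
  obtain ⟨g, hg⟩ := ψ₁.2
  have hfix : ∀ n : N, ψ₁.1 (n ^ k) = ψ₁.1 n := fun n => congrFun (congrArg Subtype.val hψ₁) n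
  have hθψ : ∀ m : N, θ.1 m = ψ₁.1 (MulAut.conjNormal g⁻¹ m) := by
    intro m
    rw [hg]
    change θ.1 m = θ.1 (MulAut.conjNormal g (MulAut.conjNormal g⁻¹ m))
    rw [← MulAut.mul_apply, ← map_mul, mul_inv_cancel, map_one, MulAut.one_apply]
  intro n
  rw [hθψ, hθψ, map_pow, hfix]

end Cfsg.Agent.Lib.helper23
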