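import Mathlib
import Cfsg.Agent.Lib.helper23.BPFong
import Cfsg.Agent.Lib.helper23.CentralDefect
import Cfsg.Agent.Lib.helper23.CliffordOrbit
import Cfsg.Agent.Lib.helper23.CenterIndex

set_option autoImplicit false

/-!
# A Brauer pair carrying a weight is centric and radical
-/

namespace Cfsg.Agent.Lib.helper23

open Cfsg Cfsg.Agent.Lib.helper24 Cfsg.Agent.Lib.helper5
open scoped ComplexConjugate Pointwise

universe u

section weightgen

variable {T : Type u} [Group T] [Fintype T]
variable {M : Ideal AlgInt} {p : ℕ} [Fact p.Prime]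

/-- a character of `p`-defect zero of `T ⧸ N` vanishes on the `p`-elements outside `N` -/
theorem weight_vanish (hM : IsPModular p M) (N : Subgroup T) [N.Normal] (χ : IrrCharacter T)
    (hker : ∀ x ∈ N, ∀ t : T, χ.1 (x * t) = χ.1 t)
    (hdeg : (charDegree χ.1).factorization p + (Nat.card N).factorization p
      = (Nat.card T).factorization p) (t : T) (k : ℕ) (ht : t ^ p ^ k = 1) (htN : t ∉ N) :
    χ.1 t = 0 := by
  have hp : p.Prime := Fact.out
  have hN1 : ∀ x ∈ N, χ.1 x = χ.1 1 := fun x hx => by simpa using hker x hx 1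
  obtain ⟨χ', hχ', hval⟩ := isIrrCharacter_deflate N χ.2 hN1
  have hdeg' : (charDegree χ').factorization p
      = (⊥ : Subgroup (T ⧸ N)).index.factorization p := by
    have h1 : charDegree χ' = charDegree χ.1 := by
      unfold charDegree
      rw [← hval 1]
      rfl
    rw [h1, Subgroup.index_bot]
    have h2 : Nat.card T = Nat.card (T ⧸ N) * Nat.card N :=
      Subgroup.card_eq_card_quotient_mul_card_subgroup N
    rw [h2, Nat.factorization_mul Nat.card_pos.ne' Nat.card_pos.ne', Finsupp.add_apply] at hdeg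
    omega
  have hv := (laradji_central p M hM ⊥ IsPGroup.of_bot bot_le ⟨χ', hχ'⟩ hdeg').2
  have hx : IsPPart p (t : T ⧸ N) (t : T ⧸ N) := by
    refine ⟨1, mul_one _, Commute.one_right _, ?_, ?_⟩
    · have h3 : (t : T ⧸ N) ^ p ^ k = 1 := by
        rw [← QuotientGroup.mk_pow, ht]
        rfl
      obtain ⟨j, -, hj⟩ := (Nat.dvd_prime_pow hp).mp (orderOf_dvd_of_pow_eq_one h3)
      exact ⟨j, hj⟩
    · rw [orderOf_one]
      exact hp.not_dvd_one
  have h4 := hv (t : T ⧸ N) (t : T ⧸ N) hx (by
    rw [Subgroup.mem_bot, QuotientGroup.eq_one_iff]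
    exact htN)
  rw [← hval t]
  exact h4

/-- sums of a class function over a Sylow subgroup of a normal subgroup are conjugation
invariant -/
theorem sylow_conj_sum (N : Subgroup T) [hN : N.Normal] [Fintype N] (S : Sylow p N) (θ : N → ℂ)
    (hθ : IsClassFunction N θ) (g : T) [DecidablePred (· ∈ (S : Subgroup N))] :
    ∑ s : N, (if s ∈ (S : Subgroup N) then θ ⟨g * s * g⁻¹, hN.conj_mem s s.2 g⟩ else 0)
      = ∑ s : N, (if s ∈ (S : Subgroup N) then θ s else 0) := by
  obtain ⟨n, hn⟩ := MulAction.exists_smul_eq N ((MulAut.conjNormal g : MulAut N) • S) S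
  have hψ : (MulAut.conj n * MulAut.conjNormal g : MulAut N) • (S : Subgroup N) = S := by
    rw [mul_smul]
    exact congrArg Sylow.toSubgroup hn
  have hmem : ∀ x : N, (MulAut.conj n * MulAut.conjNormal g : MulAut N) x ∈ (S : Subgroup N)
      ↔ x ∈ (S : Subgroup N) := by
    intro x
    conv_lhs => rw [← hψ]
    exact Subgroup.smul_mem_pointwise_smul_iff
  rw [← Equiv.sum_comp (MulAut.conj n * MulAut.conjNormal g : MulAut N).toEquiv
    (fun s => if s ∈ (S : Subgroup N) then θ s else 0)]
  apply Finset.sum_congr rfl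
  intro s _
  have e1 : (MulAut.conj n * MulAut.conjNormal g : MulAut N).toEquiv s
      = n * ⟨g * s * g⁻¹, hN.conj_mem s s.2 g⟩ * n⁻¹ := rfl
  have e2 : (MulAut.conj n * MulAut.conjNormal g : MulAut N).toEquiv s ∈ (S : Subgroup N)
      ↔ s ∈ (S : Subgroup N) := hmem s
  by_cases hs : s ∈ (S : Subgroup N)
  · rw [if_pos hs, if_pos (e2.mpr hs), e1]
    exact (hθ _ n).symm
  · rw [if_neg hs, if_neg (fun h => hs (e2.mp h))]

/-- Clifford: the normalized sums of `χ` and of a constituent `θ` of its restriction to the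
normal subgroup `N` over a Sylow subgroup of `N` agree -/
theorem clifford_sylow_sum (N : Subgroup T) [hN : N.Normal] [Fintype N] (S : Sylow p N)
    (χ : IrrCharacter T) (θ : IrrCharacter N)
    (hne : classInner (fun n : N => χ.1 n) θ.1 ≠ 0) [DecidablePred (· ∈ (S : Subgroup N))] :
    (∑ s : N, if s ∈ (S : Subgroup N) then χ.1 s else 0) * θ.1 1
      = (∑ s : N, if s ∈ (S : Subgroup N) then θ.1 s else 0) * χ.1 1 := by
  have hcl := clifford_restrict N hN χ.1 χ.2 θ.1 θ.2 hne
  obtain ⟨Orb, hOrb⟩ : ∃ Orb : Set (N → ℂ), Orb = {ψ : N → ℂ | ∃ g : T,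
      ψ = fun n : N => θ.1 ⟨g * n * g⁻¹, hN.conj_mem n n.2 g⟩} := ⟨_, rfl⟩
  rw [← hOrb] at hcl
  have hfin : Orb.Finite := by
    rw [hOrb]
    apply (Set.finite_range
      (fun g : T => fun n : N => θ.1 ⟨g * n * g⁻¹, hN.conj_mem n n.2 g⟩)).subset
    rintro ψ ⟨g, rfl⟩
    exact ⟨g, rfl⟩
  rw [finsum_mem_eq_finite_toFinset_sum _ hfin] at hcl
  obtain ⟨c, hc⟩ : ∃ c : ℂ, c = classInner (fun n : N => χ.1 n) θ.1 := ⟨_, rfl⟩
  rw [← hc] at hcl
  have hval : ∀ s : N, χ.1 s = c * ∑ ψ ∈ hfin.toFinset, ψ s := by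
    intro s
    have := congrFun hcl s
    simpa [Finset.sum_apply] using this
  have hσ : ∀ ψ ∈ hfin.toFinset, ∑ s : N, (if s ∈ (S : Subgroup N) then ψ s else 0)
      = ∑ s : N, (if s ∈ (S : Subgroup N) then θ.1 s else 0) := by
    intro ψ hψ
    rw [Set.Finite.mem_toFinset, hOrb] at hψ
    obtain ⟨g, rfl⟩ := hψ
    exact sylow_conj_sum N S θ.1 (isClassFunction_irr θ) g
  have hone : ∀ ψ ∈ hfin.toFinset, ψ 1 = θ.1 1 := by
    intro ψ hψ
    rw [Set.Finite.mem_toFinset, hOrb] at hψ
    obtain ⟨g, rfl⟩ := hψ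
    show θ.1 ⟨g * ((1 : N) : T) * g⁻¹, _⟩ = θ.1 1
    refine congrArg θ.1 (Subtype.ext ?_)
    simp
  have h1 : ∑ s : N, (if s ∈ (S : Subgroup N) then χ.1 s else 0)
      = c * ((hfin.toFinset.card : ℂ)
        * ∑ s : N, (if s ∈ (S : Subgroup N) then θ.1 s else 0)) := by
    have h0 : ∀ s : N, (if s ∈ (S : Subgroup N) then χ.1 s else 0)
        = c * ∑ ψ ∈ hfin.toFinset, (if s ∈ (S : Subgroup N) then ψ s else 0) := by
      intro s
      split_ifs
      · exact hval s
      · simp
    rw [Finset.sum_congr rfl (fun s _ => h0 s), ← Finset.mul_sum, Finset.sum_comm,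
      Finset.sum_congr rfl hσ, Finset.sum_const, nsmul_eq_mul]
  have h2 : χ.1 1 = c * ((hfin.toFinset.card : ℂ) * θ.1 1) := by
    have h3 := hval 1
    rw [Finset.sum_congr rfl hone, Finset.sum_const, nsmul_eq_mul] at h3
    exact h3
  rw [h1, h2]
  ring

/-- a normal `p`-subgroup of `T` lies in `N` when `T ⧸ N` has a character of defect zero -/
theorem weight_radical (hM : IsPModular p M) (N : Subgroup T) [N.Normal] (χ : IrrCharacter T)
    (hker : ∀ x ∈ N, ∀ t : T, χ.1 (x * t) = χ.1 t)
    (hdeg : (charDegree χ.1).factorization p + (Nat.card N).factorization p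
      = (Nat.card T).factorization p) (R : Subgroup T) [hR : R.Normal] (hRp : IsPGroup p R) :
    R ≤ N := by
  classical
  haveI : Fintype R := Fintype.ofFinite _
  have hχ1 : χ.1 1 ≠ 0 := irr_one_ne_zero χ
  have hvals : ∀ r : R, χ.1 r = if (r : T) ∈ N then χ.1 1 else 0 := by
    intro r
    split_ifs with h
    · simpa using hker r h 1
    · obtain ⟨k, hk⟩ := hRp r
      have hk' : (r : T) ^ p ^ k = 1 := by
        rw [← Subgroup.coe_pow, hk]
        rfl
      exact weight_vanish hM N χ hker hdeg r k hk' h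
  have hne : classInner (fun r : R => χ.1 r) (fun _ => (1 : ℂ)) ≠ 0 := by
    unfold classInner
    apply mul_ne_zero (inv_ne_zero (by exact_mod_cast Nat.card_pos.ne'))
    have h1 : ∑ r : R, χ.1 r * conj ((fun _ : R => (1 : ℂ)) r)
        = ((Finset.univ.filter (fun r : R => (r : T) ∈ N)).card : ℂ) * χ.1 1 := by
      simp only [map_one, mul_one]
      rw [Finset.sum_congr rfl (fun r _ => hvals r), ← Finset.sum_filter, Finset.sum_const,
        nsmul_eq_mul]
    rw [h1]
    apply mul_ne_zero _ hχ1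
    have h2 : 0 < (Finset.univ.filter (fun r : R => (r : T) ∈ N)).card :=
      Finset.card_pos.mpr ⟨1, by simp [one_mem]⟩
    exact_mod_cast h2.ne'
  have hcl := clifford_restrict R hR χ.1 χ.2 (fun _ => (1 : ℂ)) isIrrCharacter_trivial hne
  have hset : {ψ : R → ℂ | ∃ g : T, ψ = fun n : R => (1 : ℂ)} = {fun _ => (1 : ℂ)} := by
    ext ψ
    simp
  rw [hset, finsum_mem_singleton] at hcl
  intro r hr
  by_contra hrN
  have h1 := congrFun hcl ⟨r, hr⟩
  have h2 := congrFun hcl 1
  simp only [Pi.smul_apply, smul_eq_mul, mul_one] at h1 h2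
  have h3 := hvals ⟨r, hr⟩
  rw [if_neg hrN] at h3
  apply hχ1
  have h4 : χ.1 1 = χ.1 ((1 : R) : T) := rfl
  rw [h4, h2, ← h1]
  exact h3

/-- the degree of a constituent of the restriction of a weight character to a normal subgroup -/
theorem weight_constituent_degree (hM : IsPModular p M) (Q N : Subgroup T) [Q.Normal]
    [hN : N.Normal] [Fintype N] (hQp : IsPGroup p Q) (χ : IrrCharacter T)
    (hker : ∀ x ∈ Q, ∀ t : T, χ.1 (x * t) = χ.1 t)
    (hdeg : (charDegree χ.1).factorization p + (Nat.card Q).factorization p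
      = (Nat.card T).factorization p)
    (θ : IrrCharacter N) (hne : classInner (fun n : N => χ.1 n) θ.1 ≠ 0) :
    (Nat.card N).factorization p
      ≤ (charDegree θ.1).factorization p + (Nat.card (Q.subgroupOf N)).factorization p := by
  classical
  have hp : p.Prime := Fact.out
  have hZp : IsPGroup p (Q.subgroupOf N) := hQp.comap_subtype
  obtain ⟨S, hS⟩ := hZp.exists_le_sylow
  haveI : Fintype (S : Subgroup N) := Fintype.ofFinite _
  have hχ1 : χ.1 1 ≠ 0 := irr_one_ne_zero χ
  have hvals : ∀ s : N, (if s ∈ (S : Subgroup N) then χ.1 s else 0)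
      = if s ∈ Q.subgroupOf N then χ.1 1 else 0 := by
    intro s
    by_cases hsQ : s ∈ Q.subgroupOf N
    · rw [if_pos (hS hsQ), if_pos hsQ]
      simpa using hker (s : T) (Subgroup.mem_subgroupOf.mp hsQ) 1
    · rw [if_neg hsQ]
      split_ifs with hsS
      · obtain ⟨k, hk⟩ := S.isPGroup' ⟨s, hsS⟩
        have hk' : ((s : N) : T) ^ p ^ k = 1 := by
          have h0 := congrArg (fun x : (S : Subgroup N) => ((x : N) : T)) hk
          simpa using h0
        exact weight_vanish hM Q χ hker hdeg (s : T) k hk'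
          (fun h => hsQ (Subgroup.mem_subgroupOf.mpr h))
      · rfl
  have hB := clifford_sylow_sum N S χ θ hne
  rw [Finset.sum_congr rfl (fun s _ => hvals s), ← Finset.sum_filter, Finset.sum_const,
    nsmul_eq_mul] at hB
  have hcardZ : (Finset.univ.filter (fun s : N => s ∈ Q.subgroupOf N)).card
      = Nat.card (Q.subgroupOf N) := by
    rw [Nat.card_eq_fintype_card, Fintype.card_subtype]
  obtain ⟨m, hm⟩ := isCharacter_inner_nat
    (Cfsg.Agent.Lib.helper24.isCharacter_restrict (S : Subgroup N) (isCharacter_irr θ))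
    (isCharacter_trivial (G := (S : Subgroup N)))
  have hsum : ∑ s : N, (if s ∈ (S : Subgroup N) then θ.1 s else 0)
      = (Nat.card (S : Subgroup N) : ℂ) * m := by
    rw [← hm]
    unfold classInner
    rw [← mul_assoc, mul_inv_cancel₀ (by exact_mod_cast Nat.card_pos.ne'), one_mul]
    simp only [map_one, mul_one]
    rw [← Finset.sum_filter]
    exact Finset.sum_subtype (Finset.univ.filter (fun s : N => s ∈ (S : Subgroup N)))
      (by simp) (fun s => θ.1 s)
  rw [hsum, hcardZ] at hB
  have hnat : Nat.card (Q.subgroupOf N) * charDegree θ.1 = Nat.card (S : Subgroup N) * m := by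
    have h0 : ((Nat.card (Q.subgroupOf N) : ℂ) * (charDegree θ.1 : ℂ))
        = (Nat.card (S : Subgroup N) : ℂ) * m := by
      apply mul_right_cancel₀ hχ1
      rw [charDegree_cast]
      linear_combination hB
    exact_mod_cast h0
  have hScard : Nat.card (S : Subgroup N) = p ^ (Nat.card N).factorization p :=
    S.card_eq_multiplicity
  have hd0 : charDegree θ.1 ≠ 0 := (charDegree_pos θ).ne'
  have hZ0 : Nat.card (Q.subgroupOf N) ≠ 0 := Nat.card_pos.ne'
  have hm0 : m ≠ 0 := by
    rintro rfl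
    rw [mul_zero] at hnat
    exact (mul_ne_zero hZ0 hd0) hnat
  have h5 : (Nat.card (Q.subgroupOf N) * charDegree θ.1).factorization p
      = (Nat.card (S : Subgroup N) * m).factorization p := by rw [hnat]
  rw [Nat.factorization_mul hZ0 hd0, Nat.factorization_mul Nat.card_pos.ne' hm0, hScard,
    Finsupp.add_apply, Finsupp.add_apply, Nat.factorization_pow, Finsupp.smul_apply,
    hp.factorization_self] at h5
  simp only [smul_eq_mul, mul_one] at h5
  omega

end weightgen

section weightpair

variable {G : Type u} [Group G] [Fintype G]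
variable {M : Ideal AlgInt} {p : ℕ} [Fact p.Prime]

/-- a character of the block of the stabilizer `T` with the idempotent of `f` has a constituent
in `f` on `C_G(Q)` -/
theorem exists_constituent_of_stab (hM : IsPModular p M) (Q T : Subgroup G)
    (hCT : Subgroup.centralizer (Q : Set G) ≤ T) (hTN : T ≤ Subgroup.normalizer (Q : Set G))
    (f : Set (IrrCharacter (Subgroup.centralizer (Q : Set G)))) (hf : IsPBlock M f)
    (hTst : ∀ t ∈ T, StabilizesBlock (Subgroup.centralizer (Q : Set G)) f t)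
    (F : Set (IrrCharacter T))
    (hFf : ∀ t : T, blockCoeff F t = subgroupBlockCoeff (Subgroup.centralizer (Q : Set G)) f (t : G))
    (χ : IrrCharacter T) (hχ : χ ∈ F)
    [Fintype ((Subgroup.centralizer (Q : Set G)).subgroupOf T)] :
    ∃ θ₁ ∈ f, classInner
      (fun n : (Subgroup.centralizer (Q : Set G)).subgroupOf T => χ.1 n)
      (irrMap (Subgroup.subgroupOfEquivOfLe hCT) θ₁).1 ≠ 0 := by
  classical
  have : Fintype T := Fintype.ofFinite _
  have : Fintype (IrrCharacter T) := Fintype.ofFinite _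
  have : Fintype (Subgroup.centralizer (Q : Set G)) := Fintype.ofFinite _
  have : Fintype (IrrCharacter (Subgroup.centralizer (Q : Set G))) := Fintype.ofFinite _
  have : Fintype (IrrCharacter ((Subgroup.centralizer (Q : Set G)).subgroupOf T)) :=
    Fintype.ofFinite _
  have hMp := isPModular_isPrime hM
  have hTNC : T ≤ Subgroup.normalizer
      ((Subgroup.centralizer (Q : Set G) : Subgroup G) : Set G) :=
    hTN.trans (normalizer_le_normalizer_centralizer Q)
  haveI hNn : ((Subgroup.centralizer (Q : Set G)).subgroupOf T).Normal :=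
    (Subgroup.normal_subgroupOf_iff_le_normalizer hCT).mpr hTNC
  obtain ⟨ι, hι⟩ : ∃ ι : ((Subgroup.centralizer (Q : Set G)).subgroupOf T)
      ≃* Subgroup.centralizer (Q : Set G), ι = Subgroup.subgroupOfEquivOfLe hCT := ⟨_, rfl⟩
  have hιc : ∀ n : (Subgroup.centralizer (Q : Set G)).subgroupOf T,
      ((ι n : Subgroup.centralizer (Q : Set G)) : G) = ((n : T) : G) := by
    intro n
    rw [hι]
    rfl
  obtain ⟨b, hb⟩ : ∃ b : Set (IrrCharacter ((Subgroup.centralizer (Q : Set G)).subgroupOf T)),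
      b = irrMap ι '' f := ⟨_, rfl⟩
  have hinv : ∀ g : T, ∀ θ ∈ b,
      ∀ θ' : IrrCharacter ((Subgroup.centralizer (Q : Set G)).subgroupOf T),
      (∀ n : (Subgroup.centralizer (Q : Set G)).subgroupOf T,
        θ'.1 n = θ.1 ⟨g * n * g⁻¹, hNn.conj_mem n n.2 g⟩) → θ' ∈ b := by
    intro g θ hθ θ' hθ'
    rw [hb] at hθ ⊢
    obtain ⟨θ₁, hθ₁, rfl⟩ := hθ
    have hu : (g : G)⁻¹ ∈ Subgroup.normalizer
        ((Subgroup.centralizer (Q : Set G) : Subgroup G) : Set G) := inv_mem (hTNC g.2)
    refine ⟨conjIrr (Subgroup.centralizer (Q : Set G)) (g : G)⁻¹ hu θ₁,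
      (stabilizesBlock_iff _ _ hu f).mp (hTst _ (inv_mem g.2)) θ₁ hθ₁, ?_⟩
    apply Subtype.ext
    funext n
    rw [hθ' n, irrMap_apply, irrMap_apply, conjIrr_apply]
    refine congrArg θ₁.1 (Subtype.ext ?_)
    rw [conjAut_coe, hιc, hιc]
    simp
  have hinv' : ∀ (g : T) (ψ : IrrCharacter ((Subgroup.centralizer (Q : Set G)).subgroupOf T)),
      Cfsg.Agent.Lib.helper5.conjIrr ((Subgroup.centralizer (Q : Set G)).subgroupOf T) g ψ ∈ b
        ↔ ψ ∈ b := by
    intro g ψ
    constructor
    · intro h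
      refine hinv g⁻¹ (Cfsg.Agent.Lib.helper5.conjIrr _ g ψ) h ψ (fun n => ?_)
      show ψ.1 n = ψ.1 ⟨g * ((⟨g⁻¹ * n * g⁻¹⁻¹, _⟩ :
        (Subgroup.centralizer (Q : Set G)).subgroupOf T) : T) * g⁻¹, _⟩
      exact congrArg ψ.1 (Subtype.ext (by simp [mul_assoc]))
    · intro h
      exact hinv g ψ h (Cfsg.Agent.Lib.helper5.conjIrr _ g ψ) (fun n => rfl)
  have hext : extendByZero ((Subgroup.centralizer (Q : Set G)).subgroupOf T)
      (coef (b.indicator (fun _ => (1 : ℂ)))) = blockCoeff F := by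
    funext t
    by_cases ht : t ∈ (Subgroup.centralizer (Q : Set G)).subgroupOf T
    · have ht' : (t : G) ∈ Subgroup.centralizer (Q : Set G) := Subgroup.mem_subgroupOf.mp ht
      rw [extendByZero_apply_mem _ _ ht, coef_indicator, hb, blockCoeff_image_irrMap, hFf]
      unfold subgroupBlockCoeff
      rw [dif_pos ht']
      exact congrArg (blockCoeff f) (Subtype.ext (hιc ⟨t, ht⟩))
    · have ht' : (t : G) ∉ Subgroup.centralizer (Q : Set G) :=
        fun h => ht (Subgroup.mem_subgroupOf.mpr h)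
      rw [extendByZero_apply_not_mem _ _ ht, hFf]
      unfold subgroupBlockCoeff
      rw [dif_neg ht']
  have hFcov : F = cov ((Subgroup.centralizer (Q : Set G)).subgroupOf T) b := by
    apply eq_of_blockCoeff_eq
    funext t
    rw [← coef_indicator (cov _ b), ← coord_extend_indicator _ b hinv', hext, coord_blockCoeff,
      coef_indicator]
  have h1 : χ ∈ cov ((Subgroup.centralizer (Q : Set G)).subgroupOf T) b := by
    rw [← hFcov]
    exact hχ
  obtain ⟨θ, hθ, hne⟩ := h1
  rw [hb] at hθ
  obtain ⟨θ₁, hθ₁, rfl⟩ := hθ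
  refine ⟨θ₁, hθ₁, ?_⟩
  rw [← hι]
  exact hne

/-- **a Brauer pair carrying a weight is centric and radical** -/
theorem weight_centric_radical (hM : IsPModular p M) (B : Set (IrrCharacter G))
    (Q : Subgroup G) (e : Set (IrrCharacter (Subgroup.centralizer (Q : Set G))))
    (hQe : IsBrauerPairOf p M B Q e) (T : Subgroup G)
    (hT : ∀ y : G, y ∈ T ↔ y ∈ Subgroup.normalizer (Q : Set G)
      ∧ StabilizesBlock (Subgroup.centralizer (Q : Set G)) e y)
    (F' : Set (IrrCharacter T))
    (hF'e : ∀ t : T, blockCoeff F' t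
      = subgroupBlockCoeff (Subgroup.centralizer (Q : Set G)) e (t : G))
    (χ : IrrCharacter T) (hχ : χ ∈ F')
    (hχQ : ∀ q : G, q ∈ Q → ∀ t : T, ∀ t' : T, (t' : G) = q * (t : G) → χ.1 t' = χ.1 t)
    (hdeg : (charDegree χ.1).factorization p + (Nat.card Q).factorization p
      = (Nat.card T).factorization p) :
    IsDefectGroup p M e ((Q ⊓ Subgroup.centralizer (Q : Set G)).subgroupOf
        (Subgroup.centralizer (Q : Set G)))
      ∧ ∀ R : Subgroup G, R ≤ T → IsPGroup p R →
        (∀ t ∈ T, t ∈ Subgroup.normalizer (R : Set G)) → R ≤ Q := by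
  classical
  have hp : p.Prime := Fact.out
  have hMp := isPModular_isPrime hM
  obtain ⟨⟨hQp, he⟩, hB, -⟩ := hQe
  haveI : Fintype T := Fintype.ofFinite _
  haveI : Fintype (Subgroup.centralizer (Q : Set G)) := Fintype.ofFinite _
  have hTN : T ≤ Subgroup.normalizer (Q : Set G) := fun y hy => ((hT y).mp hy).1
  have hsupT : Q ⊔ Subgroup.centralizer (Q : Set G) ≤ T := by
    intro u hu
    refine (hT u).mpr ⟨?_, stabilizesBlock_of_mem_sup Q e u hu⟩
    exact (sup_le Subgroup.le_normalizer (Subgroup.centralizer_le_normalizer _)) hu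
  have hQT : Q ≤ T := le_sup_left.trans hsupT
  have hCT : Subgroup.centralizer (Q : Set G) ≤ T := le_sup_right.trans hsupT
  have hTst : ∀ t ∈ T, StabilizesBlock (Subgroup.centralizer (Q : Set G)) e t :=
    fun t ht => ((hT t).mp ht).2
  haveI hQn : (Q.subgroupOf T).Normal :=
    (Subgroup.normal_subgroupOf_iff_le_normalizer hQT).mpr hTN
  have hTNC : T ≤ Subgroup.normalizer
      ((Subgroup.centralizer (Q : Set G) : Subgroup G) : Set G) :=
    hTN.trans (normalizer_le_normalizer_centralizer Q)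
  haveI hNn : ((Subgroup.centralizer (Q : Set G)).subgroupOf T).Normal :=
    (Subgroup.normal_subgroupOf_iff_le_normalizer hCT).mpr hTNC
  haveI : Fintype ((Subgroup.centralizer (Q : Set G)).subgroupOf T) := Fintype.ofFinite _
  have hQTp : IsPGroup p (Q.subgroupOf T) := hQp.comap_subtype
  have hker : ∀ x ∈ Q.subgroupOf T, ∀ t : T, χ.1 (x * t) = χ.1 t :=
    fun x hx t => hχQ (x : G) (Subgroup.mem_subgroupOf.mp hx) t (x * t) rfl
  have hdegT : (charDegree χ.1).factorization p + (Nat.card (Q.subgroupOf T)).factorization p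
      = (Nat.card T).factorization p := by
    rw [Nat.card_congr (Subgroup.subgroupOfEquivOfLe hQT).toEquiv]
    exact hdeg
  constructor
  · obtain ⟨θ₁, hθ₁, hne⟩ := exists_constituent_of_stab hM Q T hCT hTN e he hTst F' hF'e χ hχ
    obtain ⟨ι, hι⟩ : ∃ ι : ((Subgroup.centralizer (Q : Set G)).subgroupOf T)
        ≃* Subgroup.centralizer (Q : Set G), ι = Subgroup.subgroupOfEquivOfLe hCT := ⟨_, rfl⟩
    have hιc : ∀ n : (Subgroup.centralizer (Q : Set G)).subgroupOf T,
        ((ι n : Subgroup.centralizer (Q : Set G)) : G) = ((n : T) : G) := by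
      intro n
      rw [hι]
      rfl
    rw [← hι] at hne
    have hD := weight_constituent_degree hM (Q.subgroupOf T)
      ((Subgroup.centralizer (Q : Set G)).subgroupOf T) hQTp χ hker hdegT (irrMap ι θ₁) hne
    obtain ⟨Z, hZ⟩ : ∃ Z : Subgroup (Subgroup.centralizer (Q : Set G)),
        Z = (Q ⊓ Subgroup.centralizer (Q : Set G)).subgroupOf
          (Subgroup.centralizer (Q : Set G)) := ⟨_, rfl⟩
    have hZmem : ∀ c : Subgroup.centralizer (Q : Set G), c ∈ Z ↔ (c : G) ∈ Q := by
      intro c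
      rw [hZ, Subgroup.mem_subgroupOf, Subgroup.mem_inf]
      exact ⟨fun h => h.1, fun h => ⟨h, c.2⟩⟩
    have hZc : Z ≤ Subgroup.center (Subgroup.centralizer (Q : Set G)) := by
      intro z hz
      rw [Subgroup.mem_center_iff]
      intro c
      apply Subtype.ext
      rw [Subgroup.coe_mul, Subgroup.coe_mul]
      exact (Subgroup.mem_centralizer_iff.mp c.2 (z : G) ((hZmem z).mp hz)).symm
    have hZp : IsPGroup p Z := by
      rw [hZ]
      exact (hQp.to_le inf_le_left).comap_subtype
    have hcardZ : Nat.card ((Q.subgroupOf T).subgroupOf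
        ((Subgroup.centralizer (Q : Set G)).subgroupOf T)) = Nat.card Z := by
      refine Nat.card_congr (ι.toEquiv.subtypeEquiv (fun n => ?_))
      rw [Subgroup.mem_subgroupOf, Subgroup.mem_subgroupOf]
      show ((n : T) : G) ∈ Q ↔ ι n ∈ Z
      rw [hZmem, hιc]
    have hcardN : Nat.card ((Subgroup.centralizer (Q : Set G)).subgroupOf T)
        = Nat.card (Subgroup.centralizer (Q : Set G)) := Nat.card_congr ι.toEquiv
    have hdegθ : charDegree (irrMap ι θ₁).1 = charDegree θ₁.1 := by
      unfold charDegree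
      rw [irrMap_apply, map_one]
    rw [hcardZ, hcardN, hdegθ] at hD
    have hup : charDegree θ₁.1 ∣ Z.index := by
      obtain ⟨n, ρ, hirr, hρ⟩ := θ₁.2
      haveI := hirr
      have h1 := genrep_finrank_dvd_index_center ρ
      rw [Module.finrank_fin_fun] at h1
      rw [← hρ, charDegree_rep]
      exact h1.trans (Subgroup.index_dvd_of_le hZc)
    have hidx : Z.index * Nat.card Z = Nat.card (Subgroup.centralizer (Q : Set G)) :=
      Subgroup.index_mul_card Z
    have hZi0 : Z.index ≠ 0 := Subgroup.index_ne_zero_of_finite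
    have hle : (charDegree θ₁.1).factorization p ≤ Z.index.factorization p :=
      (Nat.factorization_le_iff_dvd (charDegree_pos θ₁).ne' hZi0).mpr hup p
    have hfac : Z.index.factorization p + (Nat.card Z).factorization p
        = (Nat.card (Subgroup.centralizer (Q : Set G))).factorization p := by
      rw [← hidx, Nat.factorization_mul hZi0 Nat.card_pos.ne']
      rfl
    have hdeg₁ : (charDegree θ₁.1).factorization p = Z.index.factorization p := by omega
    have hdef := (laradji_central p M hM Z hZp hZc θ₁ hdeg₁).1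
    obtain ⟨θ₀, rfl⟩ := he
    rw [blockOf_eq_of_mem hMp hθ₁] at hdef
    rw [← hZ]
    exact hdef
  · intro R hRT hRp hRn
    haveI : (R.subgroupOf T).Normal :=
      (Subgroup.normal_subgroupOf_iff_le_normalizer hRT).mpr (fun t ht => hRn t ht)
    have h := weight_radical hM (Q.subgroupOf T) χ hker hdegT (R.subgroupOf T) hRp.comap_subtype
    intro r hr
    exact Subgroup.mem_subgroupOf.mp
      (h (Subgroup.mem_subgroupOf.mpr (show ((⟨r, hRT hr⟩ : T) : G) ∈ R from hr)))

end weightpair

end Cfsg.Agent.Lib.helper23
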