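import Mathlib
import Cfsg.Agent.Lib.helper23.PTruncHeight

set_option autoImplicit false

namespace Cfsg.Agent.Lib.helper23

open Cfsg Cfsg.Agent.Lib.helper24 Cfsg.Agent.Lib.helper5
open scoped ComplexConjugate

universe u

/-- the blocks do not depend on the choice of the maximal ideal -/
theorem sameBlock_indep {G : Type u} [Group G] [Finite G] (p : ℕ) [Fact p.Prime]
    {M M' : Ideal AlgInt} (hM : IsPModular p M) (hM' : IsPModular p M') (χ ψ : IrrCharacter G)
    (h : SameBlock M χ.1 ψ.1) : SameBlock M' χ.1 ψ.1 := by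
  classical
  haveI := Fintype.ofFinite G
  haveI := Fintype.ofFinite (IrrCharacter G)
  have hMp := isPModular_isPrime hM
  have hMp' := isPModular_isPrime hM'
  have hne : ((fun ξ : IrrCharacter G => (charDegree ξ.1).factorization p)
      '' blockOf M χ.1).Nonempty := ⟨_, ⟨χ, mem_blockOf_self hMp.ne_top χ, rfl⟩⟩
  obtain ⟨χ₁, hχ₁B, hχ₁⟩ := Nat.sInf_mem hne
  have hχ₁' : (charDegree χ₁.1).factorization p = sInf ((fun ξ : IrrCharacter G =>
      (charDegree ξ.1).factorization p) '' blockOf M χ.1) := hχ₁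
  have hht : blockHeight p (blockOf M χ.1) χ₁.1 = 0 := by
    unfold blockHeight
    rw [← hχ₁']
    exact Nat.sub_self _
  have hall := (height_zero_iff hM (blockOf M χ.1) ⟨χ, rfl⟩ χ₁ hχ₁B).2.mp hht
  obtain ⟨n, hn, hn0, -⟩ := hall χ (mem_blockOf_self hMp.ne_top χ)
  obtain ⟨n', hn', hn0', -⟩ := hall ψ h
  have h1 : χ ∈ blockOf M' χ₁.1 := by
    by_contra hnot
    have h3 := inner_ptrunc_eq_zero_of_not_mem hM' χ₁ χ₁ χ (mem_blockOf_self hMp'.ne_top χ₁) hnot
    rw [hn] at h3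
    exact hn0 (by exact_mod_cast h3)
  have h2 : ψ ∈ blockOf M' χ₁.1 := by
    by_contra hnot
    have h3 := inner_ptrunc_eq_zero_of_not_mem hM' χ₁ χ₁ ψ (mem_blockOf_self hMp'.ne_top χ₁) hnot
    rw [hn'] at h3
    exact hn0' (by exact_mod_cast h3)
  exact sameBlock_trans hMp' (sameBlock_symm h1) h2

theorem sameBlock_indep_mem {G : Type u} [Group G] [Finite G] (p : ℕ) [Fact p.Prime]
    (M : Ideal AlgInt) (hM : IsPModular p M) (χ ψ : IrrCharacter G)
    (h : SameBlock M χ.1 ψ.1) (M' : Ideal AlgInt) (hM' : IsPModular p M') (g : G) :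
    ∃ r : AlgInt, r ∈ M' ∧ (r : ℂ) = centralChar χ.1 g - centralChar ψ.1 g := by
  have hMp' := isPModular_isPrime hM'
  refine ⟨⟨centralChar χ.1 g, centralChar_isIntegral χ.2 g⟩
    - ⟨centralChar ψ.1 g, centralChar_isIntegral ψ.2 g⟩, ?_, ?_⟩
  · rw [← memLocalIdeal_algInt_iff hMp']
    exact sameBlock_indep p hM hM' χ ψ h g
  · rfl

end Cfsg.Agent.Lib.helper23
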