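import Mathlib
import Cfsg.Agent.S0920
import Cfsg.Agent.S4443
import Cfsg.Agent.Lib.helper20.ClassSize

set_option autoImplicit false

/-!
# The number of blocks with a Sylow defect group

By Brauer's first main theorem (helper5, `S0920`) and the rank formula for blocks with a normal
defect group (helper5, `S4443`), the number of blocks with defect group a Sylow `p`-subgroup `P`
is the number of `p`-regular classes of `N_G(P)` lying in `C_G(P)`.
-/

namespace Cfsg.Agent.Lib.helper23

open Cfsg Cfsg.Agent.Lib.helper24 Cfsg.Agent.Lib.helper5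

universe u

/-- a block of a subgroup induces at most one block -/
theorem isInducedBlock_unique {G : Type u} [Group G] {M : Ideal AlgInt} (hMp : M.IsPrime)
    (H : Subgroup G) {b : Set (IrrCharacter H)} {B B' : Set (IrrCharacter G)}
    (h : IsInducedBlock M H b B) (h' : IsInducedBlock M H b B') : B = B' := by
  obtain ⟨⟨ξ₀, rfl⟩, ⟨χ₀, rfl⟩, h3⟩ := h
  obtain ⟨-, ⟨χ₀', rfl⟩, h3'⟩ := h'
  have hξ : ξ₀ ∈ blockOf M ξ₀.1 := mem_blockOf_self hMp.ne_top ξ₀
  have hsame : χ₀' ∈ blockOf M χ₀.1 := by
    intro g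
    have a := h3 ξ₀ hξ χ₀ (mem_blockOf_self hMp.ne_top χ₀) g
    have a' := h3' ξ₀ hξ χ₀' (mem_blockOf_self hMp.ne_top χ₀') g
    have := memLocalIdeal_sub hMp a' a
    convert this using 1
    ring
  exact (blockOf_eq_of_mem hMp hsame).symm

/-- first main theorem as a count -/
theorem card_blocks_defect_eq_normalizer {G : Type u} [Group G] [Finite G] (p : ℕ)
    [Fact p.Prime] (M : Ideal AlgInt) (hM : IsPModular p M) (D : Subgroup G)
    (hD : IsPGroup p D) :
    Nat.card {B : Set (IrrCharacter G) // IsPBlock M B ∧ IsDefectGroup p M B D}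
      = Nat.card {b : Set (IrrCharacter (Subgroup.normalizer (D : Set G))) //
          IsPBlock M b ∧
            IsDefectGroup p M b (D.subgroupOf (Subgroup.normalizer (D : Set G)))} := by
  classical
  have hMp := isPModular_isPrime hM
  obtain ⟨h1, h2⟩ := Cfsg.Agent.S0920.result p M hM D hD
  have hc : ∀ B : {B : Set (IrrCharacter G) // IsPBlock M B ∧ IsDefectGroup p M B D},
      ∃ b : Set (IrrCharacter (Subgroup.normalizer (D : Set G))), IsPBlock M b ∧
        IsDefectGroup p M b (D.subgroupOf (Subgroup.normalizer (D : Set G))) ∧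
        IsInducedBlock M (Subgroup.normalizer (D : Set G)) b B.1 :=
    fun B => (h2 B.1 B.2.1 B.2.2).exists
  choose f hf using hc
  apply Nat.card_congr
  refine Equiv.ofBijective (fun B => ⟨f B, (hf B).1, (hf B).2.1⟩) ⟨?_, ?_⟩
  · intro B B' hBB
    have h3 : f B = f B' := congrArg Subtype.val hBB
    have h4 := (hf B).2.2
    have h5 := (hf B').2.2
    rw [← h3] at h5
    exact Subtype.ext (isInducedBlock_unique hMp _ h4 h5)
  · rintro ⟨b, hb, hbD⟩
    obtain ⟨B, hB, hBD, hind⟩ := h1 b hb hbD
    refine ⟨⟨B, hB, hBD⟩, ?_⟩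
    apply Subtype.ext
    exact (h2 B hB hBD).unique (hf ⟨B, hB, hBD⟩) ⟨hb, hbD, hind⟩

/-- blocks of a group with a normal Sylow `p`-subgroup `S`, having defect group `S` -/
theorem card_blocks_normal_sylow {G : Type u} [Group G] [Finite G] (p : ℕ) [Fact p.Prime]
    (M : Ideal AlgInt) (hM : IsPModular p M) (S : Sylow p G) [hn : (S : Subgroup G).Normal] :
    Nat.card {B : Set (IrrCharacter G) // IsPBlock M B ∧ IsDefectGroup p M B (S : Subgroup G)}
      = Nat.card {C : ConjClasses G // ∀ n : G, ConjClasses.mk n = C →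
          ¬ p ∣ orderOf n ∧ n ∈ Subgroup.centralizer ((S : Subgroup G) : Set G)} := by
  classical
  have hp : p.Prime := Fact.out
  let pred : ConjClasses G → Prop := fun C => ∃ x ∈ C.carrier, ¬ p ∣ orderOf x ∧
      ∃ Q : Sylow p (Subgroup.centralizer ({x} : Set G)),
        (Q : Subgroup (Subgroup.centralizer ({x} : Set G))).map
          (Subgroup.centralizer ({x} : Set G)).subtype = (S : Subgroup G)
  haveI : Fintype {C : ConjClasses G // pred C} := Fintype.ofFinite _
  have hK : ∀ C : ConjClasses G, (∃ i : {C : ConjClasses G // pred C}, i.1 = C) ↔ pred C :=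
    fun C => ⟨fun ⟨i, hi⟩ => hi ▸ i.2, fun h => ⟨⟨C, h⟩, rfl⟩⟩
  rw [Cfsg.Agent.S4443.result p M hM (S : Subgroup G) S.2 S
    (fun i : {C : ConjClasses G // pred C} => i.1) Subtype.val_injective hK]
  have hstar : ∀ C : ConjClasses G, pred C → ∀ y ∈ C.carrier,
      ¬ p ∣ orderOf y ∧ y ∈ Subgroup.centralizer ((S : Subgroup G) : Set G) := by
    rintro C ⟨x, hxC, hxreg, Q, hQ⟩ y hyC
    have hSle : (S : Subgroup G) ≤ Subgroup.centralizer ({x} : Set G) := by
      rw [← hQ]
      exact Subgroup.map_subtype_le _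
    have hconj : IsConj x y := by
      rw [ConjClasses.mem_carrier_iff_mk_eq] at hxC hyC
      rw [← ConjClasses.mk_eq_mk_iff_isConj, hxC, hyC]
    obtain ⟨g, hg⟩ := isConj_iff.mp hconj
    subst hg
    constructor
    · have : orderOf (g * x * g⁻¹) = orderOf x := (MulAut.conj g).orderOf_eq x
      rw [this]
      exact hxreg
    · rw [Subgroup.mem_centralizer_iff]
      intro s hs
      have hs' : g⁻¹ * s * g ∈ (S : Subgroup G) := by
        have := hn.conj_mem s hs g⁻¹
        simpa using this
      have hc := hSle hs'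
      rw [Subgroup.mem_centralizer_iff] at hc
      have hc' := hc x (Set.mem_singleton x)
      calc s * (g * x * g⁻¹) = g * ((g⁻¹ * s * g) * x)⁻¹⁻¹ * g⁻¹ := by group
        _ = g * (x * (g⁻¹ * s * g))⁻¹⁻¹ * g⁻¹ := by rw [hc']
        _ = g * x * g⁻¹ * s := by group
  have hzy : ∀ (C C' : ConjClasses G), pred C → pred C' → ∀ y z : G, y ∈ C.carrier →
      z ∈ C'.carrier → z * y⁻¹ ∈ (S : Subgroup G) → z = y := by
    intro C C' hC hC' y z hy hz hu
    obtain ⟨hyreg, hycent⟩ := hstar C hC y hy
    obtain ⟨hzreg, -⟩ := hstar C' hC' z hz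
    have hcomm : Commute (z * y⁻¹) y := (Subgroup.mem_centralizer_iff.mp hycent) (z * y⁻¹) hu
    obtain ⟨k, hk⟩ := (IsPGroup.iff_orderOf.mp S.2) ⟨z * y⁻¹, hu⟩
    have hk' : orderOf (z * y⁻¹) = p ^ k := by
      rw [← hk]
      exact (Subgroup.orderOf_mk (z * y⁻¹) hu).symm
    have hcop : (orderOf (z * y⁻¹)).Coprime (orderOf y) := by
      rw [hk']
      exact Nat.Coprime.pow_left k ((Nat.Prime.coprime_iff_not_dvd hp).mpr hyreg)
    have hz_eq : z = (z * y⁻¹) * y := by group
    have hord : orderOf z = orderOf (z * y⁻¹) * orderOf y := by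
      conv_lhs => rw [hz_eq]
      exact hcomm.orderOf_mul_eq_mul_orderOf_of_coprime hcop
    have hk0 : k = 0 := by
      by_contra hk0
      apply hzreg
      rw [hord, hk']
      exact dvd_mul_of_dvd_left (dvd_pow_self p hk0) _
    have hu1 : z * y⁻¹ = 1 := by
      rw [← orderOf_eq_one_iff, hk', hk0, pow_zero]
    exact mul_inv_eq_one.mp hu1
  have ha : (Nat.card G).factorization p - (Nat.card (S : Subgroup G)).factorization p = 0 := by
    rw [S.card_eq_multiplicity, hp.factorization_pow]
    simp
  have hmat : (Matrix.of fun i j : {C : ConjClasses G // pred C} =>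
      ((Nat.card {yz : G × G // yz.1 ∈ i.1.carrier ∧ yz.2 ∈ j.1.carrier ∧
          yz.2 * yz.1⁻¹ ∈ (S : Subgroup G)}
        / p ^ ((Nat.card G).factorization p - (Nat.card (S : Subgroup G)).factorization p) : ℕ)
        : ZMod p))
      = Matrix.diagonal (fun i : {C : ConjClasses G // pred C} =>
          ((Nat.card i.1.carrier : ℕ) : ZMod p)) := by
    ext i j
    rw [Matrix.of_apply, ha, pow_zero, Nat.div_one]
    by_cases hij : i = j
    · subst hij
      rw [Matrix.diagonal_apply_eq]
      congr 1
      apply Nat.card_congr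
      exact
        { toFun := fun yz => ⟨yz.1.1, yz.2.1⟩
          invFun := fun y => ⟨(y.1, y.1), y.2, y.2, by simp⟩
          left_inv := fun yz => by
            apply Subtype.ext
            have := hzy i.1 i.1 i.2 i.2 yz.1.1 yz.1.2 yz.2.1 yz.2.2.1 yz.2.2.2
            exact Prod.ext rfl this.symm
          right_inv := fun y => rfl }
    · rw [Matrix.diagonal_apply_ne _ hij]
      have hempty : IsEmpty {yz : G × G // yz.1 ∈ i.1.carrier ∧ yz.2 ∈ j.1.carrier ∧
          yz.2 * yz.1⁻¹ ∈ (S : Subgroup G)} := by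
        refine ⟨fun yz => hij ?_⟩
        have h1 := hzy i.1 j.1 i.2 j.2 yz.1.1 yz.1.2 yz.2.1 yz.2.2.1 yz.2.2.2
        have h2 := yz.2.1
        have h3 := yz.2.2.1
        rw [h1] at h3
        rw [ConjClasses.mem_carrier_iff_mk_eq] at h2 h3
        exact Subtype.ext (h2.symm.trans h3)
      rw [Nat.card_of_isEmpty]
      simp
  rw [hmat, Matrix.rank_diagonal]
  have hall : ∀ i : {C : ConjClasses G // pred C}, ((Nat.card i.1.carrier : ℕ) : ZMod p) ≠ 0 := by
    intro i
    obtain ⟨x, hxC, -⟩ := i.2
    have hx := hstar i.1 i.2 x hxC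
    rw [ConjClasses.mem_carrier_iff_mk_eq] at hxC
    rw [Ne, ZMod.natCast_eq_zero_iff, ← hxC, Nat.card_coe_set_eq,
      Cfsg.Agent.Lib.helper20.ncard_carrier_eq_index]
    intro hdvd
    have hle : (S : Subgroup G) ≤ Subgroup.centralizer ({x} : Set G) := by
      intro s hs
      rw [Subgroup.mem_centralizer_iff]
      intro t ht
      rw [Set.mem_singleton_iff] at ht
      subst ht
      exact ((Subgroup.mem_centralizer_iff.mp hx.2) s hs).symm
    exact S.not_dvd_index (hdvd.trans (Subgroup.index_dvd_of_le hle))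
  rw [Fintype.card_congr (Equiv.subtypeUnivEquiv hall), ← Nat.card_eq_fintype_card]
  apply Nat.card_congr
  apply Equiv.subtypeEquivRight
  intro C
  constructor
  · intro h n hn
    exact hstar C h n (ConjClasses.mem_carrier_iff_mk_eq.mpr hn)
  · intro h
    obtain ⟨x, rfl⟩ := ConjClasses.exists_rep C
    obtain ⟨hreg, hcent⟩ := h x rfl
    have hle : (S : Subgroup G) ≤ Subgroup.centralizer ({x} : Set G) := by
      intro s hs
      rw [Subgroup.mem_centralizer_iff]
      intro t ht
      rw [Set.mem_singleton_iff] at ht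
      subst ht
      exact ((Subgroup.mem_centralizer_iff.mp hcent) s hs).symm
    refine ⟨x, ConjClasses.mem_carrier_mk, hreg, S.subtype hle, ?_⟩
    rw [Sylow.coe_subtype]
    exact Subgroup.map_subgroupOf_eq_of_le hle

/-- **Blocks with a Sylow defect group.** -/
theorem card_blocks_sylow_defect {G : Type u} [Group G] [Finite G] (p : ℕ) [Fact p.Prime]
    (M : Ideal AlgInt) (hM : IsPModular p M) (P : Sylow p G) :
    Nat.card {B : Set (IrrCharacter G) // IsPBlock M B ∧ IsDefectGroup p M B (P : Subgroup G)}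
      = Nat.card {C : ConjClasses (Subgroup.normalizer ((P : Subgroup G) : Set G)) //
          ∀ n : Subgroup.normalizer ((P : Subgroup G) : Set G), ConjClasses.mk n = C →
            ¬ p ∣ orderOf n ∧ (n : G) ∈ Subgroup.centralizer ((P : Subgroup G) : Set G)} := by
  rw [card_blocks_defect_eq_normalizer p M hM (P : Subgroup G) P.2]
  let S : Sylow p (Subgroup.normalizer ((P : Subgroup G) : Set G)) :=
    P.subtype Subgroup.le_normalizer
  have hS : (S : Subgroup (Subgroup.normalizer ((P : Subgroup G) : Set G)))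
      = (P : Subgroup G).subgroupOf (Subgroup.normalizer ((P : Subgroup G) : Set G)) :=
    Sylow.coe_subtype _ _
  haveI : (S : Subgroup (Subgroup.normalizer ((P : Subgroup G) : Set G))).Normal := by
    rw [hS]
    infer_instance
  have key := card_blocks_normal_sylow p M hM S
  simp only [hS] at key
  rw [key]
  apply Nat.card_congr
  apply Equiv.subtypeEquivRight
  intro C
  refine forall_congr' fun n => imp_congr_right fun _ => and_congr_right fun _ => ?_
  rw [Subgroup.mem_centralizer_iff, Subgroup.mem_centralizer_iff]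
  constructor
  · intro h s hs
    have := h ⟨s, Subgroup.le_normalizer hs⟩ (Subgroup.mem_subgroupOf.mpr hs)
    exact congrArg Subtype.val this
  · intro h s hs
    apply Subtype.ext
    exact h s.1 (Subgroup.mem_subgroupOf.mp hs)

end Cfsg.Agent.Lib.helper23
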