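import Mathlib
import Cfsg.Agent.Lib.helper23.BrauerFeit

set_option autoImplicit false

/-!
# Brauer-Feit: bounds on heights and on the number of characters of a block with a character
of positive height
-/

namespace Cfsg.Agent.Lib.helper23

open Cfsg Cfsg.Agent.Lib.helper24 Cfsg.Agent.Lib.helper5
open scoped ComplexConjugate

universe u

section bf2

variable {G : Type u} [Group G] [Fintype G] [Fintype (IrrCharacter G)]

/-- a character of positive height: extra divisibility of `[ptrunc ψ, ψ]` and `h + 2 ≤ d` -/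
theorem height_pos_bound (p : ℕ) [hp : Fact p.Prime] {M : Ideal AlgInt} (hM : IsPModular p M)
    (B : Set (IrrCharacter G)) (hB : IsPBlock M B) (ψ : IrrCharacter G) (hψ : ψ ∈ B)
    (hpos : blockHeight p B ψ.1 ≠ 0) :
    blockHeight p B ψ.1 + 2 ≤ blockDefect p B := by
  obtain ⟨ν₀, hν₀, hht, -⟩ := block_nu p hM B hB
  have hpz : (1 : ℤ) < (p : ℤ) := by exact_mod_cast hp.out.one_lt
  have hnot : ¬ HtPair p ψ ψ := fun hp' =>
    hpos ((height_zero_iff hM B hB ψ hψ).1.mpr ⟨ψ, hψ, hp'⟩)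
  have hdvd := pow_dvd_inner_ptrunc p ψ ψ (nInt p ψ ψ) (nInt_spec p ψ ψ)
  obtain ⟨hnpos, hle, heq⟩ := nInt_self_bounds p ψ
  have hval : (charDegree ψ.1).factorization p + 1 ≤ padicValInt p (nInt p ψ ψ) := by
    by_contra hcon
    have h1 := ((padicValInt_dvd_iff _ _).mp hdvd).resolve_left hnpos.ne'
    exact hnot ⟨nInt p ψ ψ, nInt_spec p ψ ψ, hnpos.ne', by omega⟩
  have hdvd' : (p : ℤ) ^ ((charDegree ψ.1).factorization p + 1) ∣ nInt p ψ ψ :=
    (padicValInt_dvd_iff _ _).mpr (Or.inr hval)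
  have h1 : (p : ℤ) ^ ((charDegree ψ.1).factorization p + 1)
      ≤ (p : ℤ) ^ (Nat.card G).factorization p := (Int.le_of_dvd hnpos hdvd').trans hle
  have h2 : (charDegree ψ.1).factorization p + 1 ≤ (Nat.card G).factorization p :=
    (pow_le_pow_iff_right₀ hpz).mp h1
  have h3 := hht ψ hψ
  by_contra hcon
  have h4 : (charDegree ψ.1).factorization p + 1 = (Nat.card G).factorization p := by omega
  rw [h4] at hdvd'
  have h5 : nInt p ψ ψ = (p : ℤ) ^ (Nat.card G).factorization p :=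
    le_antisymm hle (Int.le_of_dvd hnpos hdvd')
  have h6 := factorization_le_of_vanish_singular p ψ (heq h5)
  omega

/-- pivot at a character of positive height: few characters of height zero -/
theorem bf_pivot_pos (p : ℕ) [hp : Fact p.Prime] {M : Ideal AlgInt} (hM : IsPModular p M)
    (B : Set (IrrCharacter G)) (hB : IsPBlock M B) (ψ : IrrCharacter G) (hψ : ψ ∈ B)
    (hpos : blockHeight p B ψ.1 ≠ 0) :
    4 * (∑ ξ : IrrCharacter G, (haveI := Classical.dec (ξ ∈ B ∧ blockHeight p B ξ.1 = 0);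
        if ξ ∈ B ∧ blockHeight p B ξ.1 = 0 then (1 : ℤ) else 0))
        * (p : ℤ) ^ (2 * blockHeight p B ψ.1)
      ≤ (p : ℤ) ^ (2 * blockDefect p B) := by
  classical
  obtain ⟨ν₀, hν₀, hht, -⟩ := block_nu p hM B hB
  have hpz : (0 : ℤ) < (p : ℤ) := by exact_mod_cast hp.out.pos
  have hoff := nInt_offdiag p ψ
  have hterm : ∀ ξ : IrrCharacter G,
      (if ξ ∈ B ∧ blockHeight p B ξ.1 = 0 then (1 : ℤ) else 0)
        * (p : ℤ) ^ (2 * (ν₀ + blockHeight p B ψ.1))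
        ≤ (if ξ ≠ ψ then nInt p ψ ξ ^ 2 else 0) := by
    intro ξ
    by_cases h : ξ ∈ B ∧ blockHeight p B ξ.1 = 0
    · have hne : ξ ≠ ψ := by
        rintro rfl
        exact hpos h.2
      rw [if_pos h, if_pos hne, one_mul]
      obtain ⟨hn0, hnd⟩ := nInt_of_height_zero p hM B hB ξ ψ h.1 hψ h.2
      rw [hht ψ hψ, nInt_symm] at hnd
      rw [nInt_symm] at hn0
      have := sq_ge_of_dvd (pow_pos hpz _) hnd hn0
      calc (p : ℤ) ^ (2 * (ν₀ + blockHeight p B ψ.1))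
          = ((p : ℤ) ^ (ν₀ + blockHeight p B ψ.1)) ^ 2 := by ring
        _ ≤ _ := this
    · rw [if_neg h, zero_mul]
      split_ifs
      · exact sq_nonneg _
      · exact le_refl _
  have hsum : (∑ ξ : IrrCharacter G, (if ξ ∈ B ∧ blockHeight p B ξ.1 = 0 then (1 : ℤ) else 0))
      * (p : ℤ) ^ (2 * (ν₀ + blockHeight p B ψ.1))
      ≤ nInt p ψ ψ * ((p : ℤ) ^ (Nat.card G).factorization p - nInt p ψ ψ) := by
    rw [Finset.sum_mul, ← hoff]
    exact Finset.sum_le_sum (fun ξ _ => hterm ξ)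
  have h4 : 4 * (nInt p ψ ψ * ((p : ℤ) ^ (Nat.card G).factorization p - nInt p ψ ψ))
      ≤ ((p : ℤ) ^ (Nat.card G).factorization p) ^ 2 := by
    nlinarith [sq_nonneg ((p : ℤ) ^ (Nat.card G).factorization p - 2 * nInt p ψ ψ)]
  rw [← hν₀] at h4
  have h5 : (p : ℤ) ^ (2 * ν₀) * (4 * (∑ ξ : IrrCharacter G,
      (if ξ ∈ B ∧ blockHeight p B ξ.1 = 0 then (1 : ℤ) else 0))
        * (p : ℤ) ^ (2 * blockHeight p B ψ.1))
      ≤ (p : ℤ) ^ (2 * ν₀) * (p : ℤ) ^ (2 * blockDefect p B) := by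
    have e1 : (p : ℤ) ^ (2 * (ν₀ + blockHeight p B ψ.1))
        = (p : ℤ) ^ (2 * ν₀) * (p : ℤ) ^ (2 * blockHeight p B ψ.1) := by ring
    have e2 : ((p : ℤ) ^ (ν₀ + blockDefect p B)) ^ 2
        = (p : ℤ) ^ (2 * ν₀) * (p : ℤ) ^ (2 * blockDefect p B) := by ring
    rw [e1] at hsum
    rw [e2] at h4
    rw [← hν₀] at hsum
    linarith
  have hfin := le_of_mul_le_mul_left h5 (pow_pos hpz _)
  refine le_trans (le_of_eq ?_) hfin
  congr 2
  apply Finset.sum_congr rfl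
  intro ξ _
  by_cases h : ξ ∈ B ∧ blockHeight p B ξ.1 = 0
  · rw [if_pos h, if_pos h]
  · rw [if_neg h, if_neg h]

end bf2

theorem brauer_feit_height {G : Type u} [Group G] [Finite G] (p : ℕ) [hp : Fact p.Prime]
    (M : Ideal AlgInt) (hM : IsPModular p M) (B : Set (IrrCharacter G)) (hB : IsPBlock M B)
    (d : ℕ) (hd : blockDefect p B = d) :
    ((∃ χ ∈ B, 0 < blockHeight p B (χ : G → ℂ)) → 2 * Nat.card B ≤ p ^ (2 * d - 2)) ∧
      ∀ χ ∈ B, (d ≤ 1 → blockHeight p B (χ : G → ℂ) = 0) ∧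
        (2 ≤ d → blockHeight p B (χ : G → ℂ) ≤ d - 2) := by
  classical
  haveI := Fintype.ofFinite G
  haveI := Fintype.ofFinite (IrrCharacter G)
  subst hd
  have hheight : ∀ χ ∈ B, blockHeight p B χ.1 ≠ 0 →
      blockHeight p B χ.1 + 2 ≤ blockDefect p B :=
    fun χ hχ h => height_pos_bound p hM B hB χ hχ h
  constructor
  · rintro ⟨ψ, hψ, hpos⟩
    have hpos' : blockHeight p B ψ.1 ≠ 0 := by omega
    have hd3 := hheight ψ hψ hpos'
    obtain ⟨ν₀, hν₀, hht, χ₁, hχ₁, h0⟩ := block_nu p hM B hB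
    obtain ⟨m, hm1, hmle, hsum⟩ := bf_pivot_zero p hM B hB χ₁ hχ₁ h0
    have hB1 := bf_pivot_pos p hM B hB ψ hψ hpos'
    have hp1 : (1 : ℤ) ≤ (p : ℤ) := by exact_mod_cast hp.out.one_lt.le
    have hp2 : (2 : ℤ) ≤ (p : ℤ) := by exact_mod_cast hp.out.two_le
    obtain ⟨K₀, hK₀⟩ : ∃ K₀ : ℤ, K₀ = ∑ ξ : IrrCharacter G,
        (if ξ ∈ B ∧ blockHeight p B ξ.1 = 0 then (1 : ℤ) else 0) := ⟨_, rfl⟩
    obtain ⟨K₁, hK₁⟩ : ∃ K₁ : ℤ, K₁ = ∑ ξ : IrrCharacter G,
        (if ξ ∈ B ∧ blockHeight p B ξ.1 ≠ 0 then (1 : ℤ) else 0) := ⟨_, rfl⟩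
    have hK₀nn : 0 ≤ K₀ := by
      rw [hK₀]
      apply Finset.sum_nonneg
      intro ξ _
      split_ifs <;> norm_num
    have hcard : (Nat.card B : ℤ) = K₀ + K₁ := by
      rw [hK₀, hK₁, ← Finset.sum_add_distrib]
      have h1 : Nat.card B = ∑ ξ : IrrCharacter G, (if ξ ∈ B then 1 else 0) := by
        rw [Nat.card_eq_fintype_card, Fintype.card_subtype, Finset.card_filter]
      rw [h1]
      push_cast
      apply Finset.sum_congr rfl
      intro ξ _
      by_cases h1 : ξ ∈ B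
      · by_cases h2 : blockHeight p B ξ.1 = 0
        · rw [if_pos h1, if_pos ⟨h1, h2⟩, if_neg (fun h => h.2 h2), add_zero]
        · rw [if_pos h1, if_neg (fun h => h2 h.2), if_pos ⟨h1, h2⟩, zero_add]
      · rw [if_neg h1, if_neg (fun h => h1 h.1), if_neg (fun h => h1 h.1), add_zero]
    have hC : K₀ + (p : ℤ) ^ 2 * K₁ - 1 ≤ m * ((p : ℤ) ^ blockDefect p B - m) := by
      refine le_trans ?_ hsum
      have e1 : ∑ ξ : IrrCharacter G, (if ξ = χ₁ then (1 : ℤ) else 0) = 1 := by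
        rw [Finset.sum_ite_eq' Finset.univ χ₁ (fun _ => (1 : ℤ)), if_pos (Finset.mem_univ _)]
      have e2 : K₀ + (p : ℤ) ^ 2 * K₁ - 1 = ∑ ξ : IrrCharacter G,
          ((if ξ ∈ B ∧ blockHeight p B ξ.1 = 0 then (1 : ℤ) else 0)
            + (p : ℤ) ^ 2 * (if ξ ∈ B ∧ blockHeight p B ξ.1 ≠ 0 then (1 : ℤ) else 0)
            - (if ξ = χ₁ then (1 : ℤ) else 0)) := by
        rw [Finset.sum_sub_distrib, Finset.sum_add_distrib, ← Finset.mul_sum, e1, hK₀, hK₁]
      rw [e2]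
      apply Finset.sum_le_sum
      intro ξ _
      by_cases hξ : ξ = χ₁
      · rw [hξ, if_pos ⟨hχ₁, h0⟩, if_neg (fun h => h.2 h0), if_pos rfl,
          if_neg (fun h => h.2 rfl)]
        norm_num
      · by_cases h1 : ξ ∈ B
        · by_cases h2 : blockHeight p B ξ.1 = 0
          · rw [if_pos ⟨h1, h2⟩, if_neg (fun h => h.2 h2), if_neg hξ, if_pos ⟨h1, hξ⟩, h2]
            norm_num
          · rw [if_neg (fun h => h2 h.2), if_pos ⟨h1, h2⟩, if_neg hξ, if_pos ⟨h1, hξ⟩]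
            have : (p : ℤ) ^ 2 ≤ (p : ℤ) ^ (2 * blockHeight p B ξ.1) :=
              pow_le_pow_right₀ hp1 (by omega)
            linarith
        · rw [if_neg (fun h => h1 h.1), if_neg (fun h => h1 h.1), if_neg hξ,
            if_neg (fun h => h1 h.1)]
          norm_num
    obtain ⟨q, hq⟩ : ∃ q : ℤ, q = (p : ℤ) ^ 2 := ⟨_, rfl⟩
    obtain ⟨X, hX⟩ : ∃ X : ℤ, X = (p : ℤ) ^ (2 * blockDefect p B - 2) := ⟨_, rfl⟩
    have hq4 : 4 ≤ q := by rw [hq]; nlinarith
    have hqX : (p : ℤ) ^ (2 * blockDefect p B) = q * X := by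
      rw [hq, hX, ← pow_add]
      congr 1
      omega
    have hX4 : 4 ≤ X := by
      have : (p : ℤ) ^ 2 ≤ (p : ℤ) ^ (2 * blockDefect p B - 2) :=
        pow_le_pow_right₀ hp1 (by omega)
      rw [hX]
      nlinarith
    have hA : 4 * K₀ ≤ X := by
      have h1 : (p : ℤ) ^ 2 ≤ (p : ℤ) ^ (2 * blockHeight p B ψ.1) :=
        pow_le_pow_right₀ hp1 (by omega)
      have hB1' : 4 * K₀ * (p : ℤ) ^ (2 * blockHeight p B ψ.1)
          ≤ (p : ℤ) ^ (2 * blockDefect p B) := by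
        refine le_trans (le_of_eq ?_) hB1
        rw [hK₀]
        congr 2
        apply Finset.sum_congr rfl
        intro ξ _
        by_cases h : ξ ∈ B ∧ blockHeight p B ξ.1 = 0
        · rw [if_pos h, if_pos h]
        · rw [if_neg h, if_neg h]
      rw [hqX] at hB1'
      rw [← hq] at h1
      have h2 : q * (4 * K₀) ≤ q * X := by
        have : 4 * K₀ * q ≤ 4 * K₀ * (p : ℤ) ^ (2 * blockHeight p B ψ.1) :=
          mul_le_mul_of_nonneg_left h1 (by linarith)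
        linarith
      exact le_of_mul_le_mul_left h2 (by linarith)
    have hC' : 4 * (K₀ + q * K₁ - 1) ≤ q * X := by
      have h4 : 4 * (m * ((p : ℤ) ^ blockDefect p B - m)) ≤ ((p : ℤ) ^ blockDefect p B) ^ 2 := by
        nlinarith [sq_nonneg ((p : ℤ) ^ blockDefect p B - 2 * m)]
      have h5 : ((p : ℤ) ^ blockDefect p B) ^ 2 = (p : ℤ) ^ (2 * blockDefect p B) := by ring
      rw [h5, hqX] at h4
      rw [← hq] at hC
      linarith
    have h2 : (q - 1) * (4 * K₀) ≤ (q - 1) * X := mul_le_mul_of_nonneg_left hA (by linarith)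
    have h3 : (2 * q) * (2 * (K₀ + K₁)) ≤ (2 * q) * X := by nlinarith
    have h4 : 2 * (K₀ + K₁) ≤ X := le_of_mul_le_mul_left h3 (by linarith)
    have h5 : ((2 * Nat.card B : ℕ) : ℤ) ≤ ((p ^ (2 * blockDefect p B - 2) : ℕ) : ℤ) := by
      push_cast
      rw [hcard, ← hX]
      exact h4
    exact_mod_cast h5
  · intro χ hχ
    constructor
    · intro hd1
      by_contra h
      have := hheight χ hχ h
      omega
    · intro hd2
      by_cases h : blockHeight p B χ.1 = 0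
      · rw [h]; exact Nat.zero_le _
      · have := hheight χ hχ h
        omega

end Cfsg.Agent.Lib.helper23
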