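import Cfsg.Agent.Lib.helper23.LinChar

set_option autoImplicit false

namespace Cfsg.Agent.Lib.helper23

open Cfsg Cfsg.Agent.Lib.helper24
open scoped commutatorElement

universe u

section classprod2

variable {G : Type u} [Group G]

theorem card_centralizer_le_of_vanish [Finite G] (w : G)
    (hv : ∀ χ : IrrCharacter G, χ.1 1 ≠ 1 → χ.1 w = 0) :
    Nat.card (Subgroup.centralizer ({w} : Set G)) ≤ (commutator G).index := by
  classical
  have : Fintype G := Fintype.ofFinite G
  have : Fintype (IrrCharacter G) := Fintype.ofFinite _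
  have h2 := second_orth_of_isConj (G := G) (IsConj.refl w)
  have h3 : ∑ χ : IrrCharacter G, χ.1 w * (starRingEnd ℂ) (χ.1 w)
      = ∑ χ : IrrCharacter G, if χ.1 1 = 1 then (1 : ℂ) else 0 := by
    apply Finset.sum_congr rfl
    intro χ _
    by_cases h1 : χ.1 1 = 1
    · rw [if_pos h1, Complex.mul_conj, Complex.normSq_eq_norm_sq, irr_linear_norm χ h1]
      simp
    · rw [if_neg h1, hv χ h1]
      simp
  rw [h3, Finset.sum_ite, Finset.sum_const_zero, add_zero, Finset.sum_const, nsmul_eq_mul,
    mul_one] at h2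
  have h4 : (Finset.univ.filter (fun χ : IrrCharacter G => χ.1 1 = 1)).card
      = Nat.card (Subgroup.centralizer ({w} : Set G)) := by
    exact_mod_cast h2
  rw [← h4]
  have h5 := card_linear_le (G := G)
  rw [Nat.card_eq_fintype_card, Fintype.card_subtype] at h5
  exact h5

theorem isConj_iff_mem_commutator_of_vanish [Finite G] (w : G)
    (hv : ∀ χ : IrrCharacter G, χ.1 1 ≠ 1 → χ.1 w = 0) (z : G) :
    IsConj w z ↔ w⁻¹ * z ∈ commutator G := by
  classical
  have : Fintype G := Fintype.ofFinite G
  have hsub : ∀ z, IsConj w z → w⁻¹ * z ∈ commutator G := by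
    intro z hz
    obtain ⟨c, hc⟩ := isConj_iff.mp hz
    rw [← hc]
    have e : w⁻¹ * (c * w * c⁻¹) = ⁅w⁻¹, c⁆ := by
      rw [commutatorElement_def]
      group
    rw [e]
    exact Subgroup.commutator_mem_commutator (Subgroup.mem_top _) (Subgroup.mem_top _)
  have hcent := card_centralizer_le_of_vanish w hv
  constructor
  · exact hsub z
  · intro hz
    set A : Finset G := Finset.univ.filter (fun z => IsConj w z) with hA'
    set B : Finset G := Finset.univ.filter (fun z => w⁻¹ * z ∈ commutator G) with hB'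
    have hAB : A ⊆ B := by
      intro z hz
      simp only [hA', hB', Finset.mem_filter, Finset.mem_univ, true_and] at hz ⊢
      exact hsub z hz
    have hAcard : A.card = (Subgroup.centralizer ({w} : Set G)).index := card_isConj_eq_index w
    have hBcard : B.card = Nat.card (commutator G) := by
      rw [Nat.card_eq_fintype_card, ← Finset.card_univ (α := commutator G)]
      symm
      apply Finset.card_bij (fun (k : commutator G) _ => w * (k : G))
      · intro k _
        simp [hB']
      · intro k1 _ k2 _ h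
        exact Subtype.ext (mul_left_cancel h)
      · intro z hz
        simp only [hB', Finset.mem_filter, Finset.mem_univ, true_and] at hz
        exact ⟨⟨w⁻¹ * z, hz⟩, Finset.mem_univ _, by simp⟩
    have hle : B.card ≤ A.card := by
      rw [hAcard, hBcard]
      have e1 := (Subgroup.centralizer ({w} : Set G)).card_mul_index
      have e2 := (commutator G).card_mul_index
      by_contra hcon
      push Not at hcon
      have hpos : 0 < Nat.card (Subgroup.centralizer ({w} : Set G)) := Nat.card_pos
      have h6 : Nat.card (Subgroup.centralizer ({w} : Set G))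
          * (Subgroup.centralizer ({w} : Set G)).index
          < (commutator G).index * Nat.card (commutator G) :=
        Nat.mul_lt_mul_of_le_of_lt hcent hcon
          (Nat.pos_of_ne_zero Subgroup.index_ne_zero_of_finite)
      rw [e1, mul_comm, e2] at h6
      exact lt_irrefl _ h6
    have hEq := Finset.eq_of_subset_of_card_le hAB hle
    have hzB : z ∈ B := by
      simp only [hB', Finset.mem_filter, Finset.mem_univ, true_and]
      exact hz
    rw [← hEq] at hzB
    simpa [hA'] using hzB

theorem mult_on_classes [Finite G] (x y : G)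
    (h : ∀ (a b : G) (χ : IrrCharacter G),
      χ.1 (a * x * a⁻¹ * (b * y * b⁻¹)) = χ.1 (a * x * a⁻¹) * χ.1 (b * y * b⁻¹)) :
    (∀ z : G, IsConj (x * y) z ↔ ∃ a b : G, z = a * x * a⁻¹ * (b * y * b⁻¹)) ∧
    (∀ χ : IrrCharacter G, χ.1 1 ≠ 1 → χ.1 (x * y) = 0) ∧
    (∀ z : G, IsConj (x * y) z ↔ (x * y)⁻¹ * z ∈ commutator G) := by
  classical
  have : Fintype G := Fintype.ofFinite G
  have hB : ∀ (a b : G) (χ : IrrCharacter G),
      χ.1 (a * x * a⁻¹ * (b * y * b⁻¹)) = χ.1 x * χ.1 y := by
    intro a b χ
    rw [h a b χ, isClassFunction_irr χ x a, isClassFunction_irr χ y b]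
  have hxy : ∀ χ : IrrCharacter G, χ.1 (x * y) = χ.1 x * χ.1 y := by
    intro χ
    have h1 := hB 1 1 χ
    simpa using h1
  have hA : ∀ χ : IrrCharacter G, χ.1 1 ≠ 1 → χ.1 x * χ.1 y = 0 := by
    intro χ h1
    have h1' := irr_sum_conj_mul χ x y
    have h2 : ∑ t : G, χ.1 (t * x * t⁻¹ * y) = (Nat.card G : ℂ) * (χ.1 x * χ.1 y) := by
      have h3 : ∀ t : G, χ.1 (t * x * t⁻¹ * y) = χ.1 x * χ.1 y := by
        intro t
        have h4 := hB t 1 χ
        simpa using h4
      rw [Finset.sum_congr rfl (fun t _ => h3 t)]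
      simp [Nat.card_eq_fintype_card]
    rw [h2] at h1'
    have hG : (Nat.card G : ℂ) ≠ 0 := by
      exact_mod_cast Nat.card_pos.ne'
    have h0 := irr_one_ne_zero χ
    field_simp at h1'
    have h5 : χ.1 x * χ.1 y * (χ.1 1 - 1) = 0 := by linear_combination h1'
    rcases mul_eq_zero.mp h5 with h6 | h6
    · exact h6
    · exact absurd (sub_eq_zero.mp h6) h1
  have part1 : ∀ z : G, IsConj (x * y) z ↔ ∃ a b : G, z = a * x * a⁻¹ * (b * y * b⁻¹) := by
    intro z
    constructor
    · intro hz
      obtain ⟨c, hc⟩ := isConj_iff.mp hz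
      exact ⟨c, c, by rw [← hc]; group⟩
    · rintro ⟨a, b, rfl⟩
      rw [isConj_iff_irr_eq]
      intro χ
      rw [hB, hxy]
  have part2 : ∀ χ : IrrCharacter G, χ.1 1 ≠ 1 → χ.1 (x * y) = 0 := fun χ h1 => by
    rw [hxy, hA χ h1]
  exact ⟨part1, part2, fun z => isConj_iff_mem_commutator_of_vanish (x * y) part2 z⟩

end classprod2

end Cfsg.Agent.Lib.helper23
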