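import Cfsg.Agent.Lib.helper23.GaloisChar
import Cfsg.Agent.Lib.helper24.CharFS
import Cfsg.Agent.Lib.helper24.CharOrth

set_option autoImplicit false

namespace Cfsg.Agent.Lib.helper23

open scoped ComplexConjugate Matrix
open Cfsg Cfsg.Agent.Lib.helper24

universe u v

variable {G : Type u} [Group G] {n : ℕ}

noncomputable def adRep (ρ : Representation ℂ G (Fin n → ℂ)) :
    Representation ℂ G (Matrix (Fin n) (Fin n) ℂ) where
  toFun g :=
    { toFun := fun B => LinearMap.toMatrix' (ρ g) * B * LinearMap.toMatrix' (ρ g⁻¹)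
      map_add' := fun B C => by rw [Matrix.mul_add, Matrix.add_mul]
      map_smul' := fun c B => by simp }
  map_one' := by
    ext B : 2
    simp
  map_mul' g h := by
    ext B : 2
    simp only [mul_inv_rev, map_mul, LinearMap.coe_mk, AddHom.coe_mk, Module.End.mul_apply,
      LinearMap.toMatrix'_mul]
    simp only [Matrix.mul_assoc]

theorem adRep_apply (ρ : Representation ℂ G (Fin n → ℂ)) (g : G) (B : Matrix (Fin n) (Fin n) ℂ) :
    adRep ρ g B = LinearMap.toMatrix' (ρ g) * B * LinearMap.toMatrix' (ρ g⁻¹) := rfl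

theorem mul_single_mul_apply (A B : Matrix (Fin n) (Fin n) ℂ) (i j k l : Fin n) :
    (A * Matrix.single i j (1 : ℂ) * B : Matrix (Fin n) (Fin n) ℂ) k l = A k i * B j l := by
  simp only [Matrix.mul_apply, Matrix.single_apply, mul_ite, mul_one, mul_zero]
  rw [Finset.sum_eq_single j]
  · rw [Finset.sum_eq_single i]
    · simp
    · intro b _ hb
      simp [Ne.symm hb]
    · simp
  · intro b _ hb
    have : ∀ j₁ : Fin n, ¬ (i = j₁ ∧ j = b) := fun j₁ h => hb h.2.symm
    simp [this]
  · simp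

theorem adRep_character (ρ : Representation ℂ G (Fin n → ℂ)) (g : G) :
    (adRep ρ).character g = ρ.character g * ρ.character g⁻¹ := by
  unfold Representation.character
  rw [trace_matrix_end]
  simp only [adRep_apply, mul_single_mul_apply]
  rw [← trace_toMatrix', ← trace_toMatrix', Matrix.trace, Matrix.trace]
  simp only [Matrix.diag_apply]
  rw [Finset.sum_mul_sum]

noncomputable def adResN (ρ : Representation ℂ G (Fin n → ℂ)) (N : Subgroup G) :
    Representation ℂ N (Matrix (Fin n) (Fin n) ℂ) := (adRep ρ).comp N.subtype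

theorem adResN_apply (ρ : Representation ℂ G (Fin n → ℂ)) (N : Subgroup G) (m : N)
    (B : Matrix (Fin n) (Fin n) ℂ) : adResN ρ N m B = adRep ρ (m : G) B := rfl

theorem adRep_mem_invariants (ρ : Representation ℂ G (Fin n → ℂ)) (N : Subgroup G) [hN : N.Normal]
    (x : G) {B : Matrix (Fin n) (Fin n) ℂ} (hB : B ∈ (adResN ρ N).invariants) :
    adRep ρ x B ∈ (adResN ρ N).invariants := by
  intro m
  have hm : x⁻¹ * (m : G) * x ∈ N := by
    have := hN.conj_mem m m.2 x⁻¹
    simpa using this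
  have h1 := hB ⟨_, hm⟩
  rw [adResN_apply] at h1
  rw [adResN_apply, ← Module.End.mul_apply, ← map_mul]
  have e : (m : G) * x = x * (x⁻¹ * m * x) := by group
  rw [e, map_mul, Module.End.mul_apply]
  exact congrArg _ h1

noncomputable def invRep (ρ : Representation ℂ G (Fin n → ℂ)) (N : Subgroup G) [N.Normal] :
    Representation ℂ G (adResN ρ N).invariants where
  toFun x := (adRep ρ x).restrict (fun _ hB => adRep_mem_invariants ρ N x hB)
  map_one' := by
    ext B : 2
    simp
  map_mul' x y := by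
    ext B : 2
    simp

theorem invRep_character (ρ : Representation ℂ G (Fin n → ℂ)) (N : Subgroup G) [N.Normal]
    [Fintype N] (x : G) :
    (invRep ρ N).character x
      = (Nat.card N : ℂ)⁻¹ * ∑ m : N, ρ.character (x * m) * ρ.character (x * m)⁻¹ := by
  unfold Representation.character
  have hF : ∀ B, (adRep ρ x ∘ₗ avgOp (adResN ρ N)) B ∈ (adResN ρ N).invariants :=
    fun B => adRep_mem_invariants ρ N x (avgOp_mem_invariants _ B)
  have h1 : (invRep ρ N x) = (adRep ρ x ∘ₗ avgOp (adResN ρ N)).restrict (fun B _ => hF B) := by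
    ext B : 2
    simp [invRep, LinearMap.restrict_apply, avgOp_of_mem_invariants _ B.2]
  rw [h1, LinearMap.trace_restrict_eq_of_forall_mem _ _ hF, trace_comp_avgOp_eq_sum]
  congr 1
  apply Finset.sum_congr rfl
  intro m _
  have h2 := adRep_character ρ (x * m)
  unfold Representation.character at h2
  rw [← h2, map_mul]
  rfl

section Abstract

theorem theta_one_le_one [Fintype G] (θ : G → ℝ)
    (hsum : ∑ x : G, θ x = (Nat.card G : ℝ))
    (hgal : ∀ x : G, (Fintype.card (ZMod (Nat.card G))ˣ : ℝ)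
      ≤ ∑ u : (ZMod (Nat.card G))ˣ, θ (x ^ (u : ZMod (Nat.card G)).val)) : θ 1 ≤ 1 := by
  classical
  have hN : NeZero (Nat.card G) := ⟨Nat.card_pos.ne'⟩
  have hswap : ∑ x : G, ∑ u : (ZMod (Nat.card G))ˣ, θ (x ^ (u : ZMod (Nat.card G)).val)
      = (Fintype.card (ZMod (Nat.card G))ˣ : ℝ) * (Nat.card G : ℝ) := by
    rw [Finset.sum_comm]
    have hu : ∀ u : (ZMod (Nat.card G))ˣ, ∑ x : G, θ (x ^ (u : ZMod (Nat.card G)).val)
        = (Nat.card G : ℝ) := by
      intro u
      have hc : (Nat.card G).Coprime (u : ZMod (Nat.card G)).val :=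
        (ZMod.val_coe_unit_coprime u).symm
      rw [← hsum]
      exact Fintype.sum_equiv (powCoprime hc) _ _ (fun x => by rw [powCoprime_apply])
    rw [Finset.sum_congr rfl (fun u _ => hu u), Finset.sum_const, Finset.card_univ, nsmul_eq_mul]
  rw [← Finset.add_sum_erase _ _ (Finset.mem_univ (1 : G))] at hswap
  have h1 : ∑ u : (ZMod (Nat.card G))ˣ, θ ((1 : G) ^ (u : ZMod (Nat.card G)).val)
      = (Fintype.card (ZMod (Nat.card G))ˣ : ℝ) * θ 1 := by
    simp only [one_pow]
    rw [Finset.sum_const, Finset.card_univ, nsmul_eq_mul]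
  rw [h1] at hswap
  have h2 : (((Finset.univ : Finset G).erase 1).card : ℝ) * (Fintype.card (ZMod (Nat.card G))ˣ : ℝ)
      ≤ ∑ x ∈ (Finset.univ : Finset G).erase 1,
        ∑ u : (ZMod (Nat.card G))ˣ, θ (x ^ (u : ZMod (Nat.card G)).val) := by
    rw [← nsmul_eq_mul]
    exact Finset.card_nsmul_le_sum _ _ _ (fun x _ => hgal x)
  have h3 : (((Finset.univ : Finset G).erase 1).card : ℝ) = (Nat.card G : ℝ) - 1 := by
    rw [Finset.card_erase_of_mem (Finset.mem_univ _), Finset.card_univ, Nat.card_eq_fintype_card,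
      Nat.cast_sub Fintype.card_pos]
    simp
  rw [h3] at h2
  have hφ : (0 : ℝ) < (Fintype.card (ZMod (Nat.card G))ˣ : ℝ) := by
    exact_mod_cast Fintype.card_pos
  have h4 : (Fintype.card (ZMod (Nat.card G))ˣ : ℝ) * θ 1
      ≤ (Fintype.card (ZMod (Nat.card G))ˣ : ℝ) * 1 := by nlinarith
  exact le_of_mul_le_mul_left h4 hφ

theorem gal_sum_ge [Finite G] {V : Type v} [AddCommGroup V] [Module ℂ V] [FiniteDimensional ℂ V]
    (τ : Representation ℂ G V) (θ : G → ℝ) (hθ : ∀ x, τ.character x = (θ x : ℂ))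
    (hθ0 : ∀ x, 0 ≤ θ x) (hne : ∀ y, θ y ≠ 0) (x : G) :
    (Fintype.card (ZMod (Nat.card G))ˣ : ℝ)
      ≤ ∑ u : (ZMod (Nat.card G))ˣ, θ (x ^ (u : ZMod (Nat.card G)).val) := by
  obtain ⟨z, hz⟩ := prod_units_char_int τ x
  simp only [hθ] at hz
  rw [← Complex.ofReal_prod] at hz
  have hzr : ∏ u : (ZMod (Nat.card G))ˣ, θ (x ^ (u : ZMod (Nat.card G)).val) = (z : ℝ) := by
    exact_mod_cast hz
  have hpos : 0 < ∏ u : (ZMod (Nat.card G))ˣ, θ (x ^ (u : ZMod (Nat.card G)).val) :=
    Finset.prod_pos (fun u _ => lt_of_le_of_ne (hθ0 _) (Ne.symm (hne _)))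
  have hz1 : (1 : ℝ) ≤ (z : ℝ) := by
    rw [hzr] at hpos
    have : 0 < z := by exact_mod_cast hpos
    exact_mod_cast this
  have h3 := sum_ge_card_of_prod_ge_one Finset.univ
    (fun u : (ZMod (Nat.card G))ˣ => θ (x ^ (u : ZMod (Nat.card G)).val)) (fun u _ => hθ0 _)
    (by rw [hzr]; exact hz1)
  rwa [Finset.card_univ] at h3

end Abstract

theorem restrict_irr_iff_no_vanishing_coset [Finite G] (N : Subgroup G) [N.Normal]
    (χ : IrrCharacter G) :
    ¬ IsIrrCharacter N (fun m : N => χ.1 m) ↔ ∃ x : G, ∀ m : N, χ.1 ((m : G) * x) = 0 := by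
  classical
  haveI := Fintype.ofFinite G
  haveI := Fintype.ofFinite N
  obtain ⟨k, ρ, hirr, hρ⟩ := χ.2
  have hcl : ∀ (x : G) (m : N), χ.1 ((m : G) * x) = χ.1 (x * m) := by
    intro x m
    have := isClassFunction_irr χ ((m : G) * x) x
    rw [← this]
    congr 1
    group
  have hN0 : (0 : ℝ) < (Nat.card N : ℝ) := by exact_mod_cast Nat.card_pos (α := N)
  have hθ : ∀ x : G, (invRep ρ N).character x
      = (((Nat.card N : ℝ)⁻¹ * ∑ m : N, Complex.normSq (χ.1 (x * m)) : ℝ) : ℂ) := by
    intro x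
    rw [invRep_character]
    push_cast
    congr 1
    apply Finset.sum_congr rfl
    intro m _
    rw [char_inv_eq_conj, hρ, Complex.mul_conj]
  have hθ0 : ∀ x : G, 0 ≤ (Nat.card N : ℝ)⁻¹ * ∑ m : N, Complex.normSq (χ.1 (x * m)) := by
    intro x
    exact mul_nonneg (inv_nonneg.mpr hN0.le) (Finset.sum_nonneg (fun m _ => Complex.normSq_nonneg _))
  have hzero : ∀ x : G, (Nat.card N : ℝ)⁻¹ * ∑ m : N, Complex.normSq (χ.1 (x * m)) = 0
      ↔ ∀ m : N, χ.1 ((m : G) * x) = 0 := by
    intro x
    rw [mul_eq_zero, or_iff_right (inv_ne_zero hN0.ne'),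
      Finset.sum_eq_zero_iff_of_nonneg (fun m _ => Complex.normSq_nonneg _)]
    constructor
    · intro h m
      rw [hcl]
      exact Complex.normSq_eq_zero.mp (h m (Finset.mem_univ _))
    · intro h m _
      rw [← hcl, h m]
      simp
  have hinner : classInner (fun m : N => χ.1 m) (fun m : N => χ.1 m)
      = (((Nat.card N : ℝ)⁻¹ * ∑ m : N, Complex.normSq (χ.1 (1 * m)) : ℝ) : ℂ) := by
    unfold classInner
    push_cast
    congr 1
    apply Finset.sum_congr rfl
    intro m _
    rw [one_mul, Complex.mul_conj]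
  have hfin : (((Nat.card N : ℝ)⁻¹ * ∑ m : N, Complex.normSq (χ.1 (1 * m)) : ℝ) : ℂ)
      = (Module.finrank ℂ (adResN ρ N).invariants : ℂ) := by
    rw [← hθ 1, Representation.char_one]
  have hchar : IsCharacter N (fun m : N => χ.1 m) := isCharacter_restrict N (isCharacter_irr χ)
  constructor
  · intro hnot
    by_contra hcon
    push Not at hcon
    apply hnot
    have hne : ∀ y : G, (Nat.card N : ℝ)⁻¹ * ∑ m : N, Complex.normSq (χ.1 (y * m)) ≠ 0 := by
      intro y hy
      obtain ⟨m, hm⟩ := hcon y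
      exact hm ((hzero y).mp hy m)
    have hsum : ∑ x : G, (Nat.card N : ℝ)⁻¹ * ∑ m : N, Complex.normSq (χ.1 (x * m))
        = (Nat.card G : ℝ) := by
      have hG : ∑ x : G, Complex.normSq (χ.1 x) = (Nat.card G : ℝ) := by
        have h1 := irr_inner_self χ
        unfold classInner at h1
        have hG0 : (Nat.card G : ℂ) ≠ 0 := by exact_mod_cast (Nat.card_pos (α := G)).ne'
        have h2 : ∑ g : G, χ.1 g * conj (χ.1 g) = (Nat.card G : ℂ) := by
          field_simp at h1
          exact h1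
        have h3 : ((∑ x : G, Complex.normSq (χ.1 x) : ℝ) : ℂ) = ((Nat.card G : ℝ) : ℂ) := by
          push_cast
          rw [← h2]
          apply Finset.sum_congr rfl
          intro g _
          rw [Complex.mul_conj]
        exact_mod_cast h3
      rw [← Finset.mul_sum, Finset.sum_comm]
      have hm : ∀ m : N, ∑ x : G, Complex.normSq (χ.1 (x * m)) = (Nat.card G : ℝ) := by
        intro m
        rw [← hG]
        exact Fintype.sum_equiv (Equiv.mulRight (m : G)) _ _ (fun x => rfl)
      rw [Finset.sum_congr rfl (fun m _ => hm m), Finset.sum_const, Finset.card_univ, nsmul_eq_mul,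
        ← Nat.card_eq_fintype_card, ← mul_assoc, inv_mul_cancel₀ hN0.ne', one_mul]
    have hle := theta_one_le_one
      (fun x : G => (Nat.card N : ℝ)⁻¹ * ∑ m : N, Complex.normSq (χ.1 (x * m))) hsum
      (gal_sum_ge (invRep ρ N) _ hθ hθ0 hne)
    have hd : Module.finrank ℂ (adResN ρ N).invariants = 1 := by
      have h1 : ((Module.finrank ℂ (adResN ρ N).invariants : ℝ) : ℂ)
          = (((Nat.card N : ℝ)⁻¹ * ∑ m : N, Complex.normSq (χ.1 (1 * m)) : ℝ) : ℂ) := by
        rw [hfin]
        simp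
      have h2 : (Module.finrank ℂ (adResN ρ N).invariants : ℝ)
          = (Nat.card N : ℝ)⁻¹ * ∑ m : N, Complex.normSq (χ.1 (1 * m)) := by
        exact_mod_cast h1
      have h3 : (Module.finrank ℂ (adResN ρ N).invariants : ℝ) ≤ 1 := by
        rw [h2]
        exact hle
      have h4 : (Module.finrank ℂ (adResN ρ N).invariants : ℝ) ≠ 0 := by
        rw [h2]
        exact hne 1
      have h5 : Module.finrank ℂ (adResN ρ N).invariants ≤ 1 := by exact_mod_cast h3
      have h6 : Module.finrank ℂ (adResN ρ N).invariants ≠ 0 := by exact_mod_cast h4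
      omega
    apply isIrrCharacter_of_inner_self_eq_one hchar
    rw [hinner, hfin, hd, Nat.cast_one]
  · rintro ⟨x, hx⟩ hirrN
    have h1 := isIrrCharacter_inner_self hirrN
    rw [hinner, hfin] at h1
    have hd : Module.finrank ℂ (adResN ρ N).invariants = 1 := by exact_mod_cast h1
    have hmul := char_mul_of_finrank_one hd (invRep ρ N) x x⁻¹
    rw [mul_inv_cancel, Representation.char_one, hd, hθ x,
      Complex.ofReal_eq_zero.mpr ((hzero x).mpr hx)] at hmul
    simp at hmul

end Cfsg.Agent.Lib.helper23
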