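import Mathlib
import Cfsg.Agent.Lib.helper23.BrauerIdem

set_option autoImplicit false

/-!
# Blocks of centralizers of `p`-elements and defects
-/

namespace Cfsg.Agent.Lib.helper23

open Cfsg Cfsg.Agent.Lib.helper24 Cfsg.Agent.Lib.helper5
open scoped ComplexConjugate

universe u

section card

variable {G : Type u} [Group G] [Finite G]

theorem card_centralizer_subgroup_dvd (H : Subgroup G) (h : H) :
    Nat.card (Subgroup.centralizer ({h} : Set H))
      ∣ Nat.card (Subgroup.centralizer ({(h : G)} : Set G)) := by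
  have hle : (Subgroup.centralizer ({h} : Set H)).map H.subtype
      ≤ Subgroup.centralizer ({(h : G)} : Set G) := by
    rintro _ ⟨x, hx, rfl⟩
    rw [Subgroup.mem_centralizer_iff]
    intro z hz
    rw [Set.mem_singleton_iff] at hz
    subst hz
    have h1 := Subgroup.mem_centralizer_iff.mp hx h (Set.mem_singleton h)
    have h2 := congrArg (Subtype.val) h1
    exact h2
  have hcard : Nat.card ((Subgroup.centralizer ({h} : Set H)).map H.subtype)
      = Nat.card (Subgroup.centralizer ({h} : Set H)) :=
    Subgroup.card_map_of_injective H.subtype_injective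
  rw [← hcard]
  exact Subgroup.card_dvd_of_le hle

end card

section br

variable {G : Type u} [Group G] [Fintype G] [Fintype (IrrCharacter G)]
variable {M : Ideal AlgInt} {p : ℕ} [Fact p.Prime]
variable (H : Subgroup G) [Fintype H] [Fintype (IrrCharacter H)]

theorem brFun_regInd_of_le (S : Subgroup G) (hHS : H ≤ S) (ξ : IrrCharacter H) :
    brFun H S ξ (coord (regInd p G)) = coord (regInd p H) ξ := by
  have key : ∀ h : H, brTrunc H S (coord (regInd p G)) h = regInd p H h := by
    intro h
    rw [brTrunc_of_mem _ (hHS h.2), coef_coord _ regInd_isClassFunction]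
    by_cases hx : p ∣ orderOf h
    · rw [regInd_of_sing hx, regInd_of_sing (by rw [Subgroup.orderOf_coe]; exact hx)]
    · rw [regInd_of_reg hx, regInd_of_reg (by rw [Subgroup.orderOf_coe]; exact hx)]
  rw [brFun_apply]
  show (∑ h : H, brTrunc H S (coord (regInd p G)) h * ξ.1 h) / ξ.1 1
    = (∑ h : H, regInd p H h * ξ.1 h) / ξ.1 1
  simp only [key]

/-- a Brauer functional congruent to a central character preserves principal blocks -/
theorem principal_iff_of_brFun (hM : IsPModular p M) (S : Subgroup G) (hHS : H ≤ S)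
    (ξ : IrrCharacter H) (χ : IrrCharacter G)
    (h : ∀ a ∈ osimaRing G M (isPModular_isPrime hM), MemLocalIdeal M (brFun H S ξ a - a χ)) :
    ξ ∈ principalBlock M H ↔ χ ∈ principalBlock M G := by
  have hMp := isPModular_isPrime hM
  have h1 := h _ (coord_regInd_mem_osimaRing (p := p) (G := G) hMp)
  rw [brFun_regInd_of_le H S hHS] at h1
  rw [Cfsg.Agent.Lib.helper5.mem_principalBlock_iff hM,
    Cfsg.Agent.Lib.helper5.mem_principalBlock_iff hM]
  constructor
  · intro h hmem
    apply h
    have := memLocalIdeal_add hMp h1 hmem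
    rwa [sub_add_cancel] at this
  · intro h hmem
    apply h
    have := memLocalIdeal_sub hMp hmem h1
    rwa [sub_sub_cancel] at this

/-- the defect of a block is at most the defect of the block it induces through the Brauer
map -/
theorem blockDefect_le_of_brFun (hM : IsPModular p M) (S : Subgroup G)
    (hnorm : ∀ h ∈ H, ∀ s ∈ S, h * s * h⁻¹ ∈ S) (ξ : IrrCharacter H) (χ : IrrCharacter G)
    (h : MemLocalIdeal M (brFun H S ξ ((blockOf M χ.1).indicator (fun _ => (1 : ℂ))) - 1)) :
    blockDefect p (blockOf M ξ.1) ≤ blockDefect p (blockOf M χ.1) := by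
  classical
  have hMp := isPModular_isPrime hM
  have hp : p.Prime := Fact.out
  obtain ⟨e, he_def⟩ : ∃ e : IrrCharacter G → ℂ,
      e = (blockOf M χ.1).indicator (fun _ => (1 : ℂ)) := ⟨_, rfl⟩
  have he : e ∈ osimaRing G M hMp := by rw [he_def]; exact indicator_mem_osimaRing hMp χ
  rw [← he_def, brFun_apply,
    coord_eq_sum_conjClasses' _ (brTrunc_isClassFunction hnorm e) ξ] at h
  have hex : ∃ c : ConjClasses H, ¬ MemLocalIdeal M
      (brTrunc H S e (Quotient.out c) * centralChar ξ.1 (Quotient.out c)) := by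
    by_contra hcon
    push Not at hcon
    have h1 := memLocalIdeal_sum hMp Finset.univ _ (fun c _ => hcon c)
    have h2 := memLocalIdeal_sub hMp h1 h
    rw [sub_sub_cancel] at h2
    exact not_memLocalIdeal_one hMp h2
  obtain ⟨c, hc⟩ := hex
  obtain ⟨h₀, hh₀⟩ : ∃ h₀ : H, h₀ = Quotient.out c := ⟨_, rfl⟩
  rw [← hh₀] at hc
  have hF : ¬ MemLocalIdeal M (brTrunc H S e h₀) := fun hmem =>
    hc (memLocalIdeal_mul_right hMp hmem (memLocalRing_centralChar hMp ξ h₀))
  have hω : ¬ MemLocalIdeal M (centralChar ξ.1 h₀) := fun hmem =>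
    hc (memLocalIdeal_mul_left hMp (brTrunc_memLocalRing hMp H S he h₀) hmem)
  have hS : (h₀ : G) ∈ S := by
    by_contra hn
    apply hF
    rw [brTrunc_of_not_mem _ hn]
    exact memLocalIdeal_zero hMp.ne_top
  rw [brTrunc_of_mem _ hS, he_def, coef_indicator] at hF
  have h1 := factorization_le_blockDefect hM χ (h₀ : G) hF
  have h2 := blockDefect_le_factorization hM ξ h₀ hω
  have h3 := card_centralizer_subgroup_dvd H h₀
  have h4 : (Nat.card (Subgroup.centralizer ({h₀} : Set H))).factorization p
      ≤ (Nat.card (Subgroup.centralizer ({(h₀ : G)} : Set G))).factorization p :=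
    (Nat.factorization_le_iff_dvd Nat.card_pos.ne' Nat.card_pos.ne').mpr h3 p
  exact h2.trans (h4.trans h1)

/-- a block idempotent with a coefficient outside the local ideal at an element of `H`
(`H = C_G(P)`) has below it a block of `H` with the same property -/
theorem exists_block_of_coef (hM : IsPModular p M) (P : Subgroup G) (hP : IsPGroup p P)
    (hCH : Subgroup.centralizer (P : Set G) ≤ H) (hHN : H ≤ Subgroup.normalizer (P : Set G))
    (hHC : H ≤ Subgroup.centralizer (P : Set G))
    (χ₀ : IrrCharacter G) (c : H)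
    (hc : ¬ MemLocalIdeal M (blockCoeff (blockOf M χ₀.1) (c : G))) :
    ∃ ξ : IrrCharacter H, ¬ MemLocalIdeal M (blockCoeff (blockOf M ξ.1) c) ∧
      (ξ ∈ principalBlock M H ↔ χ₀ ∈ principalBlock M G) := by
  classical
  have hMp := isPModular_isPrime hM
  obtain ⟨S, hS⟩ : ∃ S : Subgroup G, S = Subgroup.centralizer (P : Set G) := ⟨_, rfl⟩
  rw [← hS] at hCH hHC
  obtain ⟨e, he_def⟩ : ∃ e : IrrCharacter G → ℂ,
      e = (blockOf M χ₀.1).indicator (fun _ => (1 : ℂ)) := ⟨_, rfl⟩
  have he : e ∈ osimaRing G M hMp := by rw [he_def]; exact indicator_mem_osimaRing hMp χ₀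
  have hee : e * e = e := by rw [he_def]; exact indicator_mul_self _
  have hnorm : ∀ h ∈ H, ∀ s ∈ S, h * s * h⁻¹ ∈ S := by
    rw [hS]; exact conj_mem_centralizer_of_le_normalizer hHN
  have hcF := brTrunc_isClassFunction hnorm e
  obtain ⟨v, hv_def⟩ : ∃ v : IrrCharacter H → ℂ, v = coord (brTrunc H S e) := ⟨_, rfl⟩
  have hv : v ∈ osimaRing H M hMp := by
    rw [hv_def]
    exact coord_mem_osimaRing hMp hcF (brTrunc_memLocalRing hMp H S he)
  have hcoefv : ∀ h : H, coef v h = brTrunc H S e h := fun h => by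
    rw [hv_def]; exact coef_coord _ hcF h
  have hidem : ∀ h : H, MemLocalIdeal M (coef (v * v) h - coef v h) := by
    intro h
    have h1 := brTrunc_mul H hM P hP (by rw [← hS]; exact hCH) he he h
    rw [hee, ← hS] at h1
    have h2 : coef (v * v) h = conv (brTrunc H S e) (brTrunc H S e) h := by
      rw [coef_mul]
      unfold conv
      apply Finset.sum_congr rfl
      intro x _
      rw [hcoefv, hcoefv]
    rw [h2, hcoefv]
    have := memLocalIdeal_neg h1
    rwa [neg_sub] at this
  have hvξ : ∀ ξ : IrrCharacter H, v ξ = brFun H S ξ e := fun ξ => by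
    rw [hv_def, brFun_apply]
  obtain ⟨T, hT_def⟩ : ∃ T : Set (IrrCharacter H), T = {ξ | ¬ MemLocalIdeal M (v ξ)} :=
    ⟨_, rfl⟩
  have hT1 : ∀ ξ ∈ T, MemLocalIdeal M (v ξ - 1) ∧
      (ξ ∈ principalBlock M H ↔ χ₀ ∈ principalBlock M G) := by
    intro ξ hξ
    rw [hT_def] at hξ
    have hξ' : ¬ MemLocalIdeal M (v ξ) := hξ
    obtain ⟨χ, hχ⟩ := exists_brFun_block H hM P hP (by rw [← hS]; exact hCH) hHN ξ
    rw [← hS] at hχ
    have h1 := hχ e he
    rw [← hvξ] at h1
    have hmem : χ ∈ blockOf M χ₀.1 := by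
      by_contra hn
      rw [he_def, Set.indicator_of_notMem hn, sub_zero] at h1
      exact hξ' h1
    refine ⟨?_, ?_⟩
    · rw [he_def, Set.indicator_of_mem hmem] at h1
      exact h1
    · rw [principal_iff_of_brFun H hM S hHC ξ χ hχ]
      have hsb : SameBlock M χ₀.1 χ.1 := hmem
      constructor
      · intro h
        have h' : SameBlock M (fun _ : G => (1 : ℂ)) χ.1 := h
        exact sameBlock_trans hMp h' (sameBlock_symm hsb)
      · intro h
        have h' : SameBlock M (fun _ : G => (1 : ℂ)) χ₀.1 := h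
        exact sameBlock_trans hMp h' hsb
  have hTcl : ∀ ξ ∈ T, ∀ ξ' : IrrCharacter H, SameBlock M ξ.1 ξ'.1 → ξ' ∈ T := by
    intro ξ hξ ξ' hsb
    rw [hT_def] at hξ ⊢
    have hξ' : ¬ MemLocalIdeal M (v ξ) := hξ
    show ¬ MemLocalIdeal M (v ξ')
    intro hmem
    apply hξ'
    have h1 := memLocalIdeal_coord_sub hMp hv hsb
    have := memLocalIdeal_add hMp h1 hmem
    rwa [sub_add_cancel] at this
  have hu : T.indicator (fun _ => (1 : ℂ)) ∈ osimaRing H M hMp :=
    indicator_mem_osimaRing_of_closed hMp T hTcl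
  have hw : ∀ ξ : IrrCharacter H,
      MemLocalIdeal M (v ξ - T.indicator (fun _ => (1 : ℂ)) ξ) := by
    intro ξ
    by_cases hξ : ξ ∈ T
    · rw [Set.indicator_of_mem hξ]
      exact (hT1 ξ hξ).1
    · rw [Set.indicator_of_notMem hξ, sub_zero]
      rw [hT_def] at hξ
      exact not_not.mp hξ
  have h5 := coef_sub_memLocalIdeal_of_idem hM hv hu hidem (indicator_mul_self T) hw c
  have h6 : ¬ MemLocalIdeal M (coef (T.indicator (fun _ => (1 : ℂ))) c) := by
    intro hmem
    have h7 := memLocalIdeal_add hMp h5 hmem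
    rw [sub_add_cancel, hcoefv, brTrunc_of_mem _ (hHC c.2), he_def, coef_indicator] at h7
    exact hc h7
  obtain ⟨ξ, hξT, hξ⟩ := exists_block_coef_of_closed hMp T hTcl c h6
  exact ⟨ξ, hξ, (hT1 ξ hξT).2⟩

end br

section zp

variable {G : Type u} [Group G]

theorem centralizer_zpowers_le (y : G) :
    Subgroup.centralizer ((Subgroup.zpowers y : Subgroup G) : Set G)
      ≤ Subgroup.centralizer ({y} : Set G) :=
  Subgroup.centralizer_le (Set.singleton_subset_iff.mpr (Subgroup.mem_zpowers y))

theorem le_centralizer_zpowers (y : G) :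
    Subgroup.centralizer ({y} : Set G)
      ≤ Subgroup.centralizer ((Subgroup.zpowers y : Subgroup G) : Set G) := by
  intro x hx
  rw [Subgroup.mem_centralizer_iff]
  rintro z ⟨k, rfl⟩
  have h1 : y * x = x * y := Subgroup.mem_centralizer_iff.mp hx y (Set.mem_singleton y)
  have h2 : Commute y x := h1
  exact (h2.zpow_left k).eq

end zp

section main

variable {G : Type u} [Group G] [Fintype G] [Fintype (IrrCharacter G)]
variable {M : Ideal AlgInt} {p : ℕ} [Fact p.Prime]

theorem deficiency_forward (hM : IsPModular p M) (r : ℕ)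
    (hG : ∀ B' : Set (IrrCharacter G), IsPBlock M B' → B' ≠ principalBlock M G →
      blockDefect p B' < r)
    (y : G) (hy : ∃ k : ℕ, orderOf y = p ^ k)
    [Fintype (Subgroup.centralizer ({y} : Set G))]
    [Fintype (IrrCharacter (Subgroup.centralizer ({y} : Set G)))]
    (B' : Set (IrrCharacter (Subgroup.centralizer ({y} : Set G)))) (hB' : IsPBlock M B')
    (hne : B' ≠ principalBlock M (Subgroup.centralizer ({y} : Set G))) :
    blockDefect p B' < r := by
  classical
  have hMp := isPModular_isPrime hM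
  obtain ⟨ξ₀, rfl⟩ := hB'
  obtain ⟨P, hPdef⟩ : ∃ P : Subgroup G, P = Subgroup.zpowers y := ⟨_, rfl⟩
  have hP : IsPGroup p P := by
    obtain ⟨k, hk⟩ := hy
    apply IsPGroup.of_card (n := k)
    rw [hPdef, Nat.card_zpowers, hk]
  have hCH : Subgroup.centralizer (P : Set G) ≤ Subgroup.centralizer ({y} : Set G) := by
    rw [hPdef]; exact centralizer_zpowers_le y
  have hHC : Subgroup.centralizer ({y} : Set G) ≤ Subgroup.centralizer (P : Set G) := by
    rw [hPdef]; exact le_centralizer_zpowers y
  have hHN : Subgroup.centralizer ({y} : Set G) ≤ Subgroup.normalizer (P : Set G) :=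
    hHC.trans (Subgroup.centralizer_le_normalizer _)
  obtain ⟨χ, hχ⟩ := exists_brFun_block (Subgroup.centralizer ({y} : Set G)) hM P hP hCH hHN ξ₀
  have hprin := principal_iff_of_brFun (Subgroup.centralizer ({y} : Set G)) hM _ hHC ξ₀ χ hχ
  have hχnp : blockOf M χ.1 ≠ principalBlock M G := by
    intro heq
    apply hne
    have h1 : χ ∈ principalBlock M G := by rw [← heq]; exact mem_blockOf_self hMp.ne_top χ
    have h2 := hprin.mpr h1
    have h3 : ξ₀ ∈ blockOf M (trivIrr (Subgroup.centralizer ({y} : Set G))).1 := h2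
    exact blockOf_eq_of_mem hMp h3
  have hd := hG _ ⟨χ, rfl⟩ hχnp
  have h4 := hχ _ (indicator_mem_osimaRing (G := G) hMp χ)
  rw [Set.indicator_of_mem (mem_blockOf_self hMp.ne_top χ)] at h4
  have hle := blockDefect_le_of_brFun (Subgroup.centralizer ({y} : Set G)) hM _
    (conj_mem_centralizer_of_le_normalizer hHN) ξ₀ χ h4
  exact lt_of_le_of_lt hle hd

theorem deficiency_converse (hM : IsPModular p M) (r : ℕ) (hr : 0 < r)
    (hC : ∀ y : G, orderOf y = p →
      ∀ B' : Set (IrrCharacter (Subgroup.centralizer ({y} : Set G))), IsPBlock M B' →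
        B' ≠ principalBlock M (Subgroup.centralizer ({y} : Set G)) → blockDefect p B' < r)
    (B' : Set (IrrCharacter G)) (hB' : IsPBlock M B') (hne : B' ≠ principalBlock M G) :
    blockDefect p B' < r := by
  classical
  have hMp := isPModular_isPrime hM
  have hp : p.Prime := Fact.out
  by_contra hcon
  push Not at hcon
  obtain ⟨χ₀, rfl⟩ := hB'
  obtain ⟨g0, hg0⟩ := exists_defectClass hMp χ₀
  have hfac := defect_class_factorization hM χ₀ g0 hg0
  obtain ⟨D⟩ : Nonempty (Sylow p (Subgroup.centralizer ({g0} : Set G))) := inferInstance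
  have hDcard : Nat.card D = p ^ blockDefect p (blockOf M χ₀.1) := by
    rw [← hfac]; exact Sylow.card_eq_multiplicity D
  have hDnt : Nontrivial D := by
    rw [← Finite.one_lt_card_iff_nontrivial, hDcard]
    exact Nat.one_lt_pow (by omega) hp.one_lt
  have hcen : Nontrivial (Subgroup.center D) := IsPGroup.center_nontrivial D.2
  have hpd : p ∣ Nat.card (Subgroup.center D) := by
    rcases IsPGroup.card_eq_or_dvd (D.2.to_subgroup (Subgroup.center D)) with h | h
    · exact absurd h (Finite.one_lt_card).ne'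
    · exact h
  obtain ⟨z, hz⟩ := exists_prime_orderOf_dvd_card' p hpd
  obtain ⟨y, hydef⟩ : ∃ y : G,
      y = (((z : D) : Subgroup.centralizer ({g0} : Set G)) : G) := ⟨_, rfl⟩
  have hy : orderOf y = p := by
    rw [hydef, Subgroup.orderOf_coe, Subgroup.orderOf_coe, Subgroup.orderOf_coe, hz]
  have hyg0 : g0 * y = y * g0 := by
    rw [hydef]
    exact mem_centralizer_singleton_comm.mp ((z : D) : Subgroup.centralizer ({g0} : Set G)).2
  have hg0H : g0 ∈ Subgroup.centralizer ({y} : Set G) :=
    mem_centralizer_singleton_comm.mpr hyg0.symm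
  have : Fintype (Subgroup.centralizer ({y} : Set G)) := Fintype.ofFinite _
  have : Fintype (IrrCharacter (Subgroup.centralizer ({y} : Set G))) := Fintype.ofFinite _
  obtain ⟨P, hPdef⟩ : ∃ P : Subgroup G, P = Subgroup.zpowers y := ⟨_, rfl⟩
  have hP : IsPGroup p P := by
    apply IsPGroup.of_card (n := 1)
    rw [hPdef, Nat.card_zpowers, hy, pow_one]
  have hCH : Subgroup.centralizer (P : Set G) ≤ Subgroup.centralizer ({y} : Set G) := by
    rw [hPdef]; exact centralizer_zpowers_le y
  have hHC : Subgroup.centralizer ({y} : Set G) ≤ Subgroup.centralizer (P : Set G) := by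
    rw [hPdef]; exact le_centralizer_zpowers y
  have hHN : Subgroup.centralizer ({y} : Set G) ≤ Subgroup.normalizer (P : Set G) :=
    hHC.trans (Subgroup.centralizer_le_normalizer _)
  obtain ⟨c, hcdef⟩ : ∃ c : Subgroup.centralizer ({y} : Set G), c = ⟨g0, hg0H⟩ := ⟨_, rfl⟩
  have hcval : (c : G) = g0 := by rw [hcdef]
  have hc : ¬ MemLocalIdeal M (blockCoeff (blockOf M χ₀.1) (c : G)) := by
    rw [hcval]; exact hg0.2.1
  obtain ⟨ξ, hξ, hprin⟩ := exists_block_of_coef (Subgroup.centralizer ({y} : Set G)) hM P hP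
    hCH hHN hHC χ₀ c hc
  have hξnp : blockOf M ξ.1 ≠ principalBlock M (Subgroup.centralizer ({y} : Set G)) := by
    intro heq
    apply hne
    have h1 : ξ ∈ principalBlock M (Subgroup.centralizer ({y} : Set G)) := by
      rw [← heq]; exact mem_blockOf_self hMp.ne_top ξ
    have h2 := hprin.mp h1
    have h3 : χ₀ ∈ blockOf M (trivIrr G).1 := h2
    exact blockOf_eq_of_mem hMp h3
  have hlt := hC y hy (blockOf M ξ.1) ⟨ξ, rfl⟩ hξnp
  have h1 := factorization_le_blockDefect hM ξ c hξ
  have hsub : (D : Subgroup (Subgroup.centralizer ({g0} : Set G))).map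
        (Subgroup.centralizer ({g0} : Set G)).subtype
      ≤ (Subgroup.centralizer ({c} : Set (Subgroup.centralizer ({y} : Set G)))).map
        (Subgroup.centralizer ({y} : Set G)).subtype := by
    rintro _ ⟨t, ht, rfl⟩
    have hty : y * (t : G) = (t : G) * y := by
      have h5 := Subgroup.mem_center_iff.mp z.2 ⟨t, ht⟩
      have h6 := congrArg (fun w : D => ((w : Subgroup.centralizer ({g0} : Set G)) : G)) h5
      rw [hydef]
      exact h6.symm
    have htH : (t : G) ∈ Subgroup.centralizer ({y} : Set G) :=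
      mem_centralizer_singleton_comm.mpr hty
    refine ⟨⟨(t : G), htH⟩, ?_, rfl⟩
    rw [SetLike.mem_coe, Subgroup.mem_centralizer_iff]
    intro w hw
    rw [Set.mem_singleton_iff] at hw
    rw [hw]
    apply Subtype.ext
    show (c : G) * (t : G) = (t : G) * (c : G)
    rw [hcval]
    exact mem_centralizer_singleton_comm.mp t.2
  have hdvd := Subgroup.card_dvd_of_le hsub
  rw [Subgroup.card_map_of_injective (Subgroup.subtype_injective _),
    Subgroup.card_map_of_injective (Subgroup.subtype_injective _), hDcard] at hdvd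
  have h2 := (Nat.Prime.pow_dvd_iff_le_factorization hp Nat.card_pos.ne').mp hdvd
  omega

end main

/-- deficiency classes and centralizers of `p`-elements -/
theorem deficiency_class {G : Type u} [Group G] [Finite G] (p : ℕ) [Fact p.Prime]
    (M : Ideal AlgInt) (hM : IsPModular p M) (r : ℕ) :
    ((∀ B' : Set (IrrCharacter G), IsPBlock M B' → B' ≠ principalBlock M G →
        blockDefect p B' < r) →
      ∀ y : G, (∃ k : ℕ, orderOf y = p ^ k) →
        (∀ B' : Set (IrrCharacter ↥(Subgroup.centralizer ({y} : Set G))), IsPBlock M B' →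
          B' ≠ principalBlock M ↥(Subgroup.centralizer ({y} : Set G)) → blockDefect p B' < r)) ∧
    (0 < r →
      (∀ y : G, orderOf y = p →
        (∀ B' : Set (IrrCharacter ↥(Subgroup.centralizer ({y} : Set G))), IsPBlock M B' →
          B' ≠ principalBlock M ↥(Subgroup.centralizer ({y} : Set G)) → blockDefect p B' < r)) →
      (∀ B' : Set (IrrCharacter G), IsPBlock M B' → B' ≠ principalBlock M G →
        blockDefect p B' < r)) := by
  classical
  have : Fintype G := Fintype.ofFinite G
  have : Fintype (IrrCharacter G) := Fintype.ofFinite _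
  refine ⟨?_, ?_⟩
  · intro hG y hy B' hB' hne
    have : Fintype (Subgroup.centralizer ({y} : Set G)) := Fintype.ofFinite _
    have : Fintype (IrrCharacter (Subgroup.centralizer ({y} : Set G))) := Fintype.ofFinite _
    exact deficiency_forward hM r hG y hy B' hB' hne
  · intro hr hC B' hB' hne
    exact deficiency_converse hM r hr hC B' hB' hne

end Cfsg.Agent.Lib.helper23
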