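import Mathlib
import Cfsg.Agent.Lib.helper1.FrobChar

set_option autoImplicit false

namespace Cfsg.Agent.Lib.helper23

open Cfsg Cfsg.Agent.Lib.helper24
open scoped ComplexConjugate

universe u

variable {G : Type u} [Group G] [Fintype G]

theorem genchar_inner_irr_int {τ : G → ℂ} (hgen : IsGeneralizedCharacter G τ)
    (φ : IrrCharacter G) : ∃ z : ℤ, classInner τ φ.1 = z := by
  obtain ⟨χ, ψ, hχ, hψ, rfl⟩ := hgen
  obtain ⟨a, ha⟩ := isCharacter_inner_irr_nat hχ φ
  obtain ⟨b, hb⟩ := isCharacter_inner_irr_nat hψ φ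
  refine ⟨(a : ℤ) - b, ?_⟩
  rw [classInner_sub_left, ha, hb]
  push_cast
  rfl

theorem genchar_isClassFunction {τ : G → ℂ} (hgen : IsGeneralizedCharacter G τ) :
    IsClassFunction G τ := by
  obtain ⟨χ, ψ, hχ, hψ, rfl⟩ := hgen
  exact isClassFunction_sub (isCharacter_conj_class hχ) (isCharacter_conj_class hψ)

theorem genchar_norm_one_pm {τ : G → ℂ} (hgen : IsGeneralizedCharacter G τ)
    (h1 : classInner τ τ = 1) : ∃ ψ : IrrCharacter G, τ = ψ.1 ∨ τ = -ψ.1 := by
  classical
  have := Fintype.ofFinite (IrrCharacter G)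
  have hcl : IsClassFunction G τ := genchar_isClassFunction hgen
  choose c hc using fun φ => genchar_inner_irr_int hgen φ
  have hexp := classFunction_expansion hcl
  have hnorm : ∑ φ : IrrCharacter G, c φ ^ 2 = 1 := by
    have : classInner τ τ = ((∑ φ : IrrCharacter G, c φ ^ 2 : ℤ) : ℂ) := by
      conv_lhs => rhs; rw [hexp]
      rw [classInner_sum_right]
      push_cast
      apply Finset.sum_congr rfl
      intro φ _
      rw [classInner_smul_right, hc]
      simp
      ring
    rw [this] at h1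
    exact_mod_cast h1
  obtain ⟨a, ha, hrest⟩ := Cfsg.Agent.Lib.helper1.int_sq_sum_one c hnorm
  have hτ : τ = (c a : ℂ) • a.1 := by
    conv_lhs => rw [hexp]
    rw [← Finset.sum_subset (Finset.subset_univ {a})]
    · rw [Finset.sum_singleton, hc]
    · intro φ _ hφ
      simp only [Finset.mem_singleton] at hφ
      rw [hc, hrest φ hφ]
      simp
  refine ⟨a, ?_⟩
  rcases ha with ha | ha
  · left; rw [hτ, ha]; simp
  · right; rw [hτ, ha]; simp

theorem classInner_self_re_nonneg (f : G → ℂ) : 0 ≤ (classInner f f).re := by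
  unfold classInner
  have h : ∀ g : G, f g * conj (f g) = ((Complex.normSq (f g) : ℝ) : ℂ) := fun g =>
    Complex.mul_conj (f g)
  simp only [h]
  rw [← Complex.ofReal_sum, ← Complex.ofReal_natCast, ← Complex.ofReal_inv, ← Complex.ofReal_mul,
    Complex.ofReal_re]
  apply mul_nonneg
  · positivity
  · exact Finset.sum_nonneg fun g _ => Complex.normSq_nonneg _

end Cfsg.Agent.Lib.helper23
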