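import Mathlib
import Cfsg.Agent.Lib.helper23.E2Abs
import Cfsg.Agent.Lib.helper23.Isometry
import Cfsg.Agent.Lib.helper24.CharBrauer7

set_option autoImplicit false

namespace Cfsg.Agent.Lib.helper23

open Cfsg Cfsg.Agent.Lib.helper24
open scoped ComplexConjugate

universe u

variable {G : Type u} [Group G] [Fintype G]

theorem e2_abstract (n : ℕ) (hn : 4 ≤ n) (φ : Fin n → (G → ℂ))
    (hgen : ∀ i, IsGeneralizedCharacter G (φ i)) (hone : ∀ i, φ i 1 = 0)
    (htriv : ∀ i, classInner (φ i) (trivIrr G).1 = 1)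
    (hgram : ∀ i j, classInner (φ i) (φ j) = if i = j then 3 else 2) :
    ∃ δ ε : ℂ, (δ = 1 ∨ δ = -1) ∧ (ε = 1 ∨ ε = -1) ∧
      ∃ (ψ : IrrCharacter G) (μ : Fin n → IrrCharacter G),
        ψ ≠ trivIrr G ∧ (∀ i, μ i ≠ ψ) ∧ (∀ i, μ i ≠ trivIrr G) ∧ Function.Injective μ ∧
        ∀ i, φ i = (trivIrr G).1 + δ • ψ.1 + ε • (μ i).1 := by
  classical
  let i₀ : Fin n := ⟨0, by omega⟩
  let i₁ : Fin n := ⟨1, by omega⟩
  have h01 : i₁ ≠ i₀ := by
    intro h; have := congrArg Fin.val h; simp [i₀, i₁] at this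
  -- the isometry lemma applied to the differences
  have h0 : (fun i => φ i - φ i₀) i₀ = 0 := sub_self _
  have hgen' : ∀ i, IsGeneralizedCharacter G ((fun i => φ i - φ i₀) i) := fun i =>
    genChar_sub (hgen i) (hgen i₀)
  have hone' : ∀ i, (fun i => φ i - φ i₀) i 1 = 0 := by
    intro i; simp only [Pi.sub_apply, hone, sub_self]
  have hgram' : ∀ i j, i ≠ i₀ → j ≠ i₀ →
      classInner ((fun i => φ i - φ i₀) i) ((fun i => φ i - φ i₀) j) = if i = j then 2 else 1 := by
    intro i j hi hj
    simp only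
    rw [classInner_sub_left, classInner_sub_right, classInner_sub_right, hgram, hgram, hgram,
      hgram]
    have hi' : i₀ ≠ j := fun h => hj h.symm
    simp only [hi, hi', if_false, if_true]
    by_cases hij : i = j
    · simp only [hij, if_true]; norm_num
    · simp only [hij, if_false]; norm_num
  obtain ⟨ε, hε, μ, hμirr, hμinj, hτ⟩ := isometry_lemma n i₀ _ h0 hgen' hone' hgram'
  let M : Fin n → IrrCharacter G := fun i => ⟨μ i, hμirr i⟩
  have hMinj : Function.Injective M := by
    intro i j hij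
    exact hμinj (congrArg Subtype.val hij)
  have hεconj : conj ε = ε := by rcases hε with rfl | rfl <;> simp
  have hεsq : ε * ε = 1 := by rcases hε with rfl | rfl <;> norm_num
  have hεne : ε ≠ 0 := by rcases hε with rfl | rfl <;> norm_num
  -- the common part
  obtain ⟨Ξ, hΞ⟩ : ∃ Ξ : G → ℂ, Ξ = φ i₀ - ε • μ i₀ := ⟨_, rfl⟩
  have hφ : ∀ i, φ i = Ξ + ε • (M i).1 := by
    intro i
    have := hτ i
    have e : φ i = φ i₀ + ε • (μ i - μ i₀) := by rw [← this]; abel
    rw [e, hΞ, smul_sub]; abel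
  have hΞgen : IsGeneralizedCharacter G Ξ := by
    have h1 : IsGeneralizedCharacter G (ε • μ i₀) := by
      rcases hε with rfl | rfl
      · simpa using genChar_of_character (isCharacter_of_isIrrCharacter (hμirr i₀))
      · have := genChar_neg (genChar_of_character (isCharacter_of_isIrrCharacter (hμirr i₀)))
        simpa using this
    rw [hΞ]
    exact genChar_sub (hgen i₀) h1
  have horth : ∀ a b : IrrCharacter G, classInner a.1 b.1 = if a = b then 1 else 0 :=
    irr_orthonormal
  -- no `M i` is trivial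
  have hMtriv : ∀ i, M i ≠ trivIrr G := by
    intro i hi
    obtain ⟨j, hj⟩ : ∃ j, j ≠ i := by
      by_cases h : i = i₀
      · exact ⟨i₁, by rw [h]; exact h01⟩
      · exact ⟨i₀, fun h' => h h'.symm⟩
    have e1 : classInner (φ j - φ i) (trivIrr G).1 = 0 := by
      rw [classInner_sub_left, htriv, htriv, sub_self]
    have e2 : φ j - φ i = ε • ((M j).1 - (M i).1) := by
      rw [hφ j, hφ i, smul_sub]; abel
    rw [e2, classInner_smul_left, classInner_sub_left, horth, horth] at e1
    have hji : M j ≠ trivIrr G := by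
      intro h; exact hj (hMinj (h.trans hi.symm))
    simp only [hji, hi, if_false, if_true, zero_sub, mul_neg, mul_one, neg_eq_zero] at e1
    exact hεne e1
  have hΞtriv : classInner Ξ (trivIrr G).1 = 1 := by
    have := htriv i₀
    rw [hφ i₀, classInner_add_left, classInner_smul_left, horth] at this
    simpa [hMtriv i₀] using this
  -- the integers ⟨Ξ, M i⟩
  choose z hz using fun i => genchar_inner_irr_int hΞgen (M i)
  have hz' : ∀ i, classInner (M i).1 Ξ = z i := by
    intro i
    rw [classInner_conj_symm, hz]; simp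
  obtain ⟨X, hX⟩ : ∃ X : ℂ, X = classInner Ξ Ξ := ⟨_, rfl⟩
  have hnorm : ∀ i, X + 2 * ε * (z i : ℂ) = 2 := by
    intro i
    have := hgram i i
    rw [hφ i, classInner_add_left, classInner_add_right, classInner_add_right,
      classInner_smul_left, classInner_smul_left, classInner_smul_right, classInner_smul_right,
      hεconj, hz, hz', horth, ← hX] at this
    simp only [if_true, mul_one] at this
    have h3 : X + ε * (z i : ℂ) + (ε * (z i : ℂ) + ε * ε) = 3 := this
    rw [hεsq] at h3
    linear_combination h3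
  have hcross : ∀ i j, i ≠ j → X + ε * (z i : ℂ) + ε * (z j : ℂ) = 2 := by
    intro i j hij
    have := hgram i j
    rw [hφ i, hφ j, classInner_add_left, classInner_add_right, classInner_add_right,
      classInner_smul_left, classInner_smul_left, classInner_smul_right, classInner_smul_right,
      hεconj, hz, hz', horth, ← hX] at this
    have hMij : M i ≠ M j := fun h => hij (hMinj h)
    simp only [hij, hMij, if_false, mul_zero, add_zero] at this
    linear_combination this
  have hzeq : ∀ i, z i = z i₀ := by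
    intro i
    by_cases hi : i = i₀
    · rw [hi]
    · have e1 := hcross i i₀ hi
      have e2 := hnorm i
      have e3 : ε * ((z i₀ : ℂ) - (z i : ℂ)) = 0 := by linear_combination e1 - e2
      rcases mul_eq_zero.mp e3 with h | h
      · exact absurd h hεne
      · have : (z i₀ : ℂ) = (z i : ℂ) := sub_eq_zero.mp h
        exact_mod_cast this.symm
  obtain ⟨z₀, hz₀⟩ : ∃ z₀ : ℤ, z₀ = z i₀ := ⟨_, rfl⟩
  -- Bessel
  obtain ⟨W, hW⟩ : ∃ W : G → ℂ, W = (trivIrr G).1 + (z₀ : ℂ) • ∑ i, (M i).1 := ⟨_, rfl⟩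
  have hΞW : classInner Ξ W = 1 + (n : ℂ) * (z₀ : ℂ) ^ 2 := by
    rw [hW, classInner_add_right, classInner_smul_right, classInner_sum_right, hΞtriv]
    simp only [hz, hzeq, ← hz₀, Finset.sum_const, Finset.card_univ, Fintype.card_fin, nsmul_eq_mul,
      map_intCast]
    ring
  have hWΞ : classInner W Ξ = 1 + (n : ℂ) * (z₀ : ℂ) ^ 2 := by
    rw [classInner_conj_symm, hΞW]; simp
  have hWW : classInner W W = 1 + (n : ℂ) * (z₀ : ℂ) ^ 2 := by
    have e1 : classInner (trivIrr G).1 W = 1 := by
      rw [hW, classInner_add_right, classInner_smul_right, classInner_sum_right, horth]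
      have : ∀ i, classInner (trivIrr G).1 (M i).1 = 0 := by
        intro i; rw [horth]; simp [(hMtriv i).symm]
      simp [this]
    have e2 : ∀ i, classInner (M i).1 W = (z₀ : ℂ) := by
      intro i
      rw [hW, classInner_add_right, classInner_smul_right, classInner_sum_right, horth]
      simp only [hMtriv i, if_false, zero_add, map_intCast]
      have : ∑ j, classInner (M i).1 (M j).1 = 1 := by
        rw [Finset.sum_eq_single i]
        · rw [horth]; simp
        · intro j _ hj
          rw [horth]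
          have : M i ≠ M j := fun h => hj (hMinj h).symm
          simp [this]
        · intro h; exact absurd (Finset.mem_univ i) h
      rw [this, mul_one]
    have e3 : classInner W W = classInner ((trivIrr G).1 + (z₀ : ℂ) • ∑ i, (M i).1) W := by
      rw [← hW]
    rw [e3, classInner_add_left, classInner_smul_left, classInner_sum_left, e1]
    simp only [e2, Finset.sum_const, Finset.card_univ, Fintype.card_fin, nsmul_eq_mul]
    ring
  have hbessel := classInner_self_re_nonneg (Ξ - W)
  rw [classInner_sub_left, classInner_sub_right, classInner_sub_right, hΞW, hWΞ, hWW] at hbessel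
  have hXval : X = 2 - 2 * ε * (z₀ : ℂ) := by
    have := hnorm i₀; rw [hz₀]; linear_combination this
  rw [← hX, hXval] at hbessel
  have hz0 : z₀ = 0 := by
    by_contra hne
    have hn' : (4 : ℝ) ≤ n := by exact_mod_cast hn
    rcases hε with rfl | rfl
    · have : (2 - 2 * (1 : ℂ) * (z₀ : ℂ) - (1 + (n : ℂ) * (z₀ : ℂ) ^ 2)
          - (1 + (n : ℂ) * (z₀ : ℂ) ^ 2 - (1 + (n : ℂ) * (z₀ : ℂ) ^ 2))).re
          = 1 - 2 * (z₀ : ℝ) - n * (z₀ : ℝ) ^ 2 := by
        simp [pow_two]; ring
      rw [this] at hbessel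
      have h1 : (1 : ℝ) ≤ (z₀ : ℝ) ^ 2 := by
        have : (1 : ℤ) ≤ z₀ ^ 2 := by
          have : 0 < z₀ ^ 2 := by positivity
          omega
        exact_mod_cast this
      nlinarith [sq_nonneg ((z₀ : ℝ) + 1), sq_nonneg ((z₀ : ℝ) - 1)]
    · have : (2 - 2 * (-1 : ℂ) * (z₀ : ℂ) - (1 + (n : ℂ) * (z₀ : ℂ) ^ 2)
          - (1 + (n : ℂ) * (z₀ : ℂ) ^ 2 - (1 + (n : ℂ) * (z₀ : ℂ) ^ 2))).re
          = 1 + 2 * (z₀ : ℝ) - n * (z₀ : ℝ) ^ 2 := by
        simp [pow_two]; ring
      rw [this] at hbessel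
      have h1 : (1 : ℝ) ≤ (z₀ : ℝ) ^ 2 := by
        have : (1 : ℤ) ≤ z₀ ^ 2 := by
          have : 0 < z₀ ^ 2 := by positivity
          omega
        exact_mod_cast this
      nlinarith [sq_nonneg ((z₀ : ℝ) + 1), sq_nonneg ((z₀ : ℝ) - 1)]
  have hX2 : X = 2 := by rw [hXval, hz0]; simp
  -- the non-exceptional character
  obtain ⟨Ω, hΩ⟩ : ∃ Ω : G → ℂ, Ω = Ξ - (trivIrr G).1 := ⟨_, rfl⟩
  have hΩgen : IsGeneralizedCharacter G Ω := by
    rw [hΩ]
    exact genChar_sub hΞgen (genChar_of_character (isCharacter_of_isIrrCharacter (trivIrr G).2))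
  have htrivΞ : classInner (trivIrr G).1 Ξ = 1 := by
    rw [classInner_conj_symm, hΞtriv]; simp
  have hΩnorm : classInner Ω Ω = 1 := by
    rw [hΩ, classInner_sub_left, classInner_sub_right, classInner_sub_right, ← hX, hX2, hΞtriv,
      htrivΞ, horth]
    simp; norm_num
  obtain ⟨ψ, hψ⟩ := genchar_norm_one_pm hΩgen hΩnorm
  have hΩtriv : classInner Ω (trivIrr G).1 = 0 := by
    rw [hΩ, classInner_sub_left, hΞtriv, horth]; simp
  have hΩM : ∀ i, classInner Ω (M i).1 = 0 := by
    intro i
    rw [hΩ, classInner_sub_left, hz, hzeq, ← hz₀, hz0, horth]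
    simp [(hMtriv i).symm]
  obtain ⟨δ, hδ, hΩδ⟩ : ∃ δ : ℂ, (δ = 1 ∨ δ = -1) ∧ Ω = δ • ψ.1 := by
    rcases hψ with h | h
    · exact ⟨1, Or.inl rfl, by rw [h, one_smul]⟩
    · exact ⟨-1, Or.inr rfl, by rw [h]; simp⟩
  have hδne : δ ≠ 0 := by rcases hδ with rfl | rfl <;> norm_num
  refine ⟨δ, ε, hδ, hε, ψ, M, ?_, ?_, hMtriv, hMinj, ?_⟩
  · intro h
    rw [hΩδ, classInner_smul_left, horth, h] at hΩtriv
    simp at hΩtriv
    exact hδne hΩtriv
  · intro i h
    have := hΩM i
    rw [hΩδ, classInner_smul_left, horth, h] at this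
    simp at this
    exact hδne this
  · intro i
    rw [hφ i, ← hΩδ, hΩ]; abel

end Cfsg.Agent.Lib.helper23
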