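import Mathlib
import Cfsg.Agent.Lib.helper23.E2Abs2

set_option autoImplicit false

namespace Cfsg.Agent.Lib.helper23

open Cfsg Cfsg.Agent.Lib.helper24
open scoped ComplexConjugate

universe u

variable {G : Type u} [Group G] [Fintype G]

/-- Value of an induced function on a nonidentity element of a TI subgroup whose normalizer
is twice as large and inverts it. -/
theorem e2_indFun_apply (P N : Subgroup G) (hPN : P ≤ N)
    (hab : ∀ x ∈ P, ∀ y ∈ P, x * y = y * x)
    (hTI : ∀ g : G, ∀ x ∈ P, x ≠ 1 → g⁻¹ * x * g ∈ P → g ∈ N)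
    (hinv : ∀ g ∈ N, g ∉ P → ∀ x ∈ P, g⁻¹ * x * g = x⁻¹)
    (hcard : Nat.card N = 2 * Nat.card P) (θ : P → ℂ) (x : P) (hx : x ≠ 1) :
    indFun P θ x = θ x + θ x⁻¹ := by
  classical
  have hP0 : (Nat.card P : ℂ) ≠ 0 := NeZero.ne _
  have key : ∀ g : G, extendByZero P θ (g⁻¹ * (x : G) * g)
      = (if g ∈ P then θ x else 0) + (if g ∈ N ∧ g ∉ P then θ x⁻¹ else 0) := by
    intro g
    by_cases hgP : g ∈ P
    · have e : g⁻¹ * (x : G) * g = x := by
        have := hab g hgP x x.2
        rw [mul_assoc, ← this, inv_mul_cancel_left]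
      have hm : g⁻¹ * (x : G) * g ∈ P := by rw [e]; exact x.2
      rw [extendByZero_apply_mem _ _ hm]
      simp only [hgP, if_true, not_true, and_false, if_false, add_zero]
      congr 1
      exact Subtype.ext e
    · by_cases hgN : g ∈ N
      · have e : g⁻¹ * (x : G) * g = ((x⁻¹ : P) : G) := by
          rw [hinv g hgN hgP x x.2]; rfl
        have hm : g⁻¹ * (x : G) * g ∈ P := by rw [e]; exact (x⁻¹).2
        rw [extendByZero_apply_mem _ _ hm]
        simp only [hgP, hgN, if_false, not_false_iff, and_self, if_true, zero_add]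
        congr 1
        exact Subtype.ext e
      · have hm : g⁻¹ * (x : G) * g ∉ P := by
          intro h
          exact hgN (hTI g x x.2 (fun h1 => hx (Subtype.ext h1)) h)
        rw [extendByZero_apply_not_mem _ _ hm]
        simp [hgP, hgN]
  unfold indFun
  simp only [key]
  rw [Finset.sum_add_distrib, ← Finset.sum_filter, ← Finset.sum_filter, Finset.sum_const,
    Finset.sum_const]
  have c1 : (Finset.univ.filter (fun g : G => g ∈ P)).card = Nat.card P := by
    rw [Nat.card_eq_fintype_card, Fintype.card_subtype]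
  have c2 : (Finset.univ.filter (fun g : G => g ∈ N ∧ g ∉ P)).card = Nat.card P := by
    have cN : (Finset.univ.filter (fun g : G => g ∈ N)).card = Nat.card N := by
      rw [Nat.card_eq_fintype_card, Fintype.card_subtype]
    have hsplit := Finset.card_filter_add_card_filter_not (s := Finset.univ.filter (fun g : G => g ∈ N))
      (fun g : G => g ∈ P)
    rw [Finset.filter_filter, Finset.filter_filter] at hsplit
    have e1 : (Finset.univ.filter (fun g : G => g ∈ N ∧ g ∈ P)) = Finset.univ.filter (fun g : G => g ∈ P) := by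
      apply Finset.filter_congr
      intro g _
      exact ⟨fun h => h.2, fun h => ⟨hPN h, h⟩⟩
    rw [e1, c1, cN, hcard] at hsplit
    omega
  rw [c1, c2]
  simp only [nsmul_eq_mul]
  field_simp

end Cfsg.Agent.Lib.helper23
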