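import Mathlib
import Cfsg.Agent.Lib.helper23.E2Ind
import Cfsg.Agent.Lib.helper24.CharMisc
import Cfsg.Agent.Lib.helper24.CycTI2

set_option autoImplicit false

namespace Cfsg.Agent.Lib.helper23

open Cfsg Cfsg.Agent.Lib.helper24
open scoped ComplexConjugate

universe u

variable {G : Type u} [Group G] [Fintype G]

/-- A homomorphism to the units of `ℂ` as a complex function. -/
noncomputable def e2Coe {P : Type u} [Group P] (a : P →* ℂˣ) : P → ℂ := fun x => (a x : ℂ)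

/-- The induced generalized character `Ind (1 - a)`. -/
noncomputable def e2Phi (P : Subgroup G) (a : P →* ℂˣ) : G → ℂ :=
  indFun P (e2Coe 1 - e2Coe a)

theorem e2Coe_isIrr {P : Type u} [Group P] (a : P →* ℂˣ) : IsIrrCharacter P (e2Coe a) :=
  isIrrCharacter_of_hom a

theorem e2Coe_one {P : Type u} [Group P] : e2Coe (1 : P →* ℂˣ) = fun _ => 1 := by
  funext x; simp [e2Coe]

theorem e2Phi_gen (P : Subgroup G) (a : P →* ℂˣ) : IsGeneralizedCharacter G (e2Phi P a) :=
  genChar_indFun P ⟨e2Coe 1, e2Coe a, isCharacter_of_isIrrCharacter (e2Coe_isIrr 1),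
    isCharacter_of_isIrrCharacter (e2Coe_isIrr a), rfl⟩

theorem e2Phi_one (P : Subgroup G) (a : P →* ℂˣ) : e2Phi P a 1 = 0 := by
  unfold e2Phi
  rw [indFun_one]
  simp [e2Coe]

theorem e2Phi_restrict (P N : Subgroup G) (hPN : P ≤ N)
    (hab : ∀ x ∈ P, ∀ y ∈ P, x * y = y * x)
    (hTI : ∀ g : G, ∀ x ∈ P, x ≠ 1 → g⁻¹ * x * g ∈ P → g ∈ N)
    (hinv : ∀ g ∈ N, g ∉ P → ∀ x ∈ P, g⁻¹ * x * g = x⁻¹)
    (hcard : Nat.card N = 2 * Nat.card P) (a : P →* ℂˣ) :
    (fun x : P => e2Phi P a x) = (2 : ℂ) • e2Coe 1 - e2Coe a - e2Coe a⁻¹ := by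
  funext x
  by_cases hx : x = 1
  · subst hx
    have := e2Phi_one P a
    simp only [OneMemClass.coe_one]
    rw [this]
    simp [e2Coe]
    norm_num
  · unfold e2Phi
    rw [e2_indFun_apply P N hPN hab hTI hinv hcard _ x hx]
    simp only [Pi.sub_apply, Pi.smul_apply, e2Coe, MonoidHom.one_apply, Units.val_one,
      MonoidHom.inv_apply, map_inv, smul_eq_mul, inv_one]
    ring

theorem e2_hom_inner {P : Type u} [Group P] [Fintype P] (a b : P →* ℂˣ) [Decidable (a = b)] :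
    classInner (e2Coe a) (e2Coe b) = if a = b then 1 else 0 :=
  hom_inner a b

theorem e2_recip (P : Subgroup G) [Fintype P] (a : P →* ℂˣ) {χ : G → ℂ}
    (hχ : IsClassFunction G χ) :
    classInner (e2Phi P a) χ = classInner (e2Coe 1) (fun h : P => χ h)
      - classInner (e2Coe a) (fun h : P => χ h) := by
  unfold e2Phi
  rw [frobenius_reciprocity P _ hχ, classInner_sub_left]

theorem e2_triv (P : Subgroup G) [Fintype P] (a : P →* ℂˣ) (ha : a ≠ 1) :
    classInner (e2Phi P a) (trivIrr G).1 = 1 := by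
  classical
  rw [e2_recip P a (isCharacter_conj_class (isCharacter_of_isIrrCharacter (trivIrr G).2))]
  have e : (fun h : P => (trivIrr G).1 h) = e2Coe (1 : P →* ℂˣ) := by
    funext h; simp [e2Coe, trivIrr_apply]
  rw [e, e2_hom_inner, e2_hom_inner]
  simp [ha]

theorem e2_gram (P N : Subgroup G) [Fintype P] (hPN : P ≤ N)
    (hab : ∀ x ∈ P, ∀ y ∈ P, x * y = y * x)
    (hTI : ∀ g : G, ∀ x ∈ P, x ≠ 1 → g⁻¹ * x * g ∈ P → g ∈ N)
    (hinv : ∀ g ∈ N, g ∉ P → ∀ x ∈ P, g⁻¹ * x * g = x⁻¹)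
    (hcard : Nat.card N = 2 * Nat.card P) (a b : P →* ℂˣ) (ha : a ≠ 1) (hb : b ≠ 1)
    [Decidable (a = b)] [Decidable (a = b⁻¹)] :
    classInner (e2Phi P a) (e2Phi P b)
      = 2 + (if a = b then 1 else 0) + (if a = b⁻¹ then 1 else 0) := by
  classical
  rw [e2_recip P a (show IsClassFunction G (e2Phi P b) from indFun_isClassFunction P _)]
  have e := e2Phi_restrict P N hPN hab hTI hinv hcard b
  rw [e]
  rw [classInner_sub_right, classInner_sub_right, classInner_sub_right, classInner_sub_right,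
    classInner_smul_right, classInner_smul_right]
  rw [e2_hom_inner, e2_hom_inner, e2_hom_inner, e2_hom_inner, e2_hom_inner, e2_hom_inner]
  have hb' : (1 : P →* ℂˣ) ≠ b := fun h => hb h.symm
  have hb'' : (1 : P →* ℂˣ) ≠ b⁻¹ := by
    intro h
    apply hb
    have e1 : (1 : P →* ℂˣ)⁻¹ = 1 := MonoidHom.ext fun x => by simp
    calc b = b⁻¹⁻¹ := (inv_inv b).symm
      _ = (1 : P →* ℂˣ)⁻¹ := by rw [← h]
      _ = 1 := e1
  simp only [ha, hb', hb'', if_true, if_false]
  have h2 : (starRingEnd ℂ) (2 : ℂ) = 2 := Complex.conj_ofNat 2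
  rw [h2]
  split_ifs <;> ring

end Cfsg.Agent.Lib.helper23
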