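import Mathlib
import Cfsg.Agent.Lib.helper23.E2Ind2

set_option autoImplicit false

namespace Cfsg.Agent.Lib.helper23

open Cfsg Cfsg.Agent.Lib.helper24
open scoped ComplexConjugate

universe u

variable {G : Type u} [Group G] [Fintype G]

theorem e2_pow_card (P : Subgroup G) (lam : P →* ℂˣ) : lam ^ Nat.card P = 1 := by
  ext x
  simp only [MonoidHom.pow_apply, MonoidHom.one_apply, Units.val_one]
  rw [← map_pow, pow_card_eq_one', map_one, Units.val_one]

/-- Sum of the multiplicities of all powers of `lam` in a restricted function. -/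
theorem e2_sum_all (P : Subgroup G) [Fintype P] (lam : P →* ℂˣ)
    (hinj : ∀ x : P, lam x = 1 → x = 1) (χ : G → ℂ) :
    ∑ k ∈ Finset.range (Nat.card P), classInner (e2Coe (lam ^ k)) (fun h : P => χ h)
      = conj (χ 1) := by
  classical
  have hP0 : (Nat.card P : ℂ) ≠ 0 := NeZero.ne _
  unfold classInner
  rw [← Finset.mul_sum, Finset.sum_comm]
  have key : ∀ x : P, ∑ k ∈ Finset.range (Nat.card P), e2Coe (lam ^ k) x * conj (χ x)
      = if x = 1 then (Nat.card P : ℂ) * conj (χ 1) else 0 := by
    intro x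
    rw [← Finset.sum_mul]
    have e : ∀ k, e2Coe (lam ^ k) x = ((lam x : ℂˣ) : ℂ) ^ k := by
      intro k; simp [e2Coe, MonoidHom.pow_apply]
    simp only [e]
    by_cases hx : x = 1
    · subst hx
      simp
    · rw [if_neg hx]
      have hne : ((lam x : ℂˣ) : ℂ) ≠ 1 := by
        intro h
        apply hx
        apply hinj
        exact Units.ext h
      have hpow : ((lam x : ℂˣ) : ℂ) ^ Nat.card P = 1 := by
        rw [← Units.val_pow_eq_pow_val, ← map_pow, pow_card_eq_one', map_one, Units.val_one]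
      have hgeom := mul_geom_sum ((lam x : ℂˣ) : ℂ) (Nat.card P)
      rw [hpow, sub_self] at hgeom
      rcases mul_eq_zero.mp hgeom with h | h
      · exact absurd (sub_eq_zero.mp h) hne
      · rw [h, zero_mul]
  simp only [key]
  rw [Finset.sum_ite_eq' Finset.univ (1 : P)]
  simp only [Finset.mem_univ, if_true]
  field_simp

/-- Symmetry of the multiplicities under inversion. -/
theorem e2_symm (P N : Subgroup G) [Fintype P] (hPN : P ≤ N)
    (hinv : ∀ g ∈ N, g ∉ P → ∀ x ∈ P, g⁻¹ * x * g = x⁻¹)
    (hcard : Nat.card N = 2 * Nat.card P) (lam : P →* ℂˣ) {χ : G → ℂ}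
    (hχ : IsClassFunction G χ) (k : ℕ) (hk : k ≤ Nat.card P) :
    classInner (e2Coe (lam ^ (Nat.card P - k))) (fun h : P => χ h)
      = classInner (e2Coe (lam ^ k)) (fun h : P => χ h) := by
  classical
  -- an element of `N` outside `P`
  obtain ⟨t, htN, htP⟩ : ∃ t ∈ N, t ∉ P := by
    by_contra hcon
    push Not at hcon
    have hle : N ≤ P := fun g hg => hcon g hg
    have heq : N = P := le_antisymm hle hPN
    rw [heq] at hcard
    have : 0 < Nat.card P := Nat.card_pos
    omega
  have hχinv : ∀ x : P, χ ((x⁻¹ : P) : G) = χ x := by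
    intro x
    have := hχ (x : G) t⁻¹
    rw [inv_inv, hinv t htN htP x x.2] at this
    exact this
  have hhom : (lam ^ (Nat.card P - k))⁻¹ = lam ^ k := by
    refine MonoidHom.ext fun x => ?_
    rw [MonoidHom.inv_apply, MonoidHom.pow_apply, MonoidHom.pow_apply]
    apply inv_eq_of_mul_eq_one_left
    rw [← pow_add, Nat.add_sub_cancel' hk, ← map_pow, pow_card_eq_one', map_one]
  unfold classInner
  congr 1
  rw [← Equiv.sum_comp (Equiv.inv P)]
  apply Finset.sum_congr rfl
  intro x _
  simp only [Equiv.inv_apply]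
  rw [hχinv x]
  congr 1
  have : e2Coe (lam ^ (Nat.card P - k)) x⁻¹ = e2Coe ((lam ^ (Nat.card P - k))⁻¹) x := by
    simp [e2Coe, MonoidHom.inv_apply]
  rw [this, hhom]

end Cfsg.Agent.Lib.helper23
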