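import Mathlib
import Cfsg.Agent.Lib.helper23.E2Ind3

set_option autoImplicit false

namespace Cfsg.Agent.Lib.helper23

open Cfsg Cfsg.Agent.Lib.helper24
open scoped ComplexConjugate

universe u

variable {G : Type u} [Group G] [Fintype G]

theorem e2_pow_inj {P : Type u} [Group P] (lam : P →* ℂˣ) (n : ℕ)
    (hlam : ∀ k, 0 < k → k < n → lam ^ k ≠ 1) (a b : ℕ) (hab : a ≤ b) (hb : b < n)
    (he : lam ^ a = lam ^ b) : a = b := by
  by_contra hne
  have hlt : a < b := lt_of_le_of_ne hab hne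
  apply hlam (b - a) (by omega) (by omega)
  refine MonoidHom.ext fun x => ?_
  have h1 := DFunLike.congr_fun he x
  rw [MonoidHom.pow_apply, MonoidHom.pow_apply] at h1
  rw [MonoidHom.pow_apply, MonoidHom.one_apply]
  have h2 : lam x ^ b = lam x ^ a * lam x ^ (b - a) := by rw [← pow_add]; congr 1; omega
  rw [h2] at h1
  have h3 := mul_left_cancel (a := lam x ^ a) (b := 1) (c := lam x ^ (b - a))
    (by rw [mul_one]; exact h1)
  exact h3.symm

theorem e2_pow_ne_inv {P : Type u} [Group P] (lam : P →* ℂˣ) (n : ℕ)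
    (hlam : ∀ k, 0 < k → k < n → lam ^ k ≠ 1) (a b : ℕ) (ha : 0 < a) (hab : a + b < n) :
    lam ^ a ≠ (lam ^ b)⁻¹ := by
  intro he
  apply hlam (a + b) (by omega) hab
  refine MonoidHom.ext fun x => ?_
  have h1 := DFunLike.congr_fun he x
  rw [MonoidHom.inv_apply, MonoidHom.pow_apply, MonoidHom.pow_apply] at h1
  rw [MonoidHom.pow_apply, MonoidHom.one_apply, pow_add, h1, inv_mul_cancel]

theorem e2_degree_formula (P N : Subgroup G) [Fintype P] (hPN : P ≤ N)
    (hinv : ∀ g ∈ N, g ∉ P → ∀ x ∈ P, g⁻¹ * x * g = x⁻¹)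
    (hcard : Nat.card N = 2 * Nat.card P) (h : ℕ) (hp : Nat.card P = 2 * h + 1)
    (lam : P →* ℂˣ) (hinj : ∀ x : P, lam x = 1 → x = 1) {χ : G → ℂ}
    (hχ : IsClassFunction G χ) :
    conj (χ 1) = (2 * (h : ℂ) + 1) * classInner (e2Coe (1 : P →* ℂˣ)) (fun x : P => χ x)
      - 2 * ∑ i : Fin h, classInner (e2Phi P (lam ^ (1 + i.val))) χ := by
  classical
  obtain ⟨c, hc⟩ : ∃ c : ℕ → ℂ, c = fun k => classInner (e2Coe (lam ^ k)) (fun x : P => χ x) :=
    ⟨_, rfl⟩
  have hsum : ∑ k ∈ Finset.range (2 * h + 1), c k = conj (χ 1) := by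
    rw [← hp, hc]; exact e2_sum_all P lam hinj χ
  have hsym : ∀ k, k ≤ 2 * h + 1 → c (2 * h + 1 - k) = c k := by
    intro k hk
    have := e2_symm P N hPN hinv hcard lam hχ k (by rw [hp]; exact hk)
    rw [hp] at this
    rw [hc]
    exact this
  have hc0 : c 0 = classInner (e2Coe (1 : P →* ℂˣ)) (fun x : P => χ x) := by
    have e0 : lam ^ 0 = (1 : P →* ℂˣ) :=
      MonoidHom.ext fun x => by rw [MonoidHom.pow_apply, pow_zero, MonoidHom.one_apply]
    rw [hc]; simp only [e0]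
  have hrec : ∀ k, classInner (e2Phi P (lam ^ k)) χ = c 0 - c k := by
    intro k
    rw [e2_recip P _ hχ, hc0, hc]
  have h1 : ∑ k ∈ Finset.range (2 * h + 1), c k
      = c 0 + ∑ k ∈ Finset.Ico 1 (2 * h + 1), c k := by
    rw [Finset.range_eq_Ico, Finset.sum_eq_sum_Ico_succ_bot (by omega)]
  have h2 : ∑ k ∈ Finset.Ico 1 (2 * h + 1), c k
      = ∑ k ∈ Finset.Ico 1 (h + 1), c k + ∑ k ∈ Finset.Ico (h + 1) (2 * h + 1), c k := by
    rw [Finset.sum_Ico_consecutive _ (by omega) (by omega)]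
  have h3 : ∑ k ∈ Finset.Ico (h + 1) (2 * h + 1), c k = ∑ k ∈ Finset.Ico 1 (h + 1), c k := by
    have := Finset.sum_Ico_reflect c 1 (m := h + 1) (n := 2 * h + 1) (by omega)
    have e1 : 2 * h + 1 + 1 - (h + 1) = h + 1 := by omega
    have e2 : 2 * h + 1 + 1 - 1 = 2 * h + 1 := by omega
    rw [e1, e2] at this
    rw [← this]
    apply Finset.sum_congr rfl
    intro k hk
    rw [Finset.mem_Ico] at hk
    exact hsym k (by omega)
  have h4 : ∑ k ∈ Finset.Ico 1 (h + 1), c k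
      = h * c 0 - ∑ i : Fin h, classInner (e2Phi P (lam ^ (1 + i.val))) χ := by
    rw [Finset.sum_Ico_eq_sum_range]
    simp only [Nat.add_sub_cancel]
    rw [← Fin.sum_univ_eq_sum_range (fun k => c (1 + k))]
    simp only [hrec]
    rw [Finset.sum_sub_distrib]
    simp
  rw [← hsum, h1, h2, h3, h4, hc0]
  ring

end Cfsg.Agent.Lib.helper23
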