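import Mathlib
import Cfsg.Agent.Lib.helper23.E2Ind4

set_option autoImplicit false

namespace Cfsg.Agent.Lib.helper23

open Cfsg Cfsg.Agent.Lib.helper24
open scoped ComplexConjugate

universe u

variable {G : Type u} [Group G] [Fintype G]

/-- Degrees of the exceptional and the non-exceptional character attached to a cyclic TI
subgroup `P` of odd order `2h+1` whose normalizer is dihedral of order `2|P|`. -/
theorem e2_degrees (P N : Subgroup G) (hPN : P ≤ N)
    (hab : ∀ x ∈ P, ∀ y ∈ P, x * y = y * x)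
    (hTI : ∀ g : G, ∀ x ∈ P, x ≠ 1 → g⁻¹ * x * g ∈ P → g ∈ N)
    (hinv : ∀ g ∈ N, g ∉ P → ∀ x ∈ P, g⁻¹ * x * g = x⁻¹)
    (hcard : Nat.card N = 2 * Nat.card P) (h : ℕ) (hh : 4 ≤ h) (hp : Nat.card P = 2 * h + 1)
    (lam : P →* ℂˣ) (hinj : ∀ x : P, lam x = 1 → x = 1)
    (hlam : ∀ k, 0 < k → k < 2 * h + 1 → lam ^ k ≠ 1) :
    ∃ δ ε : ℤ, (δ = 1 ∨ δ = -1) ∧ (ε = 1 ∨ ε = -1) ∧ ∃ ψ θ : IrrCharacter G,
      ψ ≠ trivIrr G ∧ ∃ (dψ dθ : ℕ) (m m' : ℤ), ψ.1 1 = dψ ∧ θ.1 1 = dθ ∧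
        (dψ : ℤ) = (2 * h + 1) * m - 2 * h * δ ∧ (dθ : ℤ) = (2 * h + 1) * m' - 2 * ε ∧
        1 + δ * dψ + ε * dθ = 0 := by
  classical
  haveI : Fintype P := Fintype.ofFinite P
  obtain ⟨φ, hφ⟩ : ∃ φ : Fin h → (G → ℂ), φ = fun i => e2Phi P (lam ^ (1 + i.val)) := ⟨_, rfl⟩
  have hne : ∀ i : Fin h, lam ^ (1 + i.val) ≠ 1 := fun i =>
    hlam _ (by omega) (by have := i.2; omega)
  have hgen : ∀ i, IsGeneralizedCharacter G (φ i) := by
    intro i; rw [hφ]; exact e2Phi_gen P _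
  have hone : ∀ i, φ i 1 = 0 := by
    intro i; rw [hφ]; exact e2Phi_one P _
  have htriv : ∀ i, classInner (φ i) (trivIrr G).1 = 1 := by
    intro i; rw [hφ]; exact e2_triv P _ (hne i)
  have hgram : ∀ i j, classInner (φ i) (φ j) = if i = j then 3 else 2 := by
    intro i j
    rw [hφ]
    simp only
    rw [e2_gram P N hPN hab hTI hinv hcard _ _ (hne i) (hne j)]
    have e1 : (lam ^ (1 + i.val) = lam ^ (1 + j.val)) ↔ i = j := by
      constructor
      · intro he
        have hi := i.2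
        have hj := j.2
        rcases le_total i.val j.val with hle | hle
        · have := e2_pow_inj lam (2 * h + 1) hlam _ _ (by omega) (by omega) he
          exact Fin.ext (by omega)
        · have := e2_pow_inj lam (2 * h + 1) hlam _ _ (by omega) (by omega) he.symm
          exact Fin.ext (by omega)
      · intro he; rw [he]
    have e2 : lam ^ (1 + i.val) ≠ (lam ^ (1 + j.val))⁻¹ :=
      e2_pow_ne_inv lam (2 * h + 1) hlam _ _ (by omega) (by have := i.2; have := j.2; omega)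
    simp only [e1, e2, if_false, add_zero]
    split_ifs <;> norm_num
  obtain ⟨δ, ε, hδ, hε, ψ, μ, hψ, hμψ, hμtriv, hμinj, hdecomp⟩ :=
    e2_abstract h hh φ hgen hone htriv hgram
  have horth : ∀ a b : IrrCharacter G, classInner a.1 b.1 = if a = b then 1 else 0 :=
    irr_orthonormal
  have hcl : ∀ χ : IrrCharacter G, IsClassFunction G χ.1 := fun χ =>
    isCharacter_conj_class (isCharacter_of_isIrrCharacter χ.2)
  -- the multiplicity of the trivial character of `P` is a natural number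
  have hc0 : ∀ χ : IrrCharacter G, ∃ m : ℕ,
      classInner (e2Coe (1 : P →* ℂˣ)) (fun x : P => χ.1 x) = (m : ℂ) := by
    intro χ
    obtain ⟨m, hm⟩ := isCharacter_inner_irr_nat
      (isCharacter_restrict P (isCharacter_of_isIrrCharacter χ.2))
      (⟨e2Coe (1 : P →* ℂˣ), e2Coe_isIrr 1⟩ : IrrCharacter P)
    refine ⟨m, ?_⟩
    rw [classInner_conj_symm]
    simp only at hm
    rw [hm]
    simp
  let j₀ : Fin h := ⟨0, by omega⟩
  have hψinner : ∀ i, classInner (φ i) ψ.1 = δ := by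
    intro i
    rw [hdecomp i, classInner_add_left, classInner_add_left, classInner_smul_left,
      classInner_smul_left, horth, horth, horth]
    simp [hψ.symm, hμψ i]
  have hθinner : ∀ i, classInner (φ i) (μ j₀).1 = if i = j₀ then ε else 0 := by
    intro i
    rw [hdecomp i, classInner_add_left, classInner_add_left, classInner_smul_left,
      classInner_smul_left, horth, horth, horth]
    have h1 : trivIrr G ≠ μ j₀ := (hμtriv j₀).symm
    have h2 : ψ ≠ μ j₀ := (hμψ j₀).symm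
    have h3 : μ i = μ j₀ ↔ i = j₀ := ⟨fun h => hμinj h, fun h => by rw [h]⟩
    simp only [h1, h2, h3, if_false, mul_zero, add_zero, zero_add]
    split_ifs <;> simp
  obtain ⟨dψ, hdψ, -⟩ := irr_degree_dvd_card ψ
  obtain ⟨dθ, hdθ, -⟩ := irr_degree_dvd_card (μ j₀)
  obtain ⟨m, hm⟩ := hc0 ψ
  obtain ⟨m', hm'⟩ := hc0 (μ j₀)
  have fψ := e2_degree_formula P N hPN hinv hcard h hp lam hinj (hcl ψ)
  have fθ := e2_degree_formula P N hPN hinv hcard h hp lam hinj (hcl (μ j₀))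
  have hsumψ : ∑ i : Fin h, classInner (e2Phi P (lam ^ (1 + i.val))) ψ.1 = h * δ := by
    have : ∀ i : Fin h, classInner (e2Phi P (lam ^ (1 + i.val))) ψ.1 = δ := by
      intro i; have := hψinner i; rw [hφ] at this; exact this
    simp only [this, Finset.sum_const, Finset.card_univ, Fintype.card_fin, nsmul_eq_mul]
  have hsumθ : ∑ i : Fin h, classInner (e2Phi P (lam ^ (1 + i.val))) (μ j₀).1 = ε := by
    have : ∀ i : Fin h, classInner (e2Phi P (lam ^ (1 + i.val))) (μ j₀).1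
        = if i = j₀ then ε else 0 := by
      intro i; have := hθinner i; rw [hφ] at this; exact this
    simp only [this, Finset.sum_ite_eq', Finset.mem_univ, if_true]
  rw [hsumψ, hm, hdψ, Complex.conj_natCast] at fψ
  rw [hsumθ, hm', hdθ, Complex.conj_natCast] at fθ
  have hdeg : (1 : ℂ) + δ * dψ + ε * dθ = 0 := by
    have := congrFun (hdecomp j₀) 1
    rw [hone j₀] at this
    simp only [Pi.add_apply, Pi.smul_apply, smul_eq_mul, trivIrr_apply, hdψ, hdθ] at this
    rw [← this]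
  obtain ⟨δz, hδz, hδc⟩ : ∃ δz : ℤ, (δz = 1 ∨ δz = -1) ∧ δ = (δz : ℂ) := by
    rcases hδ with rfl | rfl
    · exact ⟨1, Or.inl rfl, by simp⟩
    · exact ⟨-1, Or.inr rfl, by simp⟩
  obtain ⟨εz, hεz, hεc⟩ : ∃ εz : ℤ, (εz = 1 ∨ εz = -1) ∧ ε = (εz : ℂ) := by
    rcases hε with rfl | rfl
    · exact ⟨1, Or.inl rfl, by simp⟩
    · exact ⟨-1, Or.inr rfl, by simp⟩
  rw [hδc] at fψ hdeg
  rw [hεc] at fθ hdeg
  refine ⟨δz, εz, hδz, hεz, ψ, μ j₀, hψ, dψ, dθ, m, m', hdψ, hdθ, ?_, ?_, ?_⟩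
  · have : ((dψ : ℤ) : ℂ) = (((2 * h + 1) * m - 2 * h * δz : ℤ) : ℂ) := by
      push_cast; rw [fψ]; ring
    exact_mod_cast this
  · have : ((dθ : ℤ) : ℂ) = (((2 * h + 1) * m' - 2 * εz : ℤ) : ℂ) := by
      push_cast; rw [fθ]
    exact_mod_cast this
  · have : ((1 + δz * dψ + εz * dθ : ℤ) : ℂ) = ((0 : ℤ) : ℂ) := by
      push_cast; rw [hdeg]
    exact_mod_cast this

end Cfsg.Agent.Lib.helper23
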