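import Mathlib
import Cfsg.Agent.Lib.helper23.E2Main
import Cfsg.Agent.Lib.helper24.CharKer

set_option autoImplicit false

namespace Cfsg.Agent.Lib.helper23

open Cfsg Cfsg.Agent.Lib.helper24

universe u

/-- Structure of a Sylow subgroup of prime order whose normalizer has twice its order, in a
simple group. -/
theorem e2_group_setup {G : Type u} [Group G] [Finite G] [IsSimpleGroup G] (p : ℕ)
    [hp : Fact p.Prime] (P : Sylow p G) (hP : Nat.card (P : Subgroup G) = p)
    (hN : Nat.card (Subgroup.normalizer ((P : Subgroup G) : Set G)) = 2 * p) :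
    (∀ x ∈ (P : Subgroup G), ∀ y ∈ (P : Subgroup G), x * y = y * x) ∧
    (∀ g : G, ∀ x ∈ (P : Subgroup G), x ≠ 1 → g⁻¹ * x * g ∈ (P : Subgroup G) →
      g ∈ Subgroup.normalizer ((P : Subgroup G) : Set G)) ∧
    (∀ g ∈ Subgroup.normalizer ((P : Subgroup G) : Set G), g ∉ (P : Subgroup G) →
      ∀ x ∈ (P : Subgroup G), g⁻¹ * x * g = x⁻¹) ∧
    ∃ lam : (P : Subgroup G) →* ℂˣ, (∀ x, lam x = 1 → x = 1) ∧
      ∀ k, 0 < k → k < p → lam ^ k ≠ 1 := by
  classical
  obtain ⟨Q, hQ⟩ : ∃ Q : Subgroup G, Q = (P : Subgroup G) := ⟨_, rfl⟩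
  rw [← hQ] at hP hN ⊢
  have hp1 : 1 < p := hp.out.one_lt
  -- every element is a power of any nonidentity element
  have hgen : ∀ w ∈ Q, w ≠ 1 → ∀ y ∈ Q, ∃ j : ℤ, w ^ j = y := by
    intro w hw hw1 y hy
    have hz := zpowers_eq_top_of_prime_card hP (g := (⟨w, hw⟩ : Q))
      (fun h => hw1 (congrArg Subtype.val h))
    have hm : (⟨y, hy⟩ : Q) ∈ Subgroup.zpowers (⟨w, hw⟩ : Q) := by rw [hz]; trivial
    obtain ⟨j, hj⟩ := Subgroup.mem_zpowers_iff.mp hm
    refine ⟨j, ?_⟩
    have := congrArg Subtype.val hj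
    simpa using this
  have hab : ∀ x ∈ Q, ∀ y ∈ Q, x * y = y * x := by
    intro x hx y hy
    by_cases hx1 : x = 1
    · subst hx1; simp
    · obtain ⟨j, hj⟩ := hgen x hx hx1 y hy
      rw [← hj]
      exact ((Commute.refl x).zpow_right j).eq
  have hTI : ∀ g : G, ∀ x ∈ Q, x ≠ 1 → g⁻¹ * x * g ∈ Q →
      g ∈ Subgroup.normalizer (Q : Set G) := by
    intro g x hx hx1 hgx
    have h1 : g⁻¹ ∈ Subgroup.normalizer (Q : Set G) := by
      apply Subgroup.mem_normalizer_fintype
      intro y hy
      obtain ⟨j, hj⟩ := hgen x hx hx1 y hy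
      rw [← hj, ← conj_zpow]
      rw [inv_inv]
      exact Q.zpow_mem hgx j
    simpa using Subgroup.inv_mem _ h1
  -- the centralizer
  have hQC : Q ≤ Subgroup.centralizer (Q : Set G) := by
    intro g hg
    rw [Subgroup.mem_centralizer_iff]
    intro y hy
    exact hab y hy g hg
  have hCN : Subgroup.centralizer (Q : Set G) ≤ Subgroup.normalizer (Q : Set G) :=
    Subgroup.centralizer_le_normalizer _
  have hQN : Q ≤ Subgroup.normalizer (Q : Set G) := Subgroup.le_normalizer
  have hGpos : 0 < Nat.card G := Nat.card_pos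
  have hNC : ¬ Subgroup.normalizer (Q : Set G) ≤ Subgroup.centralizer (Q : Set G) := by
    intro hNC
    have hNC' : Subgroup.normalizer ((P : Subgroup G) : Set G)
        ≤ Subgroup.centralizer ((P : Subgroup G) : Set G) := by rw [← hQ]; exact hNC
    have hcomp := MonoidHom.ker_transferSylow_isComplement' P hNC'
    have hcard := hcomp.card_mul_card
    have hP' : Nat.card (P : Subgroup G) = p := by rw [← hQ]; exact hP
    rw [hP'] at hcard
    rcases (inferInstance : (MonoidHom.transferSylow P hNC').ker.Normal).eq_bot_or_eq_top with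
      hb | ht
    · rw [hb, Subgroup.card_bot, one_mul] at hcard
      have hle : Nat.card (Subgroup.normalizer (Q : Set G)) ≤ Nat.card G :=
        Subgroup.card_le_card_group _
      rw [hN, ← hcard] at hle
      omega
    · rw [ht, Subgroup.card_top] at hcard
      have : p = 1 := by
        have h2 : Nat.card G * p = Nat.card G * 1 := by rw [mul_one]; exact hcard
        exact Nat.eq_of_mul_eq_mul_left hGpos h2
      omega
  have hC : Subgroup.centralizer (Q : Set G) = Q := by
    have d1 : Nat.card Q ∣ Nat.card (Subgroup.centralizer (Q : Set G)) :=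
      Subgroup.card_dvd_of_le hQC
    have d2 : Nat.card (Subgroup.centralizer (Q : Set G))
        ∣ Nat.card (Subgroup.normalizer (Q : Set G)) := Subgroup.card_dvd_of_le hCN
    rw [hP] at d1
    rw [hN] at d2
    obtain ⟨k, hk⟩ := d1
    have hk2 : k ∣ 2 := by
      rw [hk] at d2
      exact (Nat.mul_dvd_mul_iff_left (by omega : 0 < p)).mp (by rwa [Nat.mul_comm 2 p] at d2)
    have hkle : k ≤ 2 := Nat.le_of_dvd (by norm_num) hk2
    have hk0 : k ≠ 0 := by
      rintro rfl
      simp at hk2
    have hk2' : k ≠ 2 := by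
      rintro rfl
      apply hNC
      have : Nat.card (Subgroup.normalizer (Q : Set G))
          ≤ Nat.card (Subgroup.centralizer (Q : Set G)) := by rw [hN, hk]; omega
      exact (Subgroup.eq_of_le_of_card_ge hCN this).ge
    have hk1 : k = 1 := by omega
    rw [hk1, mul_one] at hk
    exact (Subgroup.eq_of_le_of_card_ge hQC (by rw [hk, hP])).symm
  -- squares of elements of the normalizer lie in `Q`
  have hsq : ∀ g ∈ Subgroup.normalizer (Q : Set G), g * g ∈ Q := by
    intro g hg
    have hidx : (Q.subgroupOf (Subgroup.normalizer (Q : Set G))).index = 2 := by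
      have h1 := Subgroup.card_mul_index (Q.subgroupOf (Subgroup.normalizer (Q : Set G)))
      have h2 : Nat.card (Q.subgroupOf (Subgroup.normalizer (Q : Set G))) = Nat.card Q :=
        Nat.card_congr (Subgroup.subgroupOfEquivOfLe hQN).toEquiv
      rw [h2, hP, hN] at h1
      exact Nat.eq_of_mul_eq_mul_left (by omega : 0 < p) (by rw [h1]; ring)
    have := Subgroup.mul_self_mem_of_index_two hidx ⟨g, hg⟩
    rw [Subgroup.mem_subgroupOf] at this
    exact this
  have hinv : ∀ g ∈ Subgroup.normalizer (Q : Set G), g ∉ Q → ∀ x ∈ Q, g⁻¹ * x * g = x⁻¹ := by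
    intro g hg hgQ x hx
    have hconj : ∀ y ∈ Q, g⁻¹ * y * g ∈ Q := fun y hy =>
      (Subgroup.mem_normalizer_iff''.mp hg y).mp hy
    have hsqc : ∀ y ∈ Q, (g * g)⁻¹ * y * (g * g) = y := by
      intro y hy
      have := hab (g * g) (hsq g hg) y hy
      rw [mul_assoc, ← this, inv_mul_cancel_left]
    have hw : g⁻¹ * (x * (g⁻¹ * x * g)) * g = x * (g⁻¹ * x * g) := by
      have e : g⁻¹ * (x * (g⁻¹ * x * g)) * g = (g⁻¹ * x * g) * ((g * g)⁻¹ * x * (g * g)) := by
        group
      rw [e, hsqc x hx]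
      exact hab _ (hconj x hx) x hx
    by_cases hw1 : x * (g⁻¹ * x * g) = 1
    · exact eq_inv_of_mul_eq_one_right hw1
    · exfalso
      apply hgQ
      rw [← hC, Subgroup.mem_centralizer_iff]
      intro y hy
      obtain ⟨j, hj⟩ := hgen _ (Q.mul_mem hx (hconj x hx)) hw1 y hy
      have e : g⁻¹ * y * g = y := by
        rw [← hj]
        have := conj_zpow (i := j) (a := g⁻¹) (b := x * (g⁻¹ * x * g))
        rw [inv_inv] at this
        rw [← this, hw]
      calc y * g = g * (g⁻¹ * y * g) := by group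
        _ = g * y := by rw [e]
  refine ⟨hab, hTI, hinv, ?_⟩
  -- a faithful linear character
  have hcardhom : Nat.card (Q →* ℂˣ) = p := by
    rw [card_hom_units]
    have hcomm : commutator Q = ⊥ := by
      rw [commutator_def, Subgroup.commutator_eq_bot_iff_le_centralizer]
      intro a _
      rw [Subgroup.mem_centralizer_iff]
      intro b _
      exact Subtype.ext (hab b b.2 a a.2)
    rw [hcomm, Subgroup.index_bot, hP]
  haveI : Finite (Q →* ℂˣ) := Nat.finite_of_card_ne_zero (by rw [hcardhom]; omega)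
  haveI : Nontrivial (Q →* ℂˣ) := Finite.one_lt_card_iff_nontrivial.mp (by rw [hcardhom]; exact hp1)
  obtain ⟨lam, hlam⟩ := exists_ne (1 : Q →* ℂˣ)
  obtain ⟨x0, hx0⟩ : ∃ x0 : Q, lam x0 ≠ 1 := by
    by_contra hcon
    push Not at hcon
    exact hlam (MonoidHom.ext fun x => by rw [hcon x, MonoidHom.one_apply])
  have hinj : ∀ x : Q, lam x = 1 → x = 1 := by
    intro x hx
    by_contra hx1
    obtain ⟨j, hj⟩ := hgen (x : G) x.2 (fun h => hx1 (Subtype.ext h)) (x0 : G) x0.2
    apply hx0
    have : x0 = x ^ j := Subtype.ext (by simpa using hj.symm)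
    rw [this, map_zpow, hx, one_zpow]
  refine ⟨lam, hinj, ?_⟩
  intro k hk0 hkp hk
  have h1 := DFunLike.congr_fun hk x0
  rw [MonoidHom.pow_apply, MonoidHom.one_apply, ← map_pow] at h1
  have h2 := hinj _ h1
  have hx01 : x0 ≠ 1 := by
    rintro rfl
    exact hx0 (map_one lam)
  have hord : orderOf x0 = p := by
    rw [orderOf_eq_prime_iff]
    refine ⟨?_, hx01⟩
    rw [← hP]
    exact pow_card_eq_one'
  have hdvd : p ∣ k := by
    rw [← hord]
    exact orderOf_dvd_of_pow_eq_one h2
  have := Nat.le_of_dvd hk0 hdvd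
  omega

end Cfsg.Agent.Lib.helper23
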