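import Mathlib
import Cfsg.Agent.Lib.helper23.E2Grp

set_option autoImplicit false

namespace Cfsg.Agent.Lib.helper23

open Cfsg Cfsg.Agent.Lib.helper24

universe u

/-- Sylow counting: a Sylow subgroup of prime order whose normalizer has twice its order. -/
theorem e2_sylow {G : Type u} [Group G] [Finite G] [IsSimpleGroup G] (n p : ℕ)
    [hp : Fact p.Prime] (hn : Nat.card G = n) (hpn : p ∣ n) (hp2 : ¬ p ^ 2 ∣ n)
    (h2p : 2 * p ∣ n)
    (hcount : ∀ k, k ∣ n / p → k % p = 1 → k = 1 ∨ k = n / (2 * p)) :
    ∃ P : Sylow p G, Nat.card (P : Subgroup G) = p ∧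
      Nat.card (Subgroup.normalizer ((P : Subgroup G) : Set G)) = 2 * p := by
  obtain ⟨P⟩ : Nonempty (Sylow p G) := inferInstance
  have hp1 : 1 < p := hp.out.one_lt
  have hn0 : 0 < n := by rw [← hn]; exact Nat.card_pos
  have hPcard : Nat.card (P : Subgroup G) = p := by
    obtain ⟨k, hk⟩ := IsPGroup.iff_card.mp P.2
    have h1 : p ∣ Nat.card (P : Subgroup G) := P.dvd_card_of_dvd_card (by rw [hn]; exact hpn)
    have h2 : Nat.card (P : Subgroup G) ∣ n := by
      rw [← hn]; exact Subgroup.card_subgroup_dvd_card _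
    rw [hk] at h1 h2 ⊢
    have hk1 : k ≠ 0 := by
      rintro rfl
      rw [pow_zero, Nat.dvd_one] at h1
      omega
    have hk2 : k < 2 := by
      by_contra hge
      push Not at hge
      exact hp2 ((pow_dvd_pow p hge).trans h2)
    have : k = 1 := by omega
    rw [this, pow_one]
  refine ⟨P, hPcard, ?_⟩
  have hidx : (P : Subgroup G).index = n / p := by
    have := Subgroup.card_mul_index (P : Subgroup G)
    rw [hPcard, hn] at this
    rw [← this, Nat.mul_div_cancel_left _ (by omega : 0 < p)]
  have hsyl := card_sylow_modEq_one p G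
  have hdvd := P.card_dvd_index
  rw [hidx] at hdvd
  have hmod : Nat.card (Sylow p G) % p = 1 := by
    have := hsyl
    unfold Nat.ModEq at this
    rw [this, Nat.mod_eq_of_lt hp1]
  have hNidx : Nat.card (Sylow p G)
      = (Subgroup.normalizer ((P : Subgroup G) : Set G)).index := P.card_eq_index_normalizer
  have hNmul := Subgroup.card_mul_index (Subgroup.normalizer ((P : Subgroup G) : Set G))
  obtain ⟨c, hc⟩ := h2p
  have hc0 : 0 < c := by
    rcases Nat.eq_zero_or_pos c with h0 | h0
    · rw [h0, mul_zero] at hc; omega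
    · exact h0
  rcases hcount _ hdvd hmod with h1 | h1
  · exfalso
    rw [h1] at hNidx
    have htop : Subgroup.normalizer ((P : Subgroup G) : Set G) = ⊤ :=
      Subgroup.index_eq_one.mp hNidx.symm
    have hnormal : (P : Subgroup G).Normal := Subgroup.normalizer_eq_top_iff.mp htop
    rcases hnormal.eq_bot_or_eq_top with hb | ht
    · rw [hb, Subgroup.card_bot] at hPcard; omega
    · rw [ht, Subgroup.card_top, hn] at hPcard
      rw [hPcard] at hc
      nlinarith
  · rw [← hNidx, h1, hn] at hNmul
    have hdiv : n / (2 * p) = c := by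
      rw [hc]; exact Nat.mul_div_cancel_left c (by omega)
    rw [hdiv] at hNmul
    exact Nat.eq_of_mul_eq_mul_right hc0 (by rw [hNmul, hc])

/-- Arithmetic constraints on the degrees of the non-exceptional and exceptional characters. -/
theorem e2_constraints {G : Type u} [Group G] [Finite G] [IsSimpleGroup G] (p h : ℕ)
    [hp : Fact p.Prime] (hph : p = 2 * h + 1) (hh : 4 ≤ h) (P : Sylow p G)
    (hP : Nat.card (P : Subgroup G) = p)
    (hN : Nat.card (Subgroup.normalizer ((P : Subgroup G) : Set G)) = 2 * p) :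
    ∃ δ ε : ℤ, (δ = 1 ∨ δ = -1) ∧ (ε = 1 ∨ ε = -1) ∧ ∃ (dψ dθ : ℕ) (m m' : ℤ),
      dψ ∣ Nat.card G ∧ dθ ∣ Nat.card G ∧ dθ ^ 2 ≤ Nat.card G ∧ dψ ≠ 1 ∧
      (dψ : ℤ) = (2 * h + 1) * m - 2 * h * δ ∧ (dθ : ℤ) = (2 * h + 1) * m' - 2 * ε ∧
      1 + δ * dψ + ε * dθ = 0 := by
  classical
  haveI := Fintype.ofFinite G
  obtain ⟨hab, hTI, hinv, lam, hinj, hlam⟩ := e2_group_setup p P hP hN
  obtain ⟨δ, ε, hδ, hε, ψ, θ, hψ, dψ, dθ, m, m', hdψ, hdθ, e1, e2, e3⟩ :=
    e2_degrees (P : Subgroup G) (Subgroup.normalizer ((P : Subgroup G) : Set G))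
      Subgroup.le_normalizer hab hTI hinv (by rw [hN, hP]) h hh (by rw [hP, hph]) lam hinj
      (by rw [← hph]; exact hlam)
  refine ⟨δ, ε, hδ, hε, dψ, dθ, m, m', ?_, ?_, ?_, ?_, e1, e2, e3⟩
  · obtain ⟨d, hd, hdvd⟩ := irr_degree_dvd_card ψ
    have : d = dψ := by
      have := hd.symm.trans hdψ
      exact_mod_cast this
    rw [← this]; exact hdvd
  · obtain ⟨d, hd, hdvd⟩ := irr_degree_dvd_card θ
    have : d = dθ := by
      have := hd.symm.trans hdθ
      exact_mod_cast this
    rw [← this]; exact hdvd
  · haveI := Fintype.ofFinite (IrrCharacter G)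
    have hs := sum_sq_charDegree (G := G)
    have hc : charDegree θ.1 = dθ := by
      have := (charDegree_cast θ).trans hdθ
      exact_mod_cast this
    rw [← hs, ← hc]
    exact Finset.single_le_sum (f := fun χ : IrrCharacter G => charDegree χ.1 ^ 2)
      (fun _ _ => Nat.zero_le _) (Finset.mem_univ θ)
  · intro h1
    rw [h1] at hdψ
    obtain ⟨f, hf⟩ := exists_hom_of_linear (isCharacter_of_isIrrCharacter ψ.2)
      (by rw [hdψ]; simp)
    have hcomm : commutator G = ⊤ := by
      rcases (inferInstance : (commutator G).Normal).eq_bot_or_eq_top with hb | ht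
      · exfalso
        have hcommute : ∀ a b : G, a * b = b * a := by
          intro a b
          have h0 := hb
          rw [commutator_def, Subgroup.commutator_eq_bot_iff_le_centralizer] at h0
          have hmem := h0 (Subgroup.mem_top b)
          rw [Subgroup.mem_centralizer_iff] at hmem
          exact hmem a (Subgroup.mem_top a)
        obtain ⟨g, hgN, hgP⟩ : ∃ g ∈ Subgroup.normalizer ((P : Subgroup G) : Set G),
            g ∉ (P : Subgroup G) := by
          by_contra hcon
          push Not at hcon
          have hle : Subgroup.normalizer ((P : Subgroup G) : Set G) ≤ (P : Subgroup G) :=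
            fun g hg => hcon g hg
          have heq := le_antisymm hle Subgroup.le_normalizer
          rw [heq, hP] at hN
          have := hp.out.pos
          omega
        apply hlam 2 (by norm_num) (by omega)
        refine MonoidHom.ext fun x => ?_
        rw [MonoidHom.pow_apply, MonoidHom.one_apply, ← map_pow]
        have hx := hinv g hgN hgP x x.2
        have hx2 : g⁻¹ * (x : G) * g = x := by
          rw [mul_assoc, hcommute (x : G) g, inv_mul_cancel_left]
        rw [hx2] at hx
        have hxx : x ^ 2 = 1 := by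
          apply Subtype.ext
          simp only [OneMemClass.coe_one, pow_two]
          calc (x : G) * x = x * (x : G)⁻¹ := by rw [← hx]
            _ = 1 := mul_inv_cancel _
        rw [hxx, map_one]
      · exact ht
    have hcard1 : Nat.card (G →* ℂˣ) = 1 := by
      rw [card_hom_units, hcomm, Subgroup.index_top]
    have hf1 : f = 1 := by
      haveI : Subsingleton (G →* ℂˣ) := (Nat.card_eq_one_iff_unique.mp hcard1).1
      exact Subsingleton.elim _ _
    apply hψ
    apply Subtype.ext
    funext g
    rw [hf g, hf1]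
    simp [trivIrr_apply]

end Cfsg.Agent.Lib.helper23
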