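import Mathlib
import Cfsg.Agent.Lib.helper23.E2Fin

set_option autoImplicit false

namespace Cfsg.Agent.Lib.helper23

open Cfsg Cfsg.Agent.Lib.helper24

universe u

theorem e2_count_3648 : ∀ k ∈ Nat.divisors 192, k % 19 = 1 → k = 1 ∨ k = 96 := by
  decide +kernel

theorem e2_count_3744 : ∀ k ∈ Nat.divisors 288, k % 13 = 1 → k = 1 ∨ k = 144 := by
  decide +kernel

/-- There is no simple group of order 3648. -/
theorem not_simple_3648 {G : Type u} [Group G] [Finite G] [IsSimpleGroup G] :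
    Nat.card G ≠ 3648 := by
  intro hG
  haveI : Fact (Nat.Prime 19) := ⟨by norm_num⟩
  have hcount : ∀ k, k ∣ 3648 / 19 → k % 19 = 1 → k = 1 ∨ k = 3648 / (2 * 19) := by
    intro k hk hmod
    have hk' : k ∈ Nat.divisors 192 := Nat.mem_divisors.mpr ⟨hk, by norm_num⟩
    exact e2_count_3648 k hk' hmod
  obtain ⟨P, hP, hN⟩ := e2_sylow 3648 19 hG (by norm_num) (by norm_num) (by norm_num) hcount
  obtain ⟨δ, ε, hδ, hε, dψ, dθ, m, m', h1, h2, h3, h4, e1, e2, e3⟩ :=
    e2_constraints 19 9 (by norm_num) (by norm_num) P hP hN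
  rw [hG] at h1 h2 h3
  have hpos : 0 < dθ := Nat.pos_of_dvd_of_pos h2 (by norm_num)
  have hle : dθ ≤ 60 := by nlinarith
  push_cast at e1 e2
  rcases hδ with rfl | rfl <;> rcases hε with rfl | rfl <;> interval_cases dθ <;> omega

/-- There is no simple group of order 3744. -/
theorem not_simple_3744 {G : Type u} [Group G] [Finite G] [IsSimpleGroup G] :
    Nat.card G ≠ 3744 := by
  intro hG
  haveI : Fact (Nat.Prime 13) := ⟨by norm_num⟩
  have hcount : ∀ k, k ∣ 3744 / 13 → k % 13 = 1 → k = 1 ∨ k = 3744 / (2 * 13) := by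
    intro k hk hmod
    have hk' : k ∈ Nat.divisors 288 := Nat.mem_divisors.mpr ⟨hk, by norm_num⟩
    exact e2_count_3744 k hk' hmod
  obtain ⟨P, hP, hN⟩ := e2_sylow 3744 13 hG (by norm_num) (by norm_num) (by norm_num) hcount
  obtain ⟨δ, ε, hδ, hε, dψ, dθ, m, m', h1, h2, h3, h4, e1, e2, e3⟩ :=
    e2_constraints 13 6 (by norm_num) (by norm_num) P hP hN
  rw [hG] at h1 h2 h3
  have hpos : 0 < dθ := Nat.pos_of_dvd_of_pos h2 (by norm_num)
  have hle : dθ ≤ 61 := by nlinarith
  push_cast at e1 e2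
  rcases hδ with rfl | rfl <;> rcases hε with rfl | rfl <;> interval_cases dθ <;>
    first
    | omega
    | (have h25 : dψ = 25 := by omega
       subst h25
       norm_num at h1)

end Cfsg.Agent.Lib.helper23
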