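import Mathlib
import Cfsg.Agent.Lib.helper23.EKAbs
import Cfsg.Agent.Lib.helper23.E2Ind4

set_option autoImplicit false

namespace Cfsg.Agent.Lib.helper23

open Cfsg Cfsg.Agent.Lib.helper24
open scoped ComplexConjugate

universe u

variable {G : Type u} [Group G]

/-- The conjugate of a linear character of `P` by an element normalizing `P`. -/
noncomputable def ekConj (P : Subgroup G) (g : G) (hg : ∀ x ∈ P, g⁻¹ * x * g ∈ P)
    (b : P →* ℂˣ) : P →* ℂˣ where
  toFun x := b ⟨g⁻¹ * x * g, hg x x.2⟩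
  map_one' := by
    have : (⟨g⁻¹ * ((1 : P) : G) * g, hg _ (1 : P).2⟩ : P) = 1 := Subtype.ext (by simp)
    rw [this, map_one]
  map_mul' x y := by
    rw [← map_mul]
    congr 1
    apply Subtype.ext
    simp only [Subgroup.coe_mul]
    group

theorem ekConj_apply (P : Subgroup G) (g : G) (hg : ∀ x ∈ P, g⁻¹ * x * g ∈ P)
    (b : P →* ℂˣ) (x : P) : ekConj P g hg b x = b ⟨g⁻¹ * x * g, hg x x.2⟩ := rfl

/-- Conjugation by an element acting as the `m`-th power map is the `m`-th power. -/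
theorem ekConj_eq_pow (P : Subgroup G) (g : G) (hg : ∀ x ∈ P, g⁻¹ * x * g ∈ P)
    (b : P →* ℂˣ) (m : ℕ) (hm : ∀ x ∈ P, g⁻¹ * x * g = x ^ m) : ekConj P g hg b = b ^ m := by
  refine MonoidHom.ext fun x => ?_
  rw [ekConj_apply, MonoidHom.pow_apply, ← map_pow]
  congr 1
  apply Subtype.ext
  simp only [Subgroup.coe_pow]
  exact hm x x.2

theorem ekConj_ne_one (P : Subgroup G) (g : G) (hg : ∀ x ∈ P, g⁻¹ * x * g ∈ P)
    (hg' : ∀ x ∈ P, g * x * g⁻¹ ∈ P) (b : P →* ℂˣ) (hb : b ≠ 1) : ekConj P g hg b ≠ 1 := by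
  intro h
  apply hb
  refine MonoidHom.ext fun x => ?_
  have := DFunLike.congr_fun h ⟨g * x * g⁻¹, hg' x x.2⟩
  rw [ekConj_apply, MonoidHom.one_apply] at this
  rw [MonoidHom.one_apply, ← this]
  congr 1
  apply Subtype.ext
  simp only
  group

variable [Fintype G]

/-- Value formula for an induced function on a TI subgroup: the sum runs over the
normalizer only. -/
theorem ek_indFun_apply (P N : Subgroup G) [Fintype N]
    (hnorm : ∀ g ∈ N, ∀ x ∈ P, g⁻¹ * x * g ∈ P)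
    (hTI : ∀ g : G, ∀ x ∈ P, x ≠ 1 → g⁻¹ * x * g ∈ P → g ∈ N) (θ : P → ℂ) (x : P)
    (hx : x ≠ 1) :
    indFun P θ x = (Nat.card P : ℂ)⁻¹ * ∑ g : N, θ ⟨(g : G)⁻¹ * x * g, hnorm g g.2 x x.2⟩ := by
  classical
  unfold indFun
  congr 1
  have h1 : ∑ g : G, extendByZero P θ (g⁻¹ * (x : G) * g)
      = ∑ g ∈ Finset.univ.filter (fun g : G => g ∈ N), extendByZero P θ (g⁻¹ * (x : G) * g) := by
    symm
    apply Finset.sum_subset (Finset.subset_univ _)
    intro g _ hg
    have hgN : g ∉ N := fun h => hg (Finset.mem_filter.mpr ⟨Finset.mem_univ _, h⟩)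
    apply extendByZero_apply_not_mem
    intro h
    exact hgN (hTI g x x.2 (fun h1 => hx (Subtype.ext h1)) h)
  rw [h1]
  rw [Finset.sum_subtype (Finset.univ.filter (fun g : G => g ∈ N)) (p := fun g => g ∈ N)
    (by intro g; simp) (fun g => extendByZero P θ (g⁻¹ * (x : G) * g))]
  apply Finset.sum_congr rfl
  intro g _
  exact extendByZero_apply_mem P θ (hnorm g g.2 x x.2)

/-- The restriction to `P` of `Ind (1 - b)`. -/
theorem ek_phi_restrict (P N : Subgroup G) [Fintype N]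
    (hnorm : ∀ g ∈ N, ∀ x ∈ P, g⁻¹ * x * g ∈ P)
    (hTI : ∀ g : G, ∀ x ∈ P, x ≠ 1 → g⁻¹ * x * g ∈ P → g ∈ N) (b : P →* ℂˣ) :
    (fun x : P => e2Phi P b x) = (Nat.card P : ℂ)⁻¹ •
      ∑ g : N, (e2Coe (1 : P →* ℂˣ) - e2Coe (ekConj P g (hnorm g g.2) b)) := by
  funext x
  simp only [Pi.smul_apply, Finset.sum_apply, Pi.sub_apply, smul_eq_mul]
  by_cases hx : x = 1
  · subst hx
    have := e2Phi_one P b
    simp only [OneMemClass.coe_one]
    rw [this]
    simp [e2Coe]
  · unfold e2Phi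
    rw [ek_indFun_apply P N hnorm hTI _ x hx]
    congr 1

theorem ek_gram (P N : Subgroup G) [Fintype P] [Fintype N]
    (hnorm : ∀ g ∈ N, ∀ x ∈ P, g⁻¹ * x * g ∈ P)
    (hTI : ∀ g : G, ∀ x ∈ P, x ≠ 1 → g⁻¹ * x * g ∈ P → g ∈ N) (a b : P →* ℂˣ) (ha : a ≠ 1)
    (hb : b ≠ 1) [∀ g : N, Decidable (a = ekConj P g (hnorm g g.2) b)] :
    classInner (e2Phi P a) (e2Phi P b) = (Nat.card P : ℂ)⁻¹ *
      ∑ g : N, (1 + if a = ekConj P g (hnorm g g.2) b then (1 : ℂ) else 0) := by
  classical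
  rw [e2_recip P a (show IsClassFunction G (e2Phi P b) from indFun_isClassFunction P _)]
  rw [ek_phi_restrict P N hnorm hTI b]
  rw [classInner_smul_right, classInner_smul_right, classInner_sum_right, classInner_sum_right]
  have hc : (starRingEnd ℂ) ((Nat.card P : ℂ)⁻¹) = (Nat.card P : ℂ)⁻¹ := by
    rw [map_inv₀, Complex.conj_natCast]
  rw [hc, ← mul_sub, ← Finset.sum_sub_distrib]
  congr 1
  apply Finset.sum_congr rfl
  intro g _
  have hg' : ∀ x ∈ P, (g : G) * x * (g : G)⁻¹ ∈ P := by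
    intro x hx
    have := hnorm (g : G)⁻¹ (N.inv_mem g.2) x hx
    rwa [inv_inv] at this
  have hne : (1 : P →* ℂˣ) ≠ ekConj P g (hnorm g g.2) b :=
    fun h => ekConj_ne_one P g (hnorm g g.2) hg' b hb h.symm
  rw [classInner_sub_right, classInner_sub_right, e2_hom_inner, e2_hom_inner, e2_hom_inner,
    e2_hom_inner]
  simp only [ha, hne, if_true, if_false]
  split_ifs <;> ring

/-- Invariance of multiplicities in a restricted class function under conjugation. -/
theorem ek_conj_inner (P : Subgroup G) [Fintype P] (g : G) (hg : ∀ x ∈ P, g⁻¹ * x * g ∈ P)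
    (hg' : ∀ x ∈ P, g * x * g⁻¹ ∈ P) (b : P →* ℂˣ) {χ : G → ℂ} (hχ : IsClassFunction G χ) :
    classInner (e2Coe (ekConj P g hg b)) (fun x : P => χ x)
      = classInner (e2Coe b) (fun x : P => χ x) := by
  classical
  let σ : P ≃ P :=
    { toFun := fun x => ⟨g⁻¹ * x * g, hg x x.2⟩
      invFun := fun x => ⟨g * x * g⁻¹, hg' x x.2⟩
      left_inv := fun x => Subtype.ext (by simp only; group)
      right_inv := fun x => Subtype.ext (by simp only; group) }
  unfold classInner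
  congr 1
  rw [← Equiv.sum_comp σ (fun x : P => e2Coe b x * conj (χ x))]
  apply Finset.sum_congr rfl
  intro x _
  have h1 : e2Coe (ekConj P g hg b) x = e2Coe b (σ x) := rfl
  have h2 : χ ((σ x : P) : G) = χ x := by
    have := hχ (x : G) g⁻¹
    rw [inv_inv] at this
    exact this
  rw [h1, h2]

end Cfsg.Agent.Lib.helper23
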