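import Mathlib
import Cfsg.Agent.Lib.helper23.EKInd

set_option autoImplicit false

namespace Cfsg.Agent.Lib.helper23

open Cfsg Cfsg.Agent.Lib.helper24
open scoped ComplexConjugate

universe u

/-- Representatives of the orbits of multiplication by `7` on the nonzero residues mod `19`. -/
def e3K : Fin 6 → ℕ := ![1, 2, 4, 5, 8, 10]

theorem e3K_vals :
    e3K 0 = 1 ∧ e3K 1 = 2 ∧ e3K 2 = 4 ∧ e3K 3 = 5 ∧ e3K 4 = 8 ∧ e3K 5 = 10 := by
  decide

theorem e3K_range : ∀ i, 0 < e3K i ∧ e3K i < 19 := by decide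

theorem e3K_free : ∀ i j : Fin 6, ∀ m : ℕ, (m = 1 ∨ m = 7 ∨ m = 11) →
    (e3K j * m) % 19 = e3K i → i = j ∧ m = 1 := by
  intro i j m hm
  rcases hm with rfl | rfl | rfl <;> revert i j <;> decide

theorem ek_hom_pow_pow {P : Type u} [Group P] (lam : P →* ℂˣ) (a b : ℕ) :
    (lam ^ a) ^ b = lam ^ (a * b) := by
  refine MonoidHom.ext fun x => ?_
  simp only [MonoidHom.pow_apply]
  rw [← pow_mul]

theorem ek_hom_pow_one {P : Type u} [Group P] (lam : P →* ℂˣ) : lam ^ 1 = lam :=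
  MonoidHom.ext fun x => by rw [MonoidHom.pow_apply, pow_one]

theorem e3_pow_mod {P : Type u} [Group P] (lam : P →* ℂˣ) (h19 : lam ^ 19 = 1) (k : ℕ) :
    lam ^ k = lam ^ (k % 19) := by
  refine MonoidHom.ext fun x => ?_
  have h := DFunLike.congr_fun h19 x
  rw [MonoidHom.pow_apply, MonoidHom.one_apply] at h
  rw [MonoidHom.pow_apply, MonoidHom.pow_apply]
  conv_lhs => rw [← Nat.mod_add_div k 19]
  rw [pow_add, pow_mul, h, one_pow, mul_one]

variable {G : Type u} [Group G] [Fintype G]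

theorem e3_degree_formula (P : Subgroup G) [Fintype P] (t : G)
    (ht : ∀ x ∈ P, t⁻¹ * x * t = x ^ 7) (ht' : ∀ x ∈ P, t * x * t⁻¹ ∈ P)
    (hp : Nat.card P = 19) (lam : P →* ℂˣ) (hinj : ∀ x : P, lam x = 1 → x = 1) {χ : G → ℂ}
    (hχ : IsClassFunction G χ) :
    conj (χ 1) = 19 * classInner (e2Coe (1 : P →* ℂˣ)) (fun x : P => χ x)
      - 3 * ∑ i : Fin 6, classInner (e2Phi P (lam ^ e3K i)) χ := by
  classical
  obtain ⟨c, hc⟩ : ∃ c : ℕ → ℂ, c = fun k => classInner (e2Coe (lam ^ k)) (fun x : P => χ x) :=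
    ⟨_, rfl⟩
  have h19 : lam ^ 19 = 1 := by rw [← hp]; exact e2_pow_card P lam
  have hsum : ∑ k ∈ Finset.range 19, c k = conj (χ 1) := by
    rw [← hp, hc]; exact e2_sum_all P lam hinj χ
  have hmod : ∀ k, c k = c (k % 19) := by
    intro k; rw [hc]; simp only; rw [e3_pow_mod lam h19 k]
  have hg : ∀ x ∈ P, t⁻¹ * x * t ∈ P := fun x hx => by rw [ht x hx]; exact P.pow_mem hx 7
  have h7 : ∀ k, c (k * 7) = c k := by
    intro k
    have := ek_conj_inner P t hg ht' (lam ^ k) hχ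
    rw [ekConj_eq_pow P t hg (lam ^ k) 7 ht, ek_hom_pow_pow] at this
    rw [hc]; exact this
  have e7 : ∀ k, c ((k * 7) % 19) = c k := fun k => (hmod (k * 7)).symm.trans (h7 k)
  have a1 : c 7 = c 1 := e7 1
  have a2 : c 11 = c 1 := (e7 7).trans a1
  have b1 : c 14 = c 2 := e7 2
  have b2 : c 3 = c 2 := (e7 14).trans b1
  have c1 : c 9 = c 4 := e7 4
  have c2 : c 6 = c 4 := (e7 9).trans c1
  have d1 : c 16 = c 5 := e7 5
  have d2 : c 17 = c 5 := (e7 16).trans d1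
  have f1 : c 18 = c 8 := e7 8
  have f2 : c 12 = c 8 := (e7 18).trans f1
  have g1 : c 13 = c 10 := e7 10
  have g2 : c 15 = c 10 := (e7 13).trans g1
  have hc0 : c 0 = classInner (e2Coe (1 : P →* ℂˣ)) (fun x : P => χ x) := by
    have e0 : lam ^ 0 = (1 : P →* ℂˣ) := pow_zero lam
    rw [hc]; simp only [e0]
  have hrec : ∀ k, classInner (e2Phi P (lam ^ k)) χ = c 0 - c k := by
    intro k
    rw [e2_recip P _ hχ, hc0, hc]
  obtain ⟨k0, k1, k2, k3, k4, k5⟩ := e3K_vals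
  rw [Fin.sum_univ_six, k0, k1, k2, k3, k4, k5]
  simp only [hrec]
  rw [← hsum]
  simp only [Finset.sum_range_succ, Finset.sum_range_zero]
  rw [a1, a2, b1, b2, c1, c2, d1, d2, f1, f2, g1, g2, ← hc0]
  ring

/-- Degrees of the two non-exceptional characters and the exceptional characters attached to
a TI subgroup `P` of order `19` whose normalizer has order `57` and acts faithfully. -/
theorem e3_degrees (P N : Subgroup G) (hPN : P ≤ N)
    (hab : ∀ x ∈ P, ∀ y ∈ P, x * y = y * x)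
    (hTI : ∀ g : G, ∀ x ∈ P, x ≠ 1 → g⁻¹ * x * g ∈ P → g ∈ N)
    (hH : ∀ g ∈ N, ∃ m : ℕ, (m = 1 ∨ m = 7 ∨ m = 11) ∧ ∀ x ∈ P, g⁻¹ * x * g = x ^ m)
    (hC : ∀ g ∈ N, (∀ x ∈ P, g⁻¹ * x * g = x) → g ∈ P)
    (hT : ∃ t ∈ N, ∀ x ∈ P, t⁻¹ * x * t = x ^ 7)
    (hcard : Nat.card N = 3 * Nat.card P) (hp : Nat.card P = 19)
    (lam : P →* ℂˣ) (hinj : ∀ x : P, lam x = 1 → x = 1)
    (hlam : ∀ k, 0 < k → k < 19 → lam ^ k ≠ 1) :
    ∃ δ₁ δ₂ ε : ℤ, (δ₁ = 1 ∨ δ₁ = -1) ∧ (δ₂ = 1 ∨ δ₂ = -1) ∧ (ε = 1 ∨ ε = -1) ∧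
      ∃ ψ₁ ψ₂ θ : IrrCharacter G, ψ₁ ≠ trivIrr G ∧ ψ₂ ≠ trivIrr G ∧
      ∃ (d₁ d₂ dθ : ℕ) (m₁ m₂ m' : ℤ), ψ₁.1 1 = d₁ ∧ ψ₂.1 1 = d₂ ∧ θ.1 1 = dθ ∧
        (d₁ : ℤ) = 19 * m₁ - 18 * δ₁ ∧ (d₂ : ℤ) = 19 * m₂ - 18 * δ₂ ∧
        (dθ : ℤ) = 19 * m' - 3 * ε ∧ 1 + δ₁ * d₁ + δ₂ * d₂ + ε * dθ = 0 := by
  classical
  haveI : Fintype P := Fintype.ofFinite P
  haveI : Fintype N := Fintype.ofFinite N
  have hnorm : ∀ g ∈ N, ∀ x ∈ P, g⁻¹ * x * g ∈ P := by
    intro g hg x hx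
    obtain ⟨m, -, hm⟩ := hH g hg
    rw [hm x hx]; exact P.pow_mem hx m
  have h19 : lam ^ 19 = 1 := by rw [← hp]; exact e2_pow_card P lam
  obtain ⟨φ, hφ⟩ : ∃ φ : Fin 6 → (G → ℂ), φ = fun i => e2Phi P (lam ^ e3K i) := ⟨_, rfl⟩
  have hne : ∀ i : Fin 6, lam ^ e3K i ≠ 1 := fun i =>
    hlam _ (e3K_range i).1 (e3K_range i).2
  have hgen : ∀ i, IsGeneralizedCharacter G (φ i) := by
    intro i; rw [hφ]; exact e2Phi_gen P _
  have hone : ∀ i, φ i 1 = 0 := by
    intro i; rw [hφ]; exact e2Phi_one P _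
  have htriv : ∀ i, classInner (φ i) (trivIrr G).1 = 1 := by
    intro i; rw [hφ]; exact e2_triv P _ (hne i)
  -- the key freeness statement
  have hfree : ∀ (i j : Fin 6) (g : N),
      lam ^ e3K i = ekConj P g (hnorm g g.2) (lam ^ e3K j) ↔ (i = j ∧ (g : G) ∈ P) := by
    intro i j g
    constructor
    · intro he
      obtain ⟨m, hm3, hm⟩ := hH g g.2
      rw [ekConj_eq_pow P g (hnorm g g.2) _ m hm, ek_hom_pow_pow,
        e3_pow_mod lam h19 (e3K j * m)] at he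
      have hlt : e3K j * m % 19 < 19 := Nat.mod_lt _ (by norm_num)
      have heq : e3K i = e3K j * m % 19 := by
        rcases le_total (e3K i) (e3K j * m % 19) with hle | hle
        · exact e2_pow_inj lam 19 hlam _ _ hle hlt he
        · exact (e2_pow_inj lam 19 hlam _ _ hle (e3K_range i).2 he.symm).symm
      obtain ⟨hij, hm1⟩ := e3K_free i j m hm3 heq.symm
      refine ⟨hij, hC g g.2 ?_⟩
      intro x hx
      rw [hm x hx, hm1, pow_one]
    · rintro ⟨rfl, hgP⟩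
      have hm : ∀ x ∈ P, (g : G)⁻¹ * x * g = x ^ 1 := by
        intro x hx
        rw [pow_one, mul_assoc, ← hab g hgP x hx, inv_mul_cancel_left]
      rw [ekConj_eq_pow P g (hnorm g g.2) _ 1 hm, ek_hom_pow_one]
  have hcountP : (Finset.univ.filter (fun g : N => (g : G) ∈ P)).card = Nat.card P := by
    have h1 : (Finset.univ.filter (fun g : N => g ∈ P.subgroupOf N)).card
        = Nat.card (P.subgroupOf N) := by
      rw [Nat.card_eq_fintype_card, Fintype.card_subtype]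
    have h2 : Nat.card (P.subgroupOf N) = Nat.card P :=
      Nat.card_congr (Subgroup.subgroupOfEquivOfLe hPN).toEquiv
    rw [← h2, ← h1]
    rfl
  have hP0 : (Nat.card P : ℂ) ≠ 0 := NeZero.ne _
  have hNc : (Fintype.card N : ℂ) = 3 * (Nat.card P : ℂ) := by
    rw [← Nat.card_eq_fintype_card, hcard]; push_cast; ring
  have hgram : ∀ i j, classInner (φ i) (φ j)
      = if i = j then ((3 : ℕ) : ℂ) + 1 else ((3 : ℕ) : ℂ) := by
    intro i j
    rw [hφ]
    simp only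
    rw [ek_gram P N hnorm hTI _ _ (hne i) (hne j)]
    simp only [hfree]
    by_cases hij : i = j
    · subst hij
      simp only [true_and, if_true]
      rw [Finset.sum_add_distrib, Finset.sum_const, Finset.card_univ, Finset.sum_boole, hcountP,
        nsmul_eq_mul, hNc]
      push_cast
      field_simp
    · simp only [hij, false_and, if_false, add_zero]
      rw [Finset.sum_const, Finset.card_univ, nsmul_eq_mul, hNc]
      push_cast
      field_simp
  obtain ⟨ε, hε, Ω, μ, hΩgen, hΩnorm, hΩtriv, hΩμ, hμtriv, hμinj, hdecomp⟩ :=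
    ek_abstract 3 6 (by norm_num) φ hgen hone htriv hgram
  have hΩ2 : classInner Ω Ω = 2 := by rw [hΩnorm]; norm_num
  obtain ⟨α, β, a, b, hαβ, ha, hb, hΩab⟩ := genchar_norm_two_pm hΩgen hΩ2
  have horth : ∀ a b : IrrCharacter G, classInner a.1 b.1 = if a = b then 1 else 0 :=
    irr_orthonormal
  have hane : a ≠ 0 := by rcases ha with rfl | rfl <;> norm_num
  have hbne : b ≠ 0 := by rcases hb with rfl | rfl <;> norm_num
  have hΩin : ∀ χ : IrrCharacter G, classInner Ω χ.1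
      = a * (if α = χ then 1 else 0) + b * (if β = χ then 1 else 0) := by
    intro χ
    rw [hΩab, classInner_add_left, classInner_smul_left, classInner_smul_left, horth, horth]
  have hα_ne : ∀ χ : IrrCharacter G, classInner Ω χ.1 = 0 → α ≠ χ ∧ β ≠ χ := by
    intro χ h0
    rw [hΩin] at h0
    constructor
    · intro h
      have hβ : β ≠ χ := fun h' => hαβ (h.trans h'.symm)
      simp only [h, hβ, if_true, if_false, mul_one, mul_zero, add_zero] at h0
      exact hane h0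
    · intro h
      have hα : α ≠ χ := fun h' => hαβ (h'.trans h.symm)
      simp only [h, hα, if_true, if_false, mul_one, mul_zero, zero_add] at h0
      exact hbne h0
  obtain ⟨hαt, hβt⟩ := hα_ne _ hΩtriv
  have hαμ : ∀ i, α ≠ μ i := fun i => (hα_ne _ (hΩμ i)).1
  have hβμ : ∀ i, β ≠ μ i := fun i => (hα_ne _ (hΩμ i)).2
  let j₀ : Fin 6 := 0
  have hφin : ∀ i (χ : IrrCharacter G), classInner (φ i) χ.1
      = (if trivIrr G = χ then 1 else 0) + classInner Ω χ.1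
        + ε * (if μ i = χ then 1 else 0) := by
    intro i χ
    rw [hdecomp i, classInner_add_left, classInner_add_left, classInner_smul_left, horth, horth]
  have hαinner : ∀ i, classInner (φ i) α.1 = a := by
    intro i
    rw [hφin, hΩin]
    have h1 : trivIrr G ≠ α := fun h => hαt h.symm
    have h2 : μ i ≠ α := fun h => hαμ i h.symm
    have h3 : β ≠ α := fun h => hαβ h.symm
    simp [h1, h2, h3]
  have hβinner : ∀ i, classInner (φ i) β.1 = b := by
    intro i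
    rw [hφin, hΩin]
    have h1 : trivIrr G ≠ β := fun h => hβt h.symm
    have h2 : μ i ≠ β := fun h => hβμ i h.symm
    simp [h1, h2, hαβ]
  have hθinner : ∀ i, classInner (φ i) (μ j₀).1 = if i = j₀ then ε else 0 := by
    intro i
    rw [hφin, hΩμ]
    have h1 : trivIrr G ≠ μ j₀ := (hμtriv j₀).symm
    have h3 : μ i = μ j₀ ↔ i = j₀ := ⟨fun h => hμinj h, fun h => by rw [h]⟩
    simp only [h1, h3, if_false, zero_add]
    split_ifs <;> simp
  obtain ⟨t, htN, ht⟩ := hT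
  have ht' : ∀ x ∈ P, t * x * t⁻¹ ∈ P := by
    intro x hx
    have := hnorm t⁻¹ (N.inv_mem htN) x hx
    rwa [inv_inv] at this
  have hcl : ∀ χ : IrrCharacter G, IsClassFunction G χ.1 := fun χ =>
    isCharacter_conj_class (isCharacter_of_isIrrCharacter χ.2)
  have hc0 : ∀ χ : IrrCharacter G, ∃ m : ℕ,
      classInner (e2Coe (1 : P →* ℂˣ)) (fun x : P => χ.1 x) = (m : ℂ) := by
    intro χ
    obtain ⟨m, hm⟩ := isCharacter_inner_irr_nat
      (isCharacter_restrict P (isCharacter_of_isIrrCharacter χ.2))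
      (⟨e2Coe (1 : P →* ℂˣ), e2Coe_isIrr 1⟩ : IrrCharacter P)
    refine ⟨m, ?_⟩
    rw [classInner_conj_symm]
    simp only at hm
    rw [hm]
    simp
  obtain ⟨d₁, hd₁, -⟩ := irr_degree_dvd_card α
  obtain ⟨d₂, hd₂, -⟩ := irr_degree_dvd_card β
  obtain ⟨dθ, hdθ, -⟩ := irr_degree_dvd_card (μ j₀)
  obtain ⟨m₁, hm₁⟩ := hc0 α
  obtain ⟨m₂, hm₂⟩ := hc0 β
  obtain ⟨m', hm'⟩ := hc0 (μ j₀)
  have fα := e3_degree_formula P t ht ht' hp lam hinj (hcl α)
  have fβ := e3_degree_formula P t ht ht' hp lam hinj (hcl β)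
  have fθ := e3_degree_formula P t ht ht' hp lam hinj (hcl (μ j₀))
  have hsumα : ∑ i : Fin 6, classInner (e2Phi P (lam ^ e3K i)) α.1 = 6 * a := by
    have : ∀ i : Fin 6, classInner (e2Phi P (lam ^ e3K i)) α.1 = a := by
      intro i; have := hαinner i; rw [hφ] at this; exact this
    simp only [this, Finset.sum_const, Finset.card_univ, Fintype.card_fin, nsmul_eq_mul]
    norm_num
  have hsumβ : ∑ i : Fin 6, classInner (e2Phi P (lam ^ e3K i)) β.1 = 6 * b := by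
    have : ∀ i : Fin 6, classInner (e2Phi P (lam ^ e3K i)) β.1 = b := by
      intro i; have := hβinner i; rw [hφ] at this; exact this
    simp only [this, Finset.sum_const, Finset.card_univ, Fintype.card_fin, nsmul_eq_mul]
    norm_num
  have hsumθ : ∑ i : Fin 6, classInner (e2Phi P (lam ^ e3K i)) (μ j₀).1 = ε := by
    have : ∀ i : Fin 6, classInner (e2Phi P (lam ^ e3K i)) (μ j₀).1
        = if i = j₀ then ε else 0 := by
      intro i; have := hθinner i; rw [hφ] at this; exact this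
    simp only [this, Finset.sum_ite_eq', Finset.mem_univ, if_true]
  rw [hsumα, hm₁, hd₁, Complex.conj_natCast] at fα
  rw [hsumβ, hm₂, hd₂, Complex.conj_natCast] at fβ
  rw [hsumθ, hm', hdθ, Complex.conj_natCast] at fθ
  have hdeg : (1 : ℂ) + a * d₁ + b * d₂ + ε * dθ = 0 := by
    have := congrFun (hdecomp j₀) 1
    rw [hone j₀, hΩab] at this
    simp only [Pi.add_apply, Pi.smul_apply, smul_eq_mul, trivIrr_apply, hd₁, hd₂, hdθ] at this
    rw [this]
    ring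
  obtain ⟨az, haz, hac⟩ : ∃ az : ℤ, (az = 1 ∨ az = -1) ∧ a = (az : ℂ) := by
    rcases ha with rfl | rfl
    · exact ⟨1, Or.inl rfl, by simp⟩
    · exact ⟨-1, Or.inr rfl, by simp⟩
  obtain ⟨bz, hbz, hbc⟩ : ∃ bz : ℤ, (bz = 1 ∨ bz = -1) ∧ b = (bz : ℂ) := by
    rcases hb with rfl | rfl
    · exact ⟨1, Or.inl rfl, by simp⟩
    · exact ⟨-1, Or.inr rfl, by simp⟩
  obtain ⟨εz, hεz, hεc⟩ : ∃ εz : ℤ, (εz = 1 ∨ εz = -1) ∧ ε = (εz : ℂ) := by
    rcases hε with rfl | rfl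
    · exact ⟨1, Or.inl rfl, by simp⟩
    · exact ⟨-1, Or.inr rfl, by simp⟩
  rw [hac] at fα hdeg
  rw [hbc] at fβ hdeg
  rw [hεc] at fθ hdeg
  refine ⟨az, bz, εz, haz, hbz, hεz, α, β, μ j₀, hαt, hβt, d₁, d₂, dθ, m₁, m₂, m', hd₁, hd₂,
    hdθ, ?_, ?_, ?_, ?_⟩
  · have : ((d₁ : ℤ) : ℂ) = ((19 * m₁ - 18 * az : ℤ) : ℂ) := by
      push_cast; rw [fα]; ring
    exact_mod_cast this
  · have : ((d₂ : ℤ) : ℂ) = ((19 * m₂ - 18 * bz : ℤ) : ℂ) := by
      push_cast; rw [fβ]; ring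
    exact_mod_cast this
  · have : ((dθ : ℤ) : ℂ) = ((19 * m' - 3 * εz : ℤ) : ℂ) := by
      push_cast; rw [fθ]
    exact_mod_cast this
  · have : ((1 + az * d₁ + bz * d₂ + εz * dθ : ℤ) : ℂ) = ((0 : ℤ) : ℂ) := by
      push_cast; rw [hdeg]
    exact_mod_cast this

end Cfsg.Agent.Lib.helper23
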