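import Mathlib
import Cfsg.Agent.Lib.helper23.E3Main
import Cfsg.Agent.Lib.helper24.CharKer

set_option autoImplicit false

namespace Cfsg.Agent.Lib.helper23

open Cfsg Cfsg.Agent.Lib.helper24

universe u

theorem e3_cube_roots : ∀ m < 19, (m * m * m) % 19 = 1 → m = 1 ∨ m = 7 ∨ m = 11 := by decide

/-- Structure of a Sylow subgroup of order `19` whose normalizer has order `57`, in a simple
group. -/
theorem e3_group_setup {G : Type u} [Group G] [Finite G] [IsSimpleGroup G]
    [hp : Fact (Nat.Prime 19)] (P : Sylow 19 G) (hP : Nat.card (P : Subgroup G) = 19)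
    (hN : Nat.card (Subgroup.normalizer ((P : Subgroup G) : Set G)) = 3 * 19) :
    (∀ x ∈ (P : Subgroup G), ∀ y ∈ (P : Subgroup G), x * y = y * x) ∧
    (∀ g : G, ∀ x ∈ (P : Subgroup G), x ≠ 1 → g⁻¹ * x * g ∈ (P : Subgroup G) →
      g ∈ Subgroup.normalizer ((P : Subgroup G) : Set G)) ∧
    (∀ g ∈ Subgroup.normalizer ((P : Subgroup G) : Set G), ∃ m : ℕ,
      (m = 1 ∨ m = 7 ∨ m = 11) ∧ ∀ x ∈ (P : Subgroup G), g⁻¹ * x * g = x ^ m) ∧
    (∀ g ∈ Subgroup.normalizer ((P : Subgroup G) : Set G),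
      (∀ x ∈ (P : Subgroup G), g⁻¹ * x * g = x) → g ∈ (P : Subgroup G)) ∧
    (∃ t ∈ Subgroup.normalizer ((P : Subgroup G) : Set G),
      ∀ x ∈ (P : Subgroup G), t⁻¹ * x * t = x ^ 7) ∧
    ∃ lam : (P : Subgroup G) →* ℂˣ, (∀ x, lam x = 1 → x = 1) ∧
      ∀ k, 0 < k → k < 19 → lam ^ k ≠ 1 := by
  classical
  obtain ⟨Q, hQ⟩ : ∃ Q : Subgroup G, Q = (P : Subgroup G) := ⟨_, rfl⟩
  rw [← hQ] at hP hN ⊢
  -- every element is a power of any nonidentity element
  have hgen : ∀ w ∈ Q, w ≠ 1 → ∀ y ∈ Q, ∃ j : ℤ, w ^ j = y := by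
    intro w hw hw1 y hy
    have hz := zpowers_eq_top_of_prime_card hP (g := (⟨w, hw⟩ : Q))
      (fun h => hw1 (congrArg Subtype.val h))
    have hm : (⟨y, hy⟩ : Q) ∈ Subgroup.zpowers (⟨w, hw⟩ : Q) := by rw [hz]; trivial
    obtain ⟨j, hj⟩ := Subgroup.mem_zpowers_iff.mp hm
    refine ⟨j, ?_⟩
    have := congrArg Subtype.val hj
    simpa using this
  have hab : ∀ x ∈ Q, ∀ y ∈ Q, x * y = y * x := by
    intro x hx y hy
    by_cases hx1 : x = 1
    · subst hx1; simp
    · obtain ⟨j, hj⟩ := hgen x hx hx1 y hy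
      rw [← hj]
      exact ((Commute.refl x).zpow_right j).eq
  have hTI : ∀ g : G, ∀ x ∈ Q, x ≠ 1 → g⁻¹ * x * g ∈ Q →
      g ∈ Subgroup.normalizer (Q : Set G) := by
    intro g x hx hx1 hgx
    have h1 : g⁻¹ ∈ Subgroup.normalizer (Q : Set G) := by
      apply Subgroup.mem_normalizer_fintype
      intro y hy
      obtain ⟨j, hj⟩ := hgen x hx hx1 y hy
      rw [← hj, ← conj_zpow]
      rw [inv_inv]
      exact Q.zpow_mem hgx j
    simpa using Subgroup.inv_mem _ h1
  -- the centralizer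
  have hQC : Q ≤ Subgroup.centralizer (Q : Set G) := by
    intro g hg
    rw [Subgroup.mem_centralizer_iff]
    intro y hy
    exact hab y hy g hg
  have hCN : Subgroup.centralizer (Q : Set G) ≤ Subgroup.normalizer (Q : Set G) :=
    Subgroup.centralizer_le_normalizer _
  have hQN : Q ≤ Subgroup.normalizer (Q : Set G) := Subgroup.le_normalizer
  have hGpos : 0 < Nat.card G := Nat.card_pos
  have hNC : ¬ Subgroup.normalizer (Q : Set G) ≤ Subgroup.centralizer (Q : Set G) := by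
    intro hNC
    have hNC' : Subgroup.normalizer ((P : Subgroup G) : Set G)
        ≤ Subgroup.centralizer ((P : Subgroup G) : Set G) := by rw [← hQ]; exact hNC
    have hcomp := MonoidHom.ker_transferSylow_isComplement' P hNC'
    have hcard := hcomp.card_mul_card
    have hP' : Nat.card (P : Subgroup G) = 19 := by rw [← hQ]; exact hP
    rw [hP'] at hcard
    rcases (inferInstance : (MonoidHom.transferSylow P hNC').ker.Normal).eq_bot_or_eq_top with
      hb | ht
    · rw [hb, Subgroup.card_bot, one_mul] at hcard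
      have hle : Nat.card (Subgroup.normalizer (Q : Set G)) ≤ Nat.card G :=
        Subgroup.card_le_card_group _
      rw [hN, ← hcard] at hle
      omega
    · rw [ht, Subgroup.card_top] at hcard
      omega
  have hC : Subgroup.centralizer (Q : Set G) = Q := by
    have d1 : Nat.card Q ∣ Nat.card (Subgroup.centralizer (Q : Set G)) :=
      Subgroup.card_dvd_of_le hQC
    have d2 : Nat.card (Subgroup.centralizer (Q : Set G))
        ∣ Nat.card (Subgroup.normalizer (Q : Set G)) := Subgroup.card_dvd_of_le hCN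
    rw [hP] at d1
    rw [hN] at d2
    obtain ⟨k, hk⟩ := d1
    have hk3 : k ∣ 3 := by
      rw [hk] at d2
      exact (Nat.mul_dvd_mul_iff_left (by norm_num : 0 < 19)).mp
        (by rwa [Nat.mul_comm 3 19] at d2)
    have hkle : k ≤ 3 := Nat.le_of_dvd (by norm_num) hk3
    have hk0 : k ≠ 0 := by
      rintro rfl
      simp at hk3
    have hk2 : k ≠ 2 := by
      rintro rfl
      norm_num at hk3
    have hk3' : k ≠ 3 := by
      rintro rfl
      apply hNC
      have : Nat.card (Subgroup.normalizer (Q : Set G))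
          ≤ Nat.card (Subgroup.centralizer (Q : Set G)) := by rw [hN, hk]
      exact (Subgroup.eq_of_le_of_card_ge hCN this).ge
    have hk1 : k = 1 := by omega
    rw [hk1, mul_one] at hk
    exact (Subgroup.eq_of_le_of_card_ge hQC (by rw [hk, hP])).symm
  -- a generator
  obtain ⟨w, hwQ, hw1⟩ : ∃ w ∈ Q, w ≠ 1 := by
    by_contra hcon
    push Not at hcon
    have : Q = ⊥ := (Subgroup.eq_bot_iff_forall _).mpr hcon
    rw [this, Subgroup.card_bot] at hP
    omega
  have hx19 : ∀ x ∈ Q, x ^ 19 = 1 := by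
    intro x hx
    have := pow_card_eq_one' (G := Q) (x := ⟨x, hx⟩)
    rw [hP] at this
    simpa using congrArg Subtype.val this
  have hord : orderOf w = 19 := orderOf_eq_prime (hx19 w hwQ) hw1
  have hconjmem : ∀ g ∈ Subgroup.normalizer (Q : Set G), ∀ y ∈ Q, g⁻¹ * y * g ∈ Q :=
    fun g hg y hy => (Subgroup.mem_normalizer_iff''.mp hg y).mp hy
  have hpow : ∀ g ∈ Subgroup.normalizer (Q : Set G), ∃ m : ℕ, m < 19 ∧
      ∀ x ∈ Q, g⁻¹ * x * g = x ^ m := by
    intro g hg
    obtain ⟨j, hj⟩ := hgen w hwQ hw1 _ (hconjmem g hg w hwQ)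
    have hnn : 0 ≤ j % 19 := Int.emod_nonneg j (by norm_num)
    have hlt : j % 19 < 19 := Int.emod_lt_of_pos j (by norm_num)
    refine ⟨(j % 19).toNat, by omega, ?_⟩
    intro x hx
    obtain ⟨i, hi⟩ := hgen w hwQ hw1 x hx
    have hwm : w ^ (((j % 19).toNat : ℕ) : ℤ) = w ^ j := by
      have h1 : (((j % 19).toNat : ℕ) : ℤ) = j % 19 := Int.toNat_of_nonneg hnn
      rw [h1]
      have := zpow_mod_orderOf w j
      rw [hord] at this
      exact_mod_cast this
    rw [← hi]
    have e1 : g⁻¹ * w ^ i * g = (g⁻¹ * w * g) ^ i := by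
      have := conj_zpow (i := i) (a := g⁻¹) (b := w)
      rw [inv_inv] at this
      exact this.symm
    rw [e1, ← hj]
    calc (w ^ j) ^ i = (w ^ (((j % 19).toNat : ℕ) : ℤ)) ^ i := by rw [hwm]
      _ = w ^ ((((j % 19).toNat : ℕ) : ℤ) * i) := (zpow_mul w _ i).symm
      _ = w ^ (i * (((j % 19).toNat : ℕ) : ℤ)) := by rw [mul_comm]
      _ = (w ^ i) ^ (((j % 19).toNat : ℕ) : ℤ) := zpow_mul w i _
      _ = (w ^ i) ^ (j % 19).toNat := zpow_natCast _ _
  have hidx : (Q.subgroupOf (Subgroup.normalizer (Q : Set G))).index = 3 := by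
    have h1 := Subgroup.card_mul_index (Q.subgroupOf (Subgroup.normalizer (Q : Set G)))
    have h2 : Nat.card (Q.subgroupOf (Subgroup.normalizer (Q : Set G))) = Nat.card Q :=
      Nat.card_congr (Subgroup.subgroupOfEquivOfLe hQN).toEquiv
    rw [h2, hP, hN] at h1
    omega
  have hcube : ∀ g ∈ Subgroup.normalizer (Q : Set G), g ^ 3 ∈ Q := by
    intro g hg
    have := Subgroup.pow_index_mem (Q.subgroupOf (Subgroup.normalizer (Q : Set G))) ⟨g, hg⟩
    rw [hidx, Subgroup.mem_subgroupOf] at this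
    simpa using this
  have hmult : ∀ g ∈ Subgroup.normalizer (Q : Set G), ∀ m : ℕ, m < 19 →
      (∀ x ∈ Q, g⁻¹ * x * g = x ^ m) → (m = 1 ∨ m = 7 ∨ m = 11) := by
    intro g hg m hm19 hm
    have h3 : (g ^ 3)⁻¹ * w * g ^ 3 = w := by
      have := hab (g ^ 3) (hcube g hg) w hwQ
      rw [mul_assoc, ← this, inv_mul_cancel_left]
    have h4 : (g ^ 3)⁻¹ * w * g ^ 3 = g⁻¹ * (g⁻¹ * (g⁻¹ * w * g) * g) * g := by
      rw [show g ^ 3 = g * g * g by rw [pow_succ, pow_succ, pow_one]]
      simp only [mul_inv_rev, mul_assoc]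
    rw [h4, hm w hwQ, hm _ (Q.pow_mem hwQ m), hm _ (Q.pow_mem (Q.pow_mem hwQ m) m), ← pow_mul,
      ← pow_mul] at h3
    have h5 : w ^ (m * m * m) = w ^ 1 := by rw [pow_one, mul_assoc]; exact h3
    rw [pow_eq_pow_iff_modEq, hord] at h5
    have h6 : (m * m * m) % 19 = 1 := h5
    exact e3_cube_roots m hm19 h6
  have hCmem : ∀ g ∈ Subgroup.normalizer (Q : Set G), (∀ x ∈ Q, g⁻¹ * x * g = x) → g ∈ Q := by
    intro g _ hg
    rw [← hC, Subgroup.mem_centralizer_iff]
    intro y hy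
    calc y * g = g * (g⁻¹ * y * g) := by group
      _ = g * y := by rw [hg y hy]
  obtain ⟨g, hgN, hgQ⟩ : ∃ g ∈ Subgroup.normalizer (Q : Set G), g ∉ Q := by
    by_contra hcon
    push Not at hcon
    have hle : Subgroup.normalizer (Q : Set G) ≤ Q := fun g hg => hcon g hg
    have heq := le_antisymm hle hQN
    rw [heq, hP] at hN
    omega
  have hT : ∃ t ∈ Subgroup.normalizer (Q : Set G), ∀ x ∈ Q, t⁻¹ * x * t = x ^ 7 := by
    obtain ⟨m, hm19, hm⟩ := hpow g hgN
    rcases hmult g hgN m hm19 hm with rfl | rfl | rfl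
    · exfalso
      apply hgQ
      apply hCmem g hgN
      intro x hx
      rw [hm x hx, pow_one]
    · exact ⟨g, hgN, hm⟩
    · refine ⟨g * g, Subgroup.mul_mem _ hgN hgN, ?_⟩
      intro x hx
      have e : (g * g)⁻¹ * x * (g * g) = g⁻¹ * (g⁻¹ * x * g) * g := by group
      rw [e, hm x hx, hm _ (Q.pow_mem hx 11), ← pow_mul]
      calc x ^ (11 * 11) = x ^ (19 * 6 + 7) := by norm_num
        _ = x ^ 7 := by rw [pow_add, pow_mul, hx19 x hx, one_pow, one_mul]
  refine ⟨hab, hTI, ?_, hCmem, hT, ?_⟩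
  · intro g hg
    obtain ⟨m, hm19, hm⟩ := hpow g hg
    exact ⟨m, hmult g hg m hm19 hm, hm⟩
  -- a faithful linear character
  have hcardhom : Nat.card (Q →* ℂˣ) = 19 := by
    rw [card_hom_units]
    have hcomm : commutator Q = ⊥ := by
      rw [commutator_def, Subgroup.commutator_eq_bot_iff_le_centralizer]
      intro a _
      rw [Subgroup.mem_centralizer_iff]
      intro b _
      exact Subtype.ext (hab b b.2 a a.2)
    rw [hcomm, Subgroup.index_bot, hP]
  haveI : Finite (Q →* ℂˣ) := Nat.finite_of_card_ne_zero (by rw [hcardhom]; omega)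
  haveI : Nontrivial (Q →* ℂˣ) :=
    Finite.one_lt_card_iff_nontrivial.mp (by rw [hcardhom]; norm_num)
  obtain ⟨lam, hlam⟩ := exists_ne (1 : Q →* ℂˣ)
  obtain ⟨x0, hx0⟩ : ∃ x0 : Q, lam x0 ≠ 1 := by
    by_contra hcon
    push Not at hcon
    exact hlam (MonoidHom.ext fun x => by rw [hcon x, MonoidHom.one_apply])
  have hinj : ∀ x : Q, lam x = 1 → x = 1 := by
    intro x hx
    by_contra hx1
    obtain ⟨j, hj⟩ := hgen (x : G) x.2 (fun h => hx1 (Subtype.ext h)) (x0 : G) x0.2
    apply hx0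
    have : x0 = x ^ j := Subtype.ext (by simpa using hj.symm)
    rw [this, map_zpow, hx, one_zpow]
  refine ⟨lam, hinj, ?_⟩
  intro k hk0 hkp hk
  have h1 := DFunLike.congr_fun hk x0
  rw [MonoidHom.pow_apply, MonoidHom.one_apply, ← map_pow] at h1
  have h2 := hinj _ h1
  have hx01 : x0 ≠ 1 := by
    rintro rfl
    exact hx0 (map_one lam)
  have hord0 : orderOf x0 = 19 := by
    rw [orderOf_eq_prime_iff]
    refine ⟨?_, hx01⟩
    rw [← hP]
    exact pow_card_eq_one'
  have hdvd : 19 ∣ k := by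
    rw [← hord0]
    exact orderOf_dvd_of_pow_eq_one h2
  have := Nat.le_of_dvd hk0 hdvd
  omega

end Cfsg.Agent.Lib.helper23
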