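import Mathlib
import Cfsg.Agent.Lib.helper23.E3Grp

set_option autoImplicit false

namespace Cfsg.Agent.Lib.helper23

open Cfsg Cfsg.Agent.Lib.helper24

universe u

/-- Sylow counting: a Sylow subgroup of prime order whose normalizer has `e` times its
order. -/
theorem ek_sylow {G : Type u} [Group G] [Finite G] [IsSimpleGroup G] (n p e : ℕ)
    [hp : Fact p.Prime] (hn : Nat.card G = n) (hpn : p ∣ n) (hp2 : ¬ p ^ 2 ∣ n)
    (hep : e * p ∣ n) (he : 1 < e)
    (hcount : ∀ k, k ∣ n / p → k % p = 1 → k = 1 ∨ k = n / (e * p)) :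
    ∃ P : Sylow p G, Nat.card (P : Subgroup G) = p ∧
      Nat.card (Subgroup.normalizer ((P : Subgroup G) : Set G)) = e * p := by
  obtain ⟨P⟩ : Nonempty (Sylow p G) := inferInstance
  have hp1 : 1 < p := hp.out.one_lt
  have hn0 : 0 < n := by rw [← hn]; exact Nat.card_pos
  have hPcard : Nat.card (P : Subgroup G) = p := by
    obtain ⟨k, hk⟩ := IsPGroup.iff_card.mp P.2
    have h1 : p ∣ Nat.card (P : Subgroup G) := P.dvd_card_of_dvd_card (by rw [hn]; exact hpn)
    have h2 : Nat.card (P : Subgroup G) ∣ n := by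
      rw [← hn]; exact Subgroup.card_subgroup_dvd_card _
    rw [hk] at h1 h2 ⊢
    have hk1 : k ≠ 0 := by
      rintro rfl
      rw [pow_zero, Nat.dvd_one] at h1
      omega
    have hk2 : k < 2 := by
      by_contra hge
      push Not at hge
      exact hp2 ((pow_dvd_pow p hge).trans h2)
    have : k = 1 := by omega
    rw [this, pow_one]
  refine ⟨P, hPcard, ?_⟩
  have hidx : (P : Subgroup G).index = n / p := by
    have := Subgroup.card_mul_index (P : Subgroup G)
    rw [hPcard, hn] at this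
    rw [← this, Nat.mul_div_cancel_left _ (by omega : 0 < p)]
  have hsyl := card_sylow_modEq_one p G
  have hdvd := P.card_dvd_index
  rw [hidx] at hdvd
  have hmod : Nat.card (Sylow p G) % p = 1 := by
    have := hsyl
    unfold Nat.ModEq at this
    rw [this, Nat.mod_eq_of_lt hp1]
  have hNidx : Nat.card (Sylow p G)
      = (Subgroup.normalizer ((P : Subgroup G) : Set G)).index := P.card_eq_index_normalizer
  have hNmul := Subgroup.card_mul_index (Subgroup.normalizer ((P : Subgroup G) : Set G))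
  obtain ⟨c, hc⟩ := hep
  have hc0 : 0 < c := by
    rcases Nat.eq_zero_or_pos c with h0 | h0
    · rw [h0, mul_zero] at hc; omega
    · exact h0
  rcases hcount _ hdvd hmod with h1 | h1
  · exfalso
    rw [h1] at hNidx
    have htop : Subgroup.normalizer ((P : Subgroup G) : Set G) = ⊤ :=
      Subgroup.index_eq_one.mp hNidx.symm
    have hnormal : (P : Subgroup G).Normal := Subgroup.normalizer_eq_top_iff.mp htop
    rcases hnormal.eq_bot_or_eq_top with hb | ht
    · rw [hb, Subgroup.card_bot] at hPcard; omega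
    · rw [ht, Subgroup.card_top, hn] at hPcard
      rw [hPcard] at hc
      have h2 : 2 * 1 ≤ e * c := Nat.mul_le_mul he hc0
      have h3 : p * (e * c) = p := by
        calc p * (e * c) = e * p * c := by ring
          _ = p := hc.symm
      have h4 : p * 2 ≤ p * (e * c) := Nat.mul_le_mul_left p (by omega)
      omega
  · rw [← hNidx, h1, hn] at hNmul
    have hdiv : n / (e * p) = c := by
      rw [hc]; exact Nat.mul_div_cancel_left c (by positivity)
    rw [hdiv] at hNmul
    exact Nat.eq_of_mul_eq_mul_right hc0 (by rw [hNmul, hc])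

/-- A linear irreducible character of a perfect group is trivial. -/
theorem irr_linear_trivial_of_perfect {G : Type u} [Group G] [Fintype G]
    (hcomm : commutator G = ⊤) (ψ : IrrCharacter G) (h1 : ψ.1 1 = 1) : ψ = trivIrr G := by
  obtain ⟨f, hf⟩ := exists_hom_of_linear (isCharacter_of_isIrrCharacter ψ.2) h1
  have hcard1 : Nat.card (G →* ℂˣ) = 1 := by
    rw [card_hom_units, hcomm, Subgroup.index_top]
  have hf1 : f = 1 := by
    haveI : Subsingleton (G →* ℂˣ) := (Nat.card_eq_one_iff_unique.mp hcard1).1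
    exact Subsingleton.elim _ _
  apply Subtype.ext
  funext g
  rw [hf g, hf1]
  simp [trivIrr_apply]

/-- Arithmetic constraints on the degrees of the non-exceptional and exceptional characters
for a Sylow `19`-subgroup with normalizer of order `57`. -/
theorem e3_constraints {G : Type u} [Group G] [Finite G] [IsSimpleGroup G]
    [hp : Fact (Nat.Prime 19)] (P : Sylow 19 G) (hP : Nat.card (P : Subgroup G) = 19)
    (hN : Nat.card (Subgroup.normalizer ((P : Subgroup G) : Set G)) = 3 * 19) :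
    ∃ δ₁ δ₂ ε : ℤ, (δ₁ = 1 ∨ δ₁ = -1) ∧ (δ₂ = 1 ∨ δ₂ = -1) ∧ (ε = 1 ∨ ε = -1) ∧
      ∃ (d₁ d₂ dθ : ℕ) (m₁ m₂ m' : ℤ),
        d₁ ∣ Nat.card G ∧ d₂ ∣ Nat.card G ∧ dθ ∣ Nat.card G ∧ dθ ^ 2 ≤ Nat.card G ∧
        d₁ ≠ 1 ∧ d₂ ≠ 1 ∧
        (d₁ : ℤ) = 19 * m₁ - 18 * δ₁ ∧ (d₂ : ℤ) = 19 * m₂ - 18 * δ₂ ∧
        (dθ : ℤ) = 19 * m' - 3 * ε ∧ 1 + δ₁ * d₁ + δ₂ * d₂ + ε * dθ = 0 := by
  classical
  haveI := Fintype.ofFinite G
  obtain ⟨hab, hTI, hH, hC, hT, lam, hinj, hlam⟩ := e3_group_setup P hP hN
  obtain ⟨δ₁, δ₂, ε, hδ₁, hδ₂, hε, ψ₁, ψ₂, θ, hψ₁, hψ₂, d₁, d₂, dθ, m₁, m₂, m', hd₁, hd₂, hdθ,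
      e1, e2, e3, e4⟩ :=
    e3_degrees (P : Subgroup G) (Subgroup.normalizer ((P : Subgroup G) : Set G))
      Subgroup.le_normalizer hab hTI hH hC hT (by rw [hN, hP]) hP lam hinj hlam
  -- `G` is perfect
  have hcomm : commutator G = ⊤ := by
    rcases (inferInstance : (commutator G).Normal).eq_bot_or_eq_top with hb | ht
    · exfalso
      have hcommute : ∀ a b : G, a * b = b * a := by
        intro a b
        have h0 := hb
        rw [commutator_def, Subgroup.commutator_eq_bot_iff_le_centralizer] at h0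
        have hmem := h0 (Subgroup.mem_top b)
        rw [Subgroup.mem_centralizer_iff] at hmem
        exact hmem a (Subgroup.mem_top a)
      obtain ⟨g, hgN, hgP⟩ : ∃ g ∈ Subgroup.normalizer ((P : Subgroup G) : Set G),
          g ∉ (P : Subgroup G) := by
        by_contra hcon
        push Not at hcon
        have hle : Subgroup.normalizer ((P : Subgroup G) : Set G) ≤ (P : Subgroup G) :=
          fun g hg => hcon g hg
        have heq := le_antisymm hle Subgroup.le_normalizer
        rw [heq, hP] at hN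
        omega
      apply hgP
      apply hC g hgN
      intro x _
      rw [mul_assoc, hcommute x g, inv_mul_cancel_left]
    · exact ht
  have hdvd : ∀ (χ : IrrCharacter G) (d : ℕ), χ.1 1 = d → d ∣ Nat.card G := by
    intro χ d hd
    obtain ⟨d', hd', hdvd'⟩ := irr_degree_dvd_card χ
    have : d' = d := by
      have := hd'.symm.trans hd
      exact_mod_cast this
    rw [← this]; exact hdvd'
  refine ⟨δ₁, δ₂, ε, hδ₁, hδ₂, hε, d₁, d₂, dθ, m₁, m₂, m', hdvd ψ₁ d₁ hd₁, hdvd ψ₂ d₂ hd₂,
    hdvd θ dθ hdθ, ?_, ?_, ?_, e1, e2, e3, e4⟩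
  · haveI := Fintype.ofFinite (IrrCharacter G)
    have hs := sum_sq_charDegree (G := G)
    have hc : charDegree θ.1 = dθ := by
      have := (charDegree_cast θ).trans hdθ
      exact_mod_cast this
    rw [← hs, ← hc]
    exact Finset.single_le_sum (f := fun χ : IrrCharacter G => charDegree χ.1 ^ 2)
      (fun _ _ => Nat.zero_le _) (Finset.mem_univ θ)
  · intro h1
    rw [h1] at hd₁
    exact hψ₁ (irr_linear_trivial_of_perfect hcomm ψ₁ (by rw [hd₁]; simp))
  · intro h1
    rw [h1] at hd₂
    exact hψ₂ (irr_linear_trivial_of_perfect hcomm ψ₂ (by rw [hd₂]; simp))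

end Cfsg.Agent.Lib.helper23
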