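import Mathlib
import Cfsg.Agent.Lib.helper23.E3Fin

set_option autoImplicit false

namespace Cfsg.Agent.Lib.helper23

open Cfsg Cfsg.Agent.Lib.helper24

universe u

theorem e3_count_5472 : ∀ k ∈ Nat.divisors 288, k % 19 = 1 → k = 1 ∨ k = 96 := by
  decide +kernel

theorem e3_divs_one : ∀ d ∈ Nat.divisors 288, (d % 19 = 1 ∨ d % 19 = 18) →
    d = 1 ∨ d = 18 ∨ d = 96 := by
  decide +kernel

theorem e3_divs_three : ∀ d ∈ Nat.divisors 288, (d % 19 = 3 ∨ d % 19 = 16) →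
    d = 3 ∨ d = 16 ∨ d = 288 := by
  decide +kernel

theorem e3_dvd_288 (d : ℕ) (hd : d ∣ 5472) (h19 : ¬ 19 ∣ d) : d ∈ Nat.divisors 288 := by
  have hc : Nat.Coprime d 19 :=
    Nat.Coprime.symm ((Nat.Prime.coprime_iff_not_dvd (by norm_num)).mpr h19)
  have hd' : d ∣ 288 * 19 := by
    have : 288 * 19 = 5472 := by norm_num
    rw [this]; exact hd
  exact Nat.mem_divisors.mpr ⟨hc.dvd_of_dvd_mul_right hd', by norm_num⟩

/-- There is no simple group of order 5472. -/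
theorem not_simple_5472 {G : Type u} [Group G] [Finite G] [IsSimpleGroup G] :
    Nat.card G ≠ 5472 := by
  intro hG
  haveI : Fact (Nat.Prime 19) := ⟨by norm_num⟩
  have hcount : ∀ k, k ∣ 5472 / 19 → k % 19 = 1 → k = 1 ∨ k = 5472 / (3 * 19) := by
    intro k hk hmod
    have hk' : k ∈ Nat.divisors 288 := Nat.mem_divisors.mpr ⟨hk, by norm_num⟩
    exact e3_count_5472 k hk' hmod
  obtain ⟨P, hP, hN⟩ := ek_sylow 5472 19 3 hG (by norm_num) (by norm_num) (by norm_num)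
    (by norm_num) hcount
  obtain ⟨δ₁, δ₂, ε, hδ₁, hδ₂, hε, d₁, d₂, dθ, m₁, m₂, m', h1, h2, h3, h4, n1, n2, e1, e2, e3,
    e4⟩ := e3_constraints P hP hN
  rw [hG] at h1 h2 h3 h4
  have q1 : ¬ 19 ∣ d₁ := by rcases hδ₁ with rfl | rfl <;> omega
  have q2 : ¬ 19 ∣ d₂ := by rcases hδ₂ with rfl | rfl <;> omega
  have q3 : ¬ 19 ∣ dθ := by rcases hε with rfl | rfl <;> omega
  have r1 := e3_divs_one d₁ (e3_dvd_288 d₁ h1 q1) (by rcases hδ₁ with rfl | rfl <;> omega)
  have r2 := e3_divs_one d₂ (e3_dvd_288 d₂ h2 q2) (by rcases hδ₂ with rfl | rfl <;> omega)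
  have r3 := e3_divs_three dθ (e3_dvd_288 dθ h3 q3) (by rcases hε with rfl | rfl <;> omega)
  have r3' : dθ = 3 ∨ dθ = 16 := by
    rcases r3 with h | h | h
    · exact Or.inl h
    · exact Or.inr h
    · exfalso; rw [h] at h4; norm_num at h4
  have r1' : d₁ = 18 ∨ d₁ = 96 := by
    rcases r1 with h | h | h
    · exact absurd h n1
    · exact Or.inl h
    · exact Or.inr h
  have r2' : d₂ = 18 ∨ d₂ = 96 := by
    rcases r2 with h | h | h
    · exact absurd h n2
    · exact Or.inl h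
    · exact Or.inr h
  rcases hδ₁ with rfl | rfl <;> rcases hδ₂ with rfl | rfl <;> rcases hε with rfl | rfl <;>
    rcases r1' with rfl | rfl <;> rcases r2' with rfl | rfl <;> rcases r3' with rfl | rfl <;>
    omega

end Cfsg.Agent.Lib.helper23
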