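import Cfsg.Agent.Lib.helper23.TwoPrimes
import Cfsg.Agent.Lib.helper23.DefectZero
import Cfsg.Agent.Lib.helper24.CharFS

set_option autoImplicit false

namespace Cfsg.Agent.Lib.helper23

open Cfsg Cfsg.Agent.Lib.helper24 Cfsg.Agent.Lib.helper5
open scoped ComplexConjugate

universe u

variable {G : Type u} [Group G]

theorem irr_vanish_of_full_ppart [Finite G] (χ : IrrCharacter G) (p : ℕ) (hp : p.Prime)
    (h : p ^ (Nat.card G).factorization p ∣ charDegree χ.1) (x : G) (hx : p ∣ orderOf x) :
    χ.1 x = 0 :=
  irr_vanish_of_defect_zero χ p _ hp (Nat.pow_succ_factorization_not_dvd Nat.card_pos.ne' hp)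
    (charDegree χ.1) (irr_charDegree_facts χ).2.2 h (irr_charDegree_facts χ).1 x hx

theorem sum_irr_eq_zero [Fintype G] (χ : IrrCharacter G) (hχ : χ ≠ trivIrr G) :
    ∑ g : G, χ.1 g = 0 := by
  have h := sum_irr_mul_conj χ (trivIrr G)
  rw [if_neg hχ] at h
  rw [← h]
  apply Finset.sum_congr rfl
  intro g _
  rw [trivIrr_apply, map_one, mul_one]

theorem sum_sq_of_vanish [Fintype G] [DecidableEq G] (χ : IrrCharacter G) (hχ : χ ≠ trivIrr G)
    (hv2 : ∀ g : G, ¬ Odd (orderOf g) → χ.1 g = 0)
    (hE : ∀ g : G, ¬ Odd (orderOf g) → orderOf g ≠ 2 → χ.1 (g * g) = 0) :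
    ∑ g : G, χ.1 (g * g)
      = ((Finset.univ.filter (fun g : G => orderOf g = 2)).card : ℂ) * χ.1 1 := by
  have hterm : ∀ g : G, χ.1 (g * g) = (if Odd (orderOf g) then χ.1 (g * g) else 0)
      + (if orderOf g = 2 then χ.1 1 else 0) := by
    intro g
    by_cases ho : Odd (orderOf g)
    · have h2 : orderOf g ≠ 2 := by
        intro h
        rw [h] at ho
        exact absurd ho (by decide)
      rw [if_pos ho, if_neg h2, add_zero]
    · rw [if_neg ho, zero_add]
      by_cases h2 : orderOf g = 2
      · rw [if_pos h2]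
        have : g * g = 1 := by
          rw [← pow_two, ← h2, pow_orderOf_eq_one]
        rw [this]
      · rw [if_neg h2]
        exact hE g ho h2
  rw [Finset.sum_congr rfl (fun g _ => hterm g), Finset.sum_add_distrib]
  have hfirst : ∑ g : G, (if Odd (orderOf g) then χ.1 (g * g) else 0) = 0 := by
    rw [← Finset.sum_filter]
    have hbij : ∑ g ∈ Finset.univ.filter (fun g : G => Odd (orderOf g)), χ.1 (g * g)
        = ∑ h ∈ Finset.univ.filter (fun g : G => Odd (orderOf g)), χ.1 h := by
      apply Finset.sum_nbij' (fun g => g * g) (fun h => h ^ ((orderOf h + 1) / 2))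
      · intro g hg
        simp only [Finset.mem_filter, Finset.mem_univ, true_and] at hg ⊢
        rw [← pow_two, Nat.Coprime.orderOf_pow (Nat.coprime_two_right.mpr hg)]
        exact hg
      · intro h hh
        simp only [Finset.mem_filter, Finset.mem_univ, true_and] at hh ⊢
        exact Odd.of_dvd_nat hh (orderOf_pow_dvd _)
      · intro g hg
        simp only [Finset.mem_filter, Finset.mem_univ, true_and] at hg
        have e1 : orderOf (g * g) = orderOf g := by
          rw [← pow_two, Nat.Coprime.orderOf_pow (Nat.coprime_two_right.mpr hg)]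
        simp only [e1]
        obtain ⟨k, hk⟩ := hg
        rw [← pow_two, ← pow_mul, hk]
        have : 2 * ((2 * k + 1 + 1) / 2) = (2 * k + 1) + 1 := by omega
        rw [this, pow_succ, ← hk, pow_orderOf_eq_one, one_mul]
      · intro h hh
        simp only [Finset.mem_filter, Finset.mem_univ, true_and] at hh
        obtain ⟨k, hk⟩ := hh
        rw [← pow_add, hk]
        have : (2 * k + 1 + 1) / 2 + (2 * k + 1 + 1) / 2 = (2 * k + 1) + 1 := by omega
        rw [this, pow_succ, ← hk, pow_orderOf_eq_one, one_mul]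
      · intro g _
        rfl
    rw [hbij, Finset.sum_filter]
    refine Eq.trans (Finset.sum_congr rfl ?_) (sum_irr_eq_zero χ hχ)
    intro g _
    by_cases ho : Odd (orderOf g)
    · rw [if_pos ho]
    · rw [if_neg ho, hv2 g ho]
  rw [hfirst, zero_add, ← Finset.sum_filter, Finset.sum_const, nsmul_eq_mul]

theorem involution_defect [Fintype G] (heven : Even (Nat.card G)) (χ : IrrCharacter G)
    (h2 : 2 ^ (Nat.card G).factorization 2 ∣ charDegree χ.1)
    (hp : ∀ p : ℕ, p.Prime → p ≠ 2 → (∃ g : G, orderOf g = 2 * p) →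
      p ^ (Nat.card G).factorization p ∣ charDegree χ.1) :
    (∀ s t : G, orderOf s = 2 → orderOf t = 2 → IsConj s t) ∧
    (∀ s : G, orderOf s = 2 →
      Nat.card (Subgroup.centralizer ({s} : Set G)) = charDegree χ.1 ∧
      (Nat.card (Subgroup.centralizer ({s} : Set G))).Coprime
        (Subgroup.centralizer ({s} : Set G)).index) ∧
    (Nat.card G : ℂ)⁻¹ * ∑ g : G, χ.1 (g * g) = 1 := by
  classical
  have hG0 : Nat.card G ≠ 0 := Nat.card_pos.ne'
  obtain ⟨hxdvd, hx0, hx1⟩ := irr_charDegree_facts χ
  have h2G : 2 ∣ Nat.card G := even_iff_two_dvd.mp heven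
  have hχ : χ ≠ trivIrr G := by
    intro h
    have hdeg : charDegree (trivIrr G).1 = 1 := by simp [charDegree, trivIrr_apply]
    rw [h, hdeg] at h2
    have h1 : 1 ≤ (Nat.card G).factorization 2 :=
      (Nat.Prime.dvd_iff_one_le_factorization Nat.prime_two hG0).mp h2G
    have h3 : 2 ∣ 1 := dvd_trans (dvd_pow_self 2 (by omega)) h2
    omega
  have hv2 : ∀ g : G, ¬ Odd (orderOf g) → χ.1 g = 0 := by
    intro g hg
    apply irr_vanish_of_full_ppart χ 2 Nat.prime_two h2
    exact even_iff_two_dvd.mp (Nat.not_odd_iff_even.mp hg)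
  have hE : ∀ g : G, ¬ Odd (orderOf g) → orderOf g ≠ 2 → χ.1 (g * g) = 0 := by
    intro g hg hg2
    obtain ⟨k, hk⟩ := Nat.not_odd_iff_even.mp hg
    have hpos : 0 < orderOf g := orderOf_pos g
    have hk0 : k ≠ 0 := by omega
    have hk1 : k ≠ 1 := by omega
    have hord : orderOf (g * g) = k := by
      rw [← pow_two, orderOf_pow, hk]
      have h1 : Nat.gcd (k + k) 2 = 2 := by
        apply Nat.gcd_eq_right
        exact ⟨k, by ring⟩
      rw [h1]
      omega
    by_cases hk2 : 2 ∣ k
    · apply irr_vanish_of_full_ppart χ 2 Nat.prime_two h2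
      rw [hord]
      exact hk2
    · have hpp := Nat.minFac_prime hk1
      have hpk := Nat.minFac_dvd k
      have hp2 : k.minFac ≠ 2 := fun h => hk2 (h ▸ hpk)
      obtain ⟨m, hm⟩ := hpk
      have hm0 : m ≠ 0 := by
        rintro rfl
        omega
      have hz : orderOf (g ^ m) = 2 * k.minFac := by
        rw [orderOf_pow_of_dvd hm0 ⟨2 * k.minFac, by rw [hk]; nth_rewrite 1 2 [hm]; ring⟩, hk]
        have h1 : k + k = (2 * k.minFac) * m := by
          nth_rewrite 1 2 [hm]
          ring
        rw [h1, Nat.mul_div_cancel _ (Nat.pos_of_ne_zero hm0)]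
      apply irr_vanish_of_full_ppart χ k.minFac hpp (hp k.minFac hpp hp2 ⟨g ^ m, hz⟩)
      rw [hord]
      exact Nat.minFac_dvd k
  have hsum := sum_sq_of_vanish χ hχ hv2 hE
  obtain ⟨s₀, hs₀⟩ := exists_prime_orderOf_dvd_card' 2 h2G
  have hIpos : 0 < (Finset.univ.filter (fun g : G => orderOf g = 2)).card :=
    Finset.card_pos.mpr ⟨s₀, by simp [hs₀]⟩
  have hGC : (Nat.card G : ℂ) ≠ 0 := by exact_mod_cast hG0
  have hν : (Nat.card G : ℂ)⁻¹ * ∑ g : G, χ.1 (g * g) = 1 := by
    rcases frobenius_schur χ with ⟨h0, _⟩ | ⟨h1 | h1, _⟩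
    · exfalso
      rw [hsum, hx1] at h0
      have h3 := (mul_eq_zero.mp h0).resolve_left (inv_ne_zero hGC)
      have h4 : (Finset.univ.filter (fun g : G => orderOf g = 2)).card * charDegree χ.1 = 0 := by
        exact_mod_cast h3
      rcases Nat.mul_eq_zero.mp h4 with h5 | h5 <;> omega
    · exact h1
    · exfalso
      rw [hsum, hx1] at h1
      have h3 : (((Finset.univ.filter (fun g : G => orderOf g = 2)).card : ℂ)
          * (charDegree χ.1 : ℂ)) + (Nat.card G : ℂ) = 0 := by
        have h4 : (Nat.card G : ℂ) * ((Nat.card G : ℂ)⁻¹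
            * (((Finset.univ.filter (fun g : G => orderOf g = 2)).card : ℂ)
              * (charDegree χ.1 : ℂ))) = (Nat.card G : ℂ) * (-1) := by rw [h1]
        rw [← mul_assoc, mul_inv_cancel₀ hGC, one_mul] at h4
        rw [h4]
        ring
      have h5 : (Finset.univ.filter (fun g : G => orderOf g = 2)).card * charDegree χ.1
          + Nat.card G = 0 := by exact_mod_cast h3
      omega
  have hIx : (Finset.univ.filter (fun g : G => orderOf g = 2)).card * charDegree χ.1
      = Nat.card G := by
    have hν' := hν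
    rw [hsum, hx1] at hν'
    have h4 : (Nat.card G : ℂ) * ((Nat.card G : ℂ)⁻¹
        * (((Finset.univ.filter (fun g : G => orderOf g = 2)).card : ℂ)
          * (charDegree χ.1 : ℂ))) = (Nat.card G : ℂ) * 1 := by rw [hν']
    rw [← mul_assoc, mul_inv_cancel₀ hGC, one_mul, mul_one] at h4
    exact_mod_cast h4
  have hkey : ∀ s : G, orderOf s = 2 → ∀ r : ℕ, r.Prime →
      r ∣ Nat.card (Subgroup.centralizer ({s} : Set G)) →
      (Nat.card G).factorization r ≤ (charDegree χ.1).factorization r := by
    intro s hs r hr hrc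
    by_cases hr2 : r = 2
    · subst hr2
      exact (Nat.Prime.pow_dvd_iff_le_factorization Nat.prime_two hx0).mp h2
    · haveI : Fact r.Prime := ⟨hr⟩
      obtain ⟨z, hz⟩ := exists_prime_orderOf_dvd_card' r hrc
      have hz' : orderOf (z : G) = r := by
        rw [Subgroup.orderOf_coe]
        exact hz
      have hcomm : Commute s (z : G) :=
        Subgroup.mem_centralizer_iff.mp z.2 s (Set.mem_singleton s)
      have hord : orderOf (s * (z : G)) = 2 * r := by
        rw [hcomm.orderOf_mul_eq_mul_orderOf_of_coprime (by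
          rw [hs, hz']
          exact (Nat.coprime_primes Nat.prime_two hr).mpr (Ne.symm hr2)), hs, hz']
      exact (Nat.Prime.pow_dvd_iff_le_factorization hr hx0).mp (hp r hr hr2 ⟨_, hord⟩)
  have hcdvd : ∀ s : G, orderOf s = 2 →
      Nat.card (Subgroup.centralizer ({s} : Set G)) ∣ charDegree χ.1 := by
    intro s hs
    have hc0 : Nat.card (Subgroup.centralizer ({s} : Set G)) ≠ 0 := Nat.card_pos.ne'
    rw [← Nat.factorization_le_iff_dvd hc0 hx0]
    intro r
    by_cases hr : r.Prime
    · by_cases hrc : r ∣ Nat.card (Subgroup.centralizer ({s} : Set G))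
      · have h1 := hkey s hs r hr hrc
        have h3 : (Nat.card (Subgroup.centralizer ({s} : Set G))).factorization r
            ≤ (Nat.card G).factorization r :=
          (Nat.factorization_le_iff_dvd hc0 hG0).mpr (Subgroup.card_subgroup_dvd_card _) r
        exact le_trans h3 h1
      · rw [Nat.factorization_eq_zero_of_not_dvd hrc]
        exact Nat.zero_le _
    · rw [Nat.factorization_eq_zero_of_not_prime _ hr]
      exact Nat.zero_le _
  have hclass : ∀ s : G, orderOf s = 2 →
      Finset.univ.filter (fun y : G => IsConj s y)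
        ⊆ Finset.univ.filter (fun g : G => orderOf g = 2) := by
    intro s hs y hy
    simp only [Finset.mem_filter, Finset.mem_univ, true_and] at hy ⊢
    obtain ⟨c, hc⟩ := isConj_iff.mp hy
    rw [← hc]
    have e : c * s * c⁻¹ = MulAut.conj c s := rfl
    rw [e, MulEquiv.orderOf_eq, hs]
  have hceq : ∀ s : G, orderOf s = 2 →
      Nat.card (Subgroup.centralizer ({s} : Set G)) = charDegree χ.1 ∧
      (Subgroup.centralizer ({s} : Set G)).index
        = (Finset.univ.filter (fun g : G => orderOf g = 2)).card := by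
    intro s hs
    have h1 := hcdvd s hs
    have h2' := Finset.card_le_card (hclass s hs)
    rw [card_isConj_eq_index] at h2'
    have h3 := (Subgroup.centralizer ({s} : Set G)).card_mul_index
    have hcle : Nat.card (Subgroup.centralizer ({s} : Set G)) ≤ charDegree χ.1 :=
      Nat.le_of_dvd (Nat.pos_of_ne_zero hx0) h1
    have h4 : Nat.card (Subgroup.centralizer ({s} : Set G))
        * (Subgroup.centralizer ({s} : Set G)).index
        = (Finset.univ.filter (fun g : G => orderOf g = 2)).card * charDegree χ.1 := by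
      rw [h3, hIx]
    have h5 : charDegree χ.1 * (Subgroup.centralizer ({s} : Set G)).index
        ≤ charDegree χ.1 * (Finset.univ.filter (fun g : G => orderOf g = 2)).card :=
      Nat.mul_le_mul_left _ h2'
    have h6 : Nat.card (Subgroup.centralizer ({s} : Set G))
        * (Subgroup.centralizer ({s} : Set G)).index
        ≤ charDegree χ.1 * (Subgroup.centralizer ({s} : Set G)).index :=
      Nat.mul_le_mul_right _ hcle
    have h7 : charDegree χ.1 * (Subgroup.centralizer ({s} : Set G)).index
        = charDegree χ.1 * (Finset.univ.filter (fun g : G => orderOf g = 2)).card := by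
      apply le_antisymm h5
      rw [mul_comm (charDegree χ.1) (Finset.card _), ← h4]
      exact h6
    have h8 : (Subgroup.centralizer ({s} : Set G)).index
        = (Finset.univ.filter (fun g : G => orderOf g = 2)).card :=
      Nat.eq_of_mul_eq_mul_left (Nat.pos_of_ne_zero hx0) h7
    refine ⟨?_, h8⟩
    rw [h8, mul_comm (Finset.card _) (charDegree χ.1)] at h4
    exact Nat.eq_of_mul_eq_mul_right hIpos h4
  refine ⟨?_, ?_, hν⟩
  · intro s t hs ht
    have h1 := hclass s hs
    have h2' : (Finset.univ.filter (fun y : G => IsConj s y)).card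
        = (Finset.univ.filter (fun g : G => orderOf g = 2)).card := by
      rw [card_isConj_eq_index]
      exact (hceq s hs).2
    have h3 := Finset.eq_of_subset_of_card_le h1 (le_of_eq h2'.symm)
    have ht' : t ∈ Finset.univ.filter (fun g : G => orderOf g = 2) := by simp [ht]
    rw [← h3] at ht'
    simpa using ht'
  · intro s hs
    obtain ⟨hc, hidx⟩ := hceq s hs
    refine ⟨hc, ?_⟩
    rw [hc, hidx]
    apply Nat.coprime_of_dvd
    intro r hr hrx hrI
    have h1 := hkey s hs r hr (by rw [hc]; exact hrx)
    have h3 : (Nat.card G).factorization r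
        = (Finset.univ.filter (fun g : G => orderOf g = 2)).card.factorization r
          + (charDegree χ.1).factorization r := by
      rw [← hIx, Nat.factorization_mul hIpos.ne' hx0]
      rfl
    have h4 : 1 ≤ (Finset.univ.filter (fun g : G => orderOf g = 2)).card.factorization r :=
      (Nat.Prime.dvd_iff_one_le_factorization hr hIpos.ne').mp hrI
    omega

end Cfsg.Agent.Lib.helper23
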