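import Mathlib
import Cfsg.Agent.Lib.helper23.PTrunc2
import Cfsg.Agent.Lib.helper23.CharSchur
import Cfsg.Agent.Lib.helper5.BlockInduce
import Cfsg.Agent.Lib.helper5.BlockBrauer2
import Cfsg.Agent.Lib.helper5.BlockDefect2
import Cfsg.Agent.Lib.helper5.BlockHeight
import Cfsg.Agent.Lib.helper5.BlockSecond2

set_option autoImplicit false

/-!
# Characters vanishing on the elements of order `p` have defect zero
-/

namespace Cfsg.Agent.Lib.helper23

open Cfsg Cfsg.Agent.Lib.helper24 Cfsg.Agent.Lib.helper5
open scoped ComplexConjugate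

universe u

section tools

variable {G : Type u} [Group G] [Fintype G] [Fintype (IrrCharacter G)]
variable (H : Subgroup G) [Fintype H] [Fintype (IrrCharacter H)]

theorem brFun_top_coord {F : G → ℂ} (hF : IsClassFunction G F) (ξ : IrrCharacter H) :
    brFun H ⊤ ξ (coord F) = (∑ h : H, F h * ξ.1 h) / ξ.1 1 := by
  have key : ∀ h : H, brTrunc H ⊤ (coord F) h = F h := fun h => by
    rw [brTrunc_of_mem _ (Subgroup.mem_top _), coef_coord _ hF]
  rw [brFun_apply]
  show (∑ h : H, brTrunc H ⊤ (coord F) h * ξ.1 h) / ξ.1 1 = _
  simp only [key]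

end tools

/-- the indicator of the solutions of `g ^ p = 1` -/
noncomputable def powInd (G : Type u) [Group G] (p : ℕ) (g : G) : ℂ :=
  haveI := Classical.dec (g ^ p = 1)
  if g ^ p = 1 then 1 else 0

theorem powInd_isClassFunction (G : Type u) [Group G] (p : ℕ) :
    IsClassFunction G (powInd G p) := by
  intro g h
  unfold powInd
  have e : (h * g * h⁻¹) ^ p = 1 ↔ g ^ p = 1 := by
    rw [conj_pow]
    constructor
    · intro h1
      have h2 : g ^ p = h⁻¹ * (h * g ^ p * h⁻¹) * h := by group
      rw [h2, h1]
      group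
    · intro h1
      rw [h1]
      group
  by_cases hg : g ^ p = 1
  · rw [if_pos hg, if_pos (e.mpr hg)]
  · rw [if_neg hg, if_neg (fun h' => hg (e.mp h'))]

theorem exists_not_trivial_on_central {K : Type u} [Group K] [Fintype K]
    [Fintype (IrrCharacter K)] {p : ℕ} [hp : Fact p.Prime] {M : Ideal AlgInt}
    (hM : IsPModular p M) (ξ₁ : IrrCharacter K) (z : K) (hz : orderOf z = p) :
    ∃ ξ ∈ blockOf M ξ₁.1, ξ.1 z ≠ ξ.1 1 := by
  classical
  have hMp := isPModular_isPrime hM
  by_contra hcon
  push Not at hcon
  have h := block_weak_orth hM ξ₁ 1 z (by rw [orderOf_one]; exact hp.out.not_dvd_one)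
    (by rw [hz])
  rw [finsum_mem_eq_sum_ite] at h
  have h2 : (∑ ξ : IrrCharacter K,
      if ξ ∈ blockOf M ξ₁.1 then ξ.1 1 * conj (ξ.1 z) else 0)
      = ((∑ ξ : IrrCharacter K, if ξ ∈ blockOf M ξ₁.1 then charDegree ξ.1 ^ 2 else 0 : ℕ) : ℂ) := by
    rw [Nat.cast_sum]
    apply Finset.sum_congr rfl
    intro ξ _
    by_cases hξ : ξ ∈ blockOf M ξ₁.1
    · simp only [if_pos hξ]
      rw [hcon ξ hξ, ← charDegree_cast ξ, Complex.conj_natCast]
      push_cast
      ring
    · simp only [if_neg hξ, Nat.cast_zero]
  rw [h2] at h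
  have h3 : (∑ ξ : IrrCharacter K, if ξ ∈ blockOf M ξ₁.1 then charDegree ξ.1 ^ 2 else 0) = 0 := by
    exact_mod_cast h
  have h4 := (Finset.sum_eq_zero_iff.mp h3) ξ₁ (Finset.mem_univ _)
  rw [if_pos (mem_blockOf_self hMp.ne_top ξ₁)] at h4
  exact charDegree_ne_zero' ξ₁ ((pow_eq_zero_iff (two_ne_zero)).mp h4)

theorem defect_zero_of_vanish_order_p {G : Type u} [Group G] [Finite G] (p : ℕ)
    [hp : Fact p.Prime] (χ : IrrCharacter G) (hvan : ∀ g : G, orderOf g = p → χ.1 g = 0) :
    (charDegree χ.1).factorization p = (Nat.card G).factorization p := by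
  classical
  haveI := Fintype.ofFinite G
  haveI := Fintype.ofFinite (IrrCharacter G)
  obtain ⟨M, hM⟩ := exists_isPModular p hp.out
  have hMp := isPModular_isPrime hM
  obtain ⟨c, hc⟩ := exists_defectClass hMp χ
  have hfac := defect_class_factorization hM χ c hc
  by_cases hd : blockDefect p (blockOf M χ.1) = 0
  · have hle := factorization_charDegree_le p χ
    unfold blockDefect at hd
    have h1 := Nat.sub_eq_zero_iff_le.mp hd
    have h2 : sInf ((fun χ : IrrCharacter G => (charDegree χ.1).factorization p)
        '' blockOf M χ.1) ≤ (charDegree χ.1).factorization p :=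
      Nat.sInf_le ⟨χ, mem_blockOf_self hMp.ne_top χ, rfl⟩
    omega
  · exfalso
    have hpdvd : p ∣ Nat.card (Subgroup.centralizer ({c} : Set G)) := by
      apply Nat.dvd_of_factorization_pos
      rw [hfac]
      exact hd
    haveI : Fintype (Subgroup.centralizer ({c} : Set G)) := Fintype.ofFinite _
    rw [Nat.card_eq_fintype_card] at hpdvd
    obtain ⟨z', hz'⟩ := exists_prime_orderOf_dvd_card p hpdvd
    obtain ⟨z, hzc, hzo⟩ : ∃ z : G, z ∈ Subgroup.centralizer ({c} : Set G) ∧ orderOf z = p :=
      ⟨z', z'.2, by rw [Subgroup.orderOf_coe]; exact hz'⟩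
    haveI : Fintype (Subgroup.centralizer ({z} : Set G)) := Fintype.ofFinite _
    haveI : Fintype (IrrCharacter (Subgroup.centralizer ({z} : Set G))) := Fintype.ofFinite _
    have hP : IsPGroup p (Subgroup.zpowers z) := isPGroup_zpowers ⟨1, by rw [hzo, pow_one]⟩
    have hPH : Subgroup.zpowers z ≤ Subgroup.centralizer ({z} : Set G) :=
      Subgroup.zpowers_le.mpr (self_mem_centralizer_singleton z)
    have hCH : Subgroup.centralizer ((Subgroup.zpowers z : Subgroup G) : Set G)
        ≤ Subgroup.centralizer ({z} : Set G) := (centralizer_zpowers_eq z).le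
    have hHN : Subgroup.centralizer ({z} : Set G)
        ≤ Subgroup.normalizer ((Subgroup.zpowers z : Subgroup G) : Set G) :=
      (centralizer_zpowers_eq z).ge.trans (Subgroup.centralizer_le_normalizer _)
    have hcz : c ∈ Subgroup.centralizer ((Subgroup.zpowers z : Subgroup G) : Set G) := by
      rw [centralizer_zpowers_eq, mem_centralizer_singleton_comm]
      exact (mem_centralizer_singleton_comm.mp hzc).symm
    obtain ⟨ξ₁, hind⟩ := exists_isInducedBlock_of_coef (Subgroup.centralizer ({z} : Set G)) hM
      (Subgroup.zpowers z) hP hPH hCH hHN χ c hcz hc.2.1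
    have hzo' : orderOf (⟨z, self_mem_centralizer_singleton z⟩ :
        Subgroup.centralizer ({z} : Set G)) = p := by
      rw [← Subgroup.orderOf_coe]
      exact hzo
    obtain ⟨ξ, hξb, hξz⟩ := exists_not_trivial_on_central hM ξ₁
      (⟨z, self_mem_centralizer_singleton z⟩ : Subgroup.centralizer ({z} : Set G)) hzo'
    have hzcent : (⟨z, self_mem_centralizer_singleton z⟩ : Subgroup.centralizer ({z} : Set G))
        ∈ Subgroup.center (Subgroup.centralizer ({z} : Set G)) := by
      rw [Subgroup.mem_center_iff]
      intro h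
      apply Subtype.ext
      have := mem_centralizer_singleton_comm.mp h.2
      simpa using this.symm
    obtain ⟨lam, hlam, -⟩ := isIrrCharacter_central ξ.2 _ hzcent
    have hlam1 : lam ≠ 1 := by
      intro h1
      apply hξz
      have := hlam 1
      rwa [mul_one, h1, one_mul] at this
    have hS : ∑ h : Subgroup.centralizer ({z} : Set G), powInd G p h * ξ.1 h = 0 := by
      have h1 : ∑ h : Subgroup.centralizer ({z} : Set G), powInd G p h * ξ.1 h
          = lam * ∑ h : Subgroup.centralizer ({z} : Set G), powInd G p h * ξ.1 h := by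
        rw [Finset.mul_sum]
        rw [← Equiv.sum_comp (Equiv.mulLeft
          (⟨z, self_mem_centralizer_singleton z⟩ : Subgroup.centralizer ({z} : Set G)))]
        apply Finset.sum_congr rfl
        intro h _
        rw [Equiv.coe_mulLeft, hlam]
        have e : powInd G p ((⟨z, self_mem_centralizer_singleton z⟩ * h :
            Subgroup.centralizer ({z} : Set G)) : G) = powInd G p (h : G) := by
          unfold powInd
          have hcomm : Commute z (h : G) := (mem_centralizer_singleton_comm.mp h.2)
          have e2 : (z * (h : G)) ^ p = (h : G) ^ p := by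
            rw [hcomm.mul_pow, ← hzo, pow_orderOf_eq_one, one_mul]
          simp only [Subgroup.coe_mul, e2]
        rw [e]
        ring
      have h2 : (1 - lam) * ∑ h : Subgroup.centralizer ({z} : Set G), powInd G p h * ξ.1 h = 0 := by
        rw [sub_mul, one_mul, ← h1, sub_self]
      exact (mul_eq_zero.mp h2).resolve_left (sub_ne_zero.mpr (Ne.symm hlam1))
    have hFR : ∀ g : G, MemLocalRing M (powInd G p g) := by
      intro g
      unfold powInd
      split_ifs
      · exact memLocalRing_one hMp.ne_top
      · exact memLocalRing_zero hMp.ne_top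
    have ha := coord_mem_osimaRing hMp (powInd_isClassFunction G p) hFR
    have hcong := brFun_top_of_induced (Subgroup.centralizer ({z} : Set G)) hMp hind hξb
      (mem_blockOf_self hMp.ne_top χ) ha
    rw [brFun_top_coord _ (powInd_isClassFunction G p), hS, zero_div] at hcong
    have hone : coord (powInd G p) χ = 1 := by
      unfold coord
      have h1 : ∑ g : G, powInd G p g * χ.1 g = χ.1 1 := by
        rw [Finset.sum_eq_single (1 : G)]
        · unfold powInd
          rw [if_pos (one_pow p), one_mul]
        · intro g _ hg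
          unfold powInd
          by_cases hgp : g ^ p = 1
          · rw [if_pos hgp, one_mul]
            apply hvan
            have h3 : orderOf g ∣ p := orderOf_dvd_of_pow_eq_one hgp
            rcases (Nat.dvd_prime hp.out).mp h3 with h4 | h4
            · exact absurd (orderOf_eq_one_iff.mp h4) hg
            · exact h4
          · rw [if_neg hgp, zero_mul]
        · intro h
          exact absurd (Finset.mem_univ _) h
      rw [h1, div_self (irr_one_ne_zero χ)]
    rw [hone, zero_sub] at hcong
    have := memLocalIdeal_neg hcong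
    rw [neg_neg] at this
    exact not_memLocalIdeal_one hMp this

end Cfsg.Agent.Lib.helper23
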