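import Mathlib
import Cfsg.Agent.Lib.helper23.VanishP
import Cfsg.Agent.Lib.helper23.InvolDefect

set_option autoImplicit false

/-!
# Block induction preserves defect zero
-/

namespace Cfsg.Agent.Lib.helper23

open Cfsg Cfsg.Agent.Lib.helper24 Cfsg.Agent.Lib.helper5
open scoped ComplexConjugate

universe u

theorem powInd_memLocalRing {G : Type u} [Group G] (p : ℕ) {M : Ideal AlgInt} (hMp : M.IsPrime)
    (g : G) : MemLocalRing M (powInd G p g) := by
  unfold powInd
  split_ifs
  · exact memLocalRing_one hMp.ne_top
  · exact memLocalRing_zero hMp.ne_top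

/-- positive defect: the coordinate of `powInd` lies in the ideal -/
theorem memLocalIdeal_coord_powInd {G : Type u} [Group G] [Fintype G]
    [Fintype (IrrCharacter G)] (p : ℕ) [hp : Fact p.Prime] {M : Ideal AlgInt}
    (hM : IsPModular p M) (χ : IrrCharacter G)
    (hd : blockDefect p (blockOf M χ.1) ≠ 0) :
    MemLocalIdeal M (coord (powInd G p) χ) := by
  classical
  have hMp := isPModular_isPrime hM
  obtain ⟨c, hc⟩ := exists_defectClass hMp χ
  have hfac := defect_class_factorization hM χ c hc
  have hpdvd : p ∣ Nat.card (Subgroup.centralizer ({c} : Set G)) := by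
    apply Nat.dvd_of_factorization_pos
    rw [hfac]
    exact hd
  haveI : Fintype (Subgroup.centralizer ({c} : Set G)) := Fintype.ofFinite _
  rw [Nat.card_eq_fintype_card] at hpdvd
  obtain ⟨z', hz'⟩ := exists_prime_orderOf_dvd_card p hpdvd
  obtain ⟨z, hzc, hzo⟩ : ∃ z : G, z ∈ Subgroup.centralizer ({c} : Set G) ∧ orderOf z = p :=
    ⟨z', z'.2, by rw [Subgroup.orderOf_coe]; exact hz'⟩
  haveI : Fintype (Subgroup.centralizer ({z} : Set G)) := Fintype.ofFinite _
  haveI : Fintype (IrrCharacter (Subgroup.centralizer ({z} : Set G))) := Fintype.ofFinite _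
  have hP : IsPGroup p (Subgroup.zpowers z) := isPGroup_zpowers ⟨1, by rw [hzo, pow_one]⟩
  have hPH : Subgroup.zpowers z ≤ Subgroup.centralizer ({z} : Set G) :=
    Subgroup.zpowers_le.mpr (self_mem_centralizer_singleton z)
  have hCH : Subgroup.centralizer ((Subgroup.zpowers z : Subgroup G) : Set G)
      ≤ Subgroup.centralizer ({z} : Set G) := (centralizer_zpowers_eq z).le
  have hHN : Subgroup.centralizer ({z} : Set G)
      ≤ Subgroup.normalizer ((Subgroup.zpowers z : Subgroup G) : Set G) :=
    (centralizer_zpowers_eq z).ge.trans (Subgroup.centralizer_le_normalizer _)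
  have hcz : c ∈ Subgroup.centralizer ((Subgroup.zpowers z : Subgroup G) : Set G) := by
    rw [centralizer_zpowers_eq, mem_centralizer_singleton_comm]
    exact (mem_centralizer_singleton_comm.mp hzc).symm
  obtain ⟨ξ₁, hind⟩ := exists_isInducedBlock_of_coef (Subgroup.centralizer ({z} : Set G)) hM
    (Subgroup.zpowers z) hP hPH hCH hHN χ c hcz hc.2.1
  have hzo' : orderOf (⟨z, self_mem_centralizer_singleton z⟩ :
      Subgroup.centralizer ({z} : Set G)) = p := by
    rw [← Subgroup.orderOf_coe]
    exact hzo
  obtain ⟨ξ, hξb, hξz⟩ := exists_not_trivial_on_central hM ξ₁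
    (⟨z, self_mem_centralizer_singleton z⟩ : Subgroup.centralizer ({z} : Set G)) hzo'
  have hzcent : (⟨z, self_mem_centralizer_singleton z⟩ : Subgroup.centralizer ({z} : Set G))
      ∈ Subgroup.center (Subgroup.centralizer ({z} : Set G)) := by
    rw [Subgroup.mem_center_iff]
    intro h
    apply Subtype.ext
    have := mem_centralizer_singleton_comm.mp h.2
    simpa using this.symm
  obtain ⟨lam, hlam, -⟩ := isIrrCharacter_central ξ.2 _ hzcent
  have hlam1 : lam ≠ 1 := by
    intro h1
    apply hξz
    have := hlam 1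
    rwa [mul_one, h1, one_mul] at this
  have hS : ∑ h : Subgroup.centralizer ({z} : Set G), powInd G p h * ξ.1 h = 0 := by
    have h1 : ∑ h : Subgroup.centralizer ({z} : Set G), powInd G p h * ξ.1 h
        = lam * ∑ h : Subgroup.centralizer ({z} : Set G), powInd G p h * ξ.1 h := by
      rw [Finset.mul_sum]
      rw [← Equiv.sum_comp (Equiv.mulLeft
        (⟨z, self_mem_centralizer_singleton z⟩ : Subgroup.centralizer ({z} : Set G)))]
      apply Finset.sum_congr rfl
      intro h _
      rw [Equiv.coe_mulLeft, hlam]
      have e : powInd G p ((⟨z, self_mem_centralizer_singleton z⟩ * h :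
          Subgroup.centralizer ({z} : Set G)) : G) = powInd G p (h : G) := by
        unfold powInd
        have hcomm : Commute z (h : G) := (mem_centralizer_singleton_comm.mp h.2)
        have e2 : (z * (h : G)) ^ p = (h : G) ^ p := by
          rw [hcomm.mul_pow, ← hzo, pow_orderOf_eq_one, one_mul]
        simp only [Subgroup.coe_mul, e2]
      rw [e]
      ring
    have h2 : (1 - lam) * ∑ h : Subgroup.centralizer ({z} : Set G), powInd G p h * ξ.1 h = 0 := by
      rw [sub_mul, one_mul, ← h1, sub_self]
    exact (mul_eq_zero.mp h2).resolve_left (sub_ne_zero.mpr (Ne.symm hlam1))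
  have ha := coord_mem_osimaRing hMp (powInd_isClassFunction G p)
    (fun g => powInd_memLocalRing p hMp g)
  have hcong := brFun_top_of_induced (Subgroup.centralizer ({z} : Set G)) hMp hind hξb
    (mem_blockOf_self hMp.ne_top χ) ha
  rw [brFun_top_coord _ (powInd_isClassFunction G p), hS, zero_div, zero_sub] at hcong
  have := memLocalIdeal_neg hcong
  rwa [neg_neg] at this

/-- defect zero: the coordinate of `powInd` is one -/
theorem coord_powInd_eq_one {G : Type u} [Group G] [Fintype G]
    [Fintype (IrrCharacter G)] (p : ℕ) [hp : Fact p.Prime] {M : Ideal AlgInt}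
    (hM : IsPModular p M) (χ₀ χ : IrrCharacter G) (hχ : χ ∈ blockOf M χ₀.1)
    (hd : blockDefect p (blockOf M χ₀.1) = 0) :
    coord (powInd G p) χ = 1 := by
  classical
  have hMp := isPModular_isPrime hM
  have hle := factorization_charDegree_le p χ
  unfold blockDefect at hd
  have h1 := Nat.sub_eq_zero_iff_le.mp hd
  have h2 : sInf ((fun χ : IrrCharacter G => (charDegree χ.1).factorization p)
      '' blockOf M χ₀.1) ≤ (charDegree χ.1).factorization p :=
    Nat.sInf_le ⟨χ, hχ, rfl⟩
  have hfull : p ^ (Nat.card G).factorization p ∣ charDegree χ.1 := by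
    have h3 : (Nat.card G).factorization p ≤ (charDegree χ.1).factorization p := h1.trans h2
    exact (pow_dvd_pow p h3).trans (Nat.ordProj_dvd _ _)
  unfold coord
  have h1 : ∑ g : G, powInd G p g * χ.1 g = χ.1 1 := by
    rw [Finset.sum_eq_single (1 : G)]
    · unfold powInd
      rw [if_pos (one_pow p), one_mul]
    · intro g _ hg
      unfold powInd
      by_cases hgp : g ^ p = 1
      · rw [if_pos hgp, one_mul]
        apply irr_vanish_of_full_ppart χ p hp.out hfull
        have h3 : orderOf g ∣ p := orderOf_dvd_of_pow_eq_one hgp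
        rcases (Nat.dvd_prime hp.out).mp h3 with h4 | h4
        · exact absurd (orderOf_eq_one_iff.mp h4) hg
        · rw [h4]
      · rw [if_neg hgp, zero_mul]
    · intro h
      exact absurd (Finset.mem_univ _) h
  rw [h1, div_self (irr_one_ne_zero χ)]

theorem induced_defect_zero_iff {G : Type u} [Group G] [Finite G] (p : ℕ) [hp : Fact p.Prime]
    (M : Ideal AlgInt) (hM : IsPModular p M) (H : Subgroup G) (b : Set (IrrCharacter H))
    (B : Set (IrrCharacter G)) (hind : IsInducedBlock M H b B) :
    blockDefect p b = 0 ↔ blockDefect p B = 0 := by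
  classical
  haveI := Fintype.ofFinite G
  haveI := Fintype.ofFinite (IrrCharacter G)
  haveI : Fintype H := Fintype.ofFinite _
  haveI : Fintype (IrrCharacter H) := Fintype.ofFinite _
  have hMp := isPModular_isPrime hM
  obtain ⟨ξ, hb⟩ := hind.1
  obtain ⟨χ, hB⟩ := hind.2.1
  have hξb : ξ ∈ b := by rw [hb]; exact mem_blockOf_self hMp.ne_top ξ
  have hχB : χ ∈ B := by rw [hB]; exact mem_blockOf_self hMp.ne_top χ
  have ha := coord_mem_osimaRing hMp (powInd_isClassFunction G p)
    (fun g => powInd_memLocalRing p hMp g)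
  have hcong := brFun_top_of_induced H hMp hind hξb hχB ha
  rw [brFun_top_coord _ (powInd_isClassFunction G p)] at hcong
  have hco : (∑ h : H, powInd G p h * ξ.1 h) / ξ.1 1 = coord (powInd H p) ξ := by
    unfold coord
    congr 1
    apply Finset.sum_congr rfl
    intro h _
    congr 1
    unfold powInd
    have e : ((h : G) ^ p = 1) ↔ (h ^ p = 1) := by
      rw [← Subgroup.coe_pow, OneMemClass.coe_eq_one]
    by_cases hh : h ^ p = 1
    · rw [if_pos hh, if_pos (e.mpr hh)]
    · rw [if_neg hh, if_neg (fun h' => hh (e.mp h'))]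
  rw [hco] at hcong
  rw [hb, hB]
  constructor
  · intro h0
    by_contra h1
    have e1 := coord_powInd_eq_one p hM ξ ξ (mem_blockOf_self hMp.ne_top ξ) h0
    have e2 := memLocalIdeal_coord_powInd p hM χ h1
    rw [e1] at hcong
    have := memLocalIdeal_add hMp hcong e2
    rw [sub_add_cancel] at this
    exact not_memLocalIdeal_one hMp this
  · intro h0
    by_contra h1
    have e1 := coord_powInd_eq_one p hM χ χ (mem_blockOf_self hMp.ne_top χ) h0
    have e2 := memLocalIdeal_coord_powInd p hM ξ h1
    rw [e1] at hcong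
    have := memLocalIdeal_sub hMp e2 hcong
    rw [sub_sub_cancel] at this
    exact not_memLocalIdeal_one hMp this

end Cfsg.Agent.Lib.helper23
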