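import Mathlib
import Cfsg.Agent.Lib.helper23.InducedHeight

set_option autoImplicit false

namespace Cfsg.Agent.Lib.helper23

open Cfsg Cfsg.Agent.Lib.helper24 Cfsg.Agent.Lib.helper5
open scoped ComplexConjugate

universe u

theorem induced_iff_of_irr_restrict {G : Type u} [Group G] [Finite G] (p : ℕ)
    [hp : Fact p.Prime] (M : Ideal AlgInt) (hM : IsPModular p M) (H : Subgroup G)
    (χ : IrrCharacter G) (hres : IsIrrCharacter H (fun h : H => χ.1 h))
    (hχ0 : blockHeight p (blockOf M χ.1) χ.1 = 0)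
    (hψ0 : blockHeight p (blockOf M (fun h : H => χ.1 h)) (fun h : H => χ.1 h) = 0)
    (e : Set (IrrCharacter H)) (he : InducedBlockDefined M H e) :
    IsInducedBlock M H e (blockOf M χ.1) ↔ e = blockOf M (fun h : H => χ.1 h) := by
  classical
  haveI := Fintype.ofFinite G
  haveI := Fintype.ofFinite H
  haveI := Fintype.ofFinite (IrrCharacter G)
  haveI := Fintype.ofFinite (IrrCharacter H)
  have hMp := isPModular_isPrime hM
  obtain ⟨ψ, hψ⟩ : ∃ ψ : IrrCharacter H, ψ.1 = fun h : H => χ.1 h := ⟨⟨_, hres⟩, rfl⟩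
  rw [← hψ] at hψ0 ⊢
  constructor
  · intro hind
    obtain ⟨ξ, hξe, -, n, hn, hpn⟩ := exists_height_zero_constituent H hM hind χ
      (mem_blockOf_self hMp.ne_top χ) hχ0
    have hne : classInner ψ.1 ξ.1 ≠ 0 := by
      rw [hψ, hn]
      intro h
      have h2 : n = 0 := by exact_mod_cast h
      rw [h2] at hpn
      exact hpn (dvd_zero p)
    have heq : ψ = ξ := irr_eq_of_inner_ne_zero hne
    obtain ⟨ξ₁, rfl⟩ := hind.1
    rw [heq]
    exact (blockOf_eq_of_mem hMp hξe).symm
  · intro heq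
    obtain ⟨B', hind⟩ := he
    obtain ⟨χ₁, hB'⟩ := hind.2.1
    have hψe : ψ ∈ e := by
      rw [heq]; exact mem_blockOf_self hMp.ne_top ψ
    have hχ₁ : χ₁ ∈ B' := by
      rw [hB']; exact mem_blockOf_self hMp.ne_top χ₁
    have hQ : HtPair p ψ ψ := ((height_zero_iff hM (blockOf M ψ.1) ⟨ψ, rfl⟩ ψ
      (mem_blockOf_self hMp.ne_top ψ)).2.mp hψ0) ψ (mem_blockOf_self hMp.ne_top ψ)
    have hW := (htPair_iff hM ψ ψ).mp hQ
    have hc := induced_coord_congr H hM hind hψe hχ₁ χ
    rw [← hψ] at hc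
    have hne : coord (regConj p χ.1) χ₁ ≠ 0 := by
      intro h0
      rw [h0, sub_zero] at hc
      exact hW hc
    have hin : classInner (ptrunc p χ₁.1) χ.1 ≠ 0 := by
      intro h0
      have h := coord_regConj p χ₁ χ
      rw [h0, mul_zero] at h
      rcases mul_eq_zero.mp h with h1 | h1
      · rcases mul_eq_zero.mp h1 with h2 | h2
        · exact hne h2
        · exact irr_one_ne_zero χ₁ h2
      · have hpa : ((p ^ (Nat.card G).factorization p : ℕ) : ℂ) ≠ 0 := by
          exact_mod_cast (pow_pos hp.out.pos _).ne'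
        exact hpa h1
    have hχB : χ ∈ blockOf M χ₁.1 := by
      by_contra hnot
      exact hin (inner_ptrunc_eq_zero_of_not_mem hM χ₁ χ₁ χ (mem_blockOf_self hMp.ne_top χ₁) hnot)
    have hBeq : B' = blockOf M χ.1 := by
      rw [hB']; exact (blockOf_eq_of_mem hMp hχB).symm
    rw [← hBeq]
    exact hind

end Cfsg.Agent.Lib.helper23
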