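import Cfsg.Agent.S4493
import Cfsg.Agent.Lib.helper10.PSolv2
import Cfsg.Agent.Lib.helper20.ClassSize
import Cfsg.Agent.Lib.helper24.CharComplete

set_option autoImplicit false

namespace Cfsg.Agent.Lib.helper23

open Cfsg Cfsg.Agent.Lib.helper24 Cfsg.Agent.Lib.helper22

universe u

theorem all_invariant_of_pprime_degrees {K : Type u} [Group K] [Finite K] (p : ℕ) [hp : Fact p.Prime]
    (M : Subgroup K) [M.Normal] (hidx : ∃ k, M.index = p ^ k)
    (hdeg : ∀ χ : IrrCharacter K, ¬ p ∣ charDegree χ.1) (lam : IrrCharacter M) :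
    conjStab M lam.1 = ⊤ := by
  obtain ⟨k, hk⟩ := hidx
  obtain ⟨χ, hχ⟩ := exists_irr_over M lam.2
  obtain ⟨e, -, he⟩ := clifford_degree M χ lam.2 hχ
  have h1 : ¬ p ∣ (conjStab M lam.1).index := by
    intro h
    apply hdeg χ
    rw [he]
    exact Dvd.dvd.mul_right (Dvd.dvd.mul_left h _) _
  have h2 : M ≤ conjStab M lam.1 := by
    intro x hx
    rw [mem_conjStab]
    exact conjFun_of_mem M (isClassFunction_irr lam) hx
  have h3 : (conjStab M lam.1).index ∣ p ^ k := by
    rw [← hk]
    exact Subgroup.index_dvd_of_le h2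
  obtain ⟨j, -, hj⟩ := (Nat.dvd_prime_pow hp.out).mp h3
  have hj0 : j = 0 := by
    by_contra hne
    apply h1
    rw [hj]
    exact dvd_pow_self p hne
  rw [hj0, pow_zero] at hj
  exact Subgroup.index_eq_one.mp hj

theorem conj_class_stable {K : Type u} [Group K] [Finite K] (M : Subgroup K) [hM : M.Normal]
    (hinv : ∀ lam : IrrCharacter M, conjStab M lam.1 = ⊤) (g : K) (x : M) :
    IsConj (⟨g * x * g⁻¹, hM.conj_mem x x.2 g⟩ : M) x := by
  rw [isConj_iff_irr_eq]
  intro lam
  have h2 : g ∈ conjStab M lam.1 := by rw [hinv lam]; trivial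
  rw [mem_conjStab] at h2
  exact congrFun h2 x

theorem exists_conj_centralized {K : Type u} [Group K] [Finite K] (p : ℕ) [hp : Fact p.Prime]
    (M : Subgroup K) [hM : M.Normal] (hMc : (Nat.card M).Coprime p)
    (hstab : ∀ (g : K) (x : M), IsConj (⟨g * x * g⁻¹, hM.conj_mem x x.2 g⟩ : M) x)
    (P : Subgroup K) (hP : IsPGroup p P) (x : M) :
    ∃ y : M, IsConj y x ∧ ∀ s ∈ P, s * (y : K) = (y : K) * s := by
  classical
  letI act : MulAction P {y : M // IsConj y x} :=
    { smul := fun s y => ⟨⟨(s : K) * (y.1 : K) * (s : K)⁻¹, hM.conj_mem _ y.1.2 _⟩,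
        (hstab (s : K) y.1).trans y.2⟩
      one_smul := fun y => by
        apply Subtype.ext
        apply Subtype.ext
        show ((1 : P) : K) * (y.1 : K) * ((1 : P) : K)⁻¹ = (y.1 : K)
        simp
      mul_smul := fun s t y => by
        apply Subtype.ext
        apply Subtype.ext
        show ((s * t : P) : K) * (y.1 : K) * ((s * t : P) : K)⁻¹
          = (s : K) * ((t : K) * (y.1 : K) * (t : K)⁻¹) * (s : K)⁻¹
        simp only [Subgroup.coe_mul]
        group }
  have hcard : ¬ p ∣ Nat.card {y : M // IsConj y x} := by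
    have h1 : Nat.card {y : M // IsConj y x} = (ConjClasses.mk x).carrier.ncard := by
      rw [← Nat.card_coe_set_eq]
      apply Nat.card_congr
      exact Equiv.subtypeEquivRight (fun y => by
        rw [ConjClasses.mem_carrier_iff_mk_eq, ConjClasses.mk_eq_mk_iff_isConj])
    rw [h1, Cfsg.Agent.Lib.helper20.ncard_carrier_eq_index]
    intro h
    have h2 := dvd_trans h (Subgroup.index_dvd_card _)
    exact (Nat.Prime.coprime_iff_not_dvd hp.out).mp hMc.symm h2
  obtain ⟨y, hy⟩ := hP.nonempty_fixed_point_of_prime_not_dvd_card {y : M // IsConj y x} hcard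
  refine ⟨y.1, y.2, fun s hs => ?_⟩
  have h := hy ⟨s, hs⟩
  have h2 : s * (y.1 : K) * s⁻¹ = (y.1 : K) :=
    congrArg (fun z : {y : M // IsConj y x} => ((z.1 : M) : K)) h
  calc s * (y.1 : K) = s * (y.1 : K) * s⁻¹ * s := by group
    _ = (y.1 : K) * s := by rw [h2]

theorem normal_sylow_of_coprime_normal {K : Type u} [Group K] [Finite K] (p : ℕ)
    [hp : Fact p.Prime] (M : Subgroup K) [hM : M.Normal] (hMc : (Nat.card M).Coprime p)
    (hidx : ∃ k, M.index = p ^ k) (hdeg : ∀ χ : IrrCharacter K, ¬ p ∣ charDegree χ.1)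
    (P : Sylow p K) : (P : Subgroup K).Normal := by
  have hinv := all_invariant_of_pprime_degrees p M hidx hdeg
  have hstab := conj_class_stable M hinv
  have hcent : M ≤ Subgroup.centralizer ((P : Subgroup K) : Set K) := by
    by_contra hcon
    have hne : (Subgroup.centralizer ((P : Subgroup K) : Set K)).subgroupOf M ≠ ⊤ := by
      intro h
      apply hcon
      exact Subgroup.subgroupOf_eq_top.mp h
    obtain ⟨x, hx⟩ := Cfsg.Agent.Lib.helper20.exists_not_conj_mem _ hne
    obtain ⟨y, hy, hys⟩ := exists_conj_centralized p M hMc hstab (P : Subgroup K) P.isPGroup' x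
    obtain ⟨c, hc⟩ := isConj_iff.mp hy.symm
    apply hx c
    rw [hc, Subgroup.mem_subgroupOf, Subgroup.mem_centralizer_iff]
    intro s hs
    exact hys s hs
  obtain ⟨k, hk⟩ := hidx
  have hnorm : Subgroup.normalizer ((P : Subgroup K) : Set K) = ⊤ := by
    have h1 : M ≤ Subgroup.normalizer ((P : Subgroup K) : Set K) :=
      hcent.trans (Subgroup.centralizer_le_normalizer _)
    have h3 : (Subgroup.normalizer ((P : Subgroup K) : Set K)).index ∣ p ^ k := by
      rw [← hk]
      exact Subgroup.index_dvd_of_le h1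
    have h4 : (Subgroup.normalizer ((P : Subgroup K) : Set K)).index ∣ (P : Subgroup K).index :=
      Subgroup.index_dvd_of_le Subgroup.le_normalizer
    obtain ⟨j, -, hj⟩ := (Nat.dvd_prime_pow hp.out).mp h3
    have hj0 : j = 0 := by
      by_contra hne
      apply P.not_dvd_index
      refine dvd_trans ?_ h4
      rw [hj]
      exact dvd_pow_self p hne
    rw [hj0, pow_zero] at hj
    exact Subgroup.index_eq_one.mp hj
  exact Subgroup.normalizer_eq_top_iff.mp hnorm

theorem relIndex_ker_comap {G Q : Type*} [Group G] [Group Q] (f : G →* Q)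
    (hf : Function.Surjective f) (Qb : Subgroup Q) :
    f.ker.relIndex (Qb.comap f) = Nat.card Qb := by
  have h2 : f.ker = (⊥ : Subgroup Q).comap f := (MonoidHom.comap_bot f).symm
  rw [h2, Subgroup.relIndex_comap, Subgroup.relIndex_bot_left,
    Subgroup.map_comap_eq_self_of_surjective hf]

theorem ito_michler_psolvable_aux (p : ℕ) [hp : Fact p.Prime] (n : ℕ) :
    ∀ (G : Type u) [Group G] [Finite G],
    Nat.card G = n → IsPSolvable p G → (∀ χ : IrrCharacter G, ¬ p ∣ charDegree χ.1) →
    ∃ P : Subgroup G, P.Normal ∧ IsPGroup p P ∧ ¬ p ∣ P.index := by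
  induction n using Nat.strong_induction_on with
  | _ n ih =>
    intro G _ _ hn hsolv hdeg
    by_cases htriv : Subsingleton G
    · refine ⟨⊥, inferInstance, IsPGroup.of_bot, ?_⟩
      rw [Subgroup.index_bot, Nat.card_unique]
      exact fun h => hp.out.one_lt.ne' (Nat.dvd_one.mp h)
    rw [not_subsingleton_iff_nontrivial] at htriv
    obtain ⟨M, hMn, hMne, hMcase⟩ := Cfsg.Agent.Lib.helper10.exists_normal_of_pSolvable hsolv
    have hQcard : Nat.card (G ⧸ M) < n := by
      rw [← hn, ← Subgroup.card_mul_index M]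
      have h1 : 1 < Nat.card M := by
        rw [Subgroup.one_lt_card_iff_ne_bot]
        exact hMne
      have h2 : 0 < M.index := Nat.pos_of_ne_zero Subgroup.index_ne_zero_of_finite
      have h3 : Nat.card (G ⧸ M) = M.index := rfl
      rw [h3]
      nlinarith
    obtain ⟨Qb, hQbn, hQbp, hQbi⟩ := ih _ hQcard (G ⧸ M) rfl
      (Cfsg.Agent.Lib.helper10.pSolvable_quotient hsolv M) (by
      intro ψ
      rw [← charDegree_irrInfl M ψ]
      exact hdeg _)
    let K : Subgroup G := Qb.comap (QuotientGroup.mk' M)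
    have hKn : K.Normal := Subgroup.Normal.comap hQbn _
    have hKidx : K.index = Qb.index :=
      Subgroup.index_comap_of_surjective _ (QuotientGroup.mk'_surjective M)
    rcases hMcase with hMp | hMc
    · refine ⟨K, hKn, ?_, ?_⟩
      · apply IsPGroup.comap_of_ker_isPGroup hQbp
        rw [QuotientGroup.ker_mk']
        exact hMp
      · rw [hKidx]; exact hQbi
    · have hMK : M ≤ K := by
        intro x hx
        show QuotientGroup.mk' M x ∈ Qb
        rw [QuotientGroup.mk'_apply, (QuotientGroup.eq_one_iff x).mpr hx]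
        exact Qb.one_mem
      have hMc' : (Nat.card (M.subgroupOf K)).Coprime p := by
        rw [Nat.card_congr (Subgroup.subgroupOfEquivOfLe hMK).toEquiv]
        exact hMc
      have hidx' : ∃ k, (M.subgroupOf K).index = p ^ k := by
        have h1 : (M.subgroupOf K).index = Nat.card Qb := by
          have h2 := relIndex_ker_comap (QuotientGroup.mk' M) (QuotientGroup.mk'_surjective M) Qb
          rw [QuotientGroup.ker_mk'] at h2
          exact h2
        rw [h1]
        exact IsPGroup.iff_card.mp hQbp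
      obtain ⟨S⟩ : Nonempty (Sylow p K) := inferInstance
      have hSn : (S : Subgroup K).Normal :=
        normal_sylow_of_coprime_normal p (M.subgroupOf K) hMc' hidx'
          (Cfsg.Agent.S4493.degrees_of_normal p K hdeg) S
      have hchar : (S : Subgroup K).Characteristic := Sylow.characteristic_of_normal S hSn
      refine ⟨(S : Subgroup K).map K.subtype, inferInstance, S.isPGroup'.map K.subtype, ?_⟩
      rw [Subgroup.index_map_subtype, hKidx]
      exact fun h => (hp.out.dvd_mul.mp h).elim S.not_dvd_index hQbi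

theorem ito_michler_psolvable {G : Type u} [Group G] [Finite G] (p : ℕ) [hp : Fact p.Prime]
    (hsolv : IsPSolvable p G) (P : Sylow p G) :
    ((P : Subgroup G).Normal ∧ IsMulCommutative P) ↔
      ∀ χ : IrrCharacter G, ¬ p ∣ charDegree χ.1 := by
  constructor
  · rintro ⟨hPn, hab⟩ χ
    refine Cfsg.Agent.S4493.forward p (P : Subgroup G) ?_ P.not_dvd_index χ
    intro x hx y hy
    have := hab.is_comm.comm (⟨x, hx⟩ : P) ⟨y, hy⟩
    exact congrArg Subtype.val this
  · intro hdeg
    obtain ⟨P', hPn, hPp, hPi⟩ := ito_michler_psolvable_aux p _ G rfl hsolv hdeg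
    let S' : Sylow p G := hPp.toSylow hPi
    have hS' : (S' : Subgroup G) = P' := rfl
    have hSn : (S' : Subgroup G).Normal := hS' ▸ hPn
    have hU := Sylow.unique_of_normal S' hSn
    have hPS : P = S' := (hU.uniq P).trans (hU.uniq S').symm
    have hPnorm : (P : Subgroup G).Normal := hPS ▸ hSn
    refine ⟨hPnorm, ?_⟩
    have hlin : ∀ θ : IrrCharacter (P : Subgroup G), charDegree θ.1 = 1 := by
      intro θ
      have h1 := Cfsg.Agent.S4493.degrees_of_normal p (P : Subgroup G) hdeg θ
      have h2 := charDegree_dvd_card θ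
      obtain ⟨k, hk⟩ := IsPGroup.iff_card.mp P.isPGroup'
      rw [hk] at h2
      obtain ⟨j, -, hj⟩ := (Nat.dvd_prime_pow hp.out).mp h2
      have hj0 : j = 0 := by
        by_contra hne
        apply h1
        rw [hj]
        exact dvd_pow_self p hne
      rw [hj, hj0, pow_zero]
    have hc := comm_of_all_linear hlin
    exact ⟨⟨fun a b => hc a b⟩⟩

end Cfsg.Agent.Lib.helper23
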