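import Mathlib
import Cfsg.Agent.Lib.helper23.BrauerFeit
import Cfsg.Agent.Lib.helper23.Cyclo

set_option autoImplicit false

/-!
# The number of `p`-conjugates of an irreducible character
-/

namespace Cfsg.Agent.Lib.helper23

open Cfsg Cfsg.Agent.Lib.helper24
open scoped ComplexConjugate

universe u

/-- a ring automorphism of `ℂ` fixing `ζ` fixes `ℚ(ζ)` -/
theorem ringEquiv_fixes_adjoin (σ : ℂ ≃+* ℂ) (ζ : ℂ) (hζ : σ ζ = ζ) (x : ℂ)
    (hx : x ∈ IntermediateField.adjoin ℚ ({ζ} : Set ℂ)) : σ x = x := by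
  induction hx using IntermediateField.adjoin_induction with
  | mem y hy =>
    rw [Set.mem_singleton_iff] at hy
    rw [hy, hζ]
  | algebraMap q =>
    rw [eq_ratCast, map_ratCast]
  | add a b _ _ ha hb => rw [map_add, ha, hb]
  | inv a _ ha => rw [map_inv₀, ha]
  | mul a b _ _ ha hb => rw [map_mul, ha, hb]

section pconj

variable {G : Type u} [Group G] [Fintype G]

theorem pconj_count_bound (p : ℕ) [hp : Fact p.Prime] (χ : IrrCharacter G)
    (O : Finset (IrrCharacter G)) (hχO : χ ∈ O)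
    (hO : ∀ ξ ∈ O, ∃ σ : ℂ ≃+* ℂ,
      σ (Complex.exp (2 * Real.pi * Complex.I
          / ((Nat.card G / p ^ (Nat.card G).factorization p : ℕ) : ℂ)))
        = Complex.exp (2 * Real.pi * Complex.I
          / ((Nat.card G / p ^ (Nat.card G).factorization p : ℕ) : ℂ))
      ∧ ξ.1 = fun g => σ (χ.1 g)) :
    (O.card * charDegree χ.1).factorization p ≤ (Nat.card G).factorization p ∧
      (p ^ (Nat.card G).factorization p ∣ O.card * charDegree χ.1 →
        p ^ (Nat.card G).factorization p ∣ charDegree χ.1) := by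
  classical
  haveI : Fintype (IrrCharacter G) := Fintype.ofFinite _
  have hpp := hp.out
  obtain ⟨a, ha⟩ : ∃ a, a = (Nat.card G).factorization p := ⟨_, rfl⟩
  rw [← ha]
  have hGpos : 0 < Nat.card G := Nat.card_pos
  have hg'ne : Nat.card G / p ^ (Nat.card G).factorization p ≠ 0 := by
    have h1 := Nat.ordProj_dvd (Nat.card G) p
    exact (Nat.div_pos (Nat.le_of_dvd hGpos h1) (pow_pos hpp.pos _)).ne'
  -- agreement on p-regular elements
  have hreg : ∀ ξ ∈ O, ∀ g : G, ¬ p ∣ orderOf g → ξ.1 g = χ.1 g := by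
    intro ξ hξ g hg
    obtain ⟨σ, hσ, hξσ⟩ := hO ξ hξ
    rw [hξσ]
    exact ringEquiv_fixes_adjoin σ _ hσ _
      (isCharacter_mem_adjoin (isCharacter_irr χ) _ hg'ne g (pow_pprime_part_eq_one p g hg))
  obtain ⟨Ψ, hΨ⟩ : ∃ Ψ : G → ℂ, Ψ = ∑ ξ ∈ O, ξ.1 := ⟨_, rfl⟩
  have hΨapp : ∀ g, Ψ g = ∑ ξ ∈ O, ξ.1 g := by
    intro g
    rw [hΨ, Finset.sum_apply]
  have hΨreg : ∀ g, ¬ p ∣ orderOf g → Ψ g = (O.card : ℂ) * χ.1 g := by
    intro g hg
    rw [hΨapp, Finset.sum_congr rfl (fun ξ hξ => hreg ξ hξ g hg), Finset.sum_const,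
      nsmul_eq_mul]
  obtain ⟨r, hr⟩ : ∃ r : ℕ, r = O.card := ⟨_, rfl⟩
  rw [← hr] at hΨreg ⊢
  have hr0 : 0 < r := by
    rw [hr]
    exact Finset.card_pos.mpr ⟨χ, hχO⟩
  -- the norm of Ψ
  have hinner : classInner Ψ Ψ = (r : ℂ) := by
    rw [hΨ, classInner_sum_left]
    have h1 : ∀ ξ ∈ O, classInner ξ.1 (∑ ξ' ∈ O, ξ'.1) = 1 := by
      intro ξ hξ
      rw [classInner_sum_right]
      rw [Finset.sum_congr rfl (fun ξ' _ => irr_orthonormal ξ ξ')]
      rw [Finset.sum_ite_eq O ξ, if_pos hξ]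
    rw [Finset.sum_congr rfl h1, Finset.sum_const, nsmul_eq_mul, mul_one, hr]
  have hall : ∑ g : G, Complex.normSq (Ψ g) = (Nat.card G : ℝ) * r := by
    have h1 := sum_mul_conj_eq_classInner Ψ Ψ
    rw [hinner] at h1
    have h2 : ∑ g : G, Ψ g * conj (Ψ g) = ((∑ g : G, Complex.normSq (Ψ g) : ℝ) : ℂ) := by
      push_cast
      exact Finset.sum_congr rfl (fun g _ => Complex.mul_conj _)
    rw [h2] at h1
    exact_mod_cast h1
  -- the p-regular part
  obtain ⟨m, hm⟩ : ∃ m : ℤ, m = nInt p χ χ := ⟨_, rfl⟩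
  have hspec : classInner (ptrunc p χ.1) χ.1 = (m : ℂ) := by
    rw [hm]
    exact nInt_spec p χ χ
  obtain ⟨hm0, -, -⟩ := nInt_self_bounds p χ
  rw [← hm] at hm0
  have hmdvd := pow_dvd_inner_ptrunc p χ χ m hspec
  have hcm := card_mul_inner_ptrunc p χ.1 χ.1
  rw [hspec, ← ha] at hcm
  obtain ⟨T, hT⟩ : ∃ T : ℝ, T = ∑ g : G, if p ∣ orderOf g then 0 else Complex.normSq (χ.1 g) :=
    ⟨_, rfl⟩
  have hT' : (Nat.card G : ℝ) * m = (p : ℝ) ^ a * T := by
    have h2 : (∑ g : G, if p ∣ orderOf g then (0 : ℂ) else χ.1 g * conj (χ.1 g))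
        = ((T : ℝ) : ℂ) := by
      rw [hT]
      push_cast
      apply Finset.sum_congr rfl
      intro g _
      split_ifs
      · rfl
      · exact Complex.mul_conj _
    rw [h2] at hcm
    exact_mod_cast hcm
  have hregsum : ∑ g : G, (if p ∣ orderOf g then 0 else Complex.normSq (Ψ g))
      = (r : ℝ) ^ 2 * T := by
    rw [hT, Finset.mul_sum]
    apply Finset.sum_congr rfl
    intro g _
    split_ifs with hg
    · rw [mul_zero]
    · rw [hΨreg g hg, Complex.normSq_mul, Complex.normSq_natCast]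
      ring
  have hle : (r : ℝ) ^ 2 * T ≤ (Nat.card G : ℝ) * r := by
    rw [← hregsum, ← hall]
    apply Finset.sum_le_sum
    intro g _
    split_ifs
    · exact Complex.normSq_nonneg _
    · exact le_refl _
  have hGR : (0 : ℝ) < Nat.card G := by exact_mod_cast hGpos
  have hrR : (0 : ℝ) < r := by exact_mod_cast hr0
  have hpR : (0 : ℝ) < (p : ℝ) ^ a := pow_pos (by exact_mod_cast hpp.pos) _
  -- r * m ≤ p ^ a
  have hrm : (r : ℝ) * m ≤ (p : ℝ) ^ a := by
    have h1 : (r : ℝ) ^ 2 * ((p : ℝ) ^ a * T) ≤ (p : ℝ) ^ a * ((Nat.card G : ℝ) * r) := by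
      nlinarith [hle, hpR]
    rw [← hT'] at h1
    have h2 : ((Nat.card G : ℝ) * r) * ((r : ℝ) * m) ≤ ((Nat.card G : ℝ) * r) * (p : ℝ) ^ a := by
      nlinarith [h1]
    exact le_of_mul_le_mul_left h2 (mul_pos hGR hrR)
  have hrmZ : (r : ℤ) * m ≤ (p : ℤ) ^ a := by exact_mod_cast hrm
  obtain ⟨ν, hν⟩ : ∃ ν, ν = (charDegree χ.1).factorization p := ⟨_, rfl⟩
  rw [← hν] at hmdvd
  obtain ⟨m', hm'⟩ := hmdvd
  have hm'pos : 0 < m' := by
    by_contra h
    push Not at h
    have : m ≤ 0 := by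
      rw [hm']
      exact mul_nonpos_of_nonneg_of_nonpos (pow_nonneg (by exact_mod_cast hpp.pos.le) _) h
    omega
  have hd0 : charDegree χ.1 ≠ 0 := (charDegree_pos χ).ne'
  have hkey : r * p ^ ν ≤ p ^ a := by
    have h1 : (r : ℤ) * (p : ℤ) ^ ν ≤ (r : ℤ) * m := by
      rw [hm']
      have : (p : ℤ) ^ ν * 1 ≤ (p : ℤ) ^ ν * m' :=
        mul_le_mul_of_nonneg_left (by omega) (pow_nonneg (by exact_mod_cast hpp.pos.le) _)
      rw [mul_one] at this
      exact mul_le_mul_of_nonneg_left this (by exact_mod_cast hr0.le)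
    have h2 : ((r * p ^ ν : ℕ) : ℤ) ≤ ((p ^ a : ℕ) : ℤ) := by
      push_cast
      exact h1.trans hrmZ
    exact_mod_cast h2
  constructor
  · rw [Nat.factorization_mul hr0.ne' hd0, Finsupp.add_apply, ← hν]
    have h1 : p ^ r.factorization p ≤ r := Nat.le_of_dvd hr0 (Nat.ordProj_dvd r p)
    have h2 : p ^ (r.factorization p + ν) ≤ p ^ a := by
      rw [pow_add]
      exact (Nat.mul_le_mul_right _ h1).trans hkey
    exact (Nat.pow_le_pow_iff_right hpp.one_lt).mp h2
  · intro hdvd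
    -- r * p ^ ν = p ^ a and m' = 1
    obtain ⟨c, hc⟩ := Nat.ordProj_dvd (charDegree χ.1) p
    rw [← hν] at hc
    have hcop : ¬ p ∣ c := by
      intro hpc
      have h1 : p ^ (ν + 1) ∣ charDegree χ.1 := by
        rw [hc, pow_succ]
        exact Nat.mul_dvd_mul_left _ hpc
      have h2 := (hpp.pow_dvd_iff_le_factorization hd0).mp h1
      omega
    have hνa : ν ≤ a := by
      have h1 : p ^ ν ≤ p ^ a := le_trans (Nat.le_mul_of_pos_left _ hr0) hkey
      exact (Nat.pow_le_pow_iff_right hpp.one_lt).mp h1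
    have h3 : p ^ (a - ν) ∣ r := by
      have h4 : p ^ ν * p ^ (a - ν) ∣ p ^ ν * (r * c) := by
        rw [← pow_add, Nat.add_sub_cancel' hνa]
        have : p ^ ν * (r * c) = r * charDegree χ.1 := by rw [hc]; ring
        rw [this]
        exact hdvd
      have h5 : p ^ (a - ν) ∣ r * c := Nat.dvd_of_mul_dvd_mul_left (pow_pos hpp.pos _) h4
      exact (Nat.Coprime.pow_left _ ((Nat.Prime.coprime_iff_not_dvd hpp).mpr hcop)).dvd_of_dvd_mul_right h5
    have h6 : p ^ a ≤ r * p ^ ν := by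
      have h7 : p ^ (a - ν) ≤ r := Nat.le_of_dvd hr0 h3
      calc p ^ a = p ^ (a - ν) * p ^ ν := by rw [← pow_add, Nat.sub_add_cancel hνa]
        _ ≤ r * p ^ ν := Nat.mul_le_mul_right _ h7
    have hrp : r * p ^ ν = p ^ a := le_antisymm hkey h6
    have hm'1 : m' = 1 := by
      by_contra hne
      have h8 : 2 ≤ m' := by omega
      have h9 : (r : ℤ) * ((p : ℤ) ^ ν * 2) ≤ (r : ℤ) * m := by
        rw [hm']
        exact mul_le_mul_of_nonneg_left
          (mul_le_mul_of_nonneg_left h8 (pow_nonneg (by exact_mod_cast hpp.pos.le) _))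
          (by exact_mod_cast hr0.le)
      have h10 : ((r * p ^ ν : ℕ) : ℤ) = ((p ^ a : ℕ) : ℤ) := by rw [hrp]
      push_cast at h10
      have h11 : (0 : ℤ) < (p : ℤ) ^ a := pow_pos (by exact_mod_cast hpp.pos) _
      nlinarith [h9, hrmZ, h10, h11]
    have hrmeq : (r : ℝ) * m = (p : ℝ) ^ a := by
      have h10 : ((r * p ^ ν : ℕ) : ℝ) = ((p ^ a : ℕ) : ℝ) := by rw [hrp]
      push_cast at h10
      rw [hm', hm'1]
      push_cast
      rw [mul_one]
      exact h10
    -- equality: Ψ vanishes on the p-singular elements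
    have heq : ∑ g : G, (if p ∣ orderOf g then 0 else Complex.normSq (Ψ g))
        = ∑ g : G, Complex.normSq (Ψ g) := by
      rw [hregsum, hall]
      have h12 : (p : ℝ) ^ a * ((r : ℝ) ^ 2 * T) = (p : ℝ) ^ a * ((Nat.card G : ℝ) * r) := by
        calc (p : ℝ) ^ a * ((r : ℝ) ^ 2 * T) = (r : ℝ) ^ 2 * ((p : ℝ) ^ a * T) := by ring
          _ = (r : ℝ) ^ 2 * ((Nat.card G : ℝ) * m) := by rw [hT']
          _ = ((Nat.card G : ℝ) * r) * ((r : ℝ) * m) := by ring
          _ = ((Nat.card G : ℝ) * r) * (p : ℝ) ^ a := by rw [hrmeq]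
          _ = (p : ℝ) ^ a * ((Nat.card G : ℝ) * r) := by ring
      exact mul_left_cancel₀ hpR.ne' h12
    have hvan : ∀ g : G, p ∣ orderOf g → Ψ g = 0 := by
      intro g hg
      have h13 : ∑ g : G, (Complex.normSq (Ψ g)
          - (if p ∣ orderOf g then 0 else Complex.normSq (Ψ g))) = 0 := by
        rw [Finset.sum_sub_distrib, heq, sub_self]
      have h14 := (Finset.sum_eq_zero_iff_of_nonneg (fun g _ => by
        split_ifs
        · rw [sub_zero]; exact Complex.normSq_nonneg _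
        · rw [sub_self])).mp h13 g (Finset.mem_univ g)
      rw [if_pos hg, sub_zero] at h14
      exact Complex.normSq_eq_zero.mp h14
    -- restriction to a Sylow subgroup
    obtain ⟨P⟩ : Nonempty (Sylow p G) := inferInstance
    haveI : Fintype (P : Subgroup G) := Fintype.ofFinite _
    have hPcard : Nat.card (P : Subgroup G) = p ^ a := by
      rw [ha]
      exact P.card_eq_multiplicity
    obtain ⟨n, hn⟩ := isCharacter_inner_nat
      (Cfsg.Agent.Lib.helper24.isCharacter_restrict (P : Subgroup G) (isCharacter_irr χ))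
      (isCharacter_trivial (G := (P : Subgroup G)))
    have hsumχ : ∑ x : (P : Subgroup G), χ.1 x = ((p ^ a : ℕ) : ℂ) * n := by
      rw [← hn, ← hPcard]
      unfold classInner
      rw [← mul_assoc, mul_inv_cancel₀ (by exact_mod_cast Nat.card_pos.ne'), one_mul]
      simp only [map_one, mul_one]
    have hsumξ : ∀ ξ ∈ O, ∑ x : (P : Subgroup G), ξ.1 x = ((p ^ a : ℕ) : ℂ) * n := by
      intro ξ hξ
      obtain ⟨σ, -, hξσ⟩ := hO ξ hξ
      rw [hξσ]
      show ∑ x : (P : Subgroup G), σ (χ.1 x) = _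
      rw [← map_sum, hsumχ, map_mul, map_natCast, map_natCast]
    have hsumΨ : ∑ x : (P : Subgroup G), Ψ x = (r : ℂ) * (((p ^ a : ℕ) : ℂ) * n) := by
      rw [Finset.sum_congr rfl (fun (x : (P : Subgroup G)) _ => hΨapp (x : G)), Finset.sum_comm,
        Finset.sum_congr rfl hsumξ, Finset.sum_const, nsmul_eq_mul, hr]
    have hΨP : ∑ x : (P : Subgroup G), Ψ x = Ψ 1 := by
      rw [Finset.sum_eq_single (1 : (P : Subgroup G))]
      · rfl
      · intro x _ hx
        apply hvan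
        obtain ⟨k, hk⟩ := P.isPGroup' x
        have hk' : (x : G) ^ p ^ k = 1 := by
          rw [← Subgroup.coe_pow, hk]
          rfl
        obtain ⟨j, -, hj⟩ := (Nat.dvd_prime_pow hpp).mp (orderOf_dvd_of_pow_eq_one hk')
        have hj0 : j ≠ 0 := by
          rintro rfl
          rw [pow_zero, orderOf_eq_one_iff] at hj
          exact hx (Subtype.ext hj)
        rw [hj]
        exact dvd_pow_self p hj0
      · intro h
        exact absurd (Finset.mem_univ _) h
    have hΨ1 : Ψ 1 = (r : ℂ) * χ.1 1 := hΨreg 1 (by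
      rw [orderOf_one]
      exact hpp.not_dvd_one)
    rw [hΨP, hΨ1] at hsumΨ
    have hrC : (r : ℂ) ≠ 0 := by exact_mod_cast hr0.ne'
    have h15 : χ.1 1 = ((p ^ a : ℕ) : ℂ) * n := mul_left_cancel₀ hrC hsumΨ
    rw [← charDegree_cast] at h15
    have h16 : charDegree χ.1 = p ^ a * n := by exact_mod_cast h15
    exact ⟨n, h16⟩

end pconj

end Cfsg.Agent.Lib.helper23
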