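import Mathlib
import Cfsg.Agent.Lib.helper23.PTruncHeight

set_option autoImplicit false

namespace Cfsg.Agent.Lib.helper23

open Cfsg Cfsg.Agent.Lib.helper24 Cfsg.Agent.Lib.helper5
open scoped ComplexConjugate

universe u

variable {G : Type u} [Group G] [Fintype G]

theorem pow_defect_pRegularPart_comb {p : ℕ} [hp : Fact p.Prime] {M : Ideal AlgInt}
    (hM : IsPModular p M) (B : Set (IrrCharacter G)) (hB : IsPBlock M B) (χ : G → ℂ)
    (hχ : ∃ n : IrrCharacter G → ℤ, ∀ g : G, χ g = ∑ᶠ ψ ∈ B, (n ψ : ℂ) * ψ.1 g) :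
    ∃ n : IrrCharacter G → ℤ, ∀ g : G,
      (p ^ blockDefect p B : ℂ) * pRegularPart p χ g = ∑ᶠ ψ ∈ B, (n ψ : ℂ) * ψ.1 g := by
  classical
  haveI := Fintype.ofFinite (IrrCharacter G)
  obtain ⟨χ₀, rfl⟩ := hB
  obtain ⟨n, hn⟩ := hχ
  choose N hN using fun (ψ ξ : IrrCharacter G) => exists_int_inner_ptrunc p (isCharacter_irr ψ) ξ
  choose k hk using fun (ψ ξ : IrrCharacter G) => pow_dvd_inner_ptrunc p ψ ξ (N ψ ξ) (hN ψ ξ)
  have hp0 : (p : ℂ) ≠ 0 := by exact_mod_cast hp.out.ne_zero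
  have hpz : (p : ℤ) ≠ 0 := by exact_mod_cast hp.out.ne_zero
  obtain ⟨a, ha⟩ : ∃ a : ℕ, a = (Nat.card G).factorization p := ⟨_, rfl⟩
  obtain ⟨d, hd⟩ : ∃ d : ℕ, d = blockDefect p (blockOf M χ₀.1) := ⟨_, rfl⟩
  rw [← hd]
  have hzero : ∀ ψ ∈ blockOf M χ₀.1, ∀ ξ ∉ blockOf M χ₀.1, k ψ ξ = 0 := by
    intro ψ hψ ξ hξ
    have h := inner_ptrunc_eq_zero_of_not_mem hM χ₀ ψ ξ hψ hξ
    rw [hN] at h
    have h0 : N ψ ξ = 0 := by exact_mod_cast h
    rw [hk] at h0
    exact (mul_eq_zero.mp h0).resolve_left (pow_ne_zero _ hpz)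
  have hexp : ∀ ψ ∈ blockOf M χ₀.1, a ≤ d + (charDegree ψ.1).factorization p := by
    intro ψ hψ
    rw [hd, ha]
    unfold blockDefect
    have h1 : sInf ((fun χ : IrrCharacter G => (charDegree χ.1).factorization p) '' blockOf M χ₀.1)
        ≤ (charDegree ψ.1).factorization p := Nat.sInf_le ⟨ψ, hψ, rfl⟩
    omega
  have hkey : ∀ ψ ∈ blockOf M χ₀.1, ∀ g : G, (p : ℂ) ^ d * pRegularPart p ψ.1 g
      = ∑ ξ : IrrCharacter G,
        ((((p : ℤ) ^ (d + (charDegree ψ.1).factorization p - a) * k ψ ξ : ℤ) : ℂ)) * ξ.1 g := by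
    intro ψ hψ g
    have h := ptrunc_expansion p ψ g
    simp only [hN, hk] at h
    have h2 : ptrunc p ψ.1 g = (p : ℂ) ^ a * pRegularPart p ψ.1 g := by
      rw [pRegularPart_apply, ha]
      unfold ptrunc IsPRegular
      by_cases hg : p ∣ orderOf g
      · simp [hg]
      · simp [hg]
    have hpa : (p : ℂ) ^ a ≠ 0 := pow_ne_zero _ hp0
    apply mul_left_cancel₀ hpa
    rw [Finset.mul_sum]
    have hpow : (p : ℂ) ^ d * (p : ℂ) ^ (charDegree ψ.1).factorization p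
        = (p : ℂ) ^ a * (p : ℂ) ^ (d + (charDegree ψ.1).factorization p - a) := by
      rw [← pow_add, ← pow_add]
      congr 1
      have := hexp ψ hψ
      omega
    calc (p : ℂ) ^ a * ((p : ℂ) ^ d * pRegularPart p ψ.1 g)
        = (p : ℂ) ^ d * ptrunc p ψ.1 g := by rw [h2]; ring
      _ = ∑ ξ : IrrCharacter G, (p : ℂ) ^ d
            * ((((p : ℤ) ^ (charDegree ψ.1).factorization p * k ψ ξ : ℤ) : ℂ) * ξ.1 g) := by
          rw [h, Finset.mul_sum]
      _ = ∑ ξ : IrrCharacter G, (p : ℂ) ^ a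
            * ((((p : ℤ) ^ (d + (charDegree ψ.1).factorization p - a) * k ψ ξ : ℤ) : ℂ)
              * ξ.1 g) := by
          apply Finset.sum_congr rfl
          intro ξ _
          push_cast
          linear_combination (k ψ ξ : ℂ) * ξ.1 g * hpow
  refine ⟨fun ξ => ∑ ψ : IrrCharacter G, if ψ ∈ blockOf M χ₀.1
    then n ψ * ((p : ℤ) ^ (d + (charDegree ψ.1).factorization p - a) * k ψ ξ) else 0, ?_⟩
  intro g
  rw [finsum_mem_eq_sum_ite]
  have hlin : pRegularPart p χ g = ∑ ψ : IrrCharacter G,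
      if ψ ∈ blockOf M χ₀.1 then (n ψ : ℂ) * pRegularPart p ψ.1 g else 0 := by
    rw [pRegularPart_apply]
    by_cases hg : IsPRegular p g
    · rw [if_pos hg, hn g, finsum_mem_eq_sum_ite]
      apply Finset.sum_congr rfl
      intro ψ _
      rw [pRegularPart_apply, if_pos hg]
    · rw [if_neg hg]
      symm
      apply Finset.sum_eq_zero
      intro ψ _
      rw [pRegularPart_apply, if_neg hg]
      simp
  rw [hlin, Finset.mul_sum]
  have h1 : ∀ ψ : IrrCharacter G,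
      (p : ℂ) ^ d * (if ψ ∈ blockOf M χ₀.1 then (n ψ : ℂ) * pRegularPart p ψ.1 g else 0)
      = ∑ ξ : IrrCharacter G, if ξ ∈ blockOf M χ₀.1 then
          (((if ψ ∈ blockOf M χ₀.1
            then n ψ * ((p : ℤ) ^ (d + (charDegree ψ.1).factorization p - a) * k ψ ξ)
            else 0 : ℤ) : ℂ)) * ξ.1 g else 0 := by
    intro ψ
    by_cases hψ : ψ ∈ blockOf M χ₀.1
    · simp only [if_pos hψ]
      rw [mul_left_comm, hkey ψ hψ g, Finset.mul_sum]
      apply Finset.sum_congr rfl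
      intro ξ _
      by_cases hξ : ξ ∈ blockOf M χ₀.1
      · rw [if_pos hξ]
        push_cast
        ring
      · rw [if_neg hξ, hzero ψ hψ ξ hξ]
        simp
    · simp [hψ]
  rw [Finset.sum_congr rfl (fun ψ _ => h1 ψ), Finset.sum_comm]
  apply Finset.sum_congr rfl
  intro ξ _
  by_cases hξ : ξ ∈ blockOf M χ₀.1
  · simp only [if_pos hξ]
    rw [← Finset.sum_mul]
    congr 1
    rw [Int.cast_sum]
  · simp [hξ]

end Cfsg.Agent.Lib.helper23
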