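import Mathlib
import Cfsg.Prelude.Def_Perm

set_option autoImplicit false

namespace Cfsg.Agent.Lib.helper23

open MulAction

/-- The linear map sending a function on the orbits of `G` on `Ω₁ × Ω₂` to the corresponding
"orbital matrix" acting from `Ω₁ → K` to `Ω₂ → K`. -/
noncomputable def orbMap (K : Type*) [Field K] (G : Type*) [Group G] (Ω₁ Ω₂ : Type*)
    [Fintype Ω₁] [Fintype Ω₂] [MulAction G Ω₁] [MulAction G Ω₂] :
    (orbitRel.Quotient G (Ω₁ × Ω₂) → K) →ₗ[K] ((Ω₁ → K) →ₗ[K] (Ω₂ → K)) where
  toFun c :=
    { toFun := fun f y => ∑ x, c (Quotient.mk'' (x, y)) * f x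
      map_add' := by
        intro f₁ f₂
        funext y
        simp [mul_add, Finset.sum_add_distrib]
      map_smul' := by
        intro r f
        funext y
        simp only [Pi.smul_apply, smul_eq_mul, RingHom.id_apply, Finset.mul_sum]
        refine Finset.sum_congr rfl fun x _ => by ring }
  map_add' := by
    intro c₁ c₂
    ext f y
    simp [add_mul, Finset.sum_add_distrib]
  map_smul' := by
    intro r c
    ext f y
    simp only [Pi.smul_apply, smul_eq_mul, RingHom.id_apply, LinearMap.coe_mk, AddHom.coe_mk,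
      LinearMap.smul_apply, Finset.mul_sum, LinearMap.coe_comp, Function.comp_apply,
      LinearMap.coe_single]
    refine Finset.sum_congr rfl fun x _ => by ring

theorem orbMap_apply {K : Type*} [Field K] {G : Type*} [Group G] {Ω₁ Ω₂ : Type*}
    [Fintype Ω₁] [Fintype Ω₂] [MulAction G Ω₁] [MulAction G Ω₂]
    (c : orbitRel.Quotient G (Ω₁ × Ω₂) → K) (f : Ω₁ → K) (y : Ω₂) :
    orbMap K G Ω₁ Ω₂ c f y = ∑ x, c (Quotient.mk'' (x, y)) * f x := rfl

theorem perm_intertwiners_finrank {G : Type*} [Group G] {K : Type*} [Field K] {Ω₁ Ω₂ : Type*}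
    [Fintype Ω₁] [Fintype Ω₂] [MulAction G Ω₁] [MulAction G Ω₂] :
    Module.finrank K ((Cfsg.permRep K G Ω₁).linHom (Cfsg.permRep K G Ω₂)).invariants
      = Nat.card (orbitRel.Quotient G (Ω₁ × Ω₂)) := by
  classical
  have hinj : Function.Injective (orbMap K G Ω₁ Ω₂) := by
    intro c₁ c₂ h
    funext q
    induction q using Quotient.inductionOn' with
    | h p =>
      obtain ⟨x, y⟩ := p
      have h1 := congrArg (fun F => F (Pi.single x 1) y) h
      simp only [orbMap_apply] at h1
      rw [Finset.sum_eq_single x, Finset.sum_eq_single x] at h1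
      · simpa using h1
      · intro b _ hb; simp [Pi.single_apply, hb]
      · intro hx; exact absurd (Finset.mem_univ x) hx
      · intro b _ hb; simp [Pi.single_apply, hb]
      · intro hx; exact absurd (Finset.mem_univ x) hx
  have hrange : LinearMap.range (orbMap K G Ω₁ Ω₂)
      = ((Cfsg.permRep K G Ω₁).linHom (Cfsg.permRep K G Ω₂)).invariants := by
    apply le_antisymm
    · rintro _ ⟨c, rfl⟩
      rw [Representation.mem_invariants]
      intro g
      refine LinearMap.ext fun f => funext fun y => ?_
      rw [Representation.linHom_apply]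
      simp only [LinearMap.coe_comp, Function.comp_apply]
      change orbMap K G Ω₁ Ω₂ c ((Cfsg.permRep K G Ω₁) g⁻¹ f) (g⁻¹ • y) = _
      rw [orbMap_apply, orbMap_apply]
      have : ∀ x : Ω₁, (Cfsg.permRep K G Ω₁) g⁻¹ f x = f (g • x) := by
        intro x
        change f ((g⁻¹)⁻¹ • x) = _
        rw [inv_inv]
      simp only [this]
      rw [← Equiv.sum_comp (MulAction.toPerm g⁻¹ : Equiv.Perm Ω₁)]
      refine Finset.sum_congr rfl fun x _ => ?_
      simp only [MulAction.toPerm_apply, smul_inv_smul]
      congr 1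
      congr 1
      apply Quotient.sound'
      change (g⁻¹ • x, g⁻¹ • y) ∈ MulAction.orbit G (x, y)
      exact ⟨g⁻¹, rfl⟩
    · intro F hF
      rw [Representation.mem_invariants] at hF
      have hm : ∀ (g : G) (x : Ω₁) (y : Ω₂),
          F (Pi.single (g • x) 1) (g • y) = F (Pi.single x 1) y := by
        intro g x y
        have h1 := congrArg (fun F' : (Ω₁ → K) →ₗ[K] (Ω₂ → K) => F' (Pi.single (g • x) 1) (g • y))
          (hF g)
        simp only [Representation.linHom_apply, LinearMap.coe_comp, Function.comp_apply] at h1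
        rw [← h1]
        change F ((Cfsg.permRep K G Ω₁) g⁻¹ (Pi.single (g • x) 1)) (g⁻¹ • g • y) = _
        rw [inv_smul_smul]
        refine congrFun (congrArg F ?_) y
        funext z
        change (Pi.single (g • x) (1 : K) : Ω₁ → K) ((g⁻¹)⁻¹ • z) = _
        rw [inv_inv]
        by_cases hz : z = x
        · subst hz; simp
        · rw [Pi.single_apply, Pi.single_apply, if_neg hz, if_neg]
          intro h; exact hz (smul_left_cancel g h)
      let c : orbitRel.Quotient G (Ω₁ × Ω₂) → K :=
        Quotient.lift (fun p : Ω₁ × Ω₂ => F (Pi.single p.1 1) p.2) (by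
          rintro ⟨x₁, y₁⟩ ⟨x₂, y₂⟩ h
          obtain ⟨g, hg⟩ := h
          have : g • x₂ = x₁ ∧ g • y₂ = y₁ := by
            have := hg
            simpa [Prod.ext_iff] using this
          change F (Pi.single x₁ 1) y₁ = F (Pi.single x₂ 1) y₂
          rw [← this.1, ← this.2]
          exact hm g x₂ y₂)
      refine ⟨c, ?_⟩
      refine LinearMap.ext fun f => funext fun y => ?_
      rw [orbMap_apply]
      have hf : f = ∑ x, f x • (Pi.single x (1 : K) : Ω₁ → K) := by
        funext z
        simp [Finset.sum_apply, Pi.single_apply]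
      conv_rhs => rw [hf]
      rw [map_sum, Finset.sum_apply]
      refine Finset.sum_congr rfl fun x _ => ?_
      rw [map_smul, Pi.smul_apply, smul_eq_mul, mul_comm]
      rfl
  rw [← hrange, LinearMap.finrank_range_of_inj hinj]
  haveI : Fintype (orbitRel.Quotient G (Ω₁ × Ω₂)) := Fintype.ofFinite _
  rw [Module.finrank_fintype_fun_eq_card, Nat.card_eq_fintype_card]

end Cfsg.Agent.Lib.helper23
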