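import Mathlib
import Cfsg.Agent.Lib.helper23.PermHom
import Cfsg.Agent.Lib.helper24.CharReg
import Cfsg.Agent.Lib.helper24.CharTwoTrans
import Cfsg.Agent.Lib.helper24.CharCyclicExt
import Cfsg.Agent.Lib.helper24.CharKer

set_option autoImplicit false

/-!
# Multiplicity-freeness of a permutation character and commutativity of the centralizer ring
-/

namespace Cfsg.Agent.Lib.helper23

open Cfsg MulAction Cfsg.Agent.Lib.helper24
open scoped ComplexConjugate

universe u v w

section CentralIdem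

variable {G : Type u} [Group G] [Fintype G] {W : Type w} [AddCommGroup W] [Module ℂ W]

theorem mem_linHom_invariants_iff {V : Type*} [AddCommGroup V] [Module ℂ V]
    (ρ : Representation ℂ G V) (σ : Representation ℂ G W) (f : V →ₗ[ℂ] W) :
    f ∈ (ρ.linHom σ).invariants ↔ ∀ g : G, f ∘ₗ ρ g = σ g ∘ₗ f := by
  rw [Representation.mem_invariants]
  constructor
  · intro h g
    refine LinearMap.ext fun v => ?_
    have h1 := LinearMap.congr_fun (h g) (ρ g v)
    rw [Representation.linHom_apply] at h1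
    simp only [LinearMap.coe_comp, Function.comp_apply] at h1 ⊢
    rw [← h1]
    congr 2
    rw [← Module.End.mul_apply, ← map_mul, inv_mul_cancel, map_one, Module.End.one_apply]
  · intro h g
    refine LinearMap.ext fun w => ?_
    rw [Representation.linHom_apply]
    have h1 := LinearMap.congr_fun (h g) (ρ g⁻¹ w)
    simp only [LinearMap.coe_comp, Function.comp_apply] at h1 ⊢
    rw [← h1, ← Module.End.mul_apply, ← map_mul, mul_inv_cancel, map_one, Module.End.one_apply]

/-- The image in a representation of the central idempotent of an irreducible character. -/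
noncomputable def centralIdem (σ : Representation ℂ G W) (χ : IrrCharacter G) : Module.End ℂ W :=
  (χ.1 1 / (Nat.card G : ℂ)) • ∑ g : G, conj (χ.1 g) • σ g

theorem conj_irr_one (χ : IrrCharacter G) : conj (χ.1 1) = χ.1 1 := by
  rw [← charDegree_cast, Complex.conj_natCast]

theorem irr_one_ne_zero (χ : IrrCharacter G) : χ.1 1 ≠ 0 := by
  rw [← charDegree_cast]
  exact_mod_cast (charDegree_pos χ).ne'

theorem centralIdem_mul [DecidableEq (IrrCharacter G)] (σ : Representation ℂ G W)
    (χ ψ : IrrCharacter G) :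
    centralIdem σ χ * centralIdem σ ψ = if χ = ψ then centralIdem σ χ else 0 := by
  have hG0 : (Nat.card G : ℂ) ≠ 0 := by exact_mod_cast (Nat.card_pos (α := G)).ne'
  have hχ1 := irr_one_ne_zero χ
  unfold centralIdem
  rw [smul_mul_smul_comm, Finset.sum_mul_sum]
  have h1 : ∀ g : G, ∑ h : G, conj (χ.1 g) • σ g * conj (ψ.1 h) • σ h
      = ∑ k : G, (conj (χ.1 g) * conj (ψ.1 (g⁻¹ * k))) • σ k := by
    intro g
    rw [← Equiv.sum_comp (Equiv.mulLeft g⁻¹)]
    refine Finset.sum_congr rfl fun k _ => ?_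
    simp only [Equiv.coe_mulLeft]
    rw [smul_mul_smul_comm]
    congr 1
    rw [← map_mul, mul_inv_cancel_left]
  simp_rw [h1]
  rw [Finset.sum_comm]
  simp_rw [← Finset.sum_smul]
  have h2 : ∀ k : G, ∑ g : G, conj (χ.1 g) * conj (ψ.1 (g⁻¹ * k))
      = if χ = ψ then (Nat.card G : ℂ) * conj (χ.1 k) / χ.1 1 else 0 := by
    intro k
    have h3 := congrArg conj (irr_convolution' χ ψ k)
    rw [map_sum] at h3
    simp only [map_mul] at h3
    rw [h3]
    by_cases hχψ : χ = ψ
    · rw [if_pos hχψ, if_pos hχψ, map_div₀, map_mul, Complex.conj_natCast, conj_irr_one]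
    · rw [if_neg hχψ, if_neg hχψ, map_zero]
  simp_rw [h2]
  by_cases hχψ : χ = ψ
  · subst hχψ
    simp only [if_true]
    rw [Finset.smul_sum, Finset.smul_sum]
    refine Finset.sum_congr rfl fun k _ => ?_
    rw [smul_smul, smul_smul]
    congr 1
    field_simp
  · simp only [if_neg hχψ, zero_smul, Finset.sum_const_zero, smul_zero]

theorem centralIdem_comm (σ : Representation ℂ G W) (χ : IrrCharacter G) (T : Module.End ℂ W)
    (hT : ∀ g : G, T ∘ₗ σ g = σ g ∘ₗ T) :
    centralIdem σ χ ∘ₗ T = T ∘ₗ centralIdem σ χ := by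
  unfold centralIdem
  change _ * T = T * _
  rw [smul_mul_assoc, mul_smul_comm]
  congr 1
  rw [Finset.sum_mul, Finset.mul_sum]
  refine Finset.sum_congr rfl fun g _ => ?_
  rw [smul_mul_assoc, mul_smul_comm]
  congr 1
  exact (hT g).symm

theorem centralIdem_mem (σ : Representation ℂ G W) (χ : IrrCharacter G) :
    centralIdem σ χ ∈ (σ.linHom σ).invariants := by
  rw [mem_linHom_invariants_iff]
  intro h
  unfold centralIdem
  change _ * σ h = σ h * _
  rw [smul_mul_assoc, mul_smul_comm]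
  congr 1
  rw [Finset.sum_mul, Finset.mul_sum]
  rw [← Equiv.sum_comp (MulAut.conj h).toEquiv]
  refine Finset.sum_congr rfl fun g _ => ?_
  rw [smul_mul_assoc, mul_smul_comm]
  have h1 : χ.1 ((MulAut.conj h).toEquiv g) = χ.1 g := isClassFunction_irr χ g h
  rw [h1]
  congr 1
  change σ (h * g * h⁻¹) * σ h = σ h * σ g
  rw [← map_mul, ← map_mul, inv_mul_cancel_right]

theorem trace_centralIdem [FiniteDimensional ℂ W] (σ : Representation ℂ G W)
    (χ : IrrCharacter G) :
    LinearMap.trace ℂ W (centralIdem σ χ) = χ.1 1 * classInner σ.character χ.1 := by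
  unfold centralIdem classInner
  rw [map_smul, map_sum, smul_eq_mul, div_eq_mul_inv, mul_assoc]
  congr 2
  refine Finset.sum_congr rfl fun g _ => ?_
  rw [map_smul, smul_eq_mul, mul_comm]
  rfl

/-- The central idempotent as an element of the commutant. -/
noncomputable def centralIdemInv (σ : Representation ℂ G W) (χ : IrrCharacter G) :
    ↥((σ.linHom σ).invariants) := ⟨centralIdem σ χ, centralIdem_mem σ χ⟩

theorem centralIdemInv_val (σ : Representation ℂ G W) (χ : IrrCharacter G) :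
    (centralIdemInv σ χ).1 = centralIdem σ χ := rfl

theorem comm_of_span_idem [FiniteDimensional ℂ W] [Fintype (IrrCharacter G)]
    (σ : Representation ℂ G W) (m : IrrCharacter G → ℕ)
    (hm : ∀ χ : IrrCharacter G, classInner σ.character χ.1 = m χ)
    (hm01 : ∀ χ : IrrCharacter G, m χ = 0 ∨ m χ = 1)
    (hfin : Module.finrank ℂ ↥((σ.linHom σ).invariants) = ∑ χ : IrrCharacter G, m χ ^ 2)
    (S T : W →ₗ[ℂ] W) (hS : S ∈ (σ.linHom σ).invariants) (hT : T ∈ (σ.linHom σ).invariants) :
    S ∘ₗ T = T ∘ₗ S := by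
  classical
  have hne : ∀ χ : {χ : IrrCharacter G // m χ = 1}, centralIdem σ χ.1 ≠ 0 := by
    intro χ h0
    have h1 := trace_centralIdem σ χ.1
    rw [h0, map_zero, hm, χ.2, Nat.cast_one, mul_one] at h1
    exact irr_one_ne_zero χ.1 h1.symm
  have hli : LinearIndependent ℂ
      (fun χ : {χ : IrrCharacter G // m χ = 1} => centralIdemInv σ χ.1) := by
    refine linearIndependent_iff'.mpr ?_
    intro s a hsum j hj
    have h1 : ∑ i ∈ s, a i • centralIdem σ i.1 = 0 := by
      have h0 := congrArg Subtype.val hsum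
      rw [AddSubmonoidClass.coe_finset_sum] at h0
      exact h0
    have h2 := congrArg (fun X => X * centralIdem σ j.1) h1
    simp only [Finset.sum_mul, zero_mul, smul_mul_assoc] at h2
    rw [Finset.sum_eq_single j] at h2
    · rw [centralIdem_mul, if_pos rfl] at h2
      rcases smul_eq_zero.mp h2 with h | h
      · exact h
      · exact absurd h (hne j)
    · intro i _ hij
      rw [centralIdem_mul, if_neg (fun h => hij (Subtype.ext h)), smul_zero]
    · intro hj'
      exact absurd hj hj'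
  have hcard : Fintype.card {χ : IrrCharacter G // m χ = 1}
      = Module.finrank ℂ ↥((σ.linHom σ).invariants) := by
    rw [hfin, Fintype.card_subtype, Finset.card_filter]
    refine Finset.sum_congr rfl fun χ _ => ?_
    rcases hm01 χ with h | h <;> simp [h]
  have hspan := hli.span_eq_top_of_card_eq_finrank' hcard
  have hT' := (mem_linHom_invariants_iff σ σ T).mp hT
  have key : ∀ X : ↥((σ.linHom σ).invariants),
      X ∈ Submodule.span ℂ (Set.range
        (fun χ : {χ : IrrCharacter G // m χ = 1} => centralIdemInv σ χ.1)) →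
      X.1 ∘ₗ T = T ∘ₗ X.1 := by
    intro X hX
    induction hX using Submodule.span_induction with
    | mem x hx =>
      obtain ⟨χ, rfl⟩ := hx
      exact centralIdem_comm σ χ.1 T hT'
    | zero =>
      change (0 : W →ₗ[ℂ] W) ∘ₗ T = T ∘ₗ 0
      rw [LinearMap.zero_comp, LinearMap.comp_zero]
    | add x y _ _ hx hy =>
      change (x.1 + y.1) ∘ₗ T = T ∘ₗ (x.1 + y.1)
      rw [LinearMap.add_comp, LinearMap.comp_add, hx, hy]
    | smul c x _ hx =>
      change (c • x.1) ∘ₗ T = T ∘ₗ (c • x.1)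
      rw [LinearMap.smul_comp, LinearMap.comp_smul, hx]
  refine key ⟨S, hS⟩ ?_
  rw [hspan]
  trivial

theorem hom_finrank_le_one_of_comm (σ : Representation ℂ G W)
    (hcomm : ∀ S T : W →ₗ[ℂ] W, S ∈ (σ.linHom σ).invariants → T ∈ (σ.linHom σ).invariants →
      S ∘ₗ T = T ∘ₗ S)
    {V : Type*} [AddCommGroup V] [Module ℂ V] [FiniteDimensional ℂ V]
    (ρ : Representation ℂ G V) [ρ.IsIrreducible] :
    Module.finrank ℂ ↥((ρ.linHom σ).invariants) ≤ 1 := by
  classical
  by_contra hcon
  push Not at hcon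
  have hG0 : (Nat.card G : ℂ) ≠ 0 := by exact_mod_cast (Nat.card_pos (α := G)).ne'
  have hpos : 0 < Module.finrank ℂ ↥((ρ.linHom σ).invariants) := by omega
  haveI : Nontrivial ↥((ρ.linHom σ).invariants) := Module.nontrivial_of_finrank_pos hpos
  obtain ⟨φ₁, hφ₁⟩ := exists_ne (0 : ↥((ρ.linHom σ).invariants))
  obtain ⟨φ₂, hli⟩ := exists_linearIndependent_pair_of_one_lt_finrank hcon hφ₁
  have hφ₁e := (mem_linHom_invariants_iff ρ σ φ₁.1).mp φ₁.2
  have hφ₂e := (mem_linHom_invariants_iff ρ σ φ₂.1).mp φ₂.2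
  have hker : LinearMap.ker φ₁.1 = ⊥ := by
    let K : Subrepresentation ρ := ⟨LinearMap.ker φ₁.1, fun g w hw => by
      rw [LinearMap.mem_ker] at hw ⊢
      have h1 := LinearMap.congr_fun (hφ₁e g) w
      simp only [LinearMap.coe_comp, Function.comp_apply] at h1
      rw [h1, hw, map_zero]⟩
    rcases eq_bot_or_eq_top K with h1 | h1
    · have h2 : K.toSubmodule = ⊥ := by rw [h1]; rfl
      exact h2
    · exfalso
      apply hφ₁
      apply Subtype.ext
      refine LinearMap.ext fun w => ?_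
      have h2 : w ∈ K.toSubmodule := by rw [h1]; trivial
      exact LinearMap.mem_ker.mp h2
  obtain ⟨ψ₀, hψ₀⟩ := LinearMap.exists_leftInverse_of_injective φ₁.1 hker
  obtain ⟨ψ₁, hψ₁⟩ : ∃ ψ₁ : W →ₗ[ℂ] V,
      ψ₁ = (Nat.card G : ℂ)⁻¹ • ∑ g : G, ρ g ∘ₗ ψ₀ ∘ₗ σ g⁻¹ := ⟨_, rfl⟩
  have hψφ : ∀ w : V, ψ₁ (φ₁.1 w) = w := by
    intro w
    rw [hψ₁, LinearMap.smul_apply, LinearMap.sum_apply]
    have h1 : ∀ g : G, (ρ g ∘ₗ ψ₀ ∘ₗ σ g⁻¹) (φ₁.1 w) = w := by
      intro g
      have h2 := LinearMap.congr_fun (hφ₁e g⁻¹) w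
      simp only [LinearMap.coe_comp, Function.comp_apply] at h2 ⊢
      rw [← h2]
      have h3 := LinearMap.congr_fun hψ₀ (ρ g⁻¹ w)
      simp only [LinearMap.coe_comp, Function.comp_apply, LinearMap.id_coe, id_eq] at h3
      rw [h3, ← Module.End.mul_apply, ← map_mul, mul_inv_cancel, map_one, Module.End.one_apply]
    simp_rw [h1]
    rw [Finset.sum_const, Finset.card_univ, ← Nat.card_eq_fintype_card,
      ← Nat.cast_smul_eq_nsmul ℂ, smul_smul, inv_mul_cancel₀ hG0, one_smul]
  have hψe : ∀ h : G, ψ₁ ∘ₗ σ h = ρ h ∘ₗ ψ₁ := by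
    intro h
    refine LinearMap.ext fun w => ?_
    simp only [LinearMap.coe_comp, Function.comp_apply]
    rw [hψ₁, LinearMap.smul_apply, LinearMap.smul_apply, map_smul, LinearMap.sum_apply,
      LinearMap.sum_apply, map_sum]
    congr 1
    rw [← Equiv.sum_comp (Equiv.mulLeft h)]
    refine Finset.sum_congr rfl fun g _ => ?_
    simp only [Equiv.coe_mulLeft, LinearMap.coe_comp, Function.comp_apply]
    rw [map_mul, Module.End.mul_apply, mul_inv_rev, map_mul, Module.End.mul_apply,
      ← Module.End.mul_apply (σ h⁻¹), ← map_mul, inv_mul_cancel, map_one, Module.End.one_apply]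
  obtain ⟨c, hc⟩ := schur_scalar ρ (ψ₁ ∘ₗ φ₂.1) (by
    intro g
    rw [LinearMap.comp_assoc, hφ₂e g, ← LinearMap.comp_assoc, hψe g, LinearMap.comp_assoc])
  have hS : φ₁.1 ∘ₗ ψ₁ ∈ (σ.linHom σ).invariants := by
    rw [mem_linHom_invariants_iff]
    intro g
    rw [LinearMap.comp_assoc, hψe g, ← LinearMap.comp_assoc, hφ₁e g, LinearMap.comp_assoc]
  have hT : φ₂.1 ∘ₗ ψ₁ ∈ (σ.linHom σ).invariants := by
    rw [mem_linHom_invariants_iff]
    intro g
    rw [LinearMap.comp_assoc, hψe g, ← LinearMap.comp_assoc, hφ₂e g, LinearMap.comp_assoc]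
  have h3 := hcomm _ _ hS hT
  have h4 : c • φ₁.1 = φ₂.1 := by
    refine LinearMap.ext fun w => ?_
    have h5 := LinearMap.congr_fun h3 (φ₁.1 w)
    simp only [LinearMap.coe_comp, Function.comp_apply] at h5
    have h7 : ψ₁ (φ₂.1 w) = c • w := by
      have h8 := LinearMap.congr_fun hc w
      simpa using h8
    rw [hψφ, h7, map_smul, hψφ] at h5
    rw [LinearMap.smul_apply]
    exact h5
  have h8 := LinearIndependent.pair_iff.mp hli c (-1) (by
    apply Subtype.ext
    change c • φ₁.1 + (-1 : ℂ) • φ₂.1 = 0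
    rw [h4, neg_one_smul, add_neg_cancel])
  exact absurd h8.2 (by norm_num)

end CentralIdem

section Perm

variable {G : Type u} [Group G] [Fintype G] {Ω : Type v} [Fintype Ω] [MulAction G Ω]

theorem permRep_character (g : G) :
    (Cfsg.permRep ℂ G Ω).character g = (Nat.card (MulAction.fixedBy Ω g) : ℂ) := by
  classical
  unfold Representation.character
  rw [LinearMap.trace_eq_matrix_trace ℂ (Pi.basisFun ℂ Ω)]
  unfold Matrix.trace
  simp only [Matrix.diag_apply, LinearMap.toMatrix_apply, Pi.basisFun_apply, Pi.basisFun_repr]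
  have h1 : ∀ x : Ω, (Cfsg.permRep ℂ G Ω g (Pi.single x 1)) x = if g • x = x then 1 else 0 := by
    intro x
    change (Pi.single x (1 : ℂ) : Ω → ℂ) (g⁻¹ • x) = _
    rw [Pi.single_apply]
    by_cases h : g • x = x
    · rw [if_pos h, if_pos (by rw [inv_smul_eq_iff, h])]
    · rw [if_neg h, if_neg (by rw [inv_smul_eq_iff]; exact fun h' => h h'.symm)]
  simp only [h1]
  rw [Finset.sum_boole, Nat.card_eq_fintype_card, Fintype.card_subtype]
  rfl

omit [Fintype G] [Fintype Ω] in
theorem card_fixedBy_prod (g : G) :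
    Nat.card (MulAction.fixedBy (Ω × Ω) g) = Nat.card (MulAction.fixedBy Ω g) ^ 2 := by
  rw [sq, ← Nat.card_prod]
  exact Nat.card_congr
    { toFun := fun p => (⟨p.1.1, congrArg Prod.fst p.2⟩, ⟨p.1.2, congrArg Prod.snd p.2⟩)
      invFun := fun q => ⟨(q.1.1, q.2.1), Prod.ext q.1.2 q.2.2⟩
      left_inv := fun p => rfl
      right_inv := fun q => rfl }

theorem perm_mult [Fintype (IrrCharacter G)] :
    ∃ m : IrrCharacter G → ℕ,
      (∀ χ : IrrCharacter G,
        classInner (fun g : G => (Nat.card (MulAction.fixedBy Ω g) : ℂ)) χ.1 = m χ) ∧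
      Nat.card (MulAction.orbitRel.Quotient G (Ω × Ω)) = ∑ χ : IrrCharacter G, m χ ^ 2 := by
  classical
  set π : G → ℂ := fun g : G => (Nat.card (MulAction.fixedBy Ω g) : ℂ) with hπdef
  have hπ : IsCharacter G π := permChar_isCharacter Ω
  have hcf : IsClassFunction G π := isCharacter_conj_class hπ
  choose m hm using fun χ : IrrCharacter G => isCharacter_inner_irr_nat hπ χ
  have hG0 : (Nat.card G : ℂ) ≠ 0 := by exact_mod_cast (Nat.card_pos (α := G)).ne'
  refine ⟨m, hm, ?_⟩
  have h1 : classInner π π = ∑ χ : IrrCharacter G, ((m χ : ℂ)) ^ 2 := by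
    have hexp := classFunction_expansion hcf
    have h2 : classInner π π = classInner π (∑ χ : IrrCharacter G, classInner π χ.1 • χ.1) :=
      congrArg (classInner π) hexp
    rw [h2, classInner_sum_right]
    refine Finset.sum_congr rfl fun χ _ => ?_
    rw [classInner_smul_right, hm, Complex.conj_natCast, sq]
  have h2 : classInner π π = (Nat.card (MulAction.orbitRel.Quotient G (Ω × Ω)) : ℂ) := by
    unfold classInner
    have h3 : ∀ g : G, π g * conj (π g) = (Nat.card (MulAction.fixedBy (Ω × Ω) g) : ℂ) := by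
      intro g
      rw [hπdef]
      simp only [Complex.conj_natCast]
      rw [card_fixedBy_prod, Nat.cast_pow, sq]
    simp_rw [h3]
    rw [sum_card_fixedBy (G := G) (Ω × Ω), ← mul_assoc, mul_comm, ← mul_assoc,
      mul_inv_cancel₀ hG0, one_mul]
  rw [h1] at h2
  exact_mod_cast h2.symm

theorem comm_of_mult_free
    (hmf : ∀ χ : G → ℂ, IsIrrCharacter G χ →
      classInner (fun g : G => (Nat.card (MulAction.fixedBy Ω g) : ℂ)) χ = 0 ∨
      classInner (fun g : G => (Nat.card (MulAction.fixedBy Ω g) : ℂ)) χ = 1)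
    (S T : (Ω → ℂ) →ₗ[ℂ] (Ω → ℂ))
    (hS : S ∈ ((Cfsg.permRep ℂ G Ω).linHom (Cfsg.permRep ℂ G Ω)).invariants)
    (hT : T ∈ ((Cfsg.permRep ℂ G Ω).linHom (Cfsg.permRep ℂ G Ω)).invariants) :
    S ∘ₗ T = T ∘ₗ S := by
  classical
  haveI : Fintype (IrrCharacter G) := Fintype.ofFinite _
  obtain ⟨m, hm, hrank⟩ := perm_mult (G := G) (Ω := Ω)
  have hm01 : ∀ χ : IrrCharacter G, m χ = 0 ∨ m χ = 1 := by
    intro χ
    rcases hmf χ.1 χ.2 with h | h
    · left
      rw [hm] at h
      exact_mod_cast h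
    · right
      rw [hm] at h
      exact_mod_cast h
  have hchar : (Cfsg.permRep ℂ G Ω).character
      = fun g : G => (Nat.card (MulAction.fixedBy Ω g) : ℂ) := funext permRep_character
  refine comm_of_span_idem (Cfsg.permRep ℂ G Ω) m ?_ hm01 ?_ S T hS hT
  · intro χ
    rw [hchar, hm]
  · rw [perm_intertwiners_finrank, hrank]

theorem mult_free_of_comm
    (hcomm : ∀ S T : (Ω → ℂ) →ₗ[ℂ] (Ω → ℂ),
      S ∈ ((Cfsg.permRep ℂ G Ω).linHom (Cfsg.permRep ℂ G Ω)).invariants →
      T ∈ ((Cfsg.permRep ℂ G Ω).linHom (Cfsg.permRep ℂ G Ω)).invariants → S ∘ₗ T = T ∘ₗ S)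
    (χ : G → ℂ) (hχ : IsIrrCharacter G χ) :
    classInner (fun g : G => (Nat.card (MulAction.fixedBy Ω g) : ℂ)) χ = 0 ∨
    classInner (fun g : G => (Nat.card (MulAction.fixedBy Ω g) : ℂ)) χ = 1 := by
  classical
  obtain ⟨n, ρ, hirr, hρ⟩ := hχ
  haveI := hirr
  haveI : Invertible (Nat.card G : ℂ) :=
    invertibleOfNonzero (by exact_mod_cast (Nat.card_pos (α := G)).ne')
  have hle := hom_finrank_le_one_of_comm (Cfsg.permRep ℂ G Ω) hcomm ρ
  have h1 := Representation.card_inv_mul_sum_char_eq_finrank (ρ.linHom (Cfsg.permRep ℂ G Ω))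
  have h2 : classInner (fun g : G => (Nat.card (MulAction.fixedBy Ω g) : ℂ)) χ
      = (Module.finrank ℂ ↥((ρ.linHom (Cfsg.permRep ℂ G Ω)).invariants) : ℂ) := by
    rw [← h1]
    unfold classInner
    congr 1
    refine Finset.sum_congr rfl fun g _ => ?_
    rw [Representation.char_linHom, permRep_character, char_inv_eq_conj, hρ, mul_comm]
  rw [h2]
  rcases Nat.le_one_iff_eq_zero_or_eq_one.mp hle with h | h
  · left
    rw [h, Nat.cast_zero]
  · right
    rw [h, Nat.cast_one]

end Perm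

end Cfsg.Agent.Lib.helper23
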