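import Mathlib
import Cfsg.Agent.Lib.helper23.PermComm

set_option autoImplicit false

/-!
# Permutation characters with a commuting free abelian group of scalars
-/

namespace Cfsg.Agent.Lib.helper23

open Cfsg MulAction Cfsg.Agent.Lib.helper24
open scoped ComplexConjugate

universe u v w

section PermScalar

/-- The all-ones operator on functions. -/
noncomputable def sumOp (Ω : Type v) [Fintype Ω] : (Ω → ℂ) →ₗ[ℂ] (Ω → ℂ) where
  toFun f := fun _ => ∑ x, f x
  map_add' f g := by funext y; simp [Finset.sum_add_distrib]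
  map_smul' c f := by funext y; simp [Finset.mul_sum]

theorem sumOp_apply (Ω : Type v) [Fintype Ω] (f : Ω → ℂ) (y : Ω) : sumOp Ω f y = ∑ x, f x := rfl

/-- The family consisting of the all-ones operator and the scalar translations. -/
noncomputable def scalFam (Z : Type w) [Group Z] (Ω : Type v) [Fintype Ω] [MulAction Z Ω] :
    Option Z → ((Ω → ℂ) →ₗ[ℂ] (Ω → ℂ))
  | none => sumOp Ω
  | some z => Cfsg.permRep ℂ Z Ω z

theorem permRep_apply' {Z : Type w} [Group Z] {Ω : Type v} [MulAction Z Ω] (z : Z) (f : Ω → ℂ)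
    (y : Ω) : Cfsg.permRep ℂ Z Ω z f y = f (z⁻¹ • y) := rfl

variable {G : Type u} [Group G] [Fintype G] {Ω : Type v} [Fintype Ω] [MulAction G Ω]
  {Z : Type w} [CommGroup Z] [Fintype Z] [MulAction Z Ω] [SMulCommClass G Z Ω]

omit [Fintype Z] in
theorem scalFam_mem (i : Option Z) :
    scalFam Z Ω i ∈ ((Cfsg.permRep ℂ G Ω).linHom (Cfsg.permRep ℂ G Ω)).invariants := by
  rw [mem_linHom_invariants_iff]
  intro g
  refine LinearMap.ext fun f => funext fun y => ?_
  cases i with
  | none =>
    simp only [scalFam, LinearMap.coe_comp, Function.comp_apply, sumOp_apply, permRep_apply']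
    exact Equiv.sum_comp (MulAction.toPerm (g⁻¹ : G)) f
  | some z =>
    simp only [scalFam, LinearMap.coe_comp, Function.comp_apply, permRep_apply']
    rw [smul_comm]

omit [Fintype Z] in
theorem scalFam_comm (i j : Option Z) :
    scalFam Z Ω i ∘ₗ scalFam Z Ω j = scalFam Z Ω j ∘ₗ scalFam Z Ω i := by
  refine LinearMap.ext fun f => funext fun y => ?_
  cases i with
  | none =>
    cases j with
    | none => rfl
    | some z =>
      simp only [scalFam, LinearMap.coe_comp, Function.comp_apply, sumOp_apply, permRep_apply']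
      exact Equiv.sum_comp (MulAction.toPerm (z⁻¹ : Z)) f
  | some z =>
    cases j with
    | none =>
      simp only [scalFam, LinearMap.coe_comp, Function.comp_apply, sumOp_apply, permRep_apply']
      exact (Equiv.sum_comp (MulAction.toPerm (z⁻¹ : Z)) f).symm
    | some z' =>
      simp only [scalFam, LinearMap.coe_comp, Function.comp_apply, permRep_apply']
      rw [smul_comm]

theorem scalFam_linearIndependent (hfree : ∀ (z : Z) (x : Ω), z • x = x → z = 1)
    (x y : Ω) (hxy : ∀ z : Z, z • x ≠ y) : LinearIndependent ℂ (scalFam Z Ω) := by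
  classical
  rw [Fintype.linearIndependent_iff]
  intro c hc
  have key : ∀ t : Ω, c none + ∑ z : Z, c (some z) * (if z⁻¹ • t = x then 1 else 0) = 0 := by
    intro t
    have h1 := congrFun (LinearMap.congr_fun hc (Pi.single x 1)) t
    rw [Fintype.sum_option] at h1
    simp only [LinearMap.add_apply, LinearMap.smul_apply, LinearMap.sum_apply, Finset.sum_apply,
      Pi.add_apply, Pi.smul_apply, smul_eq_mul, LinearMap.zero_apply, Pi.zero_apply] at h1
    have h2 : (scalFam Z Ω none) (Pi.single x 1) t = 1 := by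
      show ∑ b, (Pi.single x (1 : ℂ) : Ω → ℂ) b = 1
      rw [Finset.sum_eq_single x (fun b _ hb => by simp [Pi.single_apply, hb])
        (fun hx => absurd (Finset.mem_univ x) hx)]
      simp
    have h3 : ∀ z : Z, (scalFam Z Ω (some z)) (Pi.single x 1) t
        = if z⁻¹ • t = x then 1 else 0 := by
      intro z
      show (Pi.single x (1 : ℂ) : Ω → ℂ) (z⁻¹ • t) = _
      rw [Pi.single_apply]
    rw [h2, mul_one] at h1
    simp only [h3] at h1
    exact h1
  have hnone : c none = 0 := by
    have h1 := key y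
    rw [Finset.sum_eq_zero] at h1
    · simpa using h1
    · intro z _
      rw [if_neg, mul_zero]
      intro h2
      exact hxy z (by rw [← h2, smul_inv_smul])
  intro i
  cases i with
  | none => exact hnone
  | some z₀ =>
    have h1 := key (z₀ • x)
    rw [hnone, zero_add, Finset.sum_eq_single z₀] at h1
    · simpa using h1
    · intro z _ hz
      rw [if_neg, mul_zero]
      intro h2
      apply hz
      have h3 : (z⁻¹ * z₀) • x = x := by rw [mul_smul]; exact h2
      have h4 := hfree _ _ h3
      exact (inv_mul_eq_one.mp h4)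
    · intro hz; exact absurd (Finset.mem_univ z₀) hz

theorem comm_of_scalars (hfree : ∀ (z : Z) (x : Ω), z • x = x → z = 1)
    (x y : Ω) (hxy : ∀ z : Z, z • x ≠ y)
    (hcard : Nat.card (orbitRel.Quotient G (Ω × Ω)) ≤ Fintype.card Z + 1)
    (S T : (Ω → ℂ) →ₗ[ℂ] (Ω → ℂ))
    (hS : S ∈ ((Cfsg.permRep ℂ G Ω).linHom (Cfsg.permRep ℂ G Ω)).invariants)
    (hT : T ∈ ((Cfsg.permRep ℂ G Ω).linHom (Cfsg.permRep ℂ G Ω)).invariants) :
    S ∘ₗ T = T ∘ₗ S := by
  classical
  set I := ((Cfsg.permRep ℂ G Ω).linHom (Cfsg.permRep ℂ G Ω)).invariants with hI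
  set P := Submodule.span ℂ (Set.range (scalFam Z Ω)) with hP
  have hle : P ≤ I := by
    rw [hP, Submodule.span_le]
    rintro _ ⟨i, rfl⟩
    exact scalFam_mem i
  have hli := scalFam_linearIndependent (Z := Z) hfree x y hxy
  have hfin : Module.finrank ℂ P = Fintype.card Z + 1 := by
    rw [hP, finrank_span_eq_card hli, Fintype.card_option]
  have hfinI : Module.finrank ℂ I ≤ Module.finrank ℂ P := by
    rw [hfin, hI, perm_intertwiners_finrank]
    exact hcard
  have heq : P = I := Submodule.eq_of_le_of_finrank_le hle hfinI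
  rw [← heq] at hS hT
  have hgen : ∀ a ∈ Set.range (scalFam Z Ω), ∀ b ∈ Set.range (scalFam Z Ω),
      a ∘ₗ b = b ∘ₗ a := by
    rintro _ ⟨i, rfl⟩ _ ⟨j, rfl⟩
    exact scalFam_comm i j
  have h1 : ∀ b ∈ Set.range (scalFam Z Ω), S ∘ₗ b = b ∘ₗ S := by
    intro b hb
    refine Submodule.span_induction (p := fun a _ => a ∘ₗ b = b ∘ₗ a) ?_ ?_ ?_ ?_ hS
    · intro a ha; exact hgen a ha b hb
    · simp
    · intro a a' _ _ h h'
      rw [LinearMap.add_comp, LinearMap.comp_add, h, h']
    · intro r a _ h
      rw [LinearMap.smul_comp, LinearMap.comp_smul, h]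
  refine Submodule.span_induction (p := fun b _ => S ∘ₗ b = b ∘ₗ S) ?_ ?_ ?_ ?_ hT
  · intro b hb; exact h1 b hb
  · simp
  · intro a a' _ _ h h'
    rw [LinearMap.add_comp, LinearMap.comp_add, h, h']
  · intro r a _ h
    rw [LinearMap.smul_comp, LinearMap.comp_smul, h]

theorem perm_mult_free_of_scalars (hfree : ∀ (z : Z) (x : Ω), z • x = x → z = 1)
    (x y : Ω) (hxy : ∀ z : Z, z • x ≠ y)
    (hcard : Nat.card (orbitRel.Quotient G (Ω × Ω)) ≤ Fintype.card Z + 1)
    (χ : G → ℂ) (hχ : IsIrrCharacter G χ) :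
    classInner (fun g : G => (Nat.card (MulAction.fixedBy Ω g) : ℂ)) χ = 0 ∨
    classInner (fun g : G => (Nat.card (MulAction.fixedBy Ω g) : ℂ)) χ = 1 :=
  mult_free_of_comm (fun S T hS hT => comm_of_scalars hfree x y hxy hcard S T hS hT) χ hχ

end PermScalar

section Decomp

variable {G : Type u} [Group G] [Fintype G] {Ω : Type v} [Fintype Ω] [MulAction G Ω]

theorem perm_char_decomp_of_mult_free [Nonempty Ω]
    (hmf : ∀ χ : G → ℂ, IsIrrCharacter G χ →
      classInner (fun g : G => (Nat.card (MulAction.fixedBy Ω g) : ℂ)) χ = 0 ∨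
      classInner (fun g : G => (Nat.card (MulAction.fixedBy Ω g) : ℂ)) χ = 1)
    (q : ℕ) (hq : Nat.card (orbitRel.Quotient G (Ω × Ω)) = q) :
    ∃ χ : Fin (q - 1) → (G → ℂ), (∀ i, IsIrrCharacter G (χ i)) ∧ Function.Injective χ ∧
      ∀ g : G, (Nat.card (MulAction.fixedBy Ω g) : ℂ) = 1 + ∑ i, χ i g := by
  classical
  haveI : Fintype (IrrCharacter G) := Fintype.ofFinite _
  obtain ⟨m, hm, hrank⟩ := perm_mult (G := G) (Ω := Ω)
  set π : G → ℂ := fun g : G => (Nat.card (MulAction.fixedBy Ω g) : ℂ) with hπdef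
  have hπ : IsCharacter G π := permChar_isCharacter Ω
  have hcf : IsClassFunction G π := isCharacter_conj_class hπ
  have hm01 : ∀ χ : IrrCharacter G, m χ = 0 ∨ m χ = 1 := by
    intro χ
    rcases hmf χ.1 χ.2 with h | h
    · left; rw [hm] at h; exact_mod_cast h
    · right; rw [hm] at h; exact_mod_cast h
  have hG0 : (Nat.card G : ℂ) ≠ 0 := by exact_mod_cast (Nat.card_pos (α := G)).ne'
  have htriv : m (trivIrr G) = 1 := by
    rcases hm01 (trivIrr G) with h | h
    · exfalso
      have h1 := hm (trivIrr G)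
      rw [h, classInner_trivIrr, sum_card_fixedBy (G := G) Ω] at h1
      have h2 : (Nat.card (orbitRel.Quotient G Ω) : ℂ) = 0 := by
        have h3 : (Nat.card G : ℂ)⁻¹ * ((Nat.card (orbitRel.Quotient G Ω) : ℂ) * (Nat.card G : ℂ))
            = (Nat.card (orbitRel.Quotient G Ω) : ℂ) := by field_simp
        rw [h3] at h1
        simpa using h1
      haveI : Nonempty (orbitRel.Quotient G Ω) :=
        ⟨Quotient.mk'' (Classical.arbitrary Ω)⟩
      have h4 : 0 < Nat.card (orbitRel.Quotient G Ω) := Nat.card_pos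
      have h5 : Nat.card (orbitRel.Quotient G Ω) = 0 := by exact_mod_cast h2
      omega
    · exact h
  set S : Finset (IrrCharacter G) := Finset.univ.filter (fun χ => m χ = 1 ∧ χ ≠ trivIrr G) with hS
  have hT : Finset.univ.filter (fun χ : IrrCharacter G => m χ = 1) = insert (trivIrr G) S := by
    ext χ
    simp only [hS, Finset.mem_filter, Finset.mem_univ, true_and, Finset.mem_insert]
    constructor
    · intro h
      by_cases hχ : χ = trivIrr G
      · left; exact hχ
      · right; exact ⟨h, hχ⟩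
    · rintro (h | h)
      · rw [h]; exact htriv
      · exact h.1
  have hnot : trivIrr G ∉ S := by simp [hS]
  have hsum : ∑ χ : IrrCharacter G, m χ ^ 2 = S.card + 1 := by
    have h1 : ∀ χ : IrrCharacter G, m χ ^ 2 = if m χ = 1 then 1 else 0 := by
      intro χ; rcases hm01 χ with h | h <;> simp [h]
    simp_rw [h1]
    rw [Finset.sum_boole, hT, Finset.card_insert_of_notMem hnot]
    simp
  have hcardS : S.card = q - 1 := by
    rw [hq] at hrank; omega
  let e : S ≃ Fin (q - 1) := Finset.equivFinOfCardEq hcardS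
  refine ⟨fun i => ((e.symm i : S) : IrrCharacter G).1,
    fun i => ((e.symm i : S) : IrrCharacter G).2, ?_, ?_⟩
  · intro i j hij
    have h1 : ((e.symm i : S) : IrrCharacter G) = ((e.symm j : S) : IrrCharacter G) :=
      Subtype.ext hij
    exact e.symm.injective (Subtype.ext h1)
  · intro g
    have hexp := classFunction_expansion_apply hcf g
    show π g = _
    rw [hexp]
    simp_rw [hm]
    have h3 : ∑ χ : IrrCharacter G, (m χ : ℂ) * χ.1 g
        = ∑ χ ∈ Finset.univ.filter (fun χ : IrrCharacter G => m χ = 1), χ.1 g := by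
      rw [Finset.sum_filter]
      refine Finset.sum_congr rfl fun χ _ => ?_
      rcases hm01 χ with h | h <;> simp [h]
    rw [h3, hT, Finset.sum_insert hnot, trivIrr_apply]
    congr 1
    rw [← Finset.sum_coe_sort S (fun χ => χ.1 g)]
    exact (Equiv.sum_comp e.symm (fun s : S => (s : IrrCharacter G).1 g)).symm

end Decomp

end Cfsg.Agent.Lib.helper23
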