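import Cfsg.Agent.Lib.helper23.GaloisApps

set_option autoImplicit false

namespace Cfsg.Agent.Lib.helper23

open Cfsg Cfsg.Agent.Lib.helper24 Polynomial

universe u

section restrictnorm

variable {G : Type u} [Group G]

theorem pow_unit_mem_iff [Finite G] (H : Subgroup G) (g : G) (u : (ZMod (Nat.card G))ˣ) :
    g ^ (u : ZMod (Nat.card G)).val ∈ H ↔ g ∈ H := by
  have hN : NeZero (Nat.card G) := ⟨Nat.card_pos.ne'⟩
  constructor
  · intro h
    have h1 := H.pow_mem h ((u⁻¹ : (ZMod (Nat.card G))ˣ) : ZMod (Nat.card G)).val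
    rw [← pow_zmod_val_mul, ← Units.val_mul, mul_inv_cancel, Units.val_one,
      ZMod.val_one_eq_one_mod, pow_mod_natCard, pow_one] at h1
    exact h1
  · intro h
    exact H.pow_mem h _

theorem sum_normSq_off_subgroup_ge [Fintype G] [DecidableEq G] (n : ℕ)
    (ρ : Representation ℂ G (Fin n → ℂ)) [ρ.IsIrreducible] (H : Subgroup G)
    [DecidablePred (· ∈ H)] :
    ((Finset.univ.filter (fun g : G => g ∉ H)).card : ℝ)
        - ((Finset.univ.filter (fun g : G => g ∉ H ∧ ρ.character g = 0)).card : ℝ)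
      ≤ ∑ g ∈ Finset.univ.filter (fun g : G => g ∉ H), ‖ρ.character g‖ ^ 2 := by
  have hN : NeZero (Nat.card G) := ⟨Nat.card_pos.ne'⟩
  set c : ℝ := (Fintype.card (ZMod (Nat.card G))ˣ : ℝ) with hc
  have hcpos : 0 < c := by
    rw [hc]
    exact_mod_cast Fintype.card_pos
  set F : G → ℝ := fun g => if g ∈ H then 0 else ‖ρ.character g‖ ^ 2 with hF
  have hB : ∀ g : G, c * (if g ∉ H then 1 else 0)
      - c * (if g ∉ H ∧ ρ.character g = 0 then 1 else 0)
      ≤ ∑ u : (ZMod (Nat.card G))ˣ, F (g ^ (u : ZMod (Nat.card G)).val) := by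
    intro g
    have hnn : (0 : ℝ) ≤ ∑ u : (ZMod (Nat.card G))ˣ, F (g ^ (u : ZMod (Nat.card G)).val) := by
      apply Finset.sum_nonneg
      intro u _
      simp only [hF]
      split_ifs
      · exact le_refl _
      · exact sq_nonneg _
    by_cases hg : g ∈ H
    · have h1 : ¬ (g ∉ H) := fun h => h hg
      have h2 : ¬ (g ∉ H ∧ ρ.character g = 0) := fun h => h.1 hg
      rw [if_neg h1, if_neg h2]
      linarith
    · rw [if_pos hg]
      by_cases hV : ρ.character g = 0
      · rw [if_pos ⟨hg, hV⟩]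
        linarith
      · have h2 : ¬ (g ∉ H ∧ ρ.character g = 0) := fun h => hV h.2
        rw [if_neg h2]
        have h3 : ∑ u : (ZMod (Nat.card G))ˣ, F (g ^ (u : ZMod (Nat.card G)).val)
            = ∑ u : (ZMod (Nat.card G))ˣ,
              ‖ρ.character (g ^ (u : ZMod (Nat.card G)).val)‖ ^ 2 := by
          apply Finset.sum_congr rfl
          intro u _
          simp only [hF]
          rw [if_neg (fun h => hg ((pow_unit_mem_iff H g u).mp h))]
        rw [h3]
        have := sum_units_normSq_ge ρ g hV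
        linarith
  have hsum := Finset.sum_le_sum (fun g (_ : g ∈ Finset.univ) => hB g)
  rw [sum_units_sum (G := G) F, Finset.sum_sub_distrib, ← Finset.mul_sum, ← Finset.mul_sum,
    Finset.sum_boole, Finset.sum_boole] at hsum
  have hFsum : ∑ g : G, F g
      = ∑ g ∈ Finset.univ.filter (fun g : G => g ∉ H), ‖ρ.character g‖ ^ 2 := by
    rw [Finset.sum_filter]
    apply Finset.sum_congr rfl
    intro g _
    simp only [hF]
    by_cases hg : g ∈ H
    · rw [if_pos hg, if_neg (fun h : g ∉ H => h hg)]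
    · rw [if_neg hg, if_pos hg]
  rw [hFsum] at hsum
  have h5 : c * (((Finset.univ.filter (fun g : G => g ∉ H)).card : ℝ)
        - ((Finset.univ.filter (fun g : G => g ∉ H ∧ ρ.character g = 0)).card : ℝ))
      ≤ c * ∑ g ∈ Finset.univ.filter (fun g : G => g ∉ H), ‖ρ.character g‖ ^ 2 := by
    linarith
  exact le_of_mul_le_mul_left h5 hcpos

theorem restrict_norm_le [Finite G] (H : Subgroup G) (χ : IrrCharacter G) :
    (Nat.card H : ℝ)⁻¹ * ∑ᶠ h : H, ‖χ.1 h‖ ^ 2
      ≤ 1 + (Set.ncard ({x : G | χ.1 x = 0} \ (H : Set G)) : ℝ) / (Nat.card H : ℝ) := by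
  classical
  have : Fintype G := Fintype.ofFinite G
  obtain ⟨n, ρ, hirr, hρ⟩ := χ.2
  have := hirr
  have hHpos : (0 : ℝ) < (Nat.card H : ℝ) := by exact_mod_cast Nat.card_pos
  have h1 := sum_normSq_off_subgroup_ge n ρ H
  have h2 := genrep_sum_normSq ρ
  rw [← Finset.sum_filter_add_sum_filter_not Finset.univ (fun g : G => g ∈ H)] at h2
  have hcardH : ((Finset.univ.filter (fun g : G => g ∈ H)).card : ℝ) = (Nat.card H : ℝ) := by
    rw [Nat.card_eq_fintype_card, Fintype.card_subtype]
  have hcard : ((Finset.univ.filter (fun g : G => g ∉ H)).card : ℝ)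
      = (Nat.card G : ℝ) - (Nat.card H : ℝ) := by
    have h3 := Finset.card_filter_add_card_filter_not (s := (Finset.univ : Finset G))
      (fun g : G => g ∈ H)
    rw [Finset.card_univ, ← Nat.card_eq_fintype_card] at h3
    have h4 : (((Finset.univ.filter (fun g : G => g ∈ H)).card
        + (Finset.univ.filter (fun g : G => g ∉ H)).card : ℕ) : ℝ) = (Nat.card G : ℝ) := by
      rw [h3]
    push_cast at h4
    linarith
  have hfin : ∑ᶠ h : H, ‖χ.1 h‖ ^ 2
      = ∑ g ∈ Finset.univ.filter (fun g : G => g ∈ H), ‖ρ.character g‖ ^ 2 := by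
    rw [finsum_eq_sum_of_fintype, hρ]
    exact (Finset.sum_subtype (Finset.univ.filter (fun g : G => g ∈ H))
      (fun x => by simp) (fun g => ‖χ.1 g‖ ^ 2)).symm
  have hset : ({x : G | χ.1 x = 0} \ (H : Set G))
      = ((Finset.univ.filter (fun g : G => g ∉ H ∧ ρ.character g = 0) : Finset G) : Set G) := by
    ext x
    simp only [Set.mem_sdiff, Set.mem_ofPred_eq, SetLike.mem_coe, Finset.coe_filter,
      Finset.mem_univ, true_and, hρ]
    tauto
  rw [hset, Set.ncard_coe_finset, hfin, inv_mul_eq_div, div_le_iff₀ hHpos, add_mul, one_mul,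
    div_mul_cancel₀ _ hHpos.ne']
  linarith

end restrictnorm

end Cfsg.Agent.Lib.helper23
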