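import Mathlib
import Cfsg.Agent.Lib.helper23.PermScalar

set_option autoImplicit false

/-!
# The special linear group on nonzero vectors
-/

namespace Cfsg.Agent.Lib.helper23

open Cfsg MulAction Cfsg.Agent.Lib.helper24

section LinAlg

variable {K V : Type*} [Field K] [AddCommGroup V] [Module K V] [FiniteDimensional K V]

theorem exists_linearEquiv_det_fix (v w : V) (h : LinearIndependent K ![v, w])
    (h3 : 3 ≤ Module.finrank K V) (a : Kˣ) :
    ∃ e : V ≃ₗ[K] V, LinearEquiv.det e = a ∧ e v = v ∧ e w = w := by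
  classical
  have hli : LinearIndepOn K id ({v, w} : Set V) := by
    have h1 := h.linearIndepOn_id
    have h2 : Set.range ![v, w] = {v, w} := by
      ext x
      simp only [Set.mem_range, Set.mem_insert_iff, Set.mem_singleton_iff]
      constructor
      · rintro ⟨i, rfl⟩
        fin_cases i <;> simp
      · rintro (rfl | rfl)
        · exact ⟨0, rfl⟩
        · exact ⟨1, rfl⟩
    rwa [h2] at h1
  let s := hli.extend (Set.subset_univ _)
  let b : Module.Basis s K V := Module.Basis.extend hli
  have hv_mem : v ∈ s := LinearIndepOn.subset_extend _ _ (by simp)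
  have hw_mem : w ∈ s := LinearIndepOn.subset_extend _ _ (by simp)
  have hcard : Module.finrank K V = Nat.card s := Module.finrank_eq_nat_card_basis b
  haveI : Finite s := Module.Finite.finite_basis b
  obtain ⟨u, hu, huv, huw⟩ : ∃ u ∈ s, u ≠ v ∧ u ≠ w := by
    by_contra hcon
    push Not at hcon
    have hsub : s ⊆ {v, w} := fun u hu => by
      by_cases h1 : u = v
      · simp [h1]
      · simp [hcon u hu h1]
    have h4 : Nat.card s ≤ 2 := by
      rw [Nat.card_coe_set_eq]
      calc s.ncard ≤ ({v, w} : Set V).ncard := Set.ncard_le_ncard hsub (Set.toFinite _)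
        _ ≤ 2 := (Set.ncard_insert_le v {w}).trans (by simp)
    omega
  have hbv : b.repr v ⟨u, hu⟩ = 0 := by
    have h1 : v = b ⟨v, hv_mem⟩ := (Module.Basis.extend_apply_self hli ⟨v, hv_mem⟩).symm
    rw [h1, Module.Basis.repr_self]
    apply Finsupp.single_eq_of_ne
    simp only [ne_eq, ← Subtype.coe_inj]
    exact huv
  have hbw : b.repr w ⟨u, hu⟩ = 0 := by
    have h1 : w = b ⟨w, hw_mem⟩ := (Module.Basis.extend_apply_self hli ⟨w, hw_mem⟩).symm
    rw [h1, Module.Basis.repr_self]
    apply Finsupp.single_eq_of_ne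
    simp only [ne_eq, ← Subtype.coe_inj]
    exact huw
  have hunit : IsUnit (1 + b.coord ⟨u, hu⟩ ((a.val - 1) • b ⟨u, hu⟩)) := by simp
  refine ⟨LinearEquiv.dilatransvection hunit, ?_, ?_, ?_⟩
  · simp [← Units.val_inj, LinearEquiv.coe_det, LinearMap.transvection.det]
  · rw [LinearEquiv.dilatransvection.apply, Module.Basis.coord_apply, hbv, zero_smul, add_zero]
  · rw [LinearEquiv.dilatransvection.apply, Module.Basis.coord_apply, hbw, zero_smul, add_zero]

theorem exists_sl_map_pair (v w v' w' : V) (h : LinearIndependent K ![v, w])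
    (h' : LinearIndependent K ![v', w']) (h3 : 3 ≤ Module.finrank K V) :
    ∃ g : SpecialLinearGroup K V, g v = v' ∧ g w = w' := by
  classical
  let f := h.linearCombinationEquiv.symm ≪≫ₗ h'.linearCombinationEquiv
  obtain ⟨g, hg⟩ := Submodule.exists_linearEquiv_restrict_eq f
  have q0 : ((h.linearCombinationEquiv (Finsupp.single 0 1) :
      Submodule.span K (Set.range ![v, w])) : V) = v := by simp
  have q1 : ((h.linearCombinationEquiv (Finsupp.single 1 1) :
      Submodule.span K (Set.range ![v, w])) : V) = w := by simp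
  have q0' : ((h'.linearCombinationEquiv (Finsupp.single 0 1) :
      Submodule.span K (Set.range ![v', w'])) : V) = v' := by simp
  have q1' : ((h'.linearCombinationEquiv (Finsupp.single 1 1) :
      Submodule.span K (Set.range ![v', w'])) : V) = w' := by simp
  have hgv : g v = v' := by
    have h1 := hg (h.linearCombinationEquiv (Finsupp.single 0 1))
    rw [q0] at h1
    rw [← h1]
    simp [f]
  have hgw : g w = w' := by
    have h1 := hg (h.linearCombinationEquiv (Finsupp.single 1 1))
    rw [q1] at h1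
    rw [← h1]
    simp [f]
  obtain ⟨e, hdet, hev, hew⟩ := exists_linearEquiv_det_fix v w h h3 (LinearEquiv.det g)⁻¹
  refine ⟨⟨g * e, by simp [hdet]⟩, ?_, ?_⟩
  · show g (e v) = v'
    rw [hev, hgv]
  · show g (e w) = w'
    rw [hew, hgw]

end LinAlg

section SL

/-- Nonzero vectors of `F^n`. -/
def NZVec (n : ℕ) (F : Type*) [Zero F] : Type _ := {v : Fin n → F // v ≠ 0}

variable {F : Type*} [Field F] {n : ℕ}

noncomputable instance NZVec.instFintype [Fintype F] : Fintype (NZVec n F) := by
  classical exact (inferInstance : Fintype {v : Fin n → F // v ≠ 0})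

instance NZVec.instMulActionSL : MulAction (Matrix.SpecialLinearGroup (Fin n) F) (NZVec n F) where
  smul g v := ⟨g • v.1, (smul_ne_zero_iff_ne g).mpr v.2⟩
  one_smul v := Subtype.ext (one_smul _ v.1)
  mul_smul g h v := Subtype.ext (mul_smul g h v.1)

instance NZVec.instMulActionUnits : MulAction Fˣ (NZVec n F) where
  smul c v := ⟨c • v.1, (smul_ne_zero_iff_ne c).mpr v.2⟩
  one_smul v := Subtype.ext (one_smul _ v.1)
  mul_smul c d v := Subtype.ext (mul_smul c d v.1)

theorem NZVec.sl_smul_val (g : Matrix.SpecialLinearGroup (Fin n) F) (v : NZVec n F) :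
    (g • v).1 = g • v.1 := rfl

theorem NZVec.units_smul_val (c : Fˣ) (v : NZVec n F) : (c • v).1 = c • v.1 := rfl

instance NZVec.instSMulComm :
    SMulCommClass (Matrix.SpecialLinearGroup (Fin n) F) Fˣ (NZVec n F) where
  smul_comm g c v := Subtype.ext (by
    show g • ((c : F) • v.1) = (c : F) • (g • v.1)
    exact smul_comm g (c : F) v.1)

theorem exists_matrix_sl_map_pair (hn : 3 ≤ n) (v w v' w' : Fin n → F)
    (h : LinearIndependent F ![v, w]) (h' : LinearIndependent F ![v', w']) :
    ∃ g : Matrix.SpecialLinearGroup (Fin n) F, g • v = v' ∧ g • w = w' := by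
  have h3 : 3 ≤ Module.finrank F (Fin n → F) := by simpa using hn
  obtain ⟨g, hgv, hgw⟩ := exists_sl_map_pair v w v' w' h h' h3
  have key : ∀ x : Fin n → F,
      (Matrix.SpecialLinearGroup.toLin'_equiv.symm g : Matrix.SpecialLinearGroup (Fin n) F) • x
        = g x := by
    intro x
    have h1 : Matrix.SpecialLinearGroup.toLin'_equiv
        (Matrix.SpecialLinearGroup.toLin'_equiv.symm g) = g := MulEquiv.apply_symm_apply _ g
    conv_rhs => rw [← h1]
    rfl
  exact ⟨Matrix.SpecialLinearGroup.toLin'_equiv.symm g, by rw [key, hgv], by rw [key, hgw]⟩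

theorem units_smul_injective_of_ne_zero {x : Fin n → F} (hx : x ≠ 0) {c c' : Fˣ}
    (h : c • x = c' • x) : c = c' := by
  have h1 : ((c : F) - (c' : F)) • x = 0 := by
    rw [sub_smul]
    exact sub_eq_zero.mpr h
  rcases smul_eq_zero.mp h1 with h2 | h2
  · exact Units.ext (sub_eq_zero.mp h2)
  · exact absurd h2 hx

/-- The invariant classifying the orbits of `SL_n` on pairs of nonzero vectors. -/
noncomputable def pairInv (p : NZVec n F × NZVec n F) : Option Fˣ := by
  classical exact if h : ∃ c : Fˣ, p.2.1 = c • p.1.1 then some h.choose else none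

theorem pairInv_eq_some {p : NZVec n F × NZVec n F} {c : Fˣ} (h : p.2.1 = c • p.1.1) :
    pairInv p = some c := by
  classical
  have hex : ∃ c : Fˣ, p.2.1 = c • p.1.1 := ⟨c, h⟩
  unfold pairInv
  rw [dif_pos hex]
  congr 1
  exact units_smul_injective_of_ne_zero p.1.2 (hex.choose_spec.symm.trans h)

theorem pairInv_eq_none {p : NZVec n F × NZVec n F} (h : ∀ c : Fˣ, p.2.1 ≠ c • p.1.1) :
    pairInv p = none := by
  classical
  unfold pairInv
  rw [dif_neg]
  rintro ⟨c, hc⟩
  exact h c hc

theorem pairInv_eq_some_iff {p : NZVec n F × NZVec n F} {c : Fˣ} :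
    pairInv p = some c ↔ p.2.1 = c • p.1.1 := by
  classical
  constructor
  · intro h
    by_cases hex : ∃ c : Fˣ, p.2.1 = c • p.1.1
    · obtain ⟨c', hc'⟩ := hex
      rw [pairInv_eq_some hc'] at h
      rw [← Option.some.inj h]
      exact hc'
    · rw [pairInv_eq_none (fun c hc => hex ⟨c, hc⟩)] at h
      exact absurd h (by simp)
  · exact pairInv_eq_some

theorem pairInv_eq_none_iff {p : NZVec n F × NZVec n F} :
    pairInv p = none ↔ ∀ c : Fˣ, p.2.1 ≠ c • p.1.1 := by
  constructor
  · intro h c hc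
    rw [pairInv_eq_some hc] at h
    exact absurd h (by simp)
  · exact pairInv_eq_none

theorem pairInv_smul (g : Matrix.SpecialLinearGroup (Fin n) F) (p : NZVec n F × NZVec n F) :
    pairInv (g • p) = pairInv p := by
  classical
  by_cases hex : ∃ c : Fˣ, p.2.1 = c • p.1.1
  · obtain ⟨c, hc⟩ := hex
    rw [pairInv_eq_some hc]
    apply pairInv_eq_some
    show g • p.2.1 = (c : F) • (g • p.1.1)
    rw [hc]
    exact smul_comm g (c : F) p.1.1
  · rw [pairInv_eq_none (fun c hc => hex ⟨c, hc⟩)]
    apply pairInv_eq_none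
    intro c hc
    apply hex
    refine ⟨c, ?_⟩
    have h1 : g • p.2.1 = g • ((c : F) • p.1.1) := by
      have h2 : g • p.2.1 = (c : F) • (g • p.1.1) := hc
      rw [h2]
      exact (smul_comm g (c : F) p.1.1).symm
    have h3 := congrArg (fun x => g⁻¹ • x) h1
    simp only [inv_smul_smul] at h3
    exact h3

theorem pairInv_orbit (hn : 3 ≤ n) {p p' : NZVec n F × NZVec n F}
    (h : pairInv p = pairInv p') :
    ∃ g : Matrix.SpecialLinearGroup (Fin n) F, g • p' = p := by
  classical
  have hfr : 1 < Module.finrank F (Fin n → F) := by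
    have : Module.finrank F (Fin n → F) = n := by simp
    omega
  by_cases hex : ∃ c : Fˣ, p.2.1 = c • p.1.1
  · obtain ⟨c, hc⟩ := hex
    have hc' : p'.2.1 = c • p'.1.1 := by
      rw [pairInv_eq_some hc] at h
      exact pairInv_eq_some_iff.mp h.symm
    obtain ⟨u, hu⟩ := exists_linearIndependent_pair_of_one_lt_finrank hfr p.1.2
    obtain ⟨u', hu'⟩ := exists_linearIndependent_pair_of_one_lt_finrank hfr p'.1.2
    obtain ⟨g, hg1, -⟩ := exists_matrix_sl_map_pair hn p'.1.1 u' p.1.1 u hu' hu
    refine ⟨g, Prod.ext (Subtype.ext hg1) (Subtype.ext ?_)⟩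
    show g • p'.2.1 = p.2.1
    rw [hc', hc]
    show g • ((c : F) • p'.1.1) = (c : F) • p.1.1
    rw [smul_comm g (c : F) p'.1.1, hg1]
  · have hnone : ∀ c : Fˣ, p.2.1 ≠ c • p.1.1 := fun c hc => hex ⟨c, hc⟩
    have hnone' : ∀ c : Fˣ, p'.2.1 ≠ c • p'.1.1 := by
      rw [pairInv_eq_none hnone] at h
      exact pairInv_eq_none_iff.mp h.symm
    have hli : ∀ q : NZVec n F × NZVec n F, (∀ c : Fˣ, q.2.1 ≠ c • q.1.1) →
        LinearIndependent F ![q.1.1, q.2.1] := by
      intro q hq
      rw [LinearIndependent.pair_iff' q.1.2]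
      intro a ha
      by_cases ha0 : a = 0
      · rw [ha0, zero_smul] at ha
        exact q.2.2 ha.symm
      · exact hq (Units.mk0 a ha0) ha.symm
    obtain ⟨g, hg1, hg2⟩ := exists_matrix_sl_map_pair hn p'.1.1 p'.2.1 p.1.1 p.2.1
      (hli p' hnone') (hli p hnone)
    exact ⟨g, Prod.ext (Subtype.ext hg1) (Subtype.ext hg2)⟩

/-- A standard basis vector as a nonzero vector. -/
def NZVec.std (i : Fin n) : NZVec n F :=
  ⟨Pi.single i 1, by
    intro h
    have := congrFun h i
    simp at this⟩

theorem NZVec.std_val (i : Fin n) : (NZVec.std (F := F) i).1 = Pi.single i 1 := rfl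

theorem std_ne_units_smul {i j : Fin n} (hij : i ≠ j) (c : Fˣ) :
    (NZVec.std (F := F) j).1 ≠ c • (NZVec.std (F := F) i).1 := by
  intro h
  have h1 := congrFun h j
  rw [NZVec.std_val, NZVec.std_val] at h1
  simp [Pi.single_apply, hij.symm, Units.smul_def] at h1

theorem sl_pair_orbit_card [Fintype F] [DecidableEq F] (hn : 3 ≤ n) :
    Nat.card (orbitRel.Quotient (Matrix.SpecialLinearGroup (Fin n) F) (NZVec n F × NZVec n F))
      = Fintype.card F := by
  classical
  let Φ : orbitRel.Quotient (Matrix.SpecialLinearGroup (Fin n) F) (NZVec n F × NZVec n F)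
      → Option Fˣ :=
    Quotient.lift pairInv (by
      intro a b hab
      obtain ⟨g, hg⟩ := hab
      rw [← hg]
      exact pairInv_smul g b)
  have hinj : Function.Injective Φ := by
    intro a b
    induction a using Quotient.inductionOn' with
    | h p =>
      induction b using Quotient.inductionOn' with
      | h p' =>
        intro h
        obtain ⟨g, hg⟩ := pairInv_orbit hn (p := p) (p' := p') h
        exact Quotient.sound' ⟨g, hg⟩
  have hsurj : Function.Surjective Φ := by
    intro o
    cases o with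
    | none =>
      refine ⟨Quotient.mk'' (NZVec.std ⟨0, by omega⟩, NZVec.std ⟨1, by omega⟩), ?_⟩
      exact pairInv_eq_none (std_ne_units_smul (by simp [Fin.ext_iff]))
    | some c =>
      refine ⟨Quotient.mk'' (NZVec.std ⟨0, by omega⟩, c • NZVec.std ⟨0, by omega⟩), ?_⟩
      exact pairInv_eq_some rfl
  rw [Nat.card_congr (Equiv.ofBijective Φ ⟨hinj, hsurj⟩), Nat.card_eq_fintype_card,
    Fintype.card_option, Fintype.card_units]
  have := Fintype.card_pos (α := F)
  omega

theorem sl_perm_char_nonzero_vectors [Fintype F] [DecidableEq F] (hn : 3 ≤ n) :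
    ∃ χ : Fin (Fintype.card F - 1) → (Matrix.SpecialLinearGroup (Fin n) F → ℂ),
      (∀ i, Cfsg.IsIrrCharacter (Matrix.SpecialLinearGroup (Fin n) F) (χ i)) ∧
      Function.Injective χ ∧
      ∀ g : Matrix.SpecialLinearGroup (Fin n) F,
        (Nat.card {v : Fin n → F // v ≠ 0 ∧ (g : Matrix (Fin n) (Fin n) F).mulVec v = v} : ℂ)
          = 1 + ∑ i, χ i g := by
  classical
  haveI : Nonempty (NZVec n F) := ⟨NZVec.std ⟨0, by omega⟩⟩
  have hcard := sl_pair_orbit_card (F := F) hn
  have hfree : ∀ (z : Fˣ) (x : NZVec n F), z • x = x → z = 1 := by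
    intro z x hx
    have h1 : z • x.1 = (1 : Fˣ) • x.1 := by
      rw [one_smul]
      exact congrArg Subtype.val hx
    exact units_smul_injective_of_ne_zero x.2 h1
  have hxy : ∀ z : Fˣ, z • NZVec.std (F := F) (⟨0, by omega⟩ : Fin n)
      ≠ NZVec.std (⟨1, by omega⟩ : Fin n) := by
    intro z h
    exact std_ne_units_smul (F := F) (i := (⟨0, by omega⟩ : Fin n)) (j := ⟨1, by omega⟩)
      (by simp [Fin.ext_iff]) z (congrArg Subtype.val h).symm
  have hle : Nat.card (orbitRel.Quotient (Matrix.SpecialLinearGroup (Fin n) F)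
      (NZVec n F × NZVec n F)) ≤ Fintype.card Fˣ + 1 := by
    rw [hcard, Fintype.card_units]
    omega
  obtain ⟨χ, hirr, hinj, hval⟩ := perm_char_decomp_of_mult_free
    (G := Matrix.SpecialLinearGroup (Fin n) F) (Ω := NZVec n F)
    (fun χ hχ => perm_mult_free_of_scalars (Z := Fˣ) hfree _ _ hxy hle χ hχ)
    (Fintype.card F) hcard
  refine ⟨χ, hirr, hinj, fun g => ?_⟩
  rw [← hval g]
  congr 1
  exact Nat.card_congr
    { toFun := fun v => ⟨⟨v.1, v.2.1⟩, Subtype.ext v.2.2⟩
      invFun := fun x => ⟨x.1.1, x.1.2, congrArg Subtype.val x.2⟩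
      left_inv := fun v => rfl
      right_inv := fun x => rfl }

end SL

end Cfsg.Agent.Lib.helper23
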