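import Mathlib

/-!
# Schur-ring style lemmas for a permutation group containing a regular abelian group

`H` is a commutative group, `Γ` a group of permutations of `H` containing all translations.
A set `X ⊆ H` is "invariant" if it is stable under the stabiliser of `1` in `Γ`.
-/

namespace Cfsg.Agent.Lib.helper23

section SRing

variable {H : Type*} [CommGroup H]

theorem sr_shift (Γ : Subgroup (Equiv.Perm H)) (hΓ : ∀ h : H, Equiv.mulLeft h ∈ Γ)
    {X : Set H} (hX : ∀ σ ∈ Γ, σ 1 = 1 → ∀ x ∈ X, σ x ∈ X)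
    {γ : Equiv.Perm H} (hγ : γ ∈ Γ) (v : H) {x : H} (hx : x ∈ X) :
    (γ v)⁻¹ * γ (v * x) ∈ X := by
  have hτ : Equiv.mulLeft (γ v)⁻¹ * γ * Equiv.mulLeft v ∈ Γ :=
    Γ.mul_mem (Γ.mul_mem (hΓ _) hγ) (hΓ _)
  have h1 := hX _ hτ (by simp [Equiv.Perm.mul_apply]) x hx
  simpa [Equiv.Perm.mul_apply] using h1

theorem sr_mem_iff (Γ : Subgroup (Equiv.Perm H))
    {X : Set H} (hX : ∀ σ ∈ Γ, σ 1 = 1 → ∀ x ∈ X, σ x ∈ X)
    {σ : Equiv.Perm H} (hσ : σ ∈ Γ) (h1 : σ 1 = 1) (u : H) : σ u ∈ X ↔ u ∈ X := by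
  constructor
  · intro h
    have h2 := hX σ⁻¹ (Γ.inv_mem hσ) (by rw [Equiv.Perm.inv_eq_iff_eq]; exact h1.symm) _ h
    simpa using h2
  · exact hX σ hσ h1 u

theorem sr_inv (Γ : Subgroup (Equiv.Perm H)) (hΓ : ∀ h : H, Equiv.mulLeft h ∈ Γ)
    {X : Set H} (hX : ∀ σ ∈ Γ, σ 1 = 1 → ∀ x ∈ X, σ x ∈ X) :
    ∀ σ ∈ Γ, σ 1 = 1 → ∀ x ∈ {y : H | y⁻¹ ∈ X}, σ x ∈ {y : H | y⁻¹ ∈ X} := by
  intro σ hσ h1 x hx
  have h2 := sr_shift Γ hΓ hX hσ x (x := x⁻¹) (show x⁻¹ ∈ X from hx)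
  rw [mul_inv_cancel, h1, mul_one] at h2
  show (σ x)⁻¹ ∈ X
  exact h2

theorem sr_closure (Γ : Subgroup (Equiv.Perm H)) (hΓ : ∀ h : H, Equiv.mulLeft h ∈ Γ)
    {X : Set H} (hX : ∀ σ ∈ Γ, σ 1 = 1 → ∀ x ∈ X, σ x ∈ X) :
    ∀ σ ∈ Γ, σ 1 = 1 → ∀ x ∈ Subgroup.closure X, σ x ∈ Subgroup.closure X := by
  intro σ hσ h1 x hx
  induction hx using Subgroup.closure_induction_right with
  | one => rw [h1]; exact Subgroup.one_mem _
  | mul_right u hu y hy ih =>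
    have h2 := sr_shift Γ hΓ hX hσ u hy
    have h3 : σ (u * y) = σ u * ((σ u)⁻¹ * σ (u * y)) := (mul_inv_cancel_left _ _).symm
    rw [h3]
    exact Subgroup.mul_mem _ ih (Subgroup.subset_closure h2)
  | mul_inv_cancel u hu y hy ih =>
    have h2 := sr_shift Γ hΓ (sr_inv Γ hΓ hX) hσ u (x := y⁻¹)
      (show (y⁻¹)⁻¹ ∈ X by rw [inv_inv]; exact hy)
    have h3 : σ (u * y⁻¹) = σ u * ((σ u)⁻¹ * σ (u * y⁻¹)) := (mul_inv_cancel_left _ _).symm
    rw [h3]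
    refine Subgroup.mul_mem _ ih ?_
    have h4 : ((σ u)⁻¹ * σ (u * y⁻¹))⁻¹ ∈ X := h2
    have h5 := Subgroup.inv_mem _ (Subgroup.subset_closure h4)
    rw [inv_inv] at h5
    exact h5

/-- The translation stabiliser of a set. -/
def srStab (X : Set H) : Subgroup H where
  carrier := {h | ∀ x, h * x ∈ X ↔ x ∈ X}
  one_mem' := by intro x; rw [one_mul]
  mul_mem' := by
    intro a b ha hb x
    rw [mul_assoc, ha (b * x), hb x]
  inv_mem' := by
    intro a ha x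
    have h := ha (a⁻¹ * x)
    rw [mul_inv_cancel_left] at h
    exact h.symm

theorem srStab_mem (X : Set H) (h : H) : h ∈ srStab X ↔ ∀ x, h * x ∈ X ↔ x ∈ X := Iff.rfl

theorem sr_stab (Γ : Subgroup (Equiv.Perm H)) (hΓ : ∀ h : H, Equiv.mulLeft h ∈ Γ)
    {X : Set H} (hX : ∀ σ ∈ Γ, σ 1 = 1 → ∀ x ∈ X, σ x ∈ X) :
    ∀ σ ∈ Γ, σ 1 = 1 → ∀ x ∈ srStab X, σ x ∈ srStab X := by
  intro σ hσ h1 h hh
  rw [srStab_mem] at hh ⊢
  intro x
  obtain ⟨u, hu⟩ := σ.surjective (σ h * x)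
  have hx : x = (σ h)⁻¹ * σ u := by rw [hu, inv_mul_cancel_left]
  have hrel : (σ h)⁻¹ * σ u ∈ X ↔ h⁻¹ * u ∈ X := by
    constructor
    · intro hm
      have h2 := sr_shift Γ hΓ hX (Γ.inv_mem hσ) (σ h) hm
      simpa using h2
    · intro hm
      have h2 := sr_shift Γ hΓ hX hσ h hm
      simpa using h2
  have h6 := hh (h⁻¹ * u)
  rw [mul_inv_cancel_left] at h6
  rw [← hu, sr_mem_iff Γ hX hσ h1 u]
  constructor
  · intro h7
    have h8 := hrel.2 (h6.1 h7)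
    rw [← hx] at h8
    exact h8
  · intro h7
    rw [hx] at h7
    exact h6.2 (hrel.1 h7)

end SRing

section Alg

variable {H : Type*} [CommGroup H] [DecidableEq H] {k : Type*} [CommSemiring k]

/-- The sum of a finite set in the group algebra. -/
noncomputable def srSum (k : Type*) [CommSemiring k] (X : Finset H) : MonoidAlgebra k H :=
  ∑ x ∈ X, MonoidAlgebra.single x (1 : k)

theorem srSum_coeff (X : Finset H) (u : H) :
    (srSum k X).coeff u = if u ∈ X then 1 else 0 := by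
  unfold srSum
  rw [MonoidAlgebra.coeff_sum, Finsupp.finset_sum_apply]
  simp [MonoidAlgebra.coeff_single, Finsupp.single_apply]

theorem sr_mul_coeff (a : MonoidAlgebra k H) (X : Finset H) (u : H) :
    (a * srSum k X).coeff u = ∑ x ∈ X, a.coeff (u * x⁻¹) := by
  unfold srSum
  rw [Finset.mul_sum, MonoidAlgebra.coeff_sum, Finsupp.finset_sum_apply]
  refine Finset.sum_congr rfl fun x _ => ?_
  rw [MonoidAlgebra.coeff_mul_single_apply, mul_one]

theorem sr_mul_inv (Γ : Subgroup (Equiv.Perm H)) (hΓ : ∀ h : H, Equiv.mulLeft h ∈ Γ)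
    {X : Finset H} (hX : ∀ σ ∈ Γ, σ 1 = 1 → ∀ x ∈ (X : Set H), σ x ∈ (X : Set H))
    {a : MonoidAlgebra k H} (ha : ∀ σ ∈ Γ, σ 1 = 1 → ∀ u, a.coeff (σ u) = a.coeff u) :
    ∀ σ ∈ Γ, σ 1 = 1 → ∀ u, (a * srSum k X).coeff (σ u) = (a * srSum k X).coeff u := by
  intro σ hσ h1 u
  rw [sr_mul_coeff, sr_mul_coeff]
  have hinj : Set.InjOn (fun x : H => (σ (u * x⁻¹))⁻¹ * σ u) (X : Set H) := by
    intro x _ x' _ hxx
    have h3 : (σ (u * x⁻¹))⁻¹ = (σ (u * x'⁻¹))⁻¹ := mul_right_cancel hxx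
    have h4 := σ.injective (inv_injective h3)
    exact inv_injective (mul_left_cancel h4)
  have himg : X.image (fun x : H => (σ (u * x⁻¹))⁻¹ * σ u) = X := by
    apply Finset.eq_of_subset_of_card_le
    · intro y hy
      obtain ⟨x, hx, rfl⟩ := Finset.mem_image.1 hy
      have h2 := sr_shift Γ hΓ hX hσ (u * x⁻¹) (x := x) (Finset.mem_coe.2 hx)
      rw [inv_mul_cancel_right] at h2
      exact Finset.mem_coe.1 h2
    · rw [Finset.card_image_of_injOn hinj]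
  calc ∑ x ∈ X, a.coeff (σ u * x⁻¹)
      = ∑ y ∈ X.image (fun x : H => (σ (u * x⁻¹))⁻¹ * σ u), a.coeff (σ u * y⁻¹) := by rw [himg]
    _ = ∑ x ∈ X, a.coeff (σ u * ((σ (u * x⁻¹))⁻¹ * σ u)⁻¹) := Finset.sum_image hinj
    _ = ∑ x ∈ X, a.coeff (u * x⁻¹) := by
      refine Finset.sum_congr rfl fun x _ => ?_
      have h5 : σ u * ((σ (u * x⁻¹))⁻¹ * σ u)⁻¹ = σ (u * x⁻¹) := by
        rw [mul_inv_rev, inv_inv, mul_inv_cancel_left]
      rw [h5, ha σ hσ h1]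

theorem sr_pow_inv (Γ : Subgroup (Equiv.Perm H)) (hΓ : ∀ h : H, Equiv.mulLeft h ∈ Γ)
    {X : Finset H} (hX : ∀ σ ∈ Γ, σ 1 = 1 → ∀ x ∈ (X : Set H), σ x ∈ (X : Set H)) (n : ℕ) :
    ∀ σ ∈ Γ, σ 1 = 1 → ∀ u, ((srSum k X) ^ n).coeff (σ u) = ((srSum k X) ^ n).coeff u := by
  induction n with
  | zero =>
    intro σ hσ h1 u
    rw [pow_zero, MonoidAlgebra.one_def, MonoidAlgebra.coeff_single, Finsupp.single_apply,
      Finsupp.single_apply]
    have h2 : (1 = σ u) ↔ (1 = u) := by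
      constructor
      · intro h; exact σ.injective (h1.trans h)
      · intro h; rw [← h, h1]
    simp only [h2]
  | succ n ih =>
    rw [pow_succ]
    exact sr_mul_inv Γ hΓ hX ih

theorem sr_frob (p : ℕ) [Fact p.Prime] (Γ : Subgroup (Equiv.Perm H))
    (hΓ : ∀ h : H, Equiv.mulLeft h ∈ Γ)
    {X : Finset H} (hX : ∀ σ ∈ Γ, σ 1 = 1 → ∀ x ∈ (X : Set H), σ x ∈ (X : Set H)) :
    ∀ σ ∈ Γ, σ 1 = 1 → ∀ u, (((X.filter fun x => x ^ p = σ u).card : ℕ) : ZMod p) =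
      (((X.filter fun x => x ^ p = u).card : ℕ) : ZMod p) := by
  haveI : CharP (MonoidAlgebra (ZMod p) H) p :=
    charP_of_injective_algebraMap (algebraMap (ZMod p) (MonoidAlgebra (ZMod p) H)).injective p
  have key : ∀ u : H, ((srSum (ZMod p) X) ^ p).coeff u =
      (((X.filter fun x => x ^ p = u).card : ℕ) : ZMod p) := by
    intro u
    unfold srSum
    rw [sum_pow_char p, MonoidAlgebra.coeff_sum, Finsupp.finset_sum_apply, Finset.card_filter,
      Nat.cast_sum]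
    refine Finset.sum_congr rfl fun x _ => ?_
    rw [MonoidAlgebra.single_pow, one_pow, MonoidAlgebra.coeff_single, Finsupp.single_apply]
    split_ifs <;> simp
  intro σ hσ h1 u
  rw [← key, ← key]
  exact sr_pow_inv Γ hΓ hX p σ hσ h1 u

theorem sr_sq (p : ℕ) (Γ : Subgroup (Equiv.Perm H))
    (hΓ : ∀ h : H, Equiv.mulLeft h ∈ Γ)
    {X : Finset H} (hX : ∀ σ ∈ Γ, σ 1 = 1 → ∀ x ∈ (X : Set H), σ x ∈ (X : Set H)) :
    ∀ σ ∈ Γ, σ 1 = 1 → ∀ u, (((X.filter fun x => σ u * x⁻¹ ∈ X).card : ℕ) : ZMod p) =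
      (((X.filter fun x => u * x⁻¹ ∈ X).card : ℕ) : ZMod p) := by
  have key : ∀ u : H, (srSum (ZMod p) X * srSum (ZMod p) X).coeff u =
      (((X.filter fun x => u * x⁻¹ ∈ X).card : ℕ) : ZMod p) := by
    intro u
    rw [sr_mul_coeff, Finset.card_filter, Nat.cast_sum]
    refine Finset.sum_congr rfl fun x _ => ?_
    rw [srSum_coeff]
    split_ifs <;> simp
  intro σ hσ h1 u
  rw [← key, ← key]
  have h2 := sr_pow_inv (k := ZMod p) Γ hΓ hX 2 σ hσ h1 u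
  rwa [pow_two] at h2

/-- A finite set stable under multiplication by an element of prime order `p` has cardinality
divisible by `p`. -/
theorem sr_card_dvd {p : ℕ} (hp : p.Prime) {g0 : H} (hg01 : g0 ≠ 1)
    (hg0p : g0 ^ p = 1) {E : Finset H} (hE : ∀ x ∈ E, x * g0 ∈ E) : p ∣ E.card := by
  haveI := Fact.mk hp
  let f : Function.End ↥E := fun x => ⟨x.1 * g0, hE x.1 x.2⟩
  have hiter : ∀ (n : ℕ) (x : ↥E), ((f ^ n) x).1 = x.1 * g0 ^ n := by
    intro n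
    induction n with
    | zero => intro x; rw [pow_zero, pow_zero, mul_one]; rfl
    | succ n ih =>
      intro x
      rw [pow_succ f n]
      show ((f ^ n) (f x)).1 = x.1 * g0 ^ (n + 1)
      rw [ih (f x)]
      show x.1 * g0 * g0 ^ n = x.1 * g0 ^ (n + 1)
      rw [pow_succ g0 n, mul_assoc, mul_comm g0]
  have hf : f ^ p ^ 1 = 1 := by
    rw [pow_one]
    refine funext fun x => ?_
    apply Subtype.ext
    exact (hiter p x).trans (by rw [hg0p, mul_one]; rfl)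
  have h := Equiv.Perm.card_fixedPoints_modEq (f := f) (p := p) (n := 1) hf
  have hempty : IsEmpty ↥(Function.fixedPoints f) := by
    constructor
    rintro ⟨x, hx⟩
    have hx' : f x = x := hx
    have h2 : (f x).1 = x.1 := congrArg Subtype.val hx'
    have h3 : x.1 * g0 = x.1 * 1 := by rw [mul_one]; exact h2
    exact hg01 (mul_left_cancel h3)
  rw [Fintype.card_eq_zero_iff.2 hempty, Fintype.card_coe] at h
  exact (Nat.modEq_zero_iff_dvd).1 h

end Alg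

end Cfsg.Agent.Lib.helper23
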