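import Cfsg.Agent.Lib.helper23.SRingA

/-!
# Burnside's theorem on cyclic groups of prime power order (abstract Schur-ring form)
-/

namespace Cfsg.Agent.Lib.helper23

theorem sr_pow_mem {H : Type*} [CommGroup H] [Fintype H] [DecidableEq H] [IsCyclic H] {p : ℕ}
    (hp : p.Prime) {x c : H} (hx1 : x ≠ 1) (hxp : x ^ p = 1) (hc : c ^ p = 1) :
    ∃ k : ℕ, x ^ k = c := by
  haveI := Fact.mk hp
  have hord : orderOf x = p := orderOf_eq_prime hxp hx1
  have hsub : (Finset.range p).image (fun k => x ^ k) ⊆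
      Finset.univ.filter (fun a : H => a ^ p = 1) := by
    intro y hy
    obtain ⟨k, _, rfl⟩ := Finset.mem_image.1 hy
    rw [Finset.mem_filter]
    refine ⟨Finset.mem_univ _, ?_⟩
    rw [← pow_mul, mul_comm, pow_mul, hxp, one_pow]
  have hcard : ((Finset.range p).image (fun k => x ^ k)).card = p := by
    rw [Finset.card_image_of_injOn, Finset.card_range]
    intro a ha b hb hab
    have ha' : a ∈ Set.Iio (orderOf x) := by rw [hord]; simpa using ha
    have hb' : b ∈ Set.Iio (orderOf x) := by rw [hord]; simpa using hb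
    exact pow_injOn_Iio_orderOf ha' hb' hab
  have hK : (Finset.univ.filter (fun a : H => a ^ p = 1)).card ≤ p := by
    convert IsCyclic.card_pow_eq_one_le (α := H) hp.pos
  have heq := Finset.eq_of_subset_of_card_le hsub (by rw [hcard]; exact hK)
  have hcm : c ∈ Finset.univ.filter (fun a : H => a ^ p = 1) := by
    rw [Finset.mem_filter]; exact ⟨Finset.mem_univ _, hc⟩
  rw [← heq] at hcm
  obtain ⟨k, _, hk⟩ := Finset.mem_image.1 hcm
  exact ⟨k, hk⟩

theorem sr_cyc_min {H : Type*} [CommGroup H] [Fintype H] [DecidableEq H] [IsCyclic H] {p m : ℕ}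
    (hp : p.Prime) (hcard : Fintype.card H = p ^ m) {B : Subgroup H} (hB : B ≠ ⊥) {c : H}
    (hc : c ^ p = 1) : c ∈ B := by
  obtain ⟨⟨b, hbB⟩, hb1⟩ := (Subgroup.ne_bot_iff_exists_ne_one).1 hB
  have hb1' : b ≠ 1 := fun h => hb1 (Subtype.ext h)
  have hdvd : orderOf b ∣ p ^ m := by rw [← hcard]; exact orderOf_dvd_card
  obtain ⟨k, _, hk⟩ := (Nat.dvd_prime_pow hp).1 hdvd
  have hk0 : k ≠ 0 := by
    intro h0
    rw [h0, pow_zero, orderOf_eq_one_iff] at hk
    exact hb1' hk
  have hb'1 : b ^ (p ^ (k - 1)) ≠ 1 := by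
    apply pow_ne_one_of_lt_orderOf (pow_ne_zero _ hp.ne_zero)
    rw [hk]
    exact Nat.pow_lt_pow_right hp.one_lt (by omega)
  have hb'p : (b ^ (p ^ (k - 1))) ^ p = 1 := by
    rw [← pow_mul, ← pow_succ, Nat.sub_add_cancel (Nat.one_le_iff_ne_zero.2 hk0), ← hk]
    exact pow_orderOf_eq_one b
  obtain ⟨j, hj⟩ := sr_pow_mem hp hb'1 hb'p hc
  rw [← hj]
  exact B.pow_mem (B.pow_mem hbB _) _

theorem sr_main {H : Type*} [CommGroup H] [Fintype H] [DecidableEq H] [IsCyclic H] {p m : ℕ}
    [Fact p.Prime] (hm : 2 ≤ m) (hcard : Fintype.card H = p ^ m)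
    (Γ : Subgroup (Equiv.Perm H)) (hΓ : ∀ h : H, Equiv.mulLeft h ∈ Γ)
    (hnt : ∃ a b : H, a ≠ 1 ∧ b ≠ 1 ∧ ∀ σ ∈ Γ, σ 1 = 1 → σ a ≠ b) :
    ∃ B : Subgroup H, B ≠ ⊥ ∧ B ≠ ⊤ ∧ ∀ σ ∈ Γ, σ 1 = 1 → ∀ x ∈ B, σ x ∈ B := by
  classical
  have hp : p.Prime := Fact.out
  let T : H → Finset H := fun t => Finset.univ.filter (fun y => ∃ σ ∈ Γ, σ 1 = 1 ∧ σ t = y)
  have hTmem : ∀ t y, y ∈ T t ↔ ∃ σ ∈ Γ, σ 1 = 1 ∧ σ t = y := by
    intro t y
    show y ∈ Finset.univ.filter (fun y => ∃ σ ∈ Γ, σ 1 = 1 ∧ σ t = y) ↔ _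
    rw [Finset.mem_filter]
    exact ⟨fun h => h.2, fun h => ⟨Finset.mem_univ _, h⟩⟩
  have hTself : ∀ t, t ∈ T t := fun t => (hTmem t t).2 ⟨1, Γ.one_mem, rfl, rfl⟩
  have hTinv : ∀ t, ∀ σ ∈ Γ, σ 1 = 1 → ∀ x ∈ (T t : Set H), σ x ∈ (T t : Set H) := by
    intro t σ hσ h1 x hx
    obtain ⟨τ, hτ, hτ1, rfl⟩ := (hTmem t x).1 (Finset.mem_coe.1 hx)
    exact Finset.mem_coe.2 ((hTmem t _).2
      ⟨σ * τ, Γ.mul_mem hσ hτ, by rw [Equiv.Perm.mul_apply, hτ1, h1], rfl⟩)
  have hTone : ∀ t, t ≠ 1 → (1 : H) ∉ T t := by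
    intro t ht h
    obtain ⟨σ, _, h1, h2⟩ := (hTmem t 1).1 h
    exact ht (σ.injective (h2.trans h1.symm))
  have hTtrans : ∀ t y z, y ∈ T t → z ∈ T y → z ∈ T t := by
    intro t y z hy hz
    obtain ⟨σ, hσ, h1, rfl⟩ := (hTmem t y).1 hy
    obtain ⟨τ, hτ, h1', rfl⟩ := (hTmem (σ t) z).1 hz
    exact (hTmem t _).2 ⟨τ * σ, Γ.mul_mem hτ hσ, by rw [Equiv.Perm.mul_apply, h1, h1'], rfl⟩
  have hTsymm : ∀ t y, y ∈ T t → t ∈ T y := by
    intro t y hy
    obtain ⟨σ, hσ, h1, rfl⟩ := (hTmem t y).1 hy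
    exact (hTmem _ t).2 ⟨σ⁻¹, Γ.inv_mem hσ, by rw [Equiv.Perm.inv_eq_iff_eq, h1],
      Equiv.symm_apply_apply σ t⟩
  obtain ⟨g0, hg0⟩ := exists_prime_orderOf_dvd_card (G := H) p
    (by rw [hcard]; exact dvd_pow_self p (by omega))
  have hg0p : g0 ^ p = 1 := by rw [← hg0]; exact pow_orderOf_eq_one g0
  have hg01 : g0 ≠ 1 := by
    intro h
    rw [h, orderOf_one] at hg0
    exact hp.one_lt.ne hg0
  obtain ⟨g1, hg1⟩ : ∃ g1 : H, g1 ^ p ≠ 1 := by
    obtain ⟨g, hg⟩ := IsCyclic.exists_generator (α := H)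
    have hord : orderOf g = Fintype.card H := by
      simpa using orderOf_eq_card_of_forall_mem_zpowers hg
    refine ⟨g, fun h => ?_⟩
    have h3 := orderOf_dvd_of_pow_eq_one h
    rw [hord, hcard] at h3
    have h4 : p ^ 2 ∣ p := (pow_dvd_pow p hm).trans h3
    have h5 := Nat.le_of_dvd hp.pos h4
    nlinarith [hp.two_le]
  have hK1 : (Finset.univ.filter (fun a : H => a ^ p = 1)).card ≤ p := by
    convert IsCyclic.card_pow_eq_one_le (α := H) hp.pos
  have hfib : ∀ x : H, (Finset.univ.filter (fun h : H => h ^ p = x ^ p)).card ≤ p := by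
    intro x
    refine le_trans (Finset.card_le_card_of_injOn (fun h => h * x⁻¹) ?_ ?_) hK1
    · intro h hh
      have hh' : h ^ p = x ^ p := by simpa using hh
      have h6 : (h * x⁻¹) ^ p = 1 := by rw [mul_pow, inv_pow, hh', mul_inv_cancel]
      simpa using h6
    · intro a _ b _ hab
      exact mul_right_cancel hab
  by_cases hc1 : ∃ t : H, t ≠ 1 ∧ ∃ u : H, u ≠ 1 ∧
      ((((T t).filter fun x => x ^ p = u).card : ℕ) : ZMod p) ≠ 0
  · -- Case 1
    obtain ⟨t, ht, u, hu, hne⟩ := hc1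
    let X : Set H := {v | ((((T t).filter fun x => x ^ p = v).card : ℕ) : ZMod p) ≠ 0}
    have hX : ∀ σ ∈ Γ, σ 1 = 1 → ∀ x ∈ X, σ x ∈ X := by
      intro σ hσ h1 v hv
      show ((((T t).filter fun x => x ^ p = σ v).card : ℕ) : ZMod p) ≠ 0
      rw [sr_frob p Γ hΓ (hTinv t) σ hσ h1 v]
      exact hv
    refine ⟨Subgroup.closure X, ?_, ?_, sr_closure Γ hΓ hX⟩
    · intro hbot
      have h3 : u ∈ Subgroup.closure X := Subgroup.subset_closure hne
      rw [hbot, Subgroup.mem_bot] at h3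
      exact hu h3
    · intro htop
      have hle : Subgroup.closure X ≤ (powMonoidHom p : H →* H).range := by
        rw [Subgroup.closure_le]
        intro v hv
        have hv' : ((((T t).filter fun x => x ^ p = v).card : ℕ) : ZMod p) ≠ 0 := hv
        have hne' : ((T t).filter fun x => x ^ p = v).Nonempty := by
          rw [Finset.nonempty_iff_ne_empty]
          intro he
          rw [he] at hv'
          exact hv' (by simp)
        obtain ⟨x, hx⟩ := hne'
        exact MonoidHom.mem_range.2 ⟨x, by rw [powMonoidHom_apply]; exact (Finset.mem_filter.1 hx).2⟩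
      rw [htop] at hle
      have hsurj : Function.Surjective (powMonoidHom p : H →* H) := by
        intro y
        exact MonoidHom.mem_range.1 (hle (Subgroup.mem_top y))
      have hinj := (Finite.injective_iff_surjective).2 hsurj
      have h3 : g0 = 1 := hinj (by rw [powMonoidHom_apply, powMonoidHom_apply, hg0p, one_pow])
      exact hg01 h3
  · -- Case 2
    have hc2 : ∀ t : H, t ≠ 1 → ∀ u : H, u ≠ 1 →
        ((((T t).filter fun x => x ^ p = u).card : ℕ) : ZMod p) = 0 := by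
      intro t ht u hu
      by_contra h
      exact hc1 ⟨t, ht, u, hu, h⟩
    have hC2 : ∀ t : H, t ≠ 1 → ∀ x ∈ T t, x ^ p ≠ 1 → ∀ h : H, h ^ p = 1 → x * h ∈ T t := by
      intro t ht x hx hxp h hh
      have h0 := hc2 t ht (x ^ p) hxp
      rw [ZMod.natCast_eq_zero_iff] at h0
      have hsub : (T t).filter (fun y => y ^ p = x ^ p) ⊆
          Finset.univ.filter (fun y : H => y ^ p = x ^ p) := by
        intro y hy
        rw [Finset.mem_filter] at hy ⊢
        exact ⟨Finset.mem_univ _, hy.2⟩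
      have hpos : 0 < ((T t).filter (fun y => y ^ p = x ^ p)).card :=
        Finset.card_pos.2 ⟨x, Finset.mem_filter.2 ⟨hx, rfl⟩⟩
      have hge : p ≤ ((T t).filter (fun y => y ^ p = x ^ p)).card := Nat.le_of_dvd hpos h0
      have heq := Finset.eq_of_subset_of_card_le hsub ((hfib x).trans hge)
      have hmem : x * h ∈ Finset.univ.filter (fun y : H => y ^ p = x ^ p) := by
        rw [Finset.mem_filter]
        exact ⟨Finset.mem_univ _, by rw [mul_pow, hh, mul_one]⟩
      rw [← heq] at hmem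
      exact (Finset.mem_filter.1 hmem).1
    by_cases h2a : ∃ t : H, t ≠ 1 ∧ ∀ x ∈ T t, x ^ p ≠ 1
    · obtain ⟨t, ht, hall⟩ := h2a
      refine ⟨srStab (T t : Set H), ?_, ?_, sr_stab Γ hΓ (hTinv t)⟩
      · intro hbot
        have hg0mem : g0 ∈ srStab (T t : Set H) := by
          rw [srStab_mem]
          intro x
          constructor
          · intro hx
            have hx' : g0 * x ∈ T t := Finset.mem_coe.1 hx
            have h3 := hC2 t ht _ hx' (hall _ hx') g0⁻¹ (by rw [inv_pow, hg0p, inv_one])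
            rw [mul_comm g0 x, mul_inv_cancel_right] at h3
            exact Finset.mem_coe.2 h3
          · intro hx
            have hx' : x ∈ T t := Finset.mem_coe.1 hx
            have h3 := hC2 t ht _ hx' (hall _ hx') g0 hg0p
            rw [mul_comm] at h3
            exact Finset.mem_coe.2 h3
        rw [hbot, Subgroup.mem_bot] at hg0mem
        exact hg01 hg0mem
      · intro htop
        have hmem : t⁻¹ ∈ srStab (T t : Set H) := by rw [htop]; exact Subgroup.mem_top _
        rw [srStab_mem] at hmem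
        have h4 := (hmem t).2 (Finset.mem_coe.2 (hTself t))
        rw [inv_mul_cancel] at h4
        exact hTone t ht (Finset.mem_coe.1 h4)
    by_cases h2b : ∃ t : H, t ≠ 1 ∧ ∀ x ∈ T t, x ^ p = 1
    · obtain ⟨t, ht, hall⟩ := h2b
      refine ⟨Subgroup.closure (T t : Set H), ?_, ?_, sr_closure Γ hΓ (hTinv t)⟩
      · intro hbot
        have h3 : t ∈ Subgroup.closure (T t : Set H) :=
          Subgroup.subset_closure (Finset.mem_coe.2 (hTself t))
        rw [hbot, Subgroup.mem_bot] at h3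
        exact ht h3
      · intro htop
        have hle : Subgroup.closure (T t : Set H) ≤ (powMonoidHom p : H →* H).ker := by
          rw [Subgroup.closure_le]
          intro x hx
          rw [SetLike.mem_coe, MonoidHom.mem_ker, powMonoidHom_apply]
          exact hall x (Finset.mem_coe.1 hx)
        rw [htop] at hle
        have h3 := hle (Subgroup.mem_top g1)
        rw [MonoidHom.mem_ker, powMonoidHom_apply] at h3
        exact hg1 h3
    -- Case 2c
    exfalso
    have h2a' : ∀ t : H, t ≠ 1 → ∃ x ∈ T t, x ^ p = 1 := by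
      intro t ht
      by_contra h
      exact h2a ⟨t, ht, fun x hx hxp => h ⟨x, hx, hxp⟩⟩
    have h2b' : ∀ t : H, t ≠ 1 → ∃ x ∈ T t, x ^ p ≠ 1 := by
      intro t ht
      by_contra h
      exact h2b ⟨t, ht, fun x hx => by by_contra hxp; exact h ⟨x, hx, hxp⟩⟩
    obtain ⟨a, b, ha, hb, hab⟩ := hnt
    have hbTa : b ∉ T a := by
      intro h
      obtain ⟨σ, hσ, h1, h2⟩ := (hTmem a b).1 h
      exact hab σ hσ h1 h2
    have hclaim : ∀ x ∈ T a, x ^ p = 1 → ∀ y ∈ T a, y ^ p = 1 → x * y = 1 ∨ x * y ∈ T a := by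
      intro x0 hx0 hx0p y0 hy0 hy0p
      by_contra hcon
      have hw1 : x0 * y0 ≠ 1 := fun h => hcon (Or.inl h)
      have hwT : x0 * y0 ∉ T a := fun h => hcon (Or.inr h)
      obtain ⟨w, hw⟩ : ∃ w : H, w = x0 * y0 := ⟨_, rfl⟩
      rw [← hw] at hw1 hwT
      have hwp : w ^ p = 1 := by rw [hw, mul_pow, hx0p, hy0p, mul_one]
      obtain ⟨y', hy'T, hy'p⟩ := h2b' w hw1
      have hy'Ta : y' ∉ T a := fun h => hwT (hTtrans a y' w h (hTsymm w y' hy'T))
      obtain ⟨σ, hσ, hσ1, hσw⟩ := (hTmem w y').1 hy'T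
      have hsq := sr_sq p Γ hΓ (hTinv a) σ hσ hσ1 w
      rw [hσw] at hsq
      have hL : ((((T a).filter fun x => y' * x⁻¹ ∈ T a).card : ℕ) : ZMod p) = 0 := by
        rw [ZMod.natCast_eq_zero_iff]
        apply sr_card_dvd hp hg01 hg0p
        intro x hx
        rw [Finset.mem_filter] at hx ⊢
        obtain ⟨hxT, hyx⟩ := hx
        have hxp : x ^ p ≠ 1 := by
          intro hxp
          have hz : (y' * x⁻¹) ^ p ≠ 1 := by
            rw [mul_pow, inv_pow, hxp, inv_one, mul_one]; exact hy'p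
          have h3 := hC2 a ha _ hyx hz x hxp
          rw [inv_mul_cancel_right] at h3
          exact hy'Ta h3
        have hzp : (y' * x⁻¹) ^ p ≠ 1 := by
          intro hzp
          have h3 := hC2 a ha x hxT hxp (y' * x⁻¹) hzp
          rw [mul_comm x, inv_mul_cancel_right] at h3
          exact hy'Ta h3
        refine ⟨hC2 a ha x hxT hxp g0 hg0p, ?_⟩
        have h3 := hC2 a ha _ hyx hzp g0⁻¹ (by rw [inv_pow, hg0p, inv_one])
        have he : y' * (x * g0)⁻¹ = y' * x⁻¹ * g0⁻¹ := by rw [mul_inv, mul_assoc]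
        rw [he]; exact h3
      have hsplit : ((T a).filter fun x => w * x⁻¹ ∈ T a).card =
          (((T a).filter fun x => w * x⁻¹ ∈ T a).filter fun x => x ^ p = 1).card +
          (((T a).filter fun x => w * x⁻¹ ∈ T a).filter fun x => ¬ x ^ p = 1).card :=
        (Finset.card_filter_add_card_filter_not _).symm
      have hE2 : p ∣ (((T a).filter fun x => w * x⁻¹ ∈ T a).filter fun x => ¬ x ^ p = 1).card := by
        apply sr_card_dvd hp hg01 hg0p
        intro x hx
        rw [Finset.mem_filter, Finset.mem_filter] at hx ⊢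
        obtain ⟨⟨hxT, hwx⟩, hxp⟩ := hx
        have hzp : (w * x⁻¹) ^ p ≠ 1 := by
          rw [mul_pow, hwp, one_mul, inv_pow]
          intro h; exact hxp (inv_eq_one.1 h)
        refine ⟨⟨hC2 a ha x hxT hxp g0 hg0p, ?_⟩, ?_⟩
        · have h3 := hC2 a ha _ hwx hzp g0⁻¹ (by rw [inv_pow, hg0p, inv_one])
          have he : w * (x * g0)⁻¹ = w * x⁻¹ * g0⁻¹ := by rw [mul_inv, mul_assoc]
          rw [he]; exact h3
        · rw [mul_pow, hg0p, mul_one]; exact hxp
      have hF1 : 0 < (((T a).filter fun x => w * x⁻¹ ∈ T a).filter fun x => x ^ p = 1).card := by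
        apply Finset.card_pos.2
        refine ⟨x0, ?_⟩
        rw [Finset.mem_filter, Finset.mem_filter]
        refine ⟨⟨hx0, ?_⟩, hx0p⟩
        have h3 : w * x0⁻¹ = y0 := by rw [hw, mul_comm x0 y0, mul_inv_cancel_right]
        rw [h3]; exact hy0
      have hF2 : (((T a).filter fun x => w * x⁻¹ ∈ T a).filter fun x => x ^ p = 1).card < p := by
        have hsub : (((T a).filter fun x => w * x⁻¹ ∈ T a).filter fun x => x ^ p = 1) ⊆
            (Finset.univ.filter (fun c : H => c ^ p = 1)).erase 1 := by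
          intro x hx
          rw [Finset.mem_filter, Finset.mem_filter] at hx
          rw [Finset.mem_erase, Finset.mem_filter]
          refine ⟨?_, Finset.mem_univ _, hx.2⟩
          intro hx1
          rw [hx1] at hx
          exact hTone a ha hx.1.1
        have h1 := Finset.card_le_card hsub
        have h1mem : (1 : H) ∈ Finset.univ.filter (fun c : H => c ^ p = 1) := by
          rw [Finset.mem_filter]; exact ⟨Finset.mem_univ _, one_pow p⟩
        have h2 := Finset.card_erase_of_mem h1mem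
        have h3 : 0 < (Finset.univ.filter (fun c : H => c ^ p = 1)).card :=
          Finset.card_pos.2 ⟨1, h1mem⟩
        omega
      have hR : ((((T a).filter fun x => w * x⁻¹ ∈ T a).card : ℕ) : ZMod p) ≠ 0 := by
        rw [hsplit, Nat.cast_add, (ZMod.natCast_eq_zero_iff _ p).2 hE2, add_zero]
        intro h0
        rw [ZMod.natCast_eq_zero_iff] at h0
        have h4 := Nat.le_of_dvd hF1 h0
        omega
      rw [hL] at hsq
      exact hR hsq.symm
    obtain ⟨xa, hxaT, hxap⟩ := h2a' a ha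
    obtain ⟨xb, hxbT, hxbp⟩ := h2a' b hb
    have hxa1 : xa ≠ 1 := fun h => hTone a ha (h ▸ hxaT)
    have hxb1 : xb ≠ 1 := fun h => hTone b hb (h ▸ hxbT)
    have hxbTa : xb ∉ T a := fun h => hbTa (hTtrans a xb b h (hTsymm b xb hxbT))
    obtain ⟨k, hk⟩ := sr_pow_mem hp hxa1 hxap hxbp
    have hpow : ∀ n : ℕ, xa ^ n = 1 ∨ xa ^ n ∈ T a := by
      intro n
      induction n with
      | zero => left; exact pow_zero _
      | succ n ih =>
        rw [pow_succ]
        rcases ih with h | h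
        · rw [h, one_mul]; exact Or.inr hxaT
        · exact hclaim _ h (by rw [← pow_mul, mul_comm, pow_mul, hxap, one_pow]) xa hxaT hxap
    rcases hpow k with h | h
    · exact hxb1 (hk ▸ h)
    · exact hxbTa (hk ▸ h)

end Cfsg.Agent.Lib.helper23
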