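import Cfsg.Agent.Lib.helper23.SRingB

/-!
# Burnside's theorem: a transitive group of degree `p ^ m` (`m ≥ 2`) containing a regular cyclic
subgroup is doubly transitive or imprimitive (bridge from the abstract Schur-ring statement).
-/

namespace Cfsg.Agent.Lib.helper23

theorem sr_bridge {Ω : Type*} [Fintype Ω] [DecidableEq Ω] {p m : ℕ} (hp : p.Prime) (hm : 2 ≤ m)
    (hΩ : Fintype.card Ω = p ^ m) (G : Subgroup (Equiv.Perm Ω))
    (h2 : ¬ MulAction.IsMultiplyPretransitive G Ω 2)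
    {H : Type*} [CommGroup H] [Fintype H] [IsCyclic H] (hcardH : Fintype.card H = p ^ m)
    (ψ : H →* Equiv.Perm Ω) (hψG : ∀ h, ψ h ∈ G) (ω0 : Ω) (hfix : ∀ c : H, ψ c ω0 = ω0 → c = 1)
    (c0 : H) (hc0 : c0 ^ p = 1) (g0 : G) (hg0 : (g0 : Equiv.Perm Ω) = ψ c0) :
    ¬ MulAction.IsPreprimitive G Ω ∧
      ¬ MulAction.IsPretransitive (Subgroup.normalClosure ({g0} : Set G)) Ω := by
  classical
  haveI : Fact p.Prime := ⟨hp⟩
  have he_mul0 : ∀ a b : H, ψ (a * b) ω0 = ψ a (ψ b ω0) := by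
    intro a b
    rw [map_mul]; rfl
  have he_inj : Function.Injective (fun h : H => ψ h ω0) := by
    intro a b hab
    have hab' : ψ a ω0 = ψ b ω0 := hab
    have h4 : ψ (a⁻¹ * b) ω0 = ω0 := by
      rw [he_mul0, ← hab', ← he_mul0, inv_mul_cancel, map_one]; rfl
    exact inv_mul_eq_one.1 (hfix _ h4)
  have he_bij : Function.Bijective (fun h : H => ψ h ω0) := by
    rw [Fintype.bijective_iff_injective_and_card]
    exact ⟨he_inj, by rw [hcardH, hΩ]⟩
  obtain ⟨E, hE⟩ : ∃ E : H ≃ Ω, ∀ h, E h = ψ h ω0 :=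
    ⟨Equiv.ofBijective _ he_bij, fun h => rfl⟩
  have he_mul : ∀ a b : H, E (a * b) = ψ a (E b) := by
    intro a b
    rw [hE, hE, he_mul0]
  have hE1 : E 1 = ω0 := by
    rw [hE, map_one]; rfl
  obtain ⟨Γ, hΓmem⟩ : ∃ Γ : Subgroup (Equiv.Perm H), ∀ τ : Equiv.Perm H,
      τ ∈ Γ ↔ E.permCongr τ ∈ G :=
    ⟨G.comap (E.permCongrHom : Equiv.Perm H ≃* Equiv.Perm Ω).toMonoidHom, fun τ => Iff.rfl⟩
  have hΓtr : ∀ h : H, Equiv.mulLeft h ∈ Γ := by
    intro h
    rw [hΓmem]
    have h3 : E.permCongr (Equiv.mulLeft h) = ψ h := by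
      ext ω
      obtain ⟨b, rfl⟩ := E.surjective ω
      rw [Equiv.permCongr_apply, Equiv.symm_apply_apply]
      exact he_mul h b
    rw [h3]; exact hψG h
  have hnt : ∃ a b : H, a ≠ 1 ∧ b ≠ 1 ∧ ∀ σ ∈ Γ, σ 1 = 1 → σ a ≠ b := by
    by_contra hcon
    apply h2
    rw [MulAction.is_two_pretransitive_iff]
    intro a b c d hab hcd
    obtain ⟨ha', hha⟩ := E.surjective a
    obtain ⟨hc', hhc⟩ := E.surjective c
    have hxa : (ψ ha')⁻¹ a = ω0 := by
      rw [Equiv.Perm.inv_eq_iff_eq, ← hha, hE]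
    have hyc : (ψ hc')⁻¹ c = ω0 := by
      rw [Equiv.Perm.inv_eq_iff_eq, ← hhc, hE]
    obtain ⟨x, hx⟩ : ∃ x : Equiv.Perm Ω, x = (ψ ha')⁻¹ := ⟨_, rfl⟩
    obtain ⟨y, hy⟩ : ∃ y : Equiv.Perm Ω, y = (ψ hc')⁻¹ := ⟨_, rfl⟩
    rw [← hx] at hxa
    rw [← hy] at hyc
    have hxG : x ∈ G := by rw [hx]; exact G.inv_mem (hψG _)
    have hyG : y ∈ G := by rw [hy]; exact G.inv_mem (hψG _)
    have hxb : x b ≠ ω0 := fun h => hab (x.injective (hxa.trans h.symm))
    have hyd : y d ≠ ω0 := fun h => hcd (y.injective (hyc.trans h.symm))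
    have ha1 : E.symm (x b) ≠ 1 := by
      intro h
      apply hxb
      rw [← hE1, ← h, Equiv.apply_symm_apply]
    have hb1 : E.symm (y d) ≠ 1 := by
      intro h
      apply hyd
      rw [← hE1, ← h, Equiv.apply_symm_apply]
    have hex : ∃ σ ∈ Γ, σ 1 = 1 ∧ σ (E.symm (x b)) = E.symm (y d) := by
      by_contra hno
      exact hcon ⟨_, _, ha1, hb1, fun σ hσ h1 h => hno ⟨σ, hσ, h1, h⟩⟩
    obtain ⟨σ, hσ, hσ1, hσab⟩ := hex
    have hσG : E.permCongr σ ∈ G := (hΓmem σ).1 hσ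
    refine ⟨⟨y⁻¹ * E.permCongr σ * x, G.mul_mem (G.mul_mem (G.inv_mem hyG) hσG) hxG⟩, ?_, ?_⟩
    · show (y⁻¹ * E.permCongr σ * x) a = c
      rw [Equiv.Perm.mul_apply, Equiv.Perm.mul_apply, hxa, Equiv.permCongr_apply, ← hE1,
        Equiv.symm_apply_apply, hσ1, hE1, Equiv.Perm.inv_eq_iff_eq, hyc]
    · show (y⁻¹ * E.permCongr σ * x) b = d
      rw [Equiv.Perm.mul_apply, Equiv.Perm.mul_apply, Equiv.permCongr_apply, hσab,
        Equiv.apply_symm_apply, Equiv.Perm.inv_eq_iff_eq]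
  obtain ⟨B, hBbot, hBtop, hBinv⟩ := sr_main (H := H) (p := p) (m := m) hm hcardH Γ hΓtr hnt
  have hBinv' : ∀ σ ∈ Γ, σ 1 = 1 → ∀ x ∈ (B : Set H), σ x ∈ (B : Set H) :=
    fun σ hσ h1 x hx => hBinv σ hσ h1 x hx
  have hshift : ∀ z ∈ G, ∀ v : H, ∀ x ∈ B,
      (E.symm (z (E v)))⁻¹ * E.symm (z (E (v * x))) ∈ B := by
    intro z hz v x hx
    have hτ : E.symm.permCongr z ∈ Γ := by
      rw [hΓmem]
      have h3 : E.permCongr (E.symm.permCongr z) = z := by
        ext ω
        simp [Equiv.permCongr_apply]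
      rw [h3]; exact hz
    have h4 := sr_shift Γ hΓtr (X := (B : Set H)) hBinv' hτ v (x := x) hx
    simpa [Equiv.permCongr_apply] using h4
  have hsub : ∀ (z : G) (b1 b2 : H), b1 ∈ B → b2 ∈ B → E b2 = (z : Equiv.Perm Ω) (E b1) →
      ∀ ω ∈ E '' (B : Set H), (z : Equiv.Perm Ω) ω ∈ E '' (B : Set H) := by
    intro z b1 b2 hb1 hb2 h12 ω hω
    obtain ⟨b, hb, rfl⟩ := hω
    have h5 := hshift z z.2 b1 (b1⁻¹ * b) (B.mul_mem (B.inv_mem hb1) hb)
    rw [mul_inv_cancel_left, ← h12, Equiv.symm_apply_apply] at h5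
    refine ⟨E.symm ((z : Equiv.Perm Ω) (E b)), ?_, Equiv.apply_symm_apply _ _⟩
    have h6 := B.mul_mem hb2 h5
    rw [mul_inv_cancel_left] at h6
    exact h6
  have hblock : MulAction.IsBlock G (E '' (B : Set H)) := by
    rw [MulAction.isBlock_iff_smul_eq_of_mem]
    intro z ω hω hzω
    obtain ⟨b1, hb1, rfl⟩ := hω
    obtain ⟨b2, hb2, hb2e⟩ := hzω
    have hb2e' : E b2 = (z : Equiv.Perm Ω) (E b1) := hb2e
    apply Set.Subset.antisymm
    · intro ω' hω'
      obtain ⟨ω, hω, rfl⟩ := Set.mem_smul_set.1 hω'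
      exact hsub z b1 b2 hb1 hb2 hb2e' ω hω
    · intro ω hω
      have hz' : E b1 = ((z⁻¹ : G) : Equiv.Perm Ω) (E b2) := by
        rw [hb2e']
        show E b1 = (z⁻¹ : G) • (z • E b1)
        rw [inv_smul_smul]
      have h7 := hsub z⁻¹ b2 b1 hb2 hb1 hz' ω hω
      exact Set.mem_smul_set.2 ⟨(z⁻¹ : G) • ω, h7, smul_inv_smul z ω⟩
  refine ⟨fun hprim => ?_, fun htrans => ?_⟩
  · have htriv := hprim.isTrivialBlock_of_isBlock hblock
    rcases htriv with hss | huniv
    · apply hBbot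
      rw [Subgroup.eq_bot_iff_forall]
      intro b hb
      have h8 := hss (Set.mem_image_of_mem E (SetLike.mem_coe.2 hb))
        (Set.mem_image_of_mem E (SetLike.mem_coe.2 B.one_mem))
      exact E.injective h8
    · apply hBtop
      rw [Subgroup.eq_top_iff']
      intro h
      have h8 : E h ∈ E '' (B : Set H) := by rw [huniv]; exact Set.mem_univ _
      obtain ⟨b, hb, hbe⟩ := h8
      rw [← E.injective hbe]; exact hb
  · obtain ⟨K, hKmem⟩ : ∃ K : Subgroup G, ∀ x : G, x ∈ K ↔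
        ∀ h h' : H, (x : Equiv.Perm Ω) (E h) = E h' → h⁻¹ * h' ∈ B := by
      refine ⟨{ carrier := {x | ∀ h h' : H, (x : Equiv.Perm Ω) (E h) = E h' → h⁻¹ * h' ∈ B}
                one_mem' := by
                  show ∀ h h' : H, ((1 : G) : Equiv.Perm Ω) (E h) = E h' → h⁻¹ * h' ∈ B
                  intro h h' hh
                  have h9 : h = h' := E.injective hh
                  rw [h9, inv_mul_cancel]; exact B.one_mem
                mul_mem' := by
                  intro x y hx hy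
                  show ∀ h h' : H, ((x * y : G) : Equiv.Perm Ω) (E h) = E h' → h⁻¹ * h' ∈ B
                  intro h h' hh
                  have hx' : ∀ h h' : H, (x : Equiv.Perm Ω) (E h) = E h' → h⁻¹ * h' ∈ B := hx
                  have hy' : ∀ h h' : H, (y : Equiv.Perm Ω) (E h) = E h' → h⁻¹ * h' ∈ B := hy
                  have h1 := hy' h (E.symm ((y : Equiv.Perm Ω) (E h)))
                    (by rw [Equiv.apply_symm_apply])
                  have h2' := hx' (E.symm ((y : Equiv.Perm Ω) (E h))) h'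
                    (by rw [Equiv.apply_symm_apply]; exact hh)
                  have h3 := B.mul_mem h1 h2'
                  rw [mul_assoc, mul_inv_cancel_left] at h3
                  exact h3
                inv_mem' := by
                  intro x hx
                  show ∀ h h' : H, ((x⁻¹ : G) : Equiv.Perm Ω) (E h) = E h' → h⁻¹ * h' ∈ B
                  intro h h' hh
                  have hx' : ∀ h h' : H, (x : Equiv.Perm Ω) (E h) = E h' → h⁻¹ * h' ∈ B := hx
                  have hh' : ((x : Equiv.Perm Ω))⁻¹ (E h) = E h' := hh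
                  have h1 := hx' h' h (by rw [← hh']; exact Equiv.apply_symm_apply _ _)
                  have h3 := B.inv_mem h1
                  rw [mul_inv_rev, inv_inv] at h3
                  exact h3 }, fun x => Iff.rfl⟩
    have hKn : K.Normal := by
      constructor
      intro x hx y
      rw [hKmem] at hx ⊢
      intro h h' hh
      have hh1 : (y : Equiv.Perm Ω) ((x : Equiv.Perm Ω) ((y : Equiv.Perm Ω)⁻¹ (E h))) = E h' := hh
      have hh2 : (x : Equiv.Perm Ω) ((y : Equiv.Perm Ω)⁻¹ (E h)) = (y : Equiv.Perm Ω)⁻¹ (E h') := by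
        rw [Equiv.Perm.eq_inv_iff_eq]; exact hh1
      have h1 := hx (E.symm ((y : Equiv.Perm Ω)⁻¹ (E h))) (E.symm ((y : Equiv.Perm Ω)⁻¹ (E h')))
        (by rw [Equiv.apply_symm_apply, Equiv.apply_symm_apply]; exact hh2)
      have h3 := hshift y y.2 (E.symm ((y : Equiv.Perm Ω)⁻¹ (E h)))
        ((E.symm ((y : Equiv.Perm Ω)⁻¹ (E h)))⁻¹ * E.symm ((y : Equiv.Perm Ω)⁻¹ (E h'))) h1
      rw [mul_inv_cancel_left, Equiv.apply_symm_apply, Equiv.apply_symm_apply] at h3
      have e1 : (y : Equiv.Perm Ω) ((y : Equiv.Perm Ω)⁻¹ (E h)) = E h :=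
        Equiv.apply_symm_apply _ _
      have e2 : (y : Equiv.Perm Ω) ((y : Equiv.Perm Ω)⁻¹ (E h')) = E h' :=
        Equiv.apply_symm_apply _ _
      rw [e1, e2, Equiv.symm_apply_apply, Equiv.symm_apply_apply] at h3
      exact h3
    have hg0K : g0 ∈ K := by
      rw [hKmem]
      intro h h' hh
      rw [hg0] at hh
      have h3 : E (c0 * h) = E h' := by rw [← hh]; exact he_mul c0 h
      have h4 : c0 * h = h' := E.injective h3
      rw [← h4, mul_comm c0 h, inv_mul_cancel_left]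
      exact sr_cyc_min hp hcardH hBbot hc0
    haveI := hKn
    have hle : Subgroup.normalClosure ({g0} : Set G) ≤ K :=
      Subgroup.normalClosure_le_normal (Set.singleton_subset_iff.2 hg0K)
    apply hBtop
    rw [Subgroup.eq_top_iff']
    intro h
    obtain ⟨x, hx⟩ := htrans.exists_smul_eq (E 1) (E h)
    have hxK : (x : G) ∈ K := hle x.2
    have h5 := (hKmem _).1 hxK 1 h hx
    rw [inv_one, one_mul] at h5
    exact h5

end Cfsg.Agent.Lib.helper23
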