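import Cfsg.Agent.Lib.helper23.SRingC

/-!
# Schur's theorem: cyclic groups of composite order are B-groups (via the same Schur-ring argument)
-/

namespace Cfsg.Agent.Lib.helper23

theorem sr_main2 {H : Type*} [CommGroup H] [Fintype H] [DecidableEq H] [IsCyclic H] {p : ℕ}
    [Fact p.Prime] (hdvd : p ∣ Fintype.card H) (hne : Fintype.card H ≠ p)
    (Γ : Subgroup (Equiv.Perm H)) (hΓ : ∀ h : H, Equiv.mulLeft h ∈ Γ)
    (hnt : ∃ a b : H, a ≠ 1 ∧ b ≠ 1 ∧ ∀ σ ∈ Γ, σ 1 = 1 → σ a ≠ b) :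
    ∃ B : Subgroup H, B ≠ ⊥ ∧ B ≠ ⊤ ∧ ∀ σ ∈ Γ, σ 1 = 1 → ∀ x ∈ B, σ x ∈ B := by
  classical
  have hp : p.Prime := Fact.out
  let T : H → Finset H := fun t => Finset.univ.filter (fun y => ∃ σ ∈ Γ, σ 1 = 1 ∧ σ t = y)
  have hTmem : ∀ t y, y ∈ T t ↔ ∃ σ ∈ Γ, σ 1 = 1 ∧ σ t = y := by
    intro t y
    show y ∈ Finset.univ.filter (fun y => ∃ σ ∈ Γ, σ 1 = 1 ∧ σ t = y) ↔ _
    rw [Finset.mem_filter]
    exact ⟨fun h => h.2, fun h => ⟨Finset.mem_univ _, h⟩⟩
  have hTself : ∀ t, t ∈ T t := fun t => (hTmem t t).2 ⟨1, Γ.one_mem, rfl, rfl⟩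
  have hTinv : ∀ t, ∀ σ ∈ Γ, σ 1 = 1 → ∀ x ∈ (T t : Set H), σ x ∈ (T t : Set H) := by
    intro t σ hσ h1 x hx
    obtain ⟨τ, hτ, hτ1, rfl⟩ := (hTmem t x).1 (Finset.mem_coe.1 hx)
    exact Finset.mem_coe.2 ((hTmem t _).2
      ⟨σ * τ, Γ.mul_mem hσ hτ, by rw [Equiv.Perm.mul_apply, hτ1, h1], rfl⟩)
  have hTone : ∀ t, t ≠ 1 → (1 : H) ∉ T t := by
    intro t ht h
    obtain ⟨σ, _, h1, h2⟩ := (hTmem t 1).1 h
    exact ht (σ.injective (h2.trans h1.symm))
  have hTtrans : ∀ t y z, y ∈ T t → z ∈ T y → z ∈ T t := by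
    intro t y z hy hz
    obtain ⟨σ, hσ, h1, rfl⟩ := (hTmem t y).1 hy
    obtain ⟨τ, hτ, h1', rfl⟩ := (hTmem (σ t) z).1 hz
    exact (hTmem t _).2 ⟨τ * σ, Γ.mul_mem hτ hσ, by rw [Equiv.Perm.mul_apply, h1, h1'], rfl⟩
  have hTsymm : ∀ t y, y ∈ T t → t ∈ T y := by
    intro t y hy
    obtain ⟨σ, hσ, h1, rfl⟩ := (hTmem t y).1 hy
    exact (hTmem _ t).2 ⟨σ⁻¹, Γ.inv_mem hσ, by rw [Equiv.Perm.inv_eq_iff_eq, h1],
      Equiv.symm_apply_apply σ t⟩
  obtain ⟨g0, hg0⟩ := exists_prime_orderOf_dvd_card (G := H) p hdvd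
  have hg0p : g0 ^ p = 1 := by rw [← hg0]; exact pow_orderOf_eq_one g0
  have hg01 : g0 ≠ 1 := by
    intro h
    rw [h, orderOf_one] at hg0
    exact hp.one_lt.ne hg0
  obtain ⟨g1, hg1⟩ : ∃ g1 : H, g1 ^ p ≠ 1 := by
    obtain ⟨g, hg⟩ := IsCyclic.exists_generator (α := H)
    have hord : orderOf g = Fintype.card H := by
      simpa using orderOf_eq_card_of_forall_mem_zpowers hg
    refine ⟨g, fun h => ?_⟩
    have h3 := orderOf_dvd_of_pow_eq_one h
    rw [hord] at h3
    rcases (Nat.dvd_prime hp).1 h3 with h4 | h4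
    · rw [h4] at hdvd
      exact hp.one_lt.ne' (Nat.dvd_one.1 hdvd)
    · exact hne h4
  have hK1 : (Finset.univ.filter (fun a : H => a ^ p = 1)).card ≤ p := by
    convert IsCyclic.card_pow_eq_one_le (α := H) hp.pos
  have hfib : ∀ x : H, (Finset.univ.filter (fun h : H => h ^ p = x ^ p)).card ≤ p := by
    intro x
    refine le_trans (Finset.card_le_card_of_injOn (fun h => h * x⁻¹) ?_ ?_) hK1
    · intro h hh
      have hh' : h ^ p = x ^ p := by simpa using hh
      have h6 : (h * x⁻¹) ^ p = 1 := by rw [mul_pow, inv_pow, hh', mul_inv_cancel]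
      simpa using h6
    · intro a _ b _ hab
      exact mul_right_cancel hab
  by_cases hc1 : ∃ t : H, t ≠ 1 ∧ ∃ u : H, u ≠ 1 ∧
      ((((T t).filter fun x => x ^ p = u).card : ℕ) : ZMod p) ≠ 0
  · -- Case 1
    obtain ⟨t, ht, u, hu, hne⟩ := hc1
    let X : Set H := {v | ((((T t).filter fun x => x ^ p = v).card : ℕ) : ZMod p) ≠ 0}
    have hX : ∀ σ ∈ Γ, σ 1 = 1 → ∀ x ∈ X, σ x ∈ X := by
      intro σ hσ h1 v hv
      show ((((T t).filter fun x => x ^ p = σ v).card : ℕ) : ZMod p) ≠ 0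
      rw [sr_frob p Γ hΓ (hTinv t) σ hσ h1 v]
      exact hv
    refine ⟨Subgroup.closure X, ?_, ?_, sr_closure Γ hΓ hX⟩
    · intro hbot
      have h3 : u ∈ Subgroup.closure X := Subgroup.subset_closure hne
      rw [hbot, Subgroup.mem_bot] at h3
      exact hu h3
    · intro htop
      have hle : Subgroup.closure X ≤ (powMonoidHom p : H →* H).range := by
        rw [Subgroup.closure_le]
        intro v hv
        have hv' : ((((T t).filter fun x => x ^ p = v).card : ℕ) : ZMod p) ≠ 0 := hv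
        have hne' : ((T t).filter fun x => x ^ p = v).Nonempty := by
          rw [Finset.nonempty_iff_ne_empty]
          intro he
          rw [he] at hv'
          exact hv' (by simp)
        obtain ⟨x, hx⟩ := hne'
        exact MonoidHom.mem_range.2 ⟨x, by rw [powMonoidHom_apply]; exact (Finset.mem_filter.1 hx).2⟩
      rw [htop] at hle
      have hsurj : Function.Surjective (powMonoidHom p : H →* H) := by
        intro y
        exact MonoidHom.mem_range.1 (hle (Subgroup.mem_top y))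
      have hinj := (Finite.injective_iff_surjective).2 hsurj
      have h3 : g0 = 1 := hinj (by rw [powMonoidHom_apply, powMonoidHom_apply, hg0p, one_pow])
      exact hg01 h3
  · -- Case 2
    have hc2 : ∀ t : H, t ≠ 1 → ∀ u : H, u ≠ 1 →
        ((((T t).filter fun x => x ^ p = u).card : ℕ) : ZMod p) = 0 := by
      intro t ht u hu
      by_contra h
      exact hc1 ⟨t, ht, u, hu, h⟩
    have hC2 : ∀ t : H, t ≠ 1 → ∀ x ∈ T t, x ^ p ≠ 1 → ∀ h : H, h ^ p = 1 → x * h ∈ T t := by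
      intro t ht x hx hxp h hh
      have h0 := hc2 t ht (x ^ p) hxp
      rw [ZMod.natCast_eq_zero_iff] at h0
      have hsub : (T t).filter (fun y => y ^ p = x ^ p) ⊆
          Finset.univ.filter (fun y : H => y ^ p = x ^ p) := by
        intro y hy
        rw [Finset.mem_filter] at hy ⊢
        exact ⟨Finset.mem_univ _, hy.2⟩
      have hpos : 0 < ((T t).filter (fun y => y ^ p = x ^ p)).card :=
        Finset.card_pos.2 ⟨x, Finset.mem_filter.2 ⟨hx, rfl⟩⟩
      have hge : p ≤ ((T t).filter (fun y => y ^ p = x ^ p)).card := Nat.le_of_dvd hpos h0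
      have heq := Finset.eq_of_subset_of_card_le hsub ((hfib x).trans hge)
      have hmem : x * h ∈ Finset.univ.filter (fun y : H => y ^ p = x ^ p) := by
        rw [Finset.mem_filter]
        exact ⟨Finset.mem_univ _, by rw [mul_pow, hh, mul_one]⟩
      rw [← heq] at hmem
      exact (Finset.mem_filter.1 hmem).1
    by_cases h2a : ∃ t : H, t ≠ 1 ∧ ∀ x ∈ T t, x ^ p ≠ 1
    · obtain ⟨t, ht, hall⟩ := h2a
      refine ⟨srStab (T t : Set H), ?_, ?_, sr_stab Γ hΓ (hTinv t)⟩
      · intro hbot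
        have hg0mem : g0 ∈ srStab (T t : Set H) := by
          rw [srStab_mem]
          intro x
          constructor
          · intro hx
            have hx' : g0 * x ∈ T t := Finset.mem_coe.1 hx
            have h3 := hC2 t ht _ hx' (hall _ hx') g0⁻¹ (by rw [inv_pow, hg0p, inv_one])
            rw [mul_comm g0 x, mul_inv_cancel_right] at h3
            exact Finset.mem_coe.2 h3
          · intro hx
            have hx' : x ∈ T t := Finset.mem_coe.1 hx
            have h3 := hC2 t ht _ hx' (hall _ hx') g0 hg0p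
            rw [mul_comm] at h3
            exact Finset.mem_coe.2 h3
        rw [hbot, Subgroup.mem_bot] at hg0mem
        exact hg01 hg0mem
      · intro htop
        have hmem : t⁻¹ ∈ srStab (T t : Set H) := by rw [htop]; exact Subgroup.mem_top _
        rw [srStab_mem] at hmem
        have h4 := (hmem t).2 (Finset.mem_coe.2 (hTself t))
        rw [inv_mul_cancel] at h4
        exact hTone t ht (Finset.mem_coe.1 h4)
    by_cases h2b : ∃ t : H, t ≠ 1 ∧ ∀ x ∈ T t, x ^ p = 1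
    · obtain ⟨t, ht, hall⟩ := h2b
      refine ⟨Subgroup.closure (T t : Set H), ?_, ?_, sr_closure Γ hΓ (hTinv t)⟩
      · intro hbot
        have h3 : t ∈ Subgroup.closure (T t : Set H) :=
          Subgroup.subset_closure (Finset.mem_coe.2 (hTself t))
        rw [hbot, Subgroup.mem_bot] at h3
        exact ht h3
      · intro htop
        have hle : Subgroup.closure (T t : Set H) ≤ (powMonoidHom p : H →* H).ker := by
          rw [Subgroup.closure_le]
          intro x hx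
          rw [SetLike.mem_coe, MonoidHom.mem_ker, powMonoidHom_apply]
          exact hall x (Finset.mem_coe.1 hx)
        rw [htop] at hle
        have h3 := hle (Subgroup.mem_top g1)
        rw [MonoidHom.mem_ker, powMonoidHom_apply] at h3
        exact hg1 h3
    -- Case 2c
    exfalso
    have h2a' : ∀ t : H, t ≠ 1 → ∃ x ∈ T t, x ^ p = 1 := by
      intro t ht
      by_contra h
      exact h2a ⟨t, ht, fun x hx hxp => h ⟨x, hx, hxp⟩⟩
    have h2b' : ∀ t : H, t ≠ 1 → ∃ x ∈ T t, x ^ p ≠ 1 := by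
      intro t ht
      by_contra h
      exact h2b ⟨t, ht, fun x hx => by by_contra hxp; exact h ⟨x, hx, hxp⟩⟩
    obtain ⟨a, b, ha, hb, hab⟩ := hnt
    have hbTa : b ∉ T a := by
      intro h
      obtain ⟨σ, hσ, h1, h2⟩ := (hTmem a b).1 h
      exact hab σ hσ h1 h2
    have hclaim : ∀ x ∈ T a, x ^ p = 1 → ∀ y ∈ T a, y ^ p = 1 → x * y = 1 ∨ x * y ∈ T a := by
      intro x0 hx0 hx0p y0 hy0 hy0p
      by_contra hcon
      have hw1 : x0 * y0 ≠ 1 := fun h => hcon (Or.inl h)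
      have hwT : x0 * y0 ∉ T a := fun h => hcon (Or.inr h)
      obtain ⟨w, hw⟩ : ∃ w : H, w = x0 * y0 := ⟨_, rfl⟩
      rw [← hw] at hw1 hwT
      have hwp : w ^ p = 1 := by rw [hw, mul_pow, hx0p, hy0p, mul_one]
      obtain ⟨y', hy'T, hy'p⟩ := h2b' w hw1
      have hy'Ta : y' ∉ T a := fun h => hwT (hTtrans a y' w h (hTsymm w y' hy'T))
      obtain ⟨σ, hσ, hσ1, hσw⟩ := (hTmem w y').1 hy'T
      have hsq := sr_sq p Γ hΓ (hTinv a) σ hσ hσ1 w
      rw [hσw] at hsq
      have hL : ((((T a).filter fun x => y' * x⁻¹ ∈ T a).card : ℕ) : ZMod p) = 0 := by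
        rw [ZMod.natCast_eq_zero_iff]
        apply sr_card_dvd hp hg01 hg0p
        intro x hx
        rw [Finset.mem_filter] at hx ⊢
        obtain ⟨hxT, hyx⟩ := hx
        have hxp : x ^ p ≠ 1 := by
          intro hxp
          have hz : (y' * x⁻¹) ^ p ≠ 1 := by
            rw [mul_pow, inv_pow, hxp, inv_one, mul_one]; exact hy'p
          have h3 := hC2 a ha _ hyx hz x hxp
          rw [inv_mul_cancel_right] at h3
          exact hy'Ta h3
        have hzp : (y' * x⁻¹) ^ p ≠ 1 := by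
          intro hzp
          have h3 := hC2 a ha x hxT hxp (y' * x⁻¹) hzp
          rw [mul_comm x, inv_mul_cancel_right] at h3
          exact hy'Ta h3
        refine ⟨hC2 a ha x hxT hxp g0 hg0p, ?_⟩
        have h3 := hC2 a ha _ hyx hzp g0⁻¹ (by rw [inv_pow, hg0p, inv_one])
        have he : y' * (x * g0)⁻¹ = y' * x⁻¹ * g0⁻¹ := by rw [mul_inv, mul_assoc]
        rw [he]; exact h3
      have hsplit : ((T a).filter fun x => w * x⁻¹ ∈ T a).card =
          (((T a).filter fun x => w * x⁻¹ ∈ T a).filter fun x => x ^ p = 1).card +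
          (((T a).filter fun x => w * x⁻¹ ∈ T a).filter fun x => ¬ x ^ p = 1).card :=
        (Finset.card_filter_add_card_filter_not _).symm
      have hE2 : p ∣ (((T a).filter fun x => w * x⁻¹ ∈ T a).filter fun x => ¬ x ^ p = 1).card := by
        apply sr_card_dvd hp hg01 hg0p
        intro x hx
        rw [Finset.mem_filter, Finset.mem_filter] at hx ⊢
        obtain ⟨⟨hxT, hwx⟩, hxp⟩ := hx
        have hzp : (w * x⁻¹) ^ p ≠ 1 := by
          rw [mul_pow, hwp, one_mul, inv_pow]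
          intro h; exact hxp (inv_eq_one.1 h)
        refine ⟨⟨hC2 a ha x hxT hxp g0 hg0p, ?_⟩, ?_⟩
        · have h3 := hC2 a ha _ hwx hzp g0⁻¹ (by rw [inv_pow, hg0p, inv_one])
          have he : w * (x * g0)⁻¹ = w * x⁻¹ * g0⁻¹ := by rw [mul_inv, mul_assoc]
          rw [he]; exact h3
        · rw [mul_pow, hg0p, mul_one]; exact hxp
      have hF1 : 0 < (((T a).filter fun x => w * x⁻¹ ∈ T a).filter fun x => x ^ p = 1).card := by
        apply Finset.card_pos.2
        refine ⟨x0, ?_⟩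
        rw [Finset.mem_filter, Finset.mem_filter]
        refine ⟨⟨hx0, ?_⟩, hx0p⟩
        have h3 : w * x0⁻¹ = y0 := by rw [hw, mul_comm x0 y0, mul_inv_cancel_right]
        rw [h3]; exact hy0
      have hF2 : (((T a).filter fun x => w * x⁻¹ ∈ T a).filter fun x => x ^ p = 1).card < p := by
        have hsub : (((T a).filter fun x => w * x⁻¹ ∈ T a).filter fun x => x ^ p = 1) ⊆
            (Finset.univ.filter (fun c : H => c ^ p = 1)).erase 1 := by
          intro x hx
          rw [Finset.mem_filter, Finset.mem_filter] at hx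
          rw [Finset.mem_erase, Finset.mem_filter]
          refine ⟨?_, Finset.mem_univ _, hx.2⟩
          intro hx1
          rw [hx1] at hx
          exact hTone a ha hx.1.1
        have h1 := Finset.card_le_card hsub
        have h1mem : (1 : H) ∈ Finset.univ.filter (fun c : H => c ^ p = 1) := by
          rw [Finset.mem_filter]; exact ⟨Finset.mem_univ _, one_pow p⟩
        have h2 := Finset.card_erase_of_mem h1mem
        have h3 : 0 < (Finset.univ.filter (fun c : H => c ^ p = 1)).card :=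
          Finset.card_pos.2 ⟨1, h1mem⟩
        omega
      have hR : ((((T a).filter fun x => w * x⁻¹ ∈ T a).card : ℕ) : ZMod p) ≠ 0 := by
        rw [hsplit, Nat.cast_add, (ZMod.natCast_eq_zero_iff _ p).2 hE2, add_zero]
        intro h0
        rw [ZMod.natCast_eq_zero_iff] at h0
        have h4 := Nat.le_of_dvd hF1 h0
        omega
      rw [hL] at hsq
      exact hR hsq.symm
    obtain ⟨xa, hxaT, hxap⟩ := h2a' a ha
    obtain ⟨xb, hxbT, hxbp⟩ := h2a' b hb
    have hxa1 : xa ≠ 1 := fun h => hTone a ha (h ▸ hxaT)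
    have hxb1 : xb ≠ 1 := fun h => hTone b hb (h ▸ hxbT)
    have hxbTa : xb ∉ T a := fun h => hbTa (hTtrans a xb b h (hTsymm b xb hxbT))
    obtain ⟨k, hk⟩ := sr_pow_mem hp hxa1 hxap hxbp
    have hpow : ∀ n : ℕ, xa ^ n = 1 ∨ xa ^ n ∈ T a := by
      intro n
      induction n with
      | zero => left; exact pow_zero _
      | succ n ih =>
        rw [pow_succ]
        rcases ih with h | h
        · rw [h, one_mul]; exact Or.inr hxaT
        · exact hclaim _ h (by rw [← pow_mul, mul_comm, pow_mul, hxap, one_pow]) xa hxaT hxap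
    rcases hpow k with h | h
    · exact hxb1 (hk ▸ h)
    · exact hxbTa (hk ▸ h)


theorem sr_bridge2 {Ω : Type*} [Fintype Ω] [DecidableEq Ω] {p : ℕ} (hp : p.Prime)
    (G : Subgroup (Equiv.Perm Ω))
    (h2 : ¬ MulAction.IsMultiplyPretransitive G Ω 2)
    {H : Type*} [CommGroup H] [Fintype H] [IsCyclic H]
    (hcardH : Fintype.card H = Fintype.card Ω)
    (hdvd : p ∣ Fintype.card H) (hne : Fintype.card H ≠ p)
    (ψ : H →* Equiv.Perm Ω) (hψG : ∀ h, ψ h ∈ G) (ω0 : Ω) (hfix : ∀ c : H, ψ c ω0 = ω0 → c = 1) :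
    ¬ MulAction.IsPreprimitive G Ω := by
  classical
  haveI : Fact p.Prime := ⟨hp⟩
  have he_mul0 : ∀ a b : H, ψ (a * b) ω0 = ψ a (ψ b ω0) := by
    intro a b
    rw [map_mul]; rfl
  have he_inj : Function.Injective (fun h : H => ψ h ω0) := by
    intro a b hab
    have hab' : ψ a ω0 = ψ b ω0 := hab
    have h4 : ψ (a⁻¹ * b) ω0 = ω0 := by
      rw [he_mul0, ← hab', ← he_mul0, inv_mul_cancel, map_one]; rfl
    exact inv_mul_eq_one.1 (hfix _ h4)
  have he_bij : Function.Bijective (fun h : H => ψ h ω0) := by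
    rw [Fintype.bijective_iff_injective_and_card]
    exact ⟨he_inj, hcardH⟩
  obtain ⟨E, hE⟩ : ∃ E : H ≃ Ω, ∀ h, E h = ψ h ω0 :=
    ⟨Equiv.ofBijective _ he_bij, fun h => rfl⟩
  have he_mul : ∀ a b : H, E (a * b) = ψ a (E b) := by
    intro a b
    rw [hE, hE, he_mul0]
  have hE1 : E 1 = ω0 := by
    rw [hE, map_one]; rfl
  obtain ⟨Γ, hΓmem⟩ : ∃ Γ : Subgroup (Equiv.Perm H), ∀ τ : Equiv.Perm H,
      τ ∈ Γ ↔ E.permCongr τ ∈ G :=
    ⟨G.comap (E.permCongrHom : Equiv.Perm H ≃* Equiv.Perm Ω).toMonoidHom, fun τ => Iff.rfl⟩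
  have hΓtr : ∀ h : H, Equiv.mulLeft h ∈ Γ := by
    intro h
    rw [hΓmem]
    have h3 : E.permCongr (Equiv.mulLeft h) = ψ h := by
      ext ω
      obtain ⟨b, rfl⟩ := E.surjective ω
      rw [Equiv.permCongr_apply, Equiv.symm_apply_apply]
      exact he_mul h b
    rw [h3]; exact hψG h
  have hnt : ∃ a b : H, a ≠ 1 ∧ b ≠ 1 ∧ ∀ σ ∈ Γ, σ 1 = 1 → σ a ≠ b := by
    by_contra hcon
    apply h2
    rw [MulAction.is_two_pretransitive_iff]
    intro a b c d hab hcd
    obtain ⟨ha', hha⟩ := E.surjective a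
    obtain ⟨hc', hhc⟩ := E.surjective c
    have hxa : (ψ ha')⁻¹ a = ω0 := by
      rw [Equiv.Perm.inv_eq_iff_eq, ← hha, hE]
    have hyc : (ψ hc')⁻¹ c = ω0 := by
      rw [Equiv.Perm.inv_eq_iff_eq, ← hhc, hE]
    obtain ⟨x, hx⟩ : ∃ x : Equiv.Perm Ω, x = (ψ ha')⁻¹ := ⟨_, rfl⟩
    obtain ⟨y, hy⟩ : ∃ y : Equiv.Perm Ω, y = (ψ hc')⁻¹ := ⟨_, rfl⟩
    rw [← hx] at hxa
    rw [← hy] at hyc
    have hxG : x ∈ G := by rw [hx]; exact G.inv_mem (hψG _)
    have hyG : y ∈ G := by rw [hy]; exact G.inv_mem (hψG _)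
    have hxb : x b ≠ ω0 := fun h => hab (x.injective (hxa.trans h.symm))
    have hyd : y d ≠ ω0 := fun h => hcd (y.injective (hyc.trans h.symm))
    have ha1 : E.symm (x b) ≠ 1 := by
      intro h
      apply hxb
      rw [← hE1, ← h, Equiv.apply_symm_apply]
    have hb1 : E.symm (y d) ≠ 1 := by
      intro h
      apply hyd
      rw [← hE1, ← h, Equiv.apply_symm_apply]
    have hex : ∃ σ ∈ Γ, σ 1 = 1 ∧ σ (E.symm (x b)) = E.symm (y d) := by
      by_contra hno
      exact hcon ⟨_, _, ha1, hb1, fun σ hσ h1 h => hno ⟨σ, hσ, h1, h⟩⟩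
    obtain ⟨σ, hσ, hσ1, hσab⟩ := hex
    have hσG : E.permCongr σ ∈ G := (hΓmem σ).1 hσ
    refine ⟨⟨y⁻¹ * E.permCongr σ * x, G.mul_mem (G.mul_mem (G.inv_mem hyG) hσG) hxG⟩, ?_, ?_⟩
    · show (y⁻¹ * E.permCongr σ * x) a = c
      rw [Equiv.Perm.mul_apply, Equiv.Perm.mul_apply, hxa, Equiv.permCongr_apply, ← hE1,
        Equiv.symm_apply_apply, hσ1, hE1, Equiv.Perm.inv_eq_iff_eq, hyc]
    · show (y⁻¹ * E.permCongr σ * x) b = d
      rw [Equiv.Perm.mul_apply, Equiv.Perm.mul_apply, Equiv.permCongr_apply, hσab,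
        Equiv.apply_symm_apply, Equiv.Perm.inv_eq_iff_eq]
  obtain ⟨B, hBbot, hBtop, hBinv⟩ := sr_main2 (H := H) (p := p) hdvd hne Γ hΓtr hnt
  have hBinv' : ∀ σ ∈ Γ, σ 1 = 1 → ∀ x ∈ (B : Set H), σ x ∈ (B : Set H) :=
    fun σ hσ h1 x hx => hBinv σ hσ h1 x hx
  have hshift : ∀ z ∈ G, ∀ v : H, ∀ x ∈ B,
      (E.symm (z (E v)))⁻¹ * E.symm (z (E (v * x))) ∈ B := by
    intro z hz v x hx
    have hτ : E.symm.permCongr z ∈ Γ := by
      rw [hΓmem]
      have h3 : E.permCongr (E.symm.permCongr z) = z := by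
        ext ω
        simp [Equiv.permCongr_apply]
      rw [h3]; exact hz
    have h4 := sr_shift Γ hΓtr (X := (B : Set H)) hBinv' hτ v (x := x) hx
    simpa [Equiv.permCongr_apply] using h4
  have hsub : ∀ (z : G) (b1 b2 : H), b1 ∈ B → b2 ∈ B → E b2 = (z : Equiv.Perm Ω) (E b1) →
      ∀ ω ∈ E '' (B : Set H), (z : Equiv.Perm Ω) ω ∈ E '' (B : Set H) := by
    intro z b1 b2 hb1 hb2 h12 ω hω
    obtain ⟨b, hb, rfl⟩ := hω
    have h5 := hshift z z.2 b1 (b1⁻¹ * b) (B.mul_mem (B.inv_mem hb1) hb)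
    rw [mul_inv_cancel_left, ← h12, Equiv.symm_apply_apply] at h5
    refine ⟨E.symm ((z : Equiv.Perm Ω) (E b)), ?_, Equiv.apply_symm_apply _ _⟩
    have h6 := B.mul_mem hb2 h5
    rw [mul_inv_cancel_left] at h6
    exact h6
  have hblock : MulAction.IsBlock G (E '' (B : Set H)) := by
    rw [MulAction.isBlock_iff_smul_eq_of_mem]
    intro z ω hω hzω
    obtain ⟨b1, hb1, rfl⟩ := hω
    obtain ⟨b2, hb2, hb2e⟩ := hzω
    have hb2e' : E b2 = (z : Equiv.Perm Ω) (E b1) := hb2e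
    apply Set.Subset.antisymm
    · intro ω' hω'
      obtain ⟨ω, hω, rfl⟩ := Set.mem_smul_set.1 hω'
      exact hsub z b1 b2 hb1 hb2 hb2e' ω hω
    · intro ω hω
      have hz' : E b1 = ((z⁻¹ : G) : Equiv.Perm Ω) (E b2) := by
        rw [hb2e']
        show E b1 = (z⁻¹ : G) • (z • E b1)
        rw [inv_smul_smul]
      have h7 := hsub z⁻¹ b2 b1 hb2 hb1 hz' ω hω
      exact Set.mem_smul_set.2 ⟨(z⁻¹ : G) • ω, h7, smul_inv_smul z ω⟩
  intro hprim
  · have htriv := hprim.isTrivialBlock_of_isBlock hblock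
    rcases htriv with hss | huniv
    · apply hBbot
      rw [Subgroup.eq_bot_iff_forall]
      intro b hb
      have h8 := hss (Set.mem_image_of_mem E (SetLike.mem_coe.2 hb))
        (Set.mem_image_of_mem E (SetLike.mem_coe.2 B.one_mem))
      exact E.injective h8
    · apply hBtop
      rw [Subgroup.eq_top_iff']
      intro h
      have h8 : E h ∈ E '' (B : Set H) := by rw [huniv]; exact Set.mem_univ _
      obtain ⟨b, hb, hbe⟩ := h8
      rw [← E.injective hbe]; exact hb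

end Cfsg.Agent.Lib.helper23
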