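import Cfsg.Agent.Lib.helper5.BlockReg
import Cfsg.Agent.Lib.helper5.BlockPCore
import Cfsg.Agent.Lib.helper10.PSolv
import Cfsg.Agent.Lib.helper1.Fitting

set_option autoImplicit false

namespace Cfsg.Agent.Lib.helper23

open Cfsg Cfsg.Agent.Lib.helper24 Cfsg.Agent.Lib.helper5

universe u

variable {G : Type u} [Group G] [Finite G]

theorem centralChar_irr_one (χ : IrrCharacter G) : centralChar χ.1 1 = 1 := by
  unfold centralChar
  have h1 : Subgroup.centralizer ({(1 : G)} : Set G) = ⊤ := by
    rw [eq_top_iff]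
    intro x _
    rw [Subgroup.mem_centralizer_iff]
    intro h hh
    rw [Set.mem_singleton_iff] at hh
    rw [hh, one_mul, mul_one]
  rw [h1, Subgroup.index_top, Nat.cast_one, one_mul, div_self (irr_one_ne_zero χ)]

theorem sameBlock_of_self_centralizing (p : ℕ) [Fact p.Prime] (M : Ideal AlgInt)
    (hM : IsPModular p M) (P : Subgroup G) [P.Normal] (hP : IsPGroup p P)
    (hconstr : Subgroup.centralizer (P : Set G) ≤ P) (χ ψ : IrrCharacter G) :
    SameBlock M χ.1 ψ.1 := by
  classical
  haveI := Fintype.ofFinite G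
  haveI := Fintype.ofFinite (IrrCharacter G)
  have hMp := isPModular_isPrime hM
  apply sameBlock_of_p_regular hM
  intro g hg
  by_cases hc : g ∈ Subgroup.centralizer (P : Set G)
  · have hg1 : g = 1 := Cfsg.Agent.Lib.helper10.eq_one_of_mem_pgroup_of_coprime hP (hconstr hc)
      ((Nat.Prime.coprime_iff_not_dvd Fact.out).mpr hg).symm
    rw [hg1, centralChar_irr_one, centralChar_irr_one, sub_self]
    exact memLocalIdeal_zero hMp.ne_top
  · exact memLocalIdeal_sub hMp
      (memLocalIdeal_centralChar_of_not_mem_centralizer hM P hP g hc χ)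
      (memLocalIdeal_centralChar_of_not_mem_centralizer hM P hP g hc ψ)

end Cfsg.Agent.Lib.helper23
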