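import Mathlib
import Cfsg.Agent.Lib.helper23.GenInt
import Cfsg.Agent.Lib.helper23.CharInt
import Cfsg.Agent.Lib.helper24.CharKer
import Cfsg.Agent.Lib.helper24.CharOrth
import Cfsg.Agent.Lib.helper24.CharOps
import Cfsg.Agent.Lib.helper24.CharMisc
import Cfsg.Agent.Lib.helper24.CharReg

set_option autoImplicit false

/-!
# Characters of small degree and trivially intersecting Sylow subgroups

A valuation-ring (lattice) argument: if `P` is a TI Sylow `p`-subgroup of `G`, `H` contains the
normaliser of `P` and `ξ` is a nontrivial irreducible character of degree less than `|P|`, then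
`ξ` restricted to `H` does not contain the trivial character.
-/

namespace Cfsg.Agent.Lib.helper23

open Cfsg Cfsg.Agent.Lib.helper24
open scoped ComplexConjugate Pointwise

universe u

/-- a valuation subring of `ℂ` in which the prime `p` is not a unit -/
theorem exists_valuationSubring_nonunit (p : ℕ) (hp : p.Prime) :
    ∃ B : ValuationSubring ℂ, (p : ℂ) ∈ B.nonunits := by
  let A : Subring ℂ := (Int.castRingHom ℂ).range
  have hpA : (p : ℂ) ∈ A := ⟨(p : ℤ), by simp⟩
  let I : Ideal A := Ideal.span {⟨(p : ℂ), hpA⟩}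
  have hI : I ≠ ⊤ := by
    intro h
    rw [Ideal.eq_top_iff_one, Ideal.mem_span_singleton'] at h
    obtain ⟨⟨a, m, rfl⟩, ha⟩ := h
    have h2 : ((m * p : ℤ) : ℂ) = ((1 : ℤ) : ℂ) := by
      have := congrArg Subtype.val ha
      simpa using this
    have h3 : (m * p : ℤ) = 1 := by exact_mod_cast h2
    have h4 : (p : ℤ) ∣ 1 := ⟨m, by rw [mul_comm]; exact h3.symm⟩
    have h5 : p ∣ 1 := by exact_mod_cast h4
    exact hp.one_lt.ne' (Nat.dvd_one.mp h5)
  obtain ⟨B, _, hsub⟩ := Ideal.image_subset_nonunits_valuationSubring I hI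
  exact ⟨B, hsub ⟨⟨(p : ℂ), hpA⟩, Ideal.subset_span rfl, rfl⟩⟩

/-- a finite family, not all zero, has a member dividing all the others in a valuation ring -/
theorem exists_scale (B : ValuationSubring ℂ) {ι : Type*} (s : Finset ι) (c : ι → ℂ)
    (h : ∃ i ∈ s, c i ≠ 0) : ∃ j ∈ s, c j ≠ 0 ∧ ∀ i ∈ s, c i / c j ∈ B := by
  classical
  induction s using Finset.induction_on with
  | empty =>
    obtain ⟨i, hi, _⟩ := h
    simp at hi
  | insert a s ha ih =>
    by_cases hs : ∃ i ∈ s, c i ≠ 0
    · obtain ⟨j, hj, hj0, hjB⟩ := ih hs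
      by_cases ha0 : c a = 0
      · refine ⟨j, Finset.mem_insert_of_mem hj, hj0, ?_⟩
        intro i hi
        rcases Finset.mem_insert.mp hi with rfl | hi
        · rw [ha0, zero_div]
          exact B.zero_mem
        · exact hjB i hi
      · rcases B.mem_or_inv_mem (c a / c j) with h1 | h1
        · refine ⟨j, Finset.mem_insert_of_mem hj, hj0, ?_⟩
          intro i hi
          rcases Finset.mem_insert.mp hi with rfl | hi
          · exact h1
          · exact hjB i hi
        · refine ⟨a, Finset.mem_insert_self _ _, ha0, ?_⟩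
          intro i hi
          rcases Finset.mem_insert.mp hi with rfl | hi
          · rw [div_self ha0]
            exact B.one_mem
          · have : c i / c a = (c i / c j) * (c a / c j)⁻¹ := by
              field_simp
            rw [this]
            exact mul_mem (hjB i hi) h1
    · push Not at hs
      obtain ⟨i, hi, hi0⟩ := h
      rcases Finset.mem_insert.mp hi with rfl | hi'
      · refine ⟨i, Finset.mem_insert_self _ _, hi0, ?_⟩
        intro i' hi'
        rcases Finset.mem_insert.mp hi' with rfl | hi''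
        · rw [div_self hi0]
          exact B.one_mem
        · rw [hs i' hi'', zero_div]
          exact B.zero_mem
      · exact absurd (hs i hi') hi0

/-- a `p`-group acting linearly on a vector space in characteristic `p` fixes a nonzero vector of
every nonzero invariant subspace -/
theorem exists_fixed_ne_zero (p : ℕ) [Fact p.Prime] {k : Type*} [Field k] [CharP k p]
    {P : Type*} [Group P] [Finite P] (hP : IsPGroup p P)
    {M : Type*} [AddCommGroup M] [Module k M] (act : P →* (M →ₗ[k] M))
    (W : Submodule k M) (hW : ∀ s, ∀ x ∈ W, act s x ∈ W) (x₀ : M) (hx₀ : x₀ ∈ W)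
    (hx₀' : x₀ ≠ 0) :
    ∃ x ∈ W, x ≠ 0 ∧ ∀ s, act s x = x := by
  classical
  letI : Module (ZMod p) M := Module.compHom M (ZMod.castHom (dvd_refl p) k)
  have hsmul : ∀ (c : ZMod p) (x : M), c • x = (ZMod.castHom (dvd_refl p) k c) • x :=
    fun c x => rfl
  let S : Submodule (ZMod p) M := Submodule.span (ZMod p) (Set.range fun s : P => act s x₀)
  haveI : Module.Finite (ZMod p) S := Module.Finite.span_of_finite (ZMod p) (Set.finite_range _)
  haveI : Finite S := Module.finite_of_finite (ZMod p)
  have hSW : ∀ x ∈ S, x ∈ W := by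
    intro x hx
    induction hx using Submodule.span_induction with
    | mem y hy =>
      obtain ⟨s, rfl⟩ := hy
      exact hW s x₀ hx₀
    | zero => exact W.zero_mem
    | add a b _ _ ha hb => exact W.add_mem ha hb
    | smul c a _ ha =>
      rw [hsmul]
      exact W.smul_mem _ ha
  have hSact : ∀ (s : P), ∀ x ∈ S, act s x ∈ S := by
    intro s x hx
    induction hx using Submodule.span_induction with
    | mem y hy =>
      obtain ⟨t, rfl⟩ := hy
      apply Submodule.subset_span
      refine ⟨s * t, ?_⟩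
      simp [map_mul]
    | zero => simp
    | add a b _ _ ha hb =>
      rw [map_add]
      exact S.add_mem ha hb
    | smul c a _ ha =>
      rw [hsmul, map_smul, ← hsmul]
      exact S.smul_mem _ ha
  letI : MulAction P S :=
    { smul := fun s x => ⟨act s x.1, hSact s x.1 x.2⟩
      one_smul := fun x => by
        apply Subtype.ext
        change act 1 x.1 = x.1
        simp
      mul_smul := fun s t x => by
        apply Subtype.ext
        change act (s * t) x.1 = act s (act t x.1)
        simp [map_mul] }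
  have hsm : ∀ (s : P) (x : S), ((s • x : S) : M) = act s x.1 := fun s x => rfl
  have hx₀S : x₀ ∈ S := by
    apply Submodule.subset_span
    exact ⟨1, by simp⟩
  have hcard := hP.card_modEq_card_fixedPoints S
  have hnt : Nontrivial S := ⟨⟨⟨x₀, hx₀S⟩, 0, fun h => hx₀' (congrArg Subtype.val h)⟩⟩
  have hpos : 0 < Module.finrank (ZMod p) S := Module.finrank_pos
  have hcS : p ∣ Nat.card S := by
    rw [Module.natCard_eq_pow_finrank (K := ZMod p), Nat.card_zmod]
    exact dvd_pow_self p hpos.ne'
  have hfix : p ∣ Nat.card (MulAction.fixedPoints P S) := by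
    have := (Nat.modEq_zero_iff_dvd.mpr hcS).symm.trans hcard
    exact Nat.modEq_zero_iff_dvd.mp this.symm
  by_contra hall
  push Not at hall
  have hone : Nat.card (MulAction.fixedPoints P S) = 1 := by
    rw [Nat.card_eq_one_iff_unique]
    refine ⟨⟨?_⟩, ⟨⟨0, ?_⟩⟩⟩
    · rintro ⟨x, hx⟩ ⟨y, hy⟩
      have hx0 : x = 0 := by
        by_contra hne
        obtain ⟨s, hs⟩ := hall x.1 (hSW x.1 x.2) (fun h => hne (Subtype.ext h))
        apply hs
        have := hx s
        rw [← hsm, this]
      have hy0 : y = 0 := by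
        by_contra hne
        obtain ⟨s, hs⟩ := hall y.1 (hSW y.1 y.2) (fun h => hne (Subtype.ext h))
        apply hs
        have := hy s
        rw [← hsm, this]
      apply Subtype.ext
      exact hx0.trans hy0.symm
    · intro s
      apply Subtype.ext
      rw [hsm]
      simp
  rw [hone] at hfix
  exact (Fact.out : p.Prime).one_lt.ne' (Nat.dvd_one.mp hfix)

/-- if a nonzero element of the group algebra of a `p`-group annihilates a function (in
characteristic `p`), so does the sum of all group elements -/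
theorem sum_translate_eq_zero (p : ℕ) [Fact p.Prime] {k : Type*} [Field k] [CharP k p]
    {G : Type*} [Group G] (P : Subgroup G) [Fintype P] (hP : IsPGroup p P)
    (F : G → k) (c : P → k) (hc : c ≠ 0)
    (h : ∀ g : G, ∑ t : P, c t * F (g * t) = 0) (g : G) : ∑ t : P, F (g * t) = 0 := by
  classical
  let act : P →* ((P → k) →ₗ[k] (P → k)) :=
    { toFun := fun s =>
        { toFun := fun c t => c (s⁻¹ * t)
          map_add' := fun _ _ => rfl
          map_smul' := fun _ _ => rfl }
      map_one' := by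
        ext c t
        simp
      map_mul' := fun s s' => by
        ext c t
        simp [mul_assoc] }
  have hact : ∀ (s : P) (c : P → k) (t : P), act s c t = c (s⁻¹ * t) := fun _ _ _ => rfl
  let W : Submodule k (P → k) :=
    { carrier := {c | ∀ g : G, ∑ t : P, c t * F (g * t) = 0}
      add_mem' := by
        intro a b ha hb g
        simp only [Set.mem_setOf_eq, Pi.add_apply, add_mul, Finset.sum_add_distrib] at ha hb ⊢
        rw [ha g, hb g, add_zero]
      zero_mem' := by
        intro g
        simp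
      smul_mem' := by
        intro r a ha g
        simp only [Set.mem_setOf_eq, Pi.smul_apply, smul_eq_mul, mul_assoc] at ha ⊢
        rw [← Finset.mul_sum, ha g, mul_zero] }
  have hWmem : ∀ c : P → k, c ∈ W ↔ ∀ g : G, ∑ t : P, c t * F (g * t) = 0 := fun _ => Iff.rfl
  have hW : ∀ s, ∀ x ∈ W, act s x ∈ W := by
    intro s x hx
    rw [hWmem] at hx ⊢
    intro g
    have := hx (g * s)
    rw [← this]
    refine Fintype.sum_equiv (Equiv.mulLeft s⁻¹) _ _ ?_
    intro t
    simp only [hact, Equiv.coe_mulLeft]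
    congr 2
    simp [mul_assoc]
  obtain ⟨x, hxW, hx0, hxfix⟩ := exists_fixed_ne_zero p hP act W hW c
    ((hWmem c).mpr h) hc
  have hconst : ∀ t : P, x t = x 1 := by
    intro t
    have := congrFun (hxfix t) t
    rw [hact] at this
    simpa using this.symm
  have hx1 : x 1 ≠ 0 := by
    intro h1
    apply hx0
    funext t
    rw [hconst t, h1]
    rfl
  have := (hWmem x).mp hxW g
  simp only [hconst] at this
  rw [← Finset.mul_sum] at this
  exact (mul_eq_zero.mp this).resolve_left hx1

/-- the key lattice estimate: if the values `φ (ρ g w)` all lie in the valuation ring and the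
dimension is less than `|P|`, then all the `P`-sums lie in the maximal ideal -/
theorem sum_P_mem_nonunits (p : ℕ) [Fact p.Prime] (B : ValuationSubring ℂ)
    (hpB : (p : ℂ) ∈ B.nonunits)
    {G : Type*} [Group G] (P : Subgroup G) [Fintype P] (hP : IsPGroup p P)
    {V : Type*} [AddCommGroup V] [Module ℂ V] [FiniteDimensional ℂ V]
    (hdim : Module.finrank ℂ V < Fintype.card P)
    (ρ : Representation ℂ G V) (φ : V →ₗ[ℂ] ℂ) (w : V) (hw : ∀ g, φ (ρ g w) ∈ B) (g₁ : G) :
    ∑ u : P, φ (ρ (g₁ * u) w) ∈ B.nonunits := by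
  classical
  by_contra hnot
  let k := IsLocalRing.ResidueField B
  let res : B →+* k := IsLocalRing.residue B
  have hpk : ((p : ℕ) : k) = 0 := by
    have h1 : ((p : ℕ) : B) ∈ IsLocalRing.maximalIdeal B := by
      rw [← ValuationSubring.coe_mem_nonunits_iff]
      simpa using hpB
    have h2 := (IsLocalRing.residue_eq_zero_iff _).mpr h1
    rw [map_natCast] at h2
    exact h2
  haveI : CharP k p := (CharP.charP_iff_prime_eq_zero (Fact.out : p.Prime)).mpr hpk
  let F' : G → B := fun g => ⟨φ (ρ g w), hw g⟩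
  have hindep : LinearIndependent ℂ (fun u : P => ρ (u : G) w) := by
    rw [Fintype.linearIndependent_iff]
    intro c hc
    by_contra hne
    push Not at hne
    obtain ⟨u₀, hu₀⟩ := hne
    obtain ⟨j, -, hj0, hjB⟩ := exists_scale B Finset.univ c ⟨u₀, Finset.mem_univ _, hu₀⟩
    let c' : P → B := fun u => ⟨c u / c j, hjB u (Finset.mem_univ u)⟩
    have hrel : ∀ g : G, ∑ u : P, c u * φ (ρ (g * u) w) = 0 := by
      intro g
      have h1 := congrArg (fun v => φ (ρ g v)) hc
      simp only [map_sum, map_smul, smul_eq_mul, map_zero] at h1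
      rw [← h1]
      apply Finset.sum_congr rfl
      intro u _
      rw [map_mul, Module.End.mul_apply]
    have hrelB : ∀ g : G, ∑ u : P, c' u * F' (g * u) = 0 := by
      intro g
      apply Subtype.ext
      have h2 : ∑ u : P, c u / c j * φ (ρ (g * u) w) = (∑ u : P, c u * φ (ρ (g * u) w)) / c j := by
        rw [Finset.sum_div]
        apply Finset.sum_congr rfl
        intro u _
        ring
      have h3 : ((∑ u : P, c' u * F' (g * u) : B) : ℂ) = ∑ u : P, c u / c j * φ (ρ (g * u) w) := by
        push_cast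
        rfl
      rw [h3, h2, hrel g, zero_div]
      rfl
    have hrelk : ∀ g : G, ∑ u : P, res (c' u) * (fun g => res (F' g)) (g * u) = 0 := by
      intro g
      have h4 := congrArg res (hrelB g)
      rw [map_sum, map_zero] at h4
      rw [← h4]
      apply Finset.sum_congr rfl
      intro u _
      rw [map_mul]
    have hcne : (fun u : P => res (c' u)) ≠ 0 := by
      intro h0
      have h5 := congrFun h0 j
      have hc1 : c' j = 1 := by
        apply Subtype.ext
        simp [c', div_self hj0]
      simp only [hc1, map_one, Pi.zero_apply] at h5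
      exact one_ne_zero h5
    have hz := sum_translate_eq_zero p P hP (fun g => res (F' g)) _ hcne hrelk g₁
    have hz2 : res (∑ u : P, F' (g₁ * u)) = 0 := by
      rw [map_sum]
      exact hz
    rw [IsLocalRing.residue_eq_zero_iff, ← ValuationSubring.coe_mem_nonunits_iff] at hz2
    apply hnot
    have h6 : ((∑ u : P, F' (g₁ * u) : B) : ℂ) = ∑ u : P, φ (ρ (g₁ * u) w) := by
      push_cast
      rfl
    rw [← h6]
    exact hz2
  have := hindep.fintype_card_le_finrank
  omega

/-- for a TI Sylow subgroup `P` and `H` containing its normaliser, `P ∩ g⁻¹ H g = 1` for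
`g ∉ H` -/
theorem ti_conj_mem_eq_one {G : Type*} [Group G] [Finite G] (p : ℕ) [Fact p.Prime]
    (P : Sylow p G)
    (hTI : ∀ g : G, g ∉ Subgroup.normalizer ((P : Subgroup G) : Set G) →
      (P : Subgroup G) ⊓ (MulAut.conj g • (P : Subgroup G)) = ⊥)
    (H : Subgroup G) (hH : Subgroup.normalizer ((P : Subgroup G) : Set G) ≤ H)
    (g : G) (hg : g ∉ H) (v : G) (hv : v ∈ (P : Subgroup G)) (hgv : g * v * g⁻¹ ∈ H) : v = 1 := by
  have hPH : (P : Subgroup G) ≤ H := Subgroup.le_normalizer.trans hH
  let PH : Sylow p H := P.subtype hPH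
  let y : H := ⟨g * v * g⁻¹, hgv⟩
  obtain ⟨k, hk⟩ := P.2 ⟨v, hv⟩
  have hvk : v ^ p ^ k = 1 := by
    have := congrArg Subtype.val hk
    simpa using this
  have hyk : y ^ p ^ k = 1 := by
    apply Subtype.ext
    simp only [y, Subgroup.coe_pow, Subgroup.coe_one]
    rw [conj_pow, hvk]
    group
  have hy : IsPGroup p (Subgroup.zpowers y) := by
    rintro ⟨z, hz⟩
    obtain ⟨n, rfl⟩ := Subgroup.mem_zpowers_iff.mp hz
    refine ⟨k, ?_⟩
    apply Subtype.ext
    simp only [Subgroup.coe_pow, Subgroup.coe_one]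
    rw [← zpow_natCast, ← zpow_mul, mul_comm, zpow_mul, zpow_natCast, hyk, one_zpow]
  obtain ⟨S, hS⟩ := hy.exists_le_sylow
  obtain ⟨h, hh⟩ := MulAction.exists_smul_eq H S PH
  have hyS : y ∈ (S : Subgroup H) := hS (Subgroup.mem_zpowers y)
  have h1 : MulAut.conj h • y ∈ MulAut.conj h • (S : Subgroup H) :=
    Subgroup.smul_mem_pointwise_smul y (MulAut.conj h) (S : Subgroup H) hyS
  have h2 : MulAut.conj h • (S : Subgroup H) = (PH : Subgroup H) := by
    rw [← hh]
    rfl
  rw [h2] at h1
  have h3 : ((MulAut.conj h • y : H) : G) ∈ (P : Subgroup G) := by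
    have : (MulAut.conj h • y : H) ∈ (P : Subgroup G).subgroupOf H := h1
    exact Subgroup.mem_subgroupOf.mp this
  have h4 : (h : G) * (g * v * g⁻¹) * (h : G)⁻¹ ∈ (P : Subgroup G) := by
    have : ((MulAut.conj h • y : H) : G) = (h : G) * (g * v * g⁻¹) * (h : G)⁻¹ := by
      simp [MulAut.smul_def, y]
    rw [← this]
    exact h3
  set x : G := g⁻¹ * (h : G)⁻¹ with hx
  by_cases hxN : x ∈ Subgroup.normalizer ((P : Subgroup G) : Set G)
  · exfalso
    apply hg
    have hxH : x ∈ H := hH hxN
    have : g = (x * (h : G))⁻¹ := by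
      rw [hx]
      group
    rw [this]
    exact H.inv_mem (H.mul_mem hxH h.2)
  · have h5 := hTI x hxN
    have h6 : v ∈ MulAut.conj x • (P : Subgroup G) := by
      rw [Subgroup.mem_pointwise_smul_iff_inv_smul_mem]
      have : (MulAut.conj x)⁻¹ • v = (h : G) * (g * v * g⁻¹) * (h : G)⁻¹ := by
        simp only [MulAut.smul_def, ← map_inv, MulAut.conj_apply, hx]
        group
      rw [this]
      exact h4
    have h7 : v ∈ (P : Subgroup G) ⊓ MulAut.conj x • (P : Subgroup G) := ⟨hv, h6⟩
    rw [h5] at h7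
    exact Subgroup.mem_bot.mp h7

/-- summing a left-`H`-invariant function over a union of free `H`-`P` double cosets -/
theorem sum_off_subgroup (B : ValuationSubring ℂ) {G : Type*} [Group G] [DecidableEq G]
    (H P : Subgroup G) [Fintype H] [Fintype P]
    (F : G → ℂ) (hinv : ∀ h ∈ H, ∀ g, F (h * g) = F g)
    (hT : ∀ g, ∑ u : P, F (g * u) ∈ B.nonunits)
    (hfree : ∀ g, g ∉ H → ∀ u ∈ P, g * u * g⁻¹ ∈ H → u = 1)
    (n : ℕ) : ∀ (S : Finset G), S.card = n → (∀ g ∈ S, g ∉ H) →
      (∀ g ∈ S, ∀ h ∈ H, ∀ u ∈ P, h * g * u ∈ S) →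
      ∃ m ∈ B.nonunits, ∑ g ∈ S, F g = (Fintype.card H : ℂ) * m := by
  induction n using Nat.strong_induction_on with
  | _ n ih =>
    intro S hcard hS hSc
    by_cases hne : S = ∅
    · subst hne
      exact ⟨0, B.nonunits.zero_mem, by simp⟩
    · obtain ⟨g₀, hg₀⟩ := Finset.nonempty_iff_ne_empty.mpr hne
      let O : Finset G := Finset.image (fun x : H × P => (x.1 : G) * g₀ * (x.2 : G)) Finset.univ
      have hOS : O ⊆ S := by
        intro y hy
        obtain ⟨⟨h, u⟩, -, rfl⟩ := Finset.mem_image.mp hy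
        exact hSc g₀ hg₀ h h.2 u u.2
      have hg₀O : g₀ ∈ O := Finset.mem_image.mpr ⟨(1, 1), Finset.mem_univ _, by simp⟩
      have hinj : Set.InjOn (fun x : H × P => (x.1 : G) * g₀ * (x.2 : G))
          (Finset.univ : Finset (H × P)) := by
        rintro ⟨h, u⟩ - ⟨h', u'⟩ - heq
        simp only at heq
        have h1 : g₀ * ((u : G) * (u' : G)⁻¹) * g₀⁻¹ = (h : G)⁻¹ * (h' : G) := by
          have e1 : g₀ * (u : G) = (h : G)⁻¹ * ((h : G) * g₀ * (u : G)) := by group
          calc g₀ * ((u : G) * (u' : G)⁻¹) * g₀⁻¹ = (g₀ * (u : G)) * (u' : G)⁻¹ * g₀⁻¹ := by group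
            _ = (h : G)⁻¹ * ((h' : G) * g₀ * (u' : G)) * (u' : G)⁻¹ * g₀⁻¹ := by rw [e1, heq]
            _ = (h : G)⁻¹ * (h' : G) := by group
        have h2 := hfree g₀ (hS g₀ hg₀) ((u : G) * (u' : G)⁻¹) (P.mul_mem u.2 (P.inv_mem u'.2))
          (by rw [h1]; exact H.mul_mem (H.inv_mem h.2) h'.2)
        have hu : u = u' := by
          apply Subtype.ext
          exact mul_inv_eq_one.mp h2
        subst hu
        have hh : (h : G) = h' := by
          have := mul_right_cancel heq
          exact mul_right_cancel this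
        exact Prod.ext (Subtype.ext hh) rfl
      have hsumO : ∑ g ∈ O, F g = (Fintype.card H : ℂ) * ∑ u : P, F (g₀ * u) := by
        rw [Finset.sum_image hinj, Fintype.sum_prod_type]
        have : ∀ h : H, ∑ u : P, F ((h : G) * g₀ * (u : G)) = ∑ u : P, F (g₀ * u) := by
          intro h
          apply Finset.sum_congr rfl
          intro u _
          rw [mul_assoc]
          exact hinv h h.2 _
        simp only [this]
        rw [Finset.sum_const, Finset.card_univ, nsmul_eq_mul]
      have hS'lt : (S \ O).card < n := by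
        rw [← hcard]
        apply Finset.card_lt_card
        exact Finset.sdiff_ssubset hOS ⟨g₀, hg₀O⟩
      have hS'c : ∀ g ∈ S \ O, ∀ h ∈ H, ∀ u ∈ P, h * g * u ∈ S \ O := by
        intro g hg h hh u hu
        rw [Finset.mem_sdiff] at hg ⊢
        refine ⟨hSc g hg.1 h hh u hu, ?_⟩
        intro hO
        apply hg.2
        obtain ⟨⟨h₁, u₁⟩, -, he⟩ := Finset.mem_image.mp hO
        simp only at he
        refine Finset.mem_image.mpr ⟨(⟨h⁻¹ * h₁, H.mul_mem (H.inv_mem hh) h₁.2⟩,
          ⟨u₁ * u⁻¹, P.mul_mem u₁.2 (P.inv_mem hu)⟩), Finset.mem_univ _, ?_⟩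
        simp only
        calc h⁻¹ * (h₁ : G) * g₀ * ((u₁ : G) * u⁻¹) = h⁻¹ * ((h₁ : G) * g₀ * u₁) * u⁻¹ := by group
          _ = g := by
            rw [he]
            group
      obtain ⟨m', hm', hsum'⟩ := ih (S \ O).card hS'lt (S \ O) rfl
        (fun g hg => hS g (Finset.mem_sdiff.mp hg).1) hS'c
      refine ⟨m' + ∑ u : P, F (g₀ * u), B.nonunits.add_mem hm' (hT g₀), ?_⟩
      rw [← Finset.sum_sdiff hOS, hsum', hsumO]
      ring

/-- **Main lemma.** `P` a TI Sylow `p`-subgroup, `H ≥ N_G(P)`, `ρ` irreducible of degree `< |P|`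
whose character is orthogonal to the trivial character: then the restriction to `H` is
orthogonal to the trivial character too. -/
theorem ti_small_restrict_sum {G : Type u} [Group G] [Fintype G] (p : ℕ) [Fact p.Prime]
    (P : Sylow p G)
    (hTI : ∀ g : G, g ∉ Subgroup.normalizer ((P : Subgroup G) : Set G) →
      (P : Subgroup G) ⊓ (MulAut.conj g • (P : Subgroup G)) = ⊥)
    (H : Subgroup G) [Fintype H] (hH : Subgroup.normalizer ((P : Subgroup G) : Set G) ≤ H)
    (n : ℕ) (ρ : Representation ℂ G (Fin n → ℂ)) [hirr : ρ.IsIrreducible]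
    (hn : n < Nat.card (P : Subgroup G)) (hnt : ∑ g : G, ρ.character g = 0) :
    ∑ h : H, ρ.character (h : G) = 0 := by
  classical
  by_contra hne
  obtain ⟨B, hpB⟩ := exists_valuationSubring_nonunit p (Fact.out)
  haveI : Fintype (P : Subgroup G) := Fintype.ofFinite _
  have hT0 : ∑ g : G, ρ g = 0 := by
    obtain ⟨c, hc⟩ := genrep_commuting_scalar ρ (∑ g : G, ρ g) (by
      intro x
      rw [← Module.End.mul_eq_comp, ← Module.End.mul_eq_comp, Finset.sum_mul, Finset.mul_sum]
      simp only [← map_mul]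
      rw [Fintype.sum_equiv (Equiv.mulRight x) (fun g => ρ (g * x)) (fun g => ρ g) (fun g => rfl)]
      rw [Fintype.sum_equiv (Equiv.mulLeft x) (fun g => ρ (x * g)) (fun g => ρ g) (fun g => rfl)])
    have htr : LinearMap.trace ℂ (Fin n → ℂ) (∑ g : G, ρ g) = 0 := by
      rw [map_sum]
      exact hnt
    rw [hc, map_smul, LinearMap.trace_id, smul_eq_mul] at htr
    have hn0 : (Module.finrank ℂ (Fin n → ℂ) : ℂ) ≠ 0 := by
      exact_mod_cast genrep_finrank_ne_zero ρ
    have hc0 : c = 0 := (mul_eq_zero.mp htr).resolve_right hn0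
    rw [hc, hc0, zero_smul]
  let A : Module.End ℂ (Fin n → ℂ) := ∑ h : H, ρ (h : G)
  have hA : A ≠ 0 := by
    intro h0
    apply hne
    have : LinearMap.trace ℂ (Fin n → ℂ) A = ∑ h : H, ρ.character (h : G) := by
      simp only [A, map_sum]
      rfl
    rw [← this, h0, map_zero]
  have hAρ : ∀ h ∈ H, A * ρ h = A := by
    intro h hh
    simp only [A, Finset.sum_mul, ← map_mul]
    exact Fintype.sum_equiv (Equiv.mulRight (⟨h, hh⟩ : H)) _ _ (fun x => rfl)
  obtain ⟨w₀, hw₀⟩ : ∃ w₀, A w₀ ≠ 0 := by
    by_contra hall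
    push Not at hall
    exact hA (LinearMap.ext hall)
  obtain ⟨i, hi⟩ : ∃ i, A w₀ i ≠ 0 := by
    by_contra hall
    push Not at hall
    exact hw₀ (funext hall)
  let φ : (Fin n → ℂ) →ₗ[ℂ] ℂ := (LinearMap.proj i) ∘ₗ A
  have hφdef : ∀ v, φ v = A v i := fun v => rfl
  have hφ : ∀ h ∈ H, ∀ v, φ (ρ h v) = φ v := by
    intro h hh v
    rw [hφdef, hφdef]
    have := congrArg (fun T : Module.End ℂ (Fin n → ℂ) => T v) (hAρ h hh)
    simp only [Module.End.mul_apply] at this
    rw [this]
  let F₀ : G → ℂ := fun g => φ (ρ g w₀)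
  have hF₀1 : F₀ 1 ≠ 0 := by
    simp only [F₀, map_one, Module.End.one_apply, hφdef]
    exact hi
  obtain ⟨g₀, -, hg₀, hg₀B⟩ := exists_scale B Finset.univ F₀ ⟨1, Finset.mem_univ _, hF₀1⟩
  let w₁ : Fin n → ℂ := (F₀ g₀)⁻¹ • ρ g₀ w₀
  let F₁ : G → ℂ := fun g => φ (ρ g w₁)
  have hF₁ : ∀ g, F₁ g = F₀ (g * g₀) / F₀ g₀ := by
    intro g
    simp only [F₁, w₁, F₀, map_smul, smul_eq_mul, map_mul, Module.End.mul_apply]
    ring
  have hF₁B : ∀ g, F₁ g ∈ B := fun g => by
    rw [hF₁]
    exact hg₀B _ (Finset.mem_univ _)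
  have hF₁1 : F₁ 1 = 1 := by
    rw [hF₁, one_mul, div_self hg₀]
  have hinv : ∀ h ∈ H, ∀ g, F₁ (h * g) = F₁ g := by
    intro h hh g
    simp only [F₁, map_mul, Module.End.mul_apply]
    exact hφ h hh _
  have hdim : Module.finrank ℂ (Fin n → ℂ) < Fintype.card (P : Subgroup G) := by
    rw [Module.finrank_fin_fun, ← Nat.card_eq_fintype_card]
    exact hn
  have hC : ∀ g, ∑ u : (P : Subgroup G), F₁ (g * u) ∈ B.nonunits := by
    intro g
    exact sum_P_mem_nonunits p B hpB (P : Subgroup G) P.2 hdim ρ φ w₁ hF₁B g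
  have hfree := ti_conj_mem_eq_one p P hTI H hH
  have hPH : (P : Subgroup G) ≤ H := Subgroup.le_normalizer.trans hH
  obtain ⟨m, hm, hsum⟩ := sum_off_subgroup B H (P : Subgroup G) F₁ hinv hC hfree _
    (Finset.univ.filter (fun g => g ∉ H)) rfl (by simp) (by
      intro g hg h hh u hu
      simp only [Finset.mem_filter, Finset.mem_univ, true_and] at hg ⊢
      intro hmem
      apply hg
      have : g = h⁻¹ * (h * g * u) * u⁻¹ := by group
      rw [this]
      exact H.mul_mem (H.mul_mem (H.inv_mem hh) hmem) (H.inv_mem (hPH hu)))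
  have htot : ∑ g : G, F₁ g = 0 := by
    have : ∑ g : G, F₁ g = φ ((∑ g : G, ρ g) w₁) := by
      simp only [F₁, LinearMap.sum_apply, map_sum]
    rw [this, hT0]
    simp
  have hsplit : ∑ g : G, F₁ g = ∑ g ∈ Finset.univ.filter (fun g => g ∈ H), F₁ g
      + ∑ g ∈ Finset.univ.filter (fun g => g ∉ H), F₁ g :=
    (Finset.sum_filter_add_sum_filter_not _ _ _).symm
  have hH1 : ∑ g ∈ Finset.univ.filter (fun g => g ∈ H), F₁ g = (Fintype.card H : ℂ) := by
    have h1 : ∀ g ∈ Finset.univ.filter (fun g => g ∈ H), F₁ g = 1 := by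
      intro g hg
      have hgH := (Finset.mem_filter.mp hg).2
      have := hinv g hgH 1
      rw [mul_one] at this
      rw [this, hF₁1]
    rw [Finset.sum_congr rfl h1, Finset.sum_const, nsmul_eq_mul, mul_one]
    congr 1
    exact (Fintype.card_of_subtype _ (by simp)).symm
  rw [hsplit, hH1, hsum] at htot
  have hHne : (Fintype.card H : ℂ) ≠ 0 := by
    exact_mod_cast Fintype.card_ne_zero
  have hm1 : m = -1 := by
    have h2 : (Fintype.card H : ℂ) * (1 + m) = 0 := by
      rw [mul_add, mul_one]
      exact htot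
    have h3 := (mul_eq_zero.mp h2).resolve_left hHne
    linear_combination h3
  have h1 : (1 : ℂ) ∈ B.nonunits := by
    have := B.nonunits.neg_mem hm
    rw [hm1, neg_neg] at this
    exact this
  rw [ValuationSubring.mem_nonunits_iff, map_one] at h1
  exact lt_irrefl _ h1

theorem list_two_le_sum {α : Type*} (f : α → ℕ) (l : List α) {a b : α} (ha : a ∈ l) (hb : b ∈ l)
    (hab : a ≠ b) : f a + f b ≤ (l.map f).sum := by
  induction l with
  | nil => simp at ha
  | cons x l ih =>
    simp only [List.map_cons, List.sum_cons]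
    rcases List.mem_cons.mp ha with rfl | ha'
    · rcases List.mem_cons.mp hb with rfl | hb'
      · exact absurd rfl hab
      · have := List.single_le_sum (l := l.map f) (by simp) _ (List.mem_map.mpr ⟨b, hb', rfl⟩)
        omega
    · rcases List.mem_cons.mp hb with rfl | hb'
      · have := List.single_le_sum (l := l.map f) (by simp) _ (List.mem_map.mpr ⟨a, ha', rfl⟩)
        omega
      · have := ih ha' hb'
        omega

/-- **TI Sylow subgroup, small degree**: a character `χ` with `χ(1)² ≤ |P|` has the same norm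
on `G` and on any subgroup containing `N_G(P)`. -/
theorem ti_small_norm_restrict {G : Type u} [Group G] [Fintype G] (p : ℕ) [Fact p.Prime]
    (P : Sylow p G)
    (hTI : ∀ g : G, g ∉ Subgroup.normalizer ((P : Subgroup G) : Set G) →
      (P : Subgroup G) ⊓ (MulAut.conj g • (P : Subgroup G)) = ⊥)
    (χ : G → ℂ) (hχ : IsCharacter G χ)
    (hdeg : charDegree χ ^ 2 ≤ Nat.card (P : Subgroup G)) (H : Subgroup G) [Fintype H]
    (hH : Subgroup.normalizer ((P : Subgroup G) : Set G) ≤ H) :
    classInner χ χ = classInner (fun h : H => χ h) (fun h : H => χ h) := by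
  classical
  obtain ⟨n₀, ρ₀, rfl⟩ := hχ
  rw [charDegree_rep] at hdeg
  have hθ : IsCharacter G (ρ₀.character * fun g => conj (ρ₀.character g)) :=
    isCharacter_mul ⟨n₀, ρ₀, rfl⟩ (isCharacter_conj ⟨n₀, ρ₀, rfl⟩)
  obtain ⟨l, hl⟩ := isCharacter_iff_exists_list.mp hθ
  have hθg : ∀ g, ρ₀.character g * conj (ρ₀.character g)
      = (l.map (fun ψ : IrrCharacter G => ψ.1)).sum g := fun g => congrFun hl g
  let a : IrrCharacter G → ℂ := fun ξ => (Nat.card G : ℂ)⁻¹ * ∑ g : G, ξ.1 g
  let b : IrrCharacter G → ℂ := fun ξ => (Nat.card H : ℂ)⁻¹ * ∑ h : H, ξ.1 (h : G)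
  have hsumG : ∀ l' : List (IrrCharacter G),
      (Nat.card G : ℂ)⁻¹ * ∑ g : G, (l'.map (fun ψ : IrrCharacter G => ψ.1)).sum g
        = (l'.map a).sum := by
    intro l'
    induction l' with
    | nil => simp
    | cons x l' ih =>
      simp only [List.map_cons, List.sum_cons, Pi.add_apply, Finset.sum_add_distrib, mul_add]
      rw [ih]
  have hsumH : ∀ l' : List (IrrCharacter G),
      (Nat.card H : ℂ)⁻¹ * ∑ h : H, (l'.map (fun ψ : IrrCharacter G => ψ.1)).sum (h : G)
        = (l'.map b).sum := by
    intro l'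
    induction l' with
    | nil => simp
    | cons x l' ih =>
      simp only [List.map_cons, List.sum_cons, Pi.add_apply, Finset.sum_add_distrib, mul_add]
      rw [ih]
  have hdegsum : ∀ l' : List (IrrCharacter G),
      (l'.map (fun ψ : IrrCharacter G => ψ.1)).sum 1
        = (((l'.map (fun ψ : IrrCharacter G => charDegree ψ.1)).sum : ℕ) : ℂ) := by
    intro l'
    induction l' with
    | nil => simp
    | cons x l' ih =>
      simp only [List.map_cons, List.sum_cons, Pi.add_apply, Nat.cast_add]
      rw [ih, charDegree_cast]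
  have hdsum : (l.map (fun ψ : IrrCharacter G => charDegree ψ.1)).sum = n₀ ^ 2 := by
    have h1 := hθg 1
    rw [hdegsum, rep_char_one, Complex.conj_natCast] at h1
    have h2 : ((n₀ ^ 2 : ℕ) : ℂ)
        = (((l.map (fun ψ : IrrCharacter G => charDegree ψ.1)).sum : ℕ) : ℂ) := by
      rw [← h1]
      push_cast
      ring
    exact_mod_cast h2.symm
  have hG : (Nat.card G : ℂ)⁻¹ ≠ 0 := inv_ne_zero (by exact_mod_cast Nat.card_pos.ne')
  have htriv_sum : ∀ ξ : IrrCharacter G, ξ ≠ trivIrr G → ∑ g : G, ξ.1 g = 0 := by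
    intro ξ hξ
    have h1 := irr_inner_ne hξ
    unfold classInner at h1
    have h2 := (mul_eq_zero.mp h1).resolve_left hG
    simpa [trivIrr_apply] using h2
  have hmem_triv : l ≠ [] → trivIrr G ∈ l := by
    intro hl0
    by_contra hnot
    have h1 : (l.map a).sum = 0 := by
      apply List.sum_eq_zero
      intro x hx
      obtain ⟨ξ, hξ, rfl⟩ := List.mem_map.mp hx
      simp only [a]
      rw [htriv_sum ξ (fun h => hnot (h ▸ hξ)), mul_zero]
    rw [← hsumG] at h1
    have h2 : ∑ g : G, ρ₀.character g * conj (ρ₀.character g) = 0 := by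
      have := (mul_eq_zero.mp h1).resolve_left hG
      rw [← this]
      exact Finset.sum_congr rfl (fun g _ => hθg g)
    have h3 : ∑ g : G, Complex.normSq (ρ₀.character g) = 0 := by
      have : ((∑ g : G, Complex.normSq (ρ₀.character g) : ℝ) : ℂ) = 0 := by
        rw [← h2]
        push_cast
        apply Finset.sum_congr rfl
        intro g _
        rw [Complex.mul_conj]
      exact_mod_cast this
    have h4 := (Finset.sum_eq_zero_iff_of_nonneg (fun g _ => Complex.normSq_nonneg _)).mp h3 1
      (Finset.mem_univ _)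
    have h5 : ρ₀.character 1 = 0 := Complex.normSq_eq_zero.mp h4
    have h6 : n₀ = 0 := by
      rw [rep_char_one] at h5
      exact_mod_cast h5
    obtain ⟨ξ, hξ⟩ := List.exists_mem_of_ne_nil l hl0
    have h7 : charDegree ξ.1 ≤ (l.map (fun ψ : IrrCharacter G => charDegree ψ.1)).sum :=
      List.single_le_sum (by simp) _ (List.mem_map.mpr ⟨ξ, hξ, rfl⟩)
    rw [hdsum, h6] at h7
    have := charDegree_pos ξ
    simp at h7
    omega
  have hab : ∀ ξ ∈ l, a ξ = b ξ := by
    intro ξ hξ
    by_cases ht : ξ = trivIrr G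
    · subst ht
      simp only [a, b, trivIrr_apply, Finset.sum_const, Finset.card_univ, nsmul_eq_mul, mul_one]
      rw [← Nat.card_eq_fintype_card, ← Nat.card_eq_fintype_card,
        inv_mul_cancel₀ (by exact_mod_cast Nat.card_pos.ne'),
        inv_mul_cancel₀ (by exact_mod_cast Nat.card_pos.ne')]
    · have htl := hmem_triv (List.ne_nil_of_mem hξ)
      have hlt : charDegree ξ.1 < Nat.card (P : Subgroup G) := by
        have h1 := list_two_le_sum (fun ψ : IrrCharacter G => charDegree ψ.1) l hξ htl ht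
        have h2 : charDegree (trivIrr G).1 = 1 := by
          have := charDegree_cast (trivIrr G)
          rw [trivIrr_apply] at this
          exact_mod_cast this
        rw [hdsum] at h1
        omega
      obtain ⟨n, ρ, hirr, hρ⟩ := ξ.2
      have hn : n = charDegree ξ.1 := by
        rw [← hρ, charDegree_rep]
      haveI := hirr
      have hz := ti_small_restrict_sum p P hTI H hH n ρ (by rw [hn]; exact hlt)
        (by rw [hρ]; exact htriv_sum ξ ht)
      simp only [a, b]
      rw [htriv_sum ξ ht, mul_zero]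
      rw [hρ] at hz
      rw [hz, mul_zero]
  unfold classInner
  have e1 : ∑ g : G, ρ₀.character g * conj (ρ₀.character g)
      = ∑ g : G, (l.map (fun ψ : IrrCharacter G => ψ.1)).sum g :=
    Finset.sum_congr rfl (fun g _ => hθg g)
  have e2 : ∑ h : H, ρ₀.character (h : G) * conj (ρ₀.character (h : G))
      = ∑ h : H, (l.map (fun ψ : IrrCharacter G => ψ.1)).sum (h : G) :=
    Finset.sum_congr rfl (fun h _ => hθg h)
  rw [e1, e2, hsumG, hsumH]
  exact congrArg List.sum (List.map_congr_left hab)

end Cfsg.Agent.Lib.helper23
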