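import Cfsg.Agent.Lib.helper23.GaloisApps

set_option autoImplicit false

namespace Cfsg.Agent.Lib.helper23

open Cfsg Cfsg.Agent.Lib.helper24 Polynomial

universe u

section zerocount

variable {G : Type u} [Group G]

theorem rep_norm_pow_of_norm_eq [Finite G] (n : ℕ) (ρ : Representation ℂ G (Fin n → ℂ)) (g : G)
    (h : ‖ρ.character g‖ = (n : ℝ)) (k : ℕ) : ‖ρ.character (g ^ k)‖ = (n : ℝ) := by
  have h' : ‖ρ.character g‖ = (Module.finrank ℂ (Fin n → ℂ) : ℝ) := by
    rw [Module.finrank_fin_fun]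
    exact h
  obtain ⟨ω, hω⟩ := genrep_scalar_of_norm_eq ρ g (isOfFinOrder_of_finite g) h'
  have h2 : ρ (g ^ k) = (ω ^ k) • (LinearMap.id : (Fin n → ℂ) →ₗ[ℂ] (Fin n → ℂ)) := by
    have hid : (LinearMap.id : (Fin n → ℂ) →ₗ[ℂ] (Fin n → ℂ))
        = (1 : Module.End ℂ (Fin n → ℂ)) := rfl
    rw [map_pow, hω, hid, _root_.smul_pow, one_pow]
  have h3 := genrep_norm_eq_of_scalar ρ (g ^ k) (isOfFinOrder_of_finite _) (ω ^ k) h2
  rw [Module.finrank_fin_fun] at h3
  exact h3

theorem zeros_lower_bound_real [Fintype G] [DecidableEq G] (n : ℕ)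
    (ρ : Representation ℂ G (Fin n → ℂ)) [ρ.IsIrreducible] :
    ((n : ℝ) ^ 2 - 1) * ((Finset.univ.filter (fun g : G => ‖ρ.character g‖ = (n : ℝ))).card : ℝ)
      ≤ ((Finset.univ.filter (fun g : G => ρ.character g = 0)).card : ℝ) := by
  have hN : NeZero (Nat.card G) := ⟨Nat.card_pos.ne'⟩
  have hn0 : n ≠ 0 := irr_dim_ne_zero n ρ
  have hn1 : (1 : ℝ) ≤ (n : ℝ) := by exact_mod_cast Nat.one_le_iff_ne_zero.mpr hn0
  set c : ℝ := (Fintype.card (ZMod (Nat.card G))ˣ : ℝ) with hc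
  have hcpos : 0 < c := by
    rw [hc]
    exact_mod_cast Fintype.card_pos
  have hB : ∀ g : G, c + c * ((n : ℝ) ^ 2 - 1) * (if ‖ρ.character g‖ = (n : ℝ) then 1 else 0)
      - c * (if ρ.character g = 0 then 1 else 0)
      ≤ ∑ u : (ZMod (Nat.card G))ˣ, ‖ρ.character (g ^ (u : ZMod (Nat.card G)).val)‖ ^ 2 := by
    intro g
    by_cases hZ : ‖ρ.character g‖ = (n : ℝ)
    · have hne : ρ.character g ≠ 0 := by
        intro h0
        rw [h0, norm_zero] at hZ
        linarith
      rw [if_pos hZ, if_neg hne]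
      have e : ∑ u : (ZMod (Nat.card G))ˣ, ‖ρ.character (g ^ (u : ZMod (Nat.card G)).val)‖ ^ 2
          = c * (n : ℝ) ^ 2 := by
        rw [Finset.sum_congr rfl (fun u _ => by rw [rep_norm_pow_of_norm_eq n ρ g hZ])]
        simp [hc]
      rw [e]
      linarith
    · rw [if_neg hZ]
      by_cases hV : ρ.character g = 0
      · rw [if_pos hV]
        have : (0 : ℝ) ≤ ∑ u : (ZMod (Nat.card G))ˣ,
            ‖ρ.character (g ^ (u : ZMod (Nat.card G)).val)‖ ^ 2 :=
          Finset.sum_nonneg (fun u _ => sq_nonneg _)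
        linarith
      · rw [if_neg hV]
        have := sum_units_normSq_ge ρ g hV
        linarith
  have hsum := Finset.sum_le_sum (fun g (_ : g ∈ Finset.univ) => hB g)
  rw [sum_units_sum (G := G) (fun g => ‖ρ.character g‖ ^ 2), genrep_sum_normSq,
    Finset.sum_sub_distrib, Finset.sum_add_distrib, ← Finset.mul_sum, ← Finset.mul_sum,
    Finset.sum_boole, Finset.sum_boole, Finset.sum_const, Finset.card_univ, nsmul_eq_mul,
    ← Nat.card_eq_fintype_card] at hsum
  have h5 : c * (((n : ℝ) ^ 2 - 1)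
      * ((Finset.univ.filter (fun g : G => ‖ρ.character g‖ = (n : ℝ))).card : ℝ))
      ≤ c * ((Finset.univ.filter (fun g : G => ρ.character g = 0)).card : ℝ) := by
    linarith
  exact le_of_mul_le_mul_left h5 hcpos

theorem zeros_eq_real [Fintype G] [DecidableEq G] (n : ℕ)
    (ρ : Representation ℂ G (Fin n → ℂ)) [ρ.IsIrreducible]
    (h : ∀ g : G, ‖ρ.character g‖ = 0 ∨ ‖ρ.character g‖ = 1 ∨ ‖ρ.character g‖ = (n : ℝ)) :
    ((n : ℝ) ^ 2 - 1) * ((Finset.univ.filter (fun g : G => ‖ρ.character g‖ = (n : ℝ))).card : ℝ)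
      = ((Finset.univ.filter (fun g : G => ρ.character g = 0)).card : ℝ) := by
  have hn0 : n ≠ 0 := irr_dim_ne_zero n ρ
  have hn1 : (1 : ℝ) ≤ (n : ℝ) := by exact_mod_cast Nat.one_le_iff_ne_zero.mpr hn0
  have hB : ∀ g : G, ‖ρ.character g‖ ^ 2
      = 1 + ((n : ℝ) ^ 2 - 1) * (if ‖ρ.character g‖ = (n : ℝ) then 1 else 0)
        - (if ρ.character g = 0 then 1 else 0) := by
    intro g
    rcases h g with h0 | h1 | hd
    · have hV : ρ.character g = 0 := norm_eq_zero.mp h0
      have hZ : ¬ ‖ρ.character g‖ = (n : ℝ) := by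
        rw [h0]
        intro h2
        linarith
      rw [if_pos hV, if_neg hZ, h0]
      ring
    · have hV : ρ.character g ≠ 0 := by
        intro h2
        rw [h2, norm_zero] at h1
        exact zero_ne_one h1
      rw [if_neg hV, h1]
      by_cases hZ : (1 : ℝ) = (n : ℝ)
      · rw [if_pos hZ, ← hZ]
        ring
      · rw [if_neg hZ]
        ring
    · have hV : ρ.character g ≠ 0 := by
        intro h2
        rw [h2, norm_zero] at hd
        linarith
      rw [if_neg hV, if_pos hd, hd]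
      ring
  have hsum := genrep_sum_normSq ρ
  rw [Finset.sum_congr rfl (fun g _ => hB g), Finset.sum_sub_distrib, Finset.sum_add_distrib,
    ← Finset.mul_sum, Finset.sum_boole, Finset.sum_boole, Finset.sum_const, Finset.card_univ,
    nsmul_eq_mul, ← Nat.card_eq_fintype_card] at hsum
  linarith

theorem zeros_lower_bound [Fintype G] [DecidableEq G] (χ : G → ℂ)
    (hχ : Cfsg.IsIrrCharacter G χ) :
    (Cfsg.charDegree χ ^ 2 - 1)
        * (Finset.univ.filter (fun g : G => ‖χ g‖ = (Cfsg.charDegree χ : ℝ))).card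
      ≤ (Finset.univ.filter (fun g : G => χ g = 0)).card ∧
    ((∀ g : G, ‖χ g‖ = 0 ∨ ‖χ g‖ = 1 ∨ ‖χ g‖ = (Cfsg.charDegree χ : ℝ)) →
      (Cfsg.charDegree χ ^ 2 - 1)
          * (Finset.univ.filter (fun g : G => ‖χ g‖ = (Cfsg.charDegree χ : ℝ))).card
        = (Finset.univ.filter (fun g : G => χ g = 0)).card) := by
  obtain ⟨n, ρ, hirr, rfl⟩ := hχ
  have := hirr
  rw [charDegree_rep]
  have hn0 : n ≠ 0 := irr_dim_ne_zero n ρ
  have hn1 : 1 ≤ n ^ 2 := Nat.one_le_pow _ _ (Nat.pos_of_ne_zero hn0)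
  have hcast : (((n ^ 2 - 1 : ℕ) : ℝ)) = (n : ℝ) ^ 2 - 1 := by
    rw [Nat.cast_sub hn1]
    push_cast
    ring
  constructor
  · have h1 := zeros_lower_bound_real n ρ
    rw [← hcast] at h1
    exact_mod_cast h1
  · intro h
    have h1 := zeros_eq_real n ρ h
    rw [← hcast] at h1
    exact_mod_cast h1

end zerocount

end Cfsg.Agent.Lib.helper23
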